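import Cfsg.Agent.S2119
import Cfsg.Agent.H22.AutAlt

set_option autoImplicit false

namespace Cfsg.Agent.H25.AltPQ

open Equiv Equiv.Perm Cfsg.Agent.H22.AutAlt

/-- a `q`-subgroup of the symmetric group of degree less than `q²` is commutative -/
theorem comm_of_lt {n q : ℕ} (hq : q.Prime) (hn : n < q ^ 2) (R : Subgroup (Perm (Fin n)))
    (hR : IsPGroup q R) (g h : Perm (Fin n)) (hg : g ∈ R) (hh : h ∈ R) : g * h = h * g := by
  haveI : Fact q.Prime := ⟨hq⟩
  apply Equiv.ext
  intro x
  obtain ⟨k, hk⟩ := hR.card_orbit x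
  have hle : Nat.card (MulAction.orbit R x) ≤ n := by
    have := Nat.card_le_card_of_injective (Subtype.val : MulAction.orbit R x → Fin n) Subtype.val_injective
    rwa [Nat.card_fin] at this
  have hk1 : k < 2 := by
    by_contra hcon
    push Not at hcon
    have := Nat.pow_le_pow_right hq.pos hcon
    omega
  set φ := MulAction.toPermHom R (MulAction.orbit R x) with hφ
  have hfac : Nat.card (Perm (MulAction.orbit R x)) = (Nat.card (MulAction.orbit R x)).factorial := by
    rw [Nat.card_perm]
  have hpg : IsPGroup q φ.range := hR.of_surjective φ.rangeRestrict φ.rangeRestrict_surjective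
  obtain ⟨m, hm⟩ := IsPGroup.iff_card.1 hpg
  have hdvd : q ^ m ∣ (q ^ k).factorial := by
    rw [← hm, ← hk, ← hfac]
    exact Subgroup.card_subgroup_dvd_card _
  have hm1 : m < 2 := by
    by_contra hcon
    push Not at hcon
    have h2 : q ^ 2 ∣ (q ^ k).factorial := (pow_dvd_pow q hcon).trans hdvd
    interval_cases k
    · simp at h2
      exact absurd h2 hq.one_lt.ne'
    · rw [pow_one] at h2
      have h3 : q.factorial = q * (q - 1).factorial := by
        rw [Nat.mul_factorial_pred hq.ne_zero]
      rw [h3, pow_two] at h2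
      have h4 := Nat.dvd_of_mul_dvd_mul_left hq.pos h2
      have := (hq.dvd_factorial).1 h4
      have := hq.pos
      omega
  have hcom : ∀ a b : φ.range, a * b = b * a := by
    interval_cases m
    · rw [pow_zero] at hm
      haveI : Subsingleton φ.range := (Nat.card_eq_one_iff_unique.1 hm).1
      intro a b
      exact Subsingleton.elim _ _
    · rw [pow_one] at hm
      haveI : IsCyclic φ.range := isCyclic_of_prime_card hm
      letI := IsCyclic.commGroup (α := φ.range)
      exact fun a b => mul_comm a b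
  have h1 := hcom ⟨φ ⟨g, hg⟩, ⟨_, rfl⟩⟩ ⟨φ ⟨h, hh⟩, ⟨_, rfl⟩⟩
  have h2 := congrArg (fun z : φ.range => ((z : Perm (MulAction.orbit R x)) ⟨x, MulAction.mem_orbit_self x⟩).1) h1
  exact h2

/-- elements of order `pq` in the alternating group -/
theorem exists_pq {n p q : ℕ} (hp : p.Prime) (hq : q.Prime) (hpq : p < q) (hn : q ^ 2 ≤ n) :
    ∃ x : alternatingGroup (Fin n), orderOf x = p * q := by
  have hq2 : q ≠ 2 := by
    have := hp.two_le
    omega
  have hqo := hq.odd_of_ne_two hq2
  have hq3 : 3 ≤ q := by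
    have := hq.two_le
    omega
  have hcop : Nat.Coprime p q := (Nat.coprime_primes hp hq).2 hpq.ne
  have hbig : p + q + 2 ≤ q ^ 2 := by nlinarith
  by_cases hp2 : p = 2
  · subst hp2
    obtain ⟨g, hg⟩ := (Equiv.Perm.exists_with_cycleType_iff (α := Fin n) (m := {2, 2, q})).2 (by
      rw [Fintype.card_fin]
      refine ⟨?_, ?_⟩
      · simp
        nlinarith
      · intro a ha
        simp at ha
        rcases ha with rfl | rfl
        · exact le_rfl
        · omega)
    refine ⟨⟨g, ?_⟩, ?_⟩
    · rw [mem_alternatingGroup, sign_of_cycleType, hg]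
      obtain ⟨r, hr⟩ := hqo
      simp [hr]
      rw [show 2 + (2 + (2 * r + 1)) + 3 = 2 * (r + 4) by ring, pow_mul]
      simp
    · rw [← Subgroup.orderOf_coe, ← lcm_cycleType, hg]
      simp only [Multiset.insert_eq_cons, Multiset.lcm_cons, Multiset.lcm_singleton, normalize_eq]
      have e1 : lcm 2 q = 2 * q := ((Nat.coprime_primes Nat.prime_two hq).2 hq2.symm).lcm_eq_mul
      rw [e1]
      show Nat.lcm 2 (2 * q) = 2 * q
      exact Nat.lcm_eq_right (Dvd.intro _ rfl)
  · have hpo := hp.odd_of_ne_two hp2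
    obtain ⟨g, hg⟩ := (Equiv.Perm.exists_with_cycleType_iff (α := Fin n) (m := {p, q})).2 (by
      rw [Fintype.card_fin]
      refine ⟨?_, ?_⟩
      · simp
        omega
      · intro a ha
        simp at ha
        rcases ha with rfl | rfl
        · exact hp.two_le
        · exact hq.two_le)
    refine ⟨⟨g, ?_⟩, ?_⟩
    · rw [mem_alternatingGroup, sign_of_cycleType, hg]
      obtain ⟨r, hr⟩ := hqo
      obtain ⟨s, hs⟩ := hpo
      simp
      rw [show p + q + 2 = 2 * (r + s + 2) by omega, pow_mul]
      simp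
    · rw [← Subgroup.orderOf_coe, ← lcm_cycleType, hg]
      simp
      exact hcop.lcm_eq_mul

theorem inj (n : ℕ) (hn : 4 ≤ n) :
    Function.Injective (MulAut.conjNormal : Perm (Fin n) →* MulAut ↥(alternatingGroup (Fin n))) := by
  rw [injective_iff_map_eq_one]
  intro σ hσ
  by_contra hne
  have hc : ∀ x : alternatingGroup (Fin n), σ * x * σ⁻¹ = x := by
    intro x
    have := congrArg (fun g : MulAut (alternatingGroup (Fin n)) => ((g x : alternatingGroup (Fin n)) : Perm (Fin n))) hσ
    exact this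
  obtain ⟨a, ha⟩ : ∃ a, σ a ≠ a := by
    by_contra hcon
    push Not at hcon
    exact hne (Equiv.ext hcon)
  obtain ⟨c, d, hca, hcb, hda, hdb, hcd⟩ : ∃ c d : Fin n, c ≠ a ∧ c ≠ σ a ∧ d ≠ a ∧ d ≠ σ a ∧ c ≠ d := by
    have h1 : 1 < (Finset.univ \ {a, σ a} : Finset (Fin n)).card := by
      rw [Finset.card_sdiff_of_subset (Finset.subset_univ _), Finset.card_univ, Fintype.card_fin]
      have := Finset.card_le_two (a := a) (b := σ a)
      omega
    obtain ⟨c, hc, d, hd, hcd⟩ := Finset.one_lt_card.1 h1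
    simp only [Finset.mem_sdiff, Finset.mem_univ, true_and, Finset.mem_insert, Finset.mem_singleton, not_or] at hc hd
    exact ⟨c, d, hc.1, hc.2, hd.1, hd.2, hcd⟩
  have h2 := hc ⟨cyc a c d, (cyc_three hca.symm hda.symm hcd).mem_alternatingGroup⟩
  rw [mul_inv_eq_iff_eq_mul] at h2
  have h3 := congrArg (fun g : Perm (Fin n) => g a) h2
  simp only [mul_apply] at h3
  rw [cyc_fst hca.symm hda.symm, cyc_other ha hcb.symm hdb.symm] at h3
  exact hca (σ.injective h3)

/-- the preserving property -/
def Pres (f : MulAut (alternatingGroup (Fin 6))) : Prop :=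
  ∀ x : alternatingGroup (Fin 6), (x : Perm (Fin 6)).IsThreeCycle → ((f x : alternatingGroup (Fin 6)) : Perm (Fin 6)).IsThreeCycle

theorem ord_three (x : alternatingGroup (Fin 6)) (hx : orderOf x = 3) :
    (x : Perm (Fin 6)).cycleType = {3} ∨ (x : Perm (Fin 6)).cycleType = {3, 3} := by
  have ho : orderOf (x : Perm (Fin 6)) = 3 := by rw [Subgroup.orderOf_coe, hx]
  obtain ⟨k, hk⟩ := cycleType_prime_order (σ := (x : Perm (Fin 6))) (by
    rw [ho]; exact Nat.prime_three)
  rw [ho] at hk
  have h1 := sum_cycleType_le (x : Perm (Fin 6))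
  rw [hk, Multiset.sum_replicate, Fintype.card_fin, smul_eq_mul] at h1
  have h2 : k = 0 ∨ k = 1 := by omega
  rcases h2 with rfl | rfl
  · left; rw [hk]; rfl
  · right; rw [hk]; rfl

theorem not_pres (f : MulAut (alternatingGroup (Fin 6))) (hf : ¬ Pres f) (x : alternatingGroup (Fin 6))
    (hx : (x : Perm (Fin 6)).IsThreeCycle) : ¬ ((f x : alternatingGroup (Fin 6)) : Perm (Fin 6)).IsThreeCycle := by
  intro hcon
  apply hf
  intro y hy
  have hc : IsConj x y := alternatingGroup.isThreeCycle_isConj (by simp) hx hy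
  obtain ⟨c, hc⟩ := isConj_iff.1 hc
  have h1 : ((f y : alternatingGroup (Fin 6)) : Perm (Fin 6)) =
      (f c : Perm (Fin 6)) * (f x : Perm (Fin 6)) * (f c : Perm (Fin 6))⁻¹ := by
    rw [← hc, map_mul, map_mul, map_inv]
    rfl
  rw [h1]
  unfold IsThreeCycle at *
  rw [cycleType_conj]
  exact hcon

theorem swap_swap (f g : MulAut (alternatingGroup (Fin 6))) (hf : ¬ Pres f) (hg : ¬ Pres g) : Pres (f * g) := by
  classical
  set T : Finset (alternatingGroup (Fin 6)) := {x | (x : Perm (Fin 6)).cycleType = {3}} with hT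
  set U : Finset (alternatingGroup (Fin 6)) := {x | (x : Perm (Fin 6)).cycleType = {3, 3}} with hU
  have cT : T.card = 40 := by
    rw [hT, AlternatingGroup.card_of_cycleType]
    rw [Fintype.card_fin, if_pos]
    · have : ({3} : Multiset ℕ).toFinset = {3} := rfl
      rw [this]
      simp [Nat.factorial]
    · simp
      decide
  have cU : U.card = 40 := by
    rw [hU, AlternatingGroup.card_of_cycleType]
    rw [Fintype.card_fin, if_pos]
    · have : ({3, 3} : Multiset ℕ).toFinset = {3} := rfl
      rw [this]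
      simp [Nat.factorial]
    · simp
      decide
  have key : T.image f = U := by
    apply Finset.eq_of_subset_of_card_le
    · intro y hy
      obtain ⟨x, hx, rfl⟩ := Finset.mem_image.1 hy
      rw [hT, Finset.mem_filter] at hx
      rw [hU, Finset.mem_filter]
      refine ⟨Finset.mem_univ _, ?_⟩
      have h1 := not_pres f hf x hx.2
      have h2 : orderOf (f x) = 3 := by
        rw [MulEquiv.orderOf_eq f x, ← Subgroup.orderOf_coe]
        exact IsThreeCycle.orderOf hx.2
      exact (ord_three _ h2).resolve_left h1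
    · rw [Finset.card_image_of_injective _ f.injective, cT, cU]
  intro x hx
  have h1 := not_pres g hg x hx
  have h2 : orderOf (f (g x)) = 3 := by
    rw [MulEquiv.orderOf_eq f, MulEquiv.orderOf_eq g, ← Subgroup.orderOf_coe]
    exact hx.orderOf
  rcases ord_three _ h2 with h3 | h3
  · exact h3
  · exfalso
    have h4 : f (g x) ∈ U := by
      rw [hU, Finset.mem_filter]
      exact ⟨Finset.mem_univ _, h3⟩
    rw [← key] at h4
    obtain ⟨y, hy, hyx⟩ := Finset.mem_image.1 h4
    have h5 := f.injective hyx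
    rw [hT, Finset.mem_filter] at hy
    apply h1
    rw [← h5]
    exact hy.2

theorem pres_of_odd (f : MulAut (alternatingGroup (Fin 6))) {k : ℕ} (hk : Odd k) (hf : f ^ k = 1) : Pres f := by
  by_contra hcon
  have h1 : Pres (f * f) := swap_swap f f hcon hcon
  have h2 : ∀ j : ℕ, Pres ((f * f) ^ j) := by
    intro j
    induction j with
    | zero => intro x hx; simpa using hx
    | succ j ih =>
      intro x hx
      rw [pow_succ]
      exact ih _ (h1 x hx)
  obtain ⟨j, hj⟩ := hk
  rw [hj, pow_succ, pow_mul, pow_two] at hf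
  have h3 : (f * f) ^ j = f⁻¹ := mul_eq_one_iff_eq_inv.1 hf
  have h4 := h2 j
  rw [h3] at h4
  -- f⁻¹ preserves, so f preserves
  apply hcon
  intro x hx
  by_contra hx2
  have h5 : ¬ Pres f := hcon
  have : orderOf f⁻¹ = orderOf f := orderOf_inv f
  have h6 : ∀ i : ℕ, Pres ((f⁻¹) ^ i) := by
    intro i
    induction i with
    | zero => intro x hx; simpa using hx
    | succ i ih =>
      intro x hx
      rw [pow_succ]
      exact ih _ (h4 x hx)
  have h7 := h6 (2 * j)
  have h8 : f⁻¹ ^ (2 * j) = f := by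
    rw [pow_mul, pow_two, ← mul_inv_rev, inv_pow, h3, inv_inv]
  rw [h8] at h7
  exact hx2 (h7 x hx)

theorem conj_of_pres (f : MulAut (alternatingGroup (Fin 6))) (hf : Pres f) :
    ∃ σ : Perm (Fin 6), MulAut.conjNormal σ = f := by
  obtain ⟨σ, hσ⟩ := conj_of_three (u := (0 : Fin 6)) (v := 1) (w := 2) (t := 3) (by decide) (by decide) (by decide)
      (by decide) (by decide) (by decide) ((alternatingGroup (Fin 6)).subtype.comp f.toMonoidHom)
      (Subtype.val_injective.comp f.injective)
      (fun x hx => hf x hx)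
  refine ⟨σ, ?_⟩
  apply MulEquiv.ext
  intro x
  apply Subtype.ext
  exact (hσ x).symm

/-- a `q`-subgroup of automorphisms that lifts -/
theorem comm_aut {n q : ℕ} (hn4 : 4 ≤ n) (hq : q.Prime) (hn : n < q ^ 2)
    (G : Subgroup (MulAut (alternatingGroup (Fin n)))) (Q : Subgroup G) (hQ : IsPGroup q Q)
    (hl : ∀ f ∈ Q, ∃ σ : Perm (Fin n), MulAut.conjNormal σ = (f : MulAut (alternatingGroup (Fin n)))) :
    IsMulCommutative Q := by
  have hcomm : ∀ a ∈ Q, ∀ b ∈ Q, a * b = b * a := by
    intro a ha b hb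
    set R : Subgroup (Perm (Fin n)) := (Q.map G.subtype).comap MulAut.conjNormal with hR
    have hRp : IsPGroup q R := (hQ.map G.subtype).comap_of_injective _ (inj n hn4)
    obtain ⟨σ, hσ⟩ := hl a ha
    obtain ⟨τ, hτ⟩ := hl b hb
    have hσR : σ ∈ R := by
      rw [hR, Subgroup.mem_comap, hσ]
      exact ⟨a, ha, rfl⟩
    have hτR : τ ∈ R := by
      rw [hR, Subgroup.mem_comap, hτ]
      exact ⟨b, hb, rfl⟩
    have h1 := comm_of_lt hq hn R hRp σ τ hσR hτR
    apply Subtype.ext
    show (a : MulAut (alternatingGroup (Fin n))) * b = b * a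
    rw [← hσ, ← hτ, ← map_mul, ← map_mul, h1]
  exact ⟨⟨fun a b => Subtype.ext (hcomm a a.2 b b.2)⟩⟩

theorem main (n : ℕ) (hn : 5 ≤ n) (G : Subgroup (MulAut (alternatingGroup (Fin n))))
    (hG : (MulAut.conj : alternatingGroup (Fin n) →* MulAut (alternatingGroup (Fin n))).range ≤ G)
    (p q : ℕ) (hp : p.Prime) (hq : q.Prime) (hpq : p < q) (h : ∀ g : G, orderOf g ≠ p * q) 
    (Q : Subgroup G) (hQ : IsPGroup q Q) : IsMulCommutative Q := by
  by_cases hnq : q ^ 2 ≤ n
  · exfalso
    obtain ⟨x, hx⟩ := exists_pq hp hq hpq hnq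
    have hinj : Function.Injective (MulAut.conj : alternatingGroup (Fin n) →* MulAut (alternatingGroup (Fin n))) := by
      intro a b hab
      apply Subtype.ext
      apply inj n (by omega)
      apply MulEquiv.ext
      intro y
      apply Subtype.ext
      have := congrArg (fun g : MulAut (alternatingGroup (Fin n)) => ((g y : alternatingGroup (Fin n)) : Perm (Fin n))) hab
      exact this
    apply h ⟨MulAut.conj x, hG ⟨x, rfl⟩⟩
    rw [← Subgroup.orderOf_coe]
    show orderOf (MulAut.conj x) = _
    rw [orderOf_injective _ hinj, hx]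
  push Not at hnq
  by_cases h6 : n = 6
  · subst h6
    have hq2 : q ≠ 2 := by
      have := hp.two_le
      omega
    apply comm_aut (by norm_num) hq hnq G Q hQ
    intro f hf
    apply conj_of_pres
    obtain ⟨k, hk⟩ := hQ ⟨f, hf⟩
    apply pres_of_odd _ (k := q ^ k) ((hq.odd_of_ne_two hq2).pow)
    have := congrArg (fun z : Q => ((z : G) : MulAut (alternatingGroup (Fin 6)))) hk
    simpa using this
  · apply comm_aut (by omega) hq hnq G Q hQ
    intro f _
    exact (Cfsg.Agent.S2119.result n (by omega) h6).2 f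

end Cfsg.Agent.H25.AltPQ
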