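import Cfsg.Agent.H10.Comp2
import Cfsg.Agent.H1.Chief
import Cfsg.Agent.H2.Cyc
import Cfsg.Agent.H2.Frobenius
import Mathlib

/-!
# Groups with a cyclic Sylow `p`-subgroup and `O_{p'}(G) = 1`
-/

set_option autoImplicit false
set_option linter.style.haveILetI false

namespace Cfsg.Agent.H25

open Subgroup
open scoped commutatorElement

/-- abelian Sylow: `P ∩ Z(G) ∩ G' = 1` -/
theorem sylow_center_commutator {G : Type*} [Group G] [Finite G] {p : ℕ} [hp : Fact p.Prime] (P : Sylow p G)
    (hP : ∀ a ∈ (P : Subgroup G), ∀ b ∈ (P : Subgroup G), a * b = b * a) {z : G} (hz : z ∈ (P : Subgroup G))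
    (hzc : z ∈ center G) (hz' : z ∈ commutator G) : z = 1 := by
  letI : CommGroup (P : Subgroup G) := { (inferInstance : Group (P : Subgroup G)) with
    mul_comm := fun a b => Subtype.ext (hP a a.2 b b.2) }
  have h1 := MonoidHom.transfer_eq_pow (MonoidHom.id (P : Subgroup G)) z (by
    intro k g₀ _
    have : z ^ k ∈ center G := pow_mem hzc k
    have h2 := (mem_center_iff.1 this) g₀
    calc g₀⁻¹ * z ^ k * g₀ = g₀⁻¹ * (z ^ k * g₀) := by group
      _ = g₀⁻¹ * (g₀ * z ^ k) := by rw [h2]
      _ = z ^ k := by group)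
  have h2 : MonoidHom.transfer (MonoidHom.id (P : Subgroup G)) z = 1 :=
    Abelianization.commutator_subset_ker _ hz'
  rw [h2] at h1
  have h3 : z ^ (P : Subgroup G).index = 1 := (congrArg Subtype.val h1).symm
  obtain ⟨k, hk⟩ := (IsPGroup.iff_orderOf.1 P.isPGroup') ⟨z, hz⟩
  rw [Subgroup.orderOf_mk] at hk
  have h4 := orderOf_dvd_of_pow_eq_one h3
  have h5 := P.not_dvd_index
  rw [hk] at h4
  have h6 : k = 0 := by
    by_contra h
    exact h5 ((dvd_pow_self p h).trans h4)
  rw [h6, pow_zero] at hk
  exact orderOf_eq_one_iff.1 hk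

/-- two commuting elements of order `p`: with a cyclic Sylow subgroup they generate the same subgroup -/
theorem zpowers_eq_of_cyclic_sylow {G : Type*} [Group G] [Finite G] {p : ℕ} [hp : Fact p.Prime] (P : Sylow p G)
    (hP : IsCyclic (P : Subgroup G)) {x y : G} (hx : orderOf x = p) (hy : orderOf y = p) (hxy : Commute x y) :
    zpowers x = zpowers y := by
  have hgp : IsPGroup p (zpowers x ⊔ zpowers y : Subgroup G) := by
    have hn : zpowers x ≤ normalizer (zpowers y : Set G) := by
      refine le_trans ?_ (H2.centralizer_le_normalizer (zpowers y))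
      rw [zpowers_le, mem_centralizer_iff]
      rintro _ ⟨i, rfl⟩
      exact (hxy.zpow_right i).symm
    refine IsPGroup.to_sup_of_normal_right' ?_ ?_ hn
    · exact IsPGroup.of_card (n := 1) (by rw [Nat.card_zpowers, hx, pow_one])
    · exact IsPGroup.of_card (n := 1) (by rw [Nat.card_zpowers, hy, pow_one])
  obtain ⟨Q, hQ⟩ := hgp.exists_le_sylow
  have hQc : IsCyclic (Q : Subgroup G) := isCyclic_of_surjective (Sylow.equiv P Q) (Sylow.equiv P Q).surjective
  have hxQ : x ∈ (Q : Subgroup G) := hQ (mem_sup_left (mem_zpowers x))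
  have hyQ : y ∈ (Q : Subgroup G) := hQ (mem_sup_right (mem_zpowers y))
  have h1 : zpowers (⟨x, hxQ⟩ : (Q : Subgroup G)) = zpowers ⟨y, hyQ⟩ := by
    apply H2.eq_of_card_eq_of_isCyclic
    rw [Nat.card_zpowers, Nat.card_zpowers, Subgroup.orderOf_mk, Subgroup.orderOf_mk, hx, hy]
  have h2 := congrArg (Subgroup.map (Q : Subgroup G).subtype) h1
  rw [MonoidHom.map_zpowers, MonoidHom.map_zpowers] at h2
  exact h2

theorem exists_sylow_le {G : Type*} [Group G] [Finite G] {p : ℕ} [hp : Fact p.Prime] (P : Sylow p G)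
    {H : Subgroup G} (hPH : (P : Subgroup G) ≤ H) :
    ∃ Q : Sylow p H, (Q : Subgroup H) = (P : Subgroup G).subgroupOf H :=
  ⟨P.subtype hPH, rfl⟩

open Cfsg in
theorem cyclic_case_one {K : Type*} [Group K] [Finite K] (p : ℕ) [hpf : Fact p.Prime]
    (hO : Cfsg.pPrimeCore p K = ⊥) (P : Sylow p K) (hP : IsCyclic ↥(P : Subgroup K)) (hcore : pCore p K ≠ ⊥) :
    ((P : Subgroup K).Normal ∧ Subgroup.centralizer ((P : Subgroup K) : Set K) = (P : Subgroup K) ∧
      (∀ (_ : (P : Subgroup K).Normal), IsCyclic (K ⧸ (P : Subgroup K))) ∧ (P : Subgroup K).index ∣ p - 1) := by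
  classical
  have hp : p.Prime := hpf.out
  have hOP : pCore p K ≤ (P : Subgroup K) := H1.pCore_le_sylow P
  -- element of order p in the core
  have hdvd : p ∣ Nat.card (pCore p K) := by
    rcases (H1.pCore_isPGroup p K).card_eq_or_dvd with h | h
    · exact absurd (card_eq_one.1 h) hcore
    · exact h
  obtain ⟨⟨x, hxO⟩, hx⟩ := exists_prime_orderOf_dvd_card' p hdvd
  rw [Subgroup.orderOf_mk] at hx
  set Ω : Subgroup K := zpowers x with hΩ
  have hΩcard : Nat.card Ω = p := by rw [Nat.card_zpowers, hx]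
  have hΩO : Ω ≤ pCore p K := zpowers_le.2 hxO
  have hPc : ∀ a ∈ (P : Subgroup K), ∀ b ∈ (P : Subgroup K), a * b = b * a := by
    intro a ha b hb
    exact congrArg Subtype.val ((IsCyclic.commGroup (α := (P : Subgroup K))).mul_comm ⟨a, ha⟩ ⟨b, hb⟩)
  haveI hΩn : Ω.Normal := by
    constructor
    intro y hy g
    have h1 : orderOf (g * x * g⁻¹) = p := by
      rw [← hx]; exact (orderOf_injective (MulAut.conj g).toMonoidHom (MulAut.conj g).injective x)
    have h2 : g * x * g⁻¹ ∈ pCore p K := (H1.pCore_normal p K).conj_mem x hxO g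
    have h3 : zpowers (g * x * g⁻¹) = zpowers x :=
      zpowers_eq_of_cyclic_sylow P hP h1 hx (hPc _ (hOP h2) _ (hOP hxO))
    obtain ⟨i, rfl⟩ := hy
    have h4 : g * x ^ i * g⁻¹ = (g * x * g⁻¹) ^ i := by rw [conj_zpow]
    show g * x ^ i * g⁻¹ ∈ Ω
    rw [h4, hΩ, ← h3]
    exact zpow_mem (mem_zpowers _) i
  set C : Subgroup K := centralizer (Ω : Set K) with hC
  haveI hCn : C.Normal := H10.normal_centralizer_of_normal hΩn
  have hPC : (P : Subgroup K) ≤ C := by
    intro a ha
    rw [hC, mem_centralizer_iff]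
    intro b hb
    exact hPc b (hOP (hΩO hb)) a ha
  have hΩC : Ω ≤ C := (hΩO.trans hOP).trans hPC
  -- the Sylow subgroup in C
  obtain ⟨Q, hQ⟩ := exists_sylow_le P hPC
  have hQc : IsCyclic (Q : Subgroup C) := by
    rw [hQ]
    exact isCyclic_of_surjective (subgroupOfEquivOfLe hPC).symm (MulEquiv.surjective _)
  have hxC : x ∈ C := hΩC (mem_zpowers x)
  have hxQ : (⟨x, hxC⟩ : C) ∈ (Q : Subgroup C) := by
    rw [hQ, mem_subgroupOf]
    exact hOP hxO
  have hxcen : (⟨x, hxC⟩ : C) ∈ center C := by
    rw [mem_center_iff]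
    rintro ⟨y, hy⟩
    apply Subtype.ext
    exact ((mem_centralizer_iff.1 hy) x (mem_zpowers x)).symm
  have hnd : ¬ p ∣ Nat.card (commutator C) := by
    haveI := hQc
    rcases Q.normalizer_le_centralizer_or_le_commutator with h | h
    · rcases Sylow.not_dvd_card_commutator_or_not_dvd_index_commutator Q with h1 | h1
      · exact h1
      · -- then Q ≤ commutator, contradiction
        exfalso
        have hQC : (Q : Subgroup C) ≤ commutator C := by
          have h3 : ¬ p ∣ (commutator C).relIndex (Q : Subgroup C) := by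
            intro h4
            exact h1 (h4.trans (relIndex_dvd_index_of_normal (commutator C) (Q : Subgroup C)))
          have h5 : (commutator C).relIndex (Q : Subgroup C) = 1 := by
            obtain ⟨k, hk⟩ := IsPGroup.iff_card.1 Q.isPGroup'
            have h6 : (commutator C).relIndex (Q : Subgroup C) ∣ p ^ k := by
              rw [← hk]; exact relIndex_dvd_card _ _
            obtain ⟨j, -, hj⟩ := (Nat.dvd_prime_pow hp).1 h6
            rw [hj] at h3 ⊢
            by_contra hne
            apply h3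
            exact dvd_pow_self p (by rintro rfl; exact hne rfl)
          exact relIndex_eq_one.1 h5
        have := sylow_center_commutator Q (fun a ha b hb => congrArg Subtype.val
          ((IsCyclic.commGroup (α := (Q : Subgroup C))).mul_comm ⟨a, ha⟩ ⟨b, hb⟩)) hxQ hxcen (hQC hxQ)
        have h7 : x = 1 := congrArg Subtype.val this
        rw [h7, orderOf_one] at hx
        exact hp.one_lt.ne hx
    · exfalso
      have := sylow_center_commutator Q (fun a ha b hb => congrArg Subtype.val
        ((IsCyclic.commGroup (α := (Q : Subgroup C))).mul_comm ⟨a, ha⟩ ⟨b, hb⟩)) hxQ hxcen (h hxQ)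
      have h7 : x = 1 := congrArg Subtype.val this
      rw [h7, orderOf_one] at hx
      exact hp.one_lt.ne hx
  -- normal p'-subgroups of K inside are trivial
  have htriv : ∀ N : Subgroup K, N.Normal → ¬ p ∣ Nat.card N → N = ⊥ := by
    intro N hN hpN
    have := H1.le_pPrimeCore hN ((Nat.Prime.coprime_iff_not_dvd hp).2 hpN).symm
    rw [hO] at this
    exact le_bot_iff.1 this
  have hC' : commutator C = ⊥ := by
    have h1 : ((commutator C).map C.subtype) = ⊥ := by
      apply htriv
      · exact ConjAct.normal_of_characteristic_of_normal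
      · rwa [Nat.card_congr (equivMapOfInjective (commutator C) C.subtype C.subtype_injective).symm.toEquiv]
    exact (map_eq_bot_iff_of_injective _ C.subtype_injective).1 h1
  have hCab : ∀ a b : C, a * b = b * a := by
    intro a b
    have h1 : ⁅a, b⁆ ∈ commutator C := commutator_mem_commutator (mem_top a) (mem_top b)
    rw [hC', mem_bot, commutatorElement_eq_one_iff_commute] at h1
    exact h1
  -- C is a p-group
  have hCp : ∀ q : ℕ, q.Prime → q ∣ Nat.card C → q = p := by
    intro q hq hqC
    by_contra hqp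
    haveI : Fact q.Prime := ⟨hq⟩
    obtain ⟨R⟩ := (inferInstance : Nonempty (Sylow q C))
    haveI hRn : (R : Subgroup C).Normal := by
      constructor
      intro a ha g
      rw [hCab g a, mul_inv_cancel_right]
      exact ha
    haveI : (R : Subgroup C).Characteristic := R.characteristic_of_normal hRn
    have h1 : ((R : Subgroup C).map C.subtype) = ⊥ := by
      apply htriv
      · exact ConjAct.normal_of_characteristic_of_normal
      · rw [Nat.card_congr (equivMapOfInjective (R : Subgroup C) C.subtype C.subtype_injective).symm.toEquiv]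
        obtain ⟨k, hk⟩ := IsPGroup.iff_card.1 R.isPGroup'
        have hk' : Nat.card (R : Subgroup C) = q ^ k := hk
        rw [hk']
        intro h
        exact hqp ((Nat.prime_dvd_prime_iff_eq hp hq).1 (hp.dvd_of_dvd_pow h)).symm
    have h2 : (R : Subgroup C) = ⊥ := (map_eq_bot_iff_of_injective _ C.subtype_injective).1 h1
    have h3 := R.not_dvd_index
    rw [h2, index_bot] at h3
    exact h3 hqC
  have hCpg : IsPGroup p C := by
    rw [IsPGroup.iff_card]
    exact ⟨_, Nat.eq_prime_pow_of_unique_prime_dvd Nat.card_pos.ne' (fun {q} hq hqd => hCp q hq hqd)⟩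
  have hCP : C = (P : Subgroup K) := (P.is_maximal' hCpg hPC)
  have hPn : (P : Subgroup K).Normal := hCP ▸ hCn
  -- the embedding
  have hker : ∀ g : K, (MulAut.conjNormal (H := Ω) g = 1 ↔ g ∈ (P : Subgroup K)) := by
    intro g
    rw [← hCP, hC, mem_centralizer_iff]
    constructor
    · intro h y hy
      have h1 := congrArg (fun e : MulAut Ω => ((e ⟨y, hy⟩ : Ω) : K)) h
      have h2 : g * y * g⁻¹ = y := h1
      rw [← h2]
      calc g * y * g⁻¹ * g = g * y := by group
        _ = g * (g * y * g⁻¹) := by rw [h2]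
    · intro h
      ext ⟨y, hy⟩
      show g * y * g⁻¹ = y
      rw [← h y hy, mul_inv_cancel_right]
  let f : K ⧸ (P : Subgroup K) →* MulAut Ω := QuotientGroup.lift (P : Subgroup K) (MulAut.conjNormal (H := Ω))
    (fun g hg => (hker g).2 hg)
  have hf : Function.Injective f := by
    rw [injective_iff_map_eq_one]
    intro q hq
    obtain ⟨g, rfl⟩ := QuotientGroup.mk_surjective q
    rw [QuotientGroup.eq_one_iff]
    exact (hker g).1 hq
  haveI hΩcyc : IsCyclic Ω := by rw [hΩ]; infer_instance
  let e : MulAut Ω ≃* (ZMod (Nat.card Ω))ˣ := IsCyclic.mulAutMulEquiv Ω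
  have hcyc : IsCyclic (MulAut Ω) := by
    haveI : Fact (Nat.card Ω).Prime := ⟨by rw [hΩcard]; exact hp⟩
    exact isCyclic_of_surjective e.symm e.symm.surjective
  have hcardA : Nat.card (MulAut Ω) = p - 1 := by
    rw [Nat.card_congr e.toEquiv, hΩcard, Nat.card_eq_fintype_card, ZMod.card_units]
  refine ⟨hPn, ?_, ?_, ?_⟩
  · apply le_antisymm
    · rw [← hCP]
      exact centralizer_le (by rw [hCP]; exact (hΩO.trans hOP))
    · intro a ha
      rw [mem_centralizer_iff]
      intro b hb
      exact hPc b hb a ha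
  · intro _
    haveI := hcyc
    exact isCyclic_of_injective f hf
  · have h1 := card_dvd_of_injective f hf
    rw [hcardA] at h1
    exact h1

open Cfsg in
theorem cyclic_case_two {K : Type*} [Group K] [Finite K] (p : ℕ) [hpf : Fact p.Prime] (hpK : p ∣ Nat.card K)
    (hO : Cfsg.pPrimeCore p K = ⊥) (P : Sylow p K) (hP : IsCyclic ↥(P : Subgroup K)) (hcore : pCore p K = ⊥) :
    (IsSimpleGroup ↥(Cfsg.generalizedFittingSubgroup K) ∧ ¬ IsMulCommutative ↥(Cfsg.generalizedFittingSubgroup K) ∧
      ¬ p ∣ (Cfsg.generalizedFittingSubgroup K).index) := by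
  classical
  have hp : p.Prime := hpf.out
  have hF : fittingSubgroup K = ⊥ := by
    rw [H1.fitting_eq_pCore_of_pPrimeCore_eq_bot p hO, hcore]
  have hlay : layer K ≠ ⊥ := by
    intro h
    have h1 : generalizedFittingSubgroup K = ⊥ := by
      unfold generalizedFittingSubgroup
      rw [h, hF, sup_bot_eq]
    have h2 := H10.centralizer_genFitting_le (G := K)
    rw [h1] at h2
    have h3 : (⊤ : Subgroup K) ≤ ⊥ := by
      intro x _
      apply h2
      rw [mem_centralizer_iff]
      intro y hy
      have : y = 1 := mem_bot.1 hy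
      rw [this, one_mul, mul_one]
    have h4 : Nat.card K = 1 := by
      rw [← card_top (G := K), le_bot_iff.1 h3, card_bot]
    rw [h4] at hpK
    exact hp.one_lt.ne' (Nat.dvd_one.1 hpK)
  obtain ⟨L, hL⟩ : ∃ L : Subgroup K, IsComponent L := by
    by_contra h
    push Not at h
    exact hlay (H10.layer_eq_bot_iff.2 h)
  have hcompdvd : ∀ L : Subgroup K, IsComponent L → p ∣ Nat.card L := by
    intro L hL
    by_contra h
    have h1 := H10.subnormal_pPrime_le_pPrimeCore hL.1 ((Nat.Prime.coprime_iff_not_dvd hp).2 h).symm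
    rw [hO, le_bot_iff] at h1
    exact H10.comp_ne_bot hL h1
  have hcen : ∀ L : Subgroup K, IsComponent L → center L = ⊥ := by
    intro L hL
    have h1 := H10.center_subnormal_le_fitting hL.1
    rw [hF, le_bot_iff] at h1
    exact (map_eq_bot_iff_of_injective _ L.subtype_injective).1 h1
  have huniq : ∀ M : Subgroup K, IsComponent M → M = L := by
    intro M hM
    by_contra hne
    have hcom := H10.comp_commutes hM hL hne
    obtain ⟨⟨x, hxM⟩, hx⟩ := exists_prime_orderOf_dvd_card' p (hcompdvd M hM)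
    obtain ⟨⟨y, hyL⟩, hy⟩ := exists_prime_orderOf_dvd_card' p (hcompdvd L hL)
    rw [Subgroup.orderOf_mk] at hx hy
    have hcomm : ∀ a ∈ M, ∀ b ∈ L, a * b = b * a := by
      intro a ha b hb
      have h1 : ⁅a, b⁆ ∈ ⁅M, L⁆ := commutator_mem_commutator ha hb
      rw [hcom, mem_bot, commutatorElement_eq_one_iff_commute] at h1
      exact h1
    have h1 := zpowers_eq_of_cyclic_sylow P hP hx hy (hcomm x hxM y hyL)
    have hyM : y ∈ M := by
      have : y ∈ zpowers x := by rw [h1]; exact mem_zpowers y
      exact (zpowers_le.2 hxM) this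
    have h2 : (⟨y, hyL⟩ : L) ∈ center L := by
      rw [mem_center_iff]
      rintro ⟨b, hb⟩
      apply Subtype.ext
      exact (hcomm y hyM b hb).symm
    rw [hcen L hL, mem_bot] at h2
    have h3 : y = 1 := congrArg Subtype.val h2
    rw [h3, orderOf_one] at hy
    exact hp.one_lt.ne hy
  have hlayer : layer K = L := by
    apply le_antisymm
    · apply sSup_le
      intro M hM
      rw [huniq M hM]
    · exact H10.le_layer hL
  have hLn : L.Normal := hlayer ▸ H10.layer_normal K
  have hgf : generalizedFittingSubgroup K = L := by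
    unfold generalizedFittingSubgroup
    rw [hF, sup_bot_eq, hlayer]
  rw [hgf]
  have hsimple : IsSimpleGroup L := by
    have h1 := hL.2.2
    let e : L ⧸ center L ≃* L := (QuotientGroup.quotientMulEquivOfEq (hcen L hL)).trans QuotientGroup.quotientBot
    haveI : Nontrivial L := H10.qs_nontrivial hL.2
    exact IsSimpleGroup.isSimpleGroup_of_surjective e.toMonoidHom e.surjective
  refine ⟨hsimple, H10.comp_not_comm hL, ?_⟩
  -- P ≤ L
  set T : Subgroup K := (P : Subgroup K) ⊔ L with hT
  have hPT : (P : Subgroup K) ≤ T := le_sup_left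
  have hLT : L ≤ T := le_sup_right
  obtain ⟨Q, hQ⟩ := exists_sylow_le P hPT
  haveI hQc : IsCyclic (Q : Subgroup T) := by
    rw [hQ]
    exact isCyclic_of_surjective (subgroupOfEquivOfLe hPT).symm (MulEquiv.surjective _)
  haveI hLTn : (L.subgroupOf T).Normal := hLn.subgroupOf T
  have hT'L : commutator T ≤ L.subgroupOf T := by
    rw [← Subgroup.Normal.quotient_commutative_iff_commutator_le]
    have hgen : ∀ q : T ⧸ L.subgroupOf T, ∃ a : K, ∃ ha : a ∈ (P : Subgroup K), q = ((⟨a, hPT ha⟩ : T) : T ⧸ L.subgroupOf T) := by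
      intro q
      obtain ⟨⟨t, ht⟩, rfl⟩ := QuotientGroup.mk_surjective q
      have ht' := ht
      rw [hT, mem_sup_of_normal_right] at ht'
      obtain ⟨a, ha, b, hb, rfl⟩ := ht'
      refine ⟨a, ha, ?_⟩
      rw [QuotientGroup.eq, mem_subgroupOf]
      show (a * b)⁻¹ * a ∈ L
      have : (a * b)⁻¹ * a = b⁻¹ := by group
      rw [this]; exact inv_mem hb
    refine ⟨⟨?_⟩⟩
    intro q r
    obtain ⟨a, ha, rfl⟩ := hgen q
    obtain ⟨b, hb, rfl⟩ := hgen r
    rw [← QuotientGroup.mk_mul, ← QuotientGroup.mk_mul]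
    have hab : a * b = b * a :=
      congrArg Subtype.val ((IsCyclic.commGroup (α := (P : Subgroup K))).mul_comm ⟨a, ha⟩ ⟨b, hb⟩)
    congr 1
    apply Subtype.ext
    exact hab
  have hLT' : L.subgroupOf T ≤ commutator T := by
    have h1 : ⁅L, L⁆ = L := H10.comp_commutator_self hL
    have h2 : (commutator T).map T.subtype = ⁅T, T⁆ := by
      rw [_root_.commutator_def, map_commutator, ← MonoidHom.range_eq_map, range_subtype]
    rintro ⟨x, hx⟩ hxL
    rw [mem_subgroupOf] at hxL
    have hxL' : x ∈ L := hxL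
    rw [← h1] at hxL'
    have h3 : x ∈ ⁅T, T⁆ := (commutator_mono hLT hLT) hxL'
    rw [← h2] at h3
    obtain ⟨y, hy, hyx⟩ := h3
    have : y = ⟨x, hx⟩ := Subtype.ext hyx
    rw [← this]; exact hy
  have hTL : commutator T = L.subgroupOf T := le_antisymm hT'L hLT'
  rcases Sylow.not_dvd_card_commutator_or_not_dvd_index_commutator Q with h | h
  · exfalso
    apply h
    rw [hTL, Nat.card_congr (subgroupOfEquivOfLe hLT).toEquiv]
    exact hcompdvd L hL
  · rw [hTL] at h
    have h1 : (P : Subgroup K) ≤ L := by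
      have h2 : L.relIndex (P : Subgroup K) = L.relIndex T := (relIndex_sup_right (P : Subgroup K) L).symm
      have h3 : L.relIndex T = (L.subgroupOf T).index := rfl
      rw [← h3, ← h2] at h
      obtain ⟨k, hk⟩ := IsPGroup.iff_card.1 P.isPGroup'
      have h6 : L.relIndex (P : Subgroup K) ∣ p ^ k := by
        rw [← hk]; exact relIndex_dvd_card _ _
      obtain ⟨j, -, hj⟩ := (Nat.dvd_prime_pow hp).1 h6
      rw [hj] at h
      have hj0 : j = 0 := by
        by_contra hne
        exact h (dvd_pow_self p hne)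
      rw [hj0, pow_zero] at hj
      exact relIndex_eq_one.1 hj
    intro h2
    exact P.not_dvd_index (h2.trans (index_dvd_of_le h1))

end Cfsg.Agent.H25
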