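import Cfsg.Agent.H1.NilHall
import Cfsg.Agent.H2.Frobenius
import Cfsg.Agent.H25.Primary
import Cfsg.Prelude.Def_HallClasses

/-!
# D_π for groups with a Hall subgroup `H_σ × H_τ`, `H_σ` nilpotent
-/

set_option autoImplicit false
set_option linter.style.haveILetI false
set_option linter.unusedVariables false

namespace Cfsg.Agent.H25.DPi

open Cfsg Subgroup
open scoped commutatorElement Pointwise

variable {G : Type*} [Group G]

structure Dec (q : ℕ) (A B H : Subgroup G) : Prop where
  sup : A ⊔ B = H
  comm : A ≤ centralizer (B : Set G)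
  pg : IsPGroup q A
  idx : ¬ q ∣ A.index
  cop : (Nat.card B).Coprime q

theorem Dec.conj {q : ℕ} {A B H : Subgroup G} (h : Dec q A B H) (x : G) :
    Dec q (MulAut.conj x • A) (MulAut.conj x • B) (MulAut.conj x • H) := by
  refine ⟨?_, ?_, ?_, ?_, ?_⟩
  · rw [← h.sup, H1.conj_smul_sup]
  · intro a ha
    rw [mem_centralizer_iff]
    intro b hb
    rw [SetLike.mem_coe, H1.mem_conj_smul] at hb
    rw [H1.mem_conj_smul] at ha
    have h1 := mem_centralizer_iff.1 (h.comm ha) _ hb
    calc b * a = x * ((x⁻¹ * b * x) * (x⁻¹ * a * x)) * x⁻¹ := by group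
      _ = x * ((x⁻¹ * a * x) * (x⁻¹ * b * x)) * x⁻¹ := by rw [h1]
      _ = a * b := by group
  · exact h.pg.map _
  · rw [H1.index_conj_smul]; exact h.idx
  · rw [H1.card_conj_smul]; exact h.cop

theorem Dec.exists_mul {q : ℕ} {A B H : Subgroup G} (h : Dec q A B H) {x : G} (hx : x ∈ H) :
    ∃ a ∈ A, ∃ b ∈ B, x = a * b ∧ Commute a b := by
  have h1 : A ≤ normalizer (B : Set G) := h.comm.trans (centralizer_le_normalizer _)
  have h2 := Subgroup.coe_mul_of_left_le_normalizer_right A B h1
  have h3 : x ∈ ((A ⊔ B : Subgroup G) : Set G) := by rw [h.sup]; exact hx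
  rw [h2] at h3
  obtain ⟨a, ha, b, hb, hab⟩ := h3
  exact ⟨a, ha, b, hb, hab.symm, (mem_centralizer_iff.1 (h.comm ha) b hb).symm⟩

theorem Dec.mem_B [Finite G] {q : ℕ} [hq : Fact q.Prime] {A B H : Subgroup G} (h : Dec q A B H) {x : G} (hx : x ∈ H)
    (ho : (orderOf x).Coprime q) : x ∈ B := by
  obtain ⟨a, ha, b, hb, rfl, hc⟩ := h.exists_mul hx
  obtain ⟨k, hk⟩ := h.pg ⟨a, ha⟩
  have hk' : a ^ q ^ k = 1 := by simpa using congrArg Subtype.val hk
  set m := orderOf (a * b) with hm
  have h1 : a ^ m * b ^ m = 1 := by rw [← hc.mul_pow, hm, pow_orderOf_eq_one]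
  have h2 : a ^ m ∈ B := by
    have : a ^ m = (b ^ m)⁻¹ := mul_eq_one_iff_eq_inv.1 h1
    rw [this]; exact inv_mem (pow_mem hb m)
  have h3 : orderOf (a ^ m) ∣ Nat.card B := by
    have := orderOf_dvd_natCard (⟨a ^ m, h2⟩ : B)
    rwa [Subgroup.orderOf_mk] at this
  have h4 : orderOf (a ^ m) ∣ q ^ k := by
    apply orderOf_dvd_of_pow_eq_one
    rw [← pow_mul, mul_comm, pow_mul, hk', one_pow]
  have h5 : a ^ m = 1 := by
    rw [← orderOf_eq_one_iff]
    exact Nat.eq_one_of_dvd_coprimes (h.cop.pow_right k) h3 h4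
  have h6 : orderOf a ∣ m := orderOf_dvd_of_pow_eq_one h5
  have h7 : orderOf a ∣ q ^ k := orderOf_dvd_of_pow_eq_one hk'
  have h8 : orderOf a = 1 := Nat.eq_one_of_dvd_coprimes (ho.pow_right k) h6 h7
  rw [orderOf_eq_one_iff] at h8
  rw [h8, one_mul]; exact hb

theorem Dec.mem_A [Finite G] {q : ℕ} [hq : Fact q.Prime] {A B H : Subgroup G} (h : Dec q A B H) {x : G} (hx : x ∈ H)
    {k : ℕ} (ho : x ^ q ^ k = 1) : x ∈ A := by
  obtain ⟨a, ha, b, hb, rfl, hc⟩ := h.exists_mul hx
  have h1 : a ^ q ^ k * b ^ q ^ k = 1 := by rw [← hc.mul_pow, ho]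
  have h2 : b ^ q ^ k ∈ A := by
    have : b ^ q ^ k = (a ^ q ^ k)⁻¹ := mul_eq_one_iff_inv_eq.1 h1 |>.symm
    rw [this]; exact inv_mem (pow_mem ha _)
  obtain ⟨l, hl⟩ := h.pg ⟨b ^ q ^ k, h2⟩
  have hl' : b ^ q ^ (k + l) = 1 := by
    rw [pow_add, pow_mul]; simpa using congrArg Subtype.val hl
  have h3 : orderOf b ∣ Nat.card B := by
    have := orderOf_dvd_natCard (⟨b, hb⟩ : B)
    rwa [Subgroup.orderOf_mk] at this
  have h4 : orderOf b ∣ q ^ (k + l) := orderOf_dvd_of_pow_eq_one hl'
  have h5 : orderOf b = 1 := Nat.eq_one_of_dvd_coprimes (h.cop.pow_right _) h3 h4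
  rw [orderOf_eq_one_iff] at h5
  rw [h5, mul_one]; exact ha

theorem finish [Finite G] {q : ℕ} [hq : Fact q.Prime] {A B H K L : Subgroup G} (h : Dec q A B H) (hLK : L ≤ K)
    (hKL : K ≤ normalizer (L : Set G)) (hLc : (Nat.card L).Coprime q) (hLi : ∃ k, L.relIndex K = q ^ k)
    (hLH : L ≤ H) : ∃ y : G, MulAut.conj y • K ≤ H := by
  have hLB : L ≤ B := by
    intro l hl
    apply h.mem_B (hLH hl)
    have h1 : orderOf l ∣ Nat.card L := by
      have := orderOf_dvd_natCard (⟨l, hl⟩ : L)
      rwa [Subgroup.orderOf_mk] at this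
    exact Nat.Coprime.coprime_dvd_left h1 hLc
  have hAL : A ≤ normalizer (L : Set G) :=
    (h.comm.trans (centralizer_le hLB)).trans (centralizer_le_normalizer _)
  obtain ⟨P⟩ : Nonempty (Sylow q K) := inferInstance
  set N := normalizer (L : Set G) with hN
  have hPN : (P : Subgroup K).map K.subtype ≤ N := (Subgroup.map_subtype_le _).trans hKL
  have hAN : ¬ q ∣ (A.subgroupOf N).index := by
    intro h1
    exact h.idx (h1.trans (Subgroup.relIndex_dvd_index_of_le hAL))
  obtain ⟨y, hy⟩ := H1.exists_conj_le_of_not_dvd_index (P := ((P : Subgroup K).map K.subtype).subgroupOf N)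
    (H := A.subgroupOf N) ((P.isPGroup'.map _).of_equiv (Subgroup.subgroupOfEquivOfLe hPN).symm) hAN
  have hy' : MulAut.conj (y : G) • (P : Subgroup K).map K.subtype ≤ A := by
    have h1 := Subgroup.map_mono (f := N.subtype) hy
    rwa [H1.map_conj_smul, Subgroup.map_subgroupOf_eq_of_le hPN,
      Subgroup.map_subgroupOf_eq_of_le hAL] at h1
  have hKsup : K = (P : Subgroup K).map K.subtype ⊔ L := by
    have h1 : (P : Subgroup K) ⊔ L.subgroupOf K = ⊤ := by
      rw [← Subgroup.index_eq_one]
      have h2 : ((P : Subgroup K) ⊔ L.subgroupOf K).index ∣ (P : Subgroup K).index :=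
        Subgroup.index_dvd_of_le le_sup_left
      have h3 : ((P : Subgroup K) ⊔ L.subgroupOf K).index ∣ (L.subgroupOf K).index := Subgroup.index_dvd_of_le le_sup_right
      obtain ⟨k, hk⟩ := hLi
      have h3' : ((P : Subgroup K) ⊔ L.subgroupOf K).index ∣ q ^ k := by rw [← hk]; exact h3
      have h4 : ((P : Subgroup K) : Subgroup K).index.Coprime (q ^ k) :=
        (Nat.Coprime.pow_left _ ((Nat.Prime.coprime_iff_not_dvd hq.out).mpr P.not_dvd_index)).symm
      exact Nat.eq_one_of_dvd_coprimes h4 h2 h3'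
    have h5 := congrArg (Subgroup.map K.subtype) h1
    rw [Subgroup.map_sup, ← MonoidHom.range_eq_map, Subgroup.range_subtype, Subgroup.map_subgroupOf_eq_of_le hLK] at h5
    exact h5.symm
  refine ⟨(y : G), ?_⟩
  rw [hKsup, H1.conj_smul_sup]
  refine sup_le (hy'.trans (by rw [← h.sup]; exact le_sup_left)) ?_
  rw [H1.mem_normalizer_iff_conj_smul.mp y.2]
  exact hLH

theorem relIndex_sup_dvd [Finite G] {A B : Subgroup G} (h : B ≤ normalizer (A : Set G)) : A.relIndex (A ⊔ B) ∣ Nat.card B := by
  have h1 := H1.card_sup_mul_card_inf_of_le_normalizer h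
  have h2 := H1.card_mul_relIndex_aux (H := A ⊔ B) (K := A) le_sup_left
  rw [← h2] at h1
  refine ⟨Nat.card (A ⊓ B : Subgroup G), ?_⟩
  have h3 : 0 < Nat.card A := Nat.card_pos
  apply Nat.eq_of_mul_eq_mul_left h3
  rw [← h1]; ring

theorem nrm_le_nrm_cent (X : Subgroup G) : normalizer (X : Set G) ≤ normalizer ((centralizer (X : Set G) : Subgroup G) : Set G) := by
  intro g hg
  have h1 : ∀ g ∈ normalizer (X : Set G), ∀ c ∈ centralizer (X : Set G), g * c * g⁻¹ ∈ centralizer (X : Set G) := by
    intro g hg c hc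
    rw [mem_centralizer_iff] at hc ⊢
    intro x hx
    have h2 : g⁻¹ * x * g ∈ X := by
      have := (mem_normalizer_iff.1 (inv_mem hg) x).1 hx
      simpa using this
    have h3 := hc _ h2
    calc x * (g * c * g⁻¹) = g * ((g⁻¹ * x * g) * c) * g⁻¹ := by group
      _ = g * (c * (g⁻¹ * x * g)) * g⁻¹ := by rw [h3]
      _ = g * c * g⁻¹ * x := by group
  rw [mem_normalizer_iff]
  intro c
  refine ⟨h1 g hg c, fun hc => ?_⟩
  have h4 := h1 g⁻¹ (inv_mem hg) _ hc
  have h5 : g⁻¹ * (g * c * g⁻¹) * g⁻¹⁻¹ = c := by group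
  rwa [h5] at h4

theorem main [Finite G] {σ τ : Set ℕ} {H Ht : Subgroup G}
    (hdec : ∀ q ∈ σ, q.Prime → ∃ A B : Subgroup G, Dec q A B H ∧ Ht ≤ B)
    (hHt : ∀ K : Subgroup G, IsPiSubgroup τ K → ∃ x : G, K ≤ MulAut.conj x • Ht) (htH : Ht ≤ H)
    (htidx : ∀ r : ℕ, r.Prime → r ∈ τ → ¬ r ∣ Ht.index) :
    ∀ (n : ℕ) (K : Subgroup G), Nat.card K = n → IsPiSubgroup (σ ∪ τ) K → ∃ x : G, K ≤ MulAut.conj x • H := by
  intro n
  induction n using Nat.strong_induction_on with
  | _ n ih =>
    intro K hn hK
    have hprop : ∀ L : Subgroup G, L < K → ∃ x : G, L ≤ MulAut.conj x • H := by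
      intro L hL
      exact ih _ (hn ▸ H1.card_lt_of_lt' hL) L rfl (fun p hp hd => hK p hp (hd.trans
        (H1.card_dvd_of_le' hL.le)))
    by_cases hτ : ∀ q : ℕ, q ∈ σ → q.Prime → ¬ q ∣ Nat.card K
    · obtain ⟨x, hx⟩ := hHt K (fun p hp hd => by
        rcases hK p hp hd with h | h
        · exact absurd hd (hτ p h hp)
        · exact h)
      exact ⟨x, hx.trans (H1.conj_smul_le_conj_smul_iff.2 htH)⟩
    push Not at hτ
    obtain ⟨q, hqσ, hq, hqK⟩ := hτ
    haveI : Fact q.Prime := ⟨hq⟩
    have claim : ∃ q1 ∈ σ, q1.Prime ∧ ∃ L : Subgroup G, L ≤ K ∧ K ≤ normalizer (L : Set G) ∧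
        (Nat.card L).Coprime q1 ∧ (∃ k, L.relIndex K = q1 ^ k) ∧ L ≠ K := by
      by_cases hN : HasNormalPComplement q K
      · obtain ⟨P, N, hNn, hc⟩ := hN
        have h1 : N.index = Nat.card (P : Subgroup K) := hc.symm.index_eq_card
        have h2 : (P : Subgroup K).index = Nat.card N := hc.index_eq_card
        refine ⟨q, hqσ, hq, N.map K.subtype, Subgroup.map_subtype_le _, ?_, ?_, ?_, ?_⟩
        · intro g hg
          rw [H1.mem_normalizer_iff_conj_smul]
          have h1 : MulAut.conj (⟨g, hg⟩ : K) • N = N := H1.conj_smul_normal _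
          have h2 := H1.map_conj_smul K.subtype ⟨g, hg⟩ N
          rw [h1] at h2
          exact h2.symm
        · rw [H1.card_map_subtype, ← h2, Nat.coprime_comm, Nat.Prime.coprime_iff_not_dvd hq]
          exact P.not_dvd_index
        · obtain ⟨k, hk⟩ := IsPGroup.iff_card.1 P.isPGroup'
          refine ⟨k, ?_⟩
          rw [Subgroup.relIndex, Subgroup.subgroupOf,
            Subgroup.comap_map_eq_self_of_injective K.subtype_injective, h1, hk]
        · intro h
          have h3 : Nat.card N = Nat.card K := by rw [← H1.card_map_subtype, h]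
          rw [← h3, ← h2] at hqK
          exact P.not_dvd_index hqK
      · have h1 : ∃ X : Subgroup K, IsPGroup q X ∧ ∃ g ∈ normalizer (X : Set K), (orderOf g).Coprime q ∧ g ∉ centralizer (X : Set K) := by
          by_contra hcon
          push Not at hcon
          exact hN (H2.hasNormalPComplement_of_centralizer hcon)
        obtain ⟨X, hX, g, hgN, hgo, hgC⟩ := h1
        obtain ⟨r, hr, m, hm, k, hk⟩ := exists_primary_notMem _ hgC
        haveI : Fact r.Prime := ⟨hr⟩
        set y := g ^ m with hy
        have hyN : y ∈ normalizer (X : Set K) := pow_mem hgN m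
        have hyo : (orderOf y).Coprime q := Nat.Coprime.coprime_dvd_left (orderOf_pow_dvd m) hgo
        have hk0 : k ≠ 0 := by
          rintro rfl
          rw [pow_zero, orderOf_eq_one_iff] at hk
          apply hm
          rw [hk]; exact one_mem _
        have hry : r ∣ orderOf y := by rw [hk]; exact dvd_pow_self r hk0
        have hrq : r ≠ q := by
          rintro rfl
          exact Nat.not_coprime_of_dvd_of_dvd hr.one_lt hry dvd_rfl hyo
        have hyG : orderOf (y : G) = r ^ k := by rw [Subgroup.orderOf_coe, hk]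
        have hrK : r ∣ Nat.card K := hry.trans (orderOf_dvd_natCard y)
        set X' : Subgroup G := X.map K.subtype with hX'
        have hX'K : X' ≤ K := Subgroup.map_subtype_le _
        have hX'p : IsPGroup q X' := hX.map _
        have hyX' : (y : G) ∈ normalizer (X' : Set G) := by
          rw [H1.mem_normalizer_iff_conj_smul] at hyN ⊢
          have h2 := H1.map_conj_smul K.subtype y X
          rw [hyN] at h2
          exact h2.symm
        have hyX'C : (y : G) ∉ centralizer (X' : Set G) := by
          intro h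
          apply hm
          rw [mem_centralizer_iff] at h ⊢
          intro z hz
          exact Subtype.ext (h z ⟨z, hz, rfl⟩)
        have hyX'n : (y : G) ∉ X' := by
          intro h
          obtain ⟨j, hj⟩ := hX'p ⟨y, h⟩
          have hj' : (y : G) ^ q ^ j = 1 := by simpa using congrArg Subtype.val hj
          have h1 := orderOf_dvd_of_pow_eq_one hj'
          rw [Subgroup.orderOf_coe] at h1
          have h2 := Nat.Coprime.eq_one_of_dvd (hyo.pow_right j) h1
          rw [orderOf_eq_one_iff] at h2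
          apply hm
          rw [h2]; exact one_mem _
        have hcomm_of : ∀ x : G, X' ≤ MulAut.conj x • H → (y : G) ∈ MulAut.conj x • H → False := by
          intro x h1 h2
          obtain ⟨A, B, hAB, -⟩ := hdec q hqσ hq
          have hAB' := hAB.conj x
          apply hyX'C
          rw [mem_centralizer_iff]
          intro z hz
          obtain ⟨j, hj⟩ := hX'p ⟨z, hz⟩
          have hj' : z ^ q ^ j = 1 := by simpa using congrArg Subtype.val hj
          have h3 := hAB'.mem_A (h1 hz) hj'
          have h4 := hAB'.mem_B h2 (by rw [Subgroup.orderOf_coe]; exact hyo)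
          exact (mem_centralizer_iff.1 (hAB'.comm h3) _ h4).symm
        by_cases hY : X' ⊔ zpowers (y : G) = K
        · have hX'ne : X' ≠ K := by
            intro h
            apply hyX'n
            rw [h]; exact y.2
          rcases hK r hr hrK with hrσ | hrτ
          · refine ⟨r, hrσ, hr, X', hX'K, ?_, ?_, ?_, hX'ne⟩
            · rw [← hY]
              exact sup_le le_normalizer (by rwa [zpowers_le])
            · obtain ⟨j, hj⟩ := IsPGroup.iff_card.1 hX'p
              rw [hj]
              exact Nat.Coprime.pow_left _ ((Nat.coprime_primes hq hr).2 hrq.symm)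
            · have h1 := relIndex_sup_dvd (A := X') (B := zpowers (y : G)) (by rwa [zpowers_le])
              rw [hY, Nat.card_zpowers, hyG] at h1
              obtain ⟨j, -, hj⟩ := (Nat.dvd_prime_pow hr).1 h1
              exact ⟨j, hj⟩
          · exfalso
            obtain ⟨x, hx⟩ := hprop X' (lt_of_le_of_ne hX'K hX'ne)
            obtain ⟨A, B, hAB, hHtB⟩ := hdec q hqσ hq
            have hAB' := hAB.conj x
            have hX'A : X' ≤ MulAut.conj x • A := by
              intro z hz
              obtain ⟨j, hj⟩ := hX'p ⟨z, hz⟩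
              have hj' : z ^ q ^ j = 1 := by simpa using congrArg Subtype.val hj
              exact hAB'.mem_A (hx hz) hj'
            have hHtC : MulAut.conj x • Ht ≤ centralizer (X' : Set G) := by
              have h1 : MulAut.conj x • Ht ≤ MulAut.conj x • B := H1.conj_smul_le_conj_smul_iff.2 hHtB
              refine h1.trans ?_
              rw [← le_centralizer_iff]
              exact hX'A.trans hAB'.comm
            have hCi : ¬ r ∣ (centralizer (X' : Set G)).index := by
              intro h
              apply htidx r hr hrτ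
              rw [← H1.index_conj_smul x Ht]
              exact h.trans (Subgroup.index_dvd_of_le hHtC)
            apply hyX'C
            set N := normalizer (X' : Set G) with hNdef
            set C := centralizer (X' : Set G) with hCdef
            have hCN : C ≤ N := centralizer_le_normalizer _
            haveI : (C.subgroupOf N).Normal := by
              rw [Subgroup.normal_subgroupOf_iff_le_normalizer hCN]
              exact nrm_le_nrm_cent _
            have hi : ¬ r ∣ (C.subgroupOf N).index := fun h => hCi (h.trans (Subgroup.relIndex_dvd_index_of_le hCN))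
            have h2 : (⟨(y : G), hyX'⟩ : N) ∈ C.subgroupOf N := by
              rw [← QuotientGroup.eq_one_iff, ← orderOf_eq_one_iff]
              have h3 : orderOf ((⟨(y : G), hyX'⟩ : N) : N ⧸ C.subgroupOf N) ∣ r ^ k := by
                apply orderOf_dvd_of_pow_eq_one
                rw [← QuotientGroup.mk_pow, QuotientGroup.eq_one_iff]
                have h4 : (⟨(y : G), hyX'⟩ : N) ^ r ^ k = 1 := by
                  apply Subtype.ext
                  show (y : G) ^ r ^ k = 1
                  rw [← hyG, pow_orderOf_eq_one]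
                rw [h4]; exact one_mem _
              have h5 : orderOf ((⟨(y : G), hyX'⟩ : N) : N ⧸ C.subgroupOf N) ∣ (C.subgroupOf N).index := by
                rw [Subgroup.index_eq_card]; exact orderOf_dvd_natCard _
              exact Nat.eq_one_of_dvd_coprimes (Nat.Coprime.pow_left k ((Nat.Prime.coprime_iff_not_dvd hr).2 hi)) h3 h5
            exact h2
        · exfalso
          have hYK : X' ⊔ zpowers (y : G) ≤ K := sup_le hX'K (by rw [zpowers_le]; exact y.2)
          obtain ⟨x, hx⟩ := hprop _ (lt_of_le_of_ne hYK hY)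
          exact hcomm_of x (le_sup_left.trans hx) (hx (Subgroup.mem_sup_right (mem_zpowers _)))
    obtain ⟨q1, hq1σ, hq1, L, hLK, hKL, hLc, hLi, hLne⟩ := claim
    haveI : Fact q1.Prime := ⟨hq1⟩
    obtain ⟨x, hx⟩ := hprop L (lt_of_le_of_ne hLK hLne)
    obtain ⟨A, B, hAB, -⟩ := hdec q1 hq1σ hq1
    obtain ⟨y, hy⟩ := finish (hAB.conj x) hLK hKL hLc hLi hx
    refine ⟨y⁻¹ * x, ?_⟩
    rw [← H1.conj_smul_smul, ← H1.conj_smul_le_conj_smul_iff (g := y), H1.conj_smul_smul y _ (MulAut.conj x • H),
      mul_inv_cancel, H1.conj_one_smul]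
    exact hy

end Cfsg.Agent.H25.DPi
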