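import Cfsg.Agent.H1.Chief
import Mathlib

/-!
# Elementary abelian 2-groups acting on odd order Fitting subgroups
-/

set_option autoImplicit false
set_option linter.style.haveILetI false

namespace Cfsg.Agent.H25

open Subgroup
open scoped commutatorElement

variable {G : Type*} [Group G] [Finite G]

/-- eigenvectors for groups of exponent two -/
theorem exists_eigen (X : Subgroup G) (hX : ∀ t ∈ X, t * t = 1) (A V₀ : Subgroup G) (hAV₀ : A < V₀)
    (hXA : ∀ t ∈ X, ∀ a ∈ A, t * a * t⁻¹ ∈ A) (hXV₀ : ∀ t ∈ X, ∀ a ∈ V₀, t * a * t⁻¹ ∈ V₀)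
    (hcom₀ : ∀ u ∈ V₀, ∀ v ∈ V₀, u * v * u⁻¹ * v⁻¹ ∈ A) :
    ∃ u ∈ V₀, u ∉ A ∧ ∀ t ∈ X, t * u * t⁻¹ * u⁻¹ ∈ A ∨ t * u * t⁻¹ * u ∈ A := by
  classical
  have hXc : ∀ s ∈ X, ∀ t ∈ X, s * t = t * s := by
    intro s hs t ht
    have h1 := hX _ (mul_mem hs ht)
    have h2 : s⁻¹ = s := inv_eq_of_mul_eq_one_left (hX s hs)
    have h3 : t⁻¹ = t := inv_eq_of_mul_eq_one_left (hX t ht)
    have h4 : (s * t)⁻¹ = s * t := inv_eq_of_mul_eq_one_left h1
    rw [← h4, mul_inv_rev, h2, h3]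
  obtain ⟨V, ⟨hAV, hVV₀, hXV⟩, hmin⟩ := exists_minimalFor_of_wellFoundedLT
    (fun V : Subgroup G => A < V ∧ V ≤ V₀ ∧ ∀ t ∈ X, ∀ a ∈ V, t * a * t⁻¹ ∈ V) (fun V => V)
    ⟨V₀, hAV₀, le_rfl, hXV₀⟩
  have hmin' : ∀ W : Subgroup G, A ≤ W → W ≤ V → (∀ t ∈ X, ∀ a ∈ W, t * a * t⁻¹ ∈ W) → W = A ∨ W = V := by
    intro W h1 h2 h3
    rcases h1.eq_or_lt with h4 | h4
    · exact Or.inl h4.symm
    · right
      exact le_antisymm h2 (hmin ⟨h4, h2.trans hVV₀, h3⟩ h2)
  have hcom : ∀ u ∈ V, ∀ v ∈ V, u * v * u⁻¹ * v⁻¹ ∈ A := fun u hu v hv => hcom₀ u (hVV₀ hu) v (hVV₀ hv)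
  haveI hN : (A.subgroupOf V).Normal := by
    constructor
    intro a ha g
    rw [mem_subgroupOf] at ha ⊢
    have h1 := hcom g g.2 a a.2
    have : ((g * a * g⁻¹ : V) : G) = (g * a * (g : G)⁻¹ * (a : G)⁻¹) * a := by push_cast; group
    rw [this]
    exact mul_mem h1 ha
  letI : CommGroup (V ⧸ A.subgroupOf V) :=
    { (inferInstance : Group (V ⧸ A.subgroupOf V)) with
      mul_comm := by
        intro a b
        obtain ⟨a, rfl⟩ := QuotientGroup.mk_surjective a
        obtain ⟨b, rfl⟩ := QuotientGroup.mk_surjective b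
        rw [← QuotientGroup.mk_mul, ← QuotientGroup.mk_mul, QuotientGroup.eq, mem_subgroupOf]
        have h1 := hcom _ (inv_mem b.2) _ (inv_mem a.2)
        have : (((a * b)⁻¹ * (b * a) : V) : G) = (b : G)⁻¹ * (a : G)⁻¹ * (b : G)⁻¹⁻¹ * (a : G)⁻¹⁻¹ := by
          push_cast; group
        rw [this]; exact h1 }
  have hAleV := hAV.le
  -- for each t: plus or minus
  have key : ∀ t ∈ X, (∀ u ∈ V, t * u * t⁻¹ * u⁻¹ ∈ A) ∨ (∀ u ∈ V, t * u * t⁻¹ * u ∈ A) := by
    intro t ht
    let c : V →* V :=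
      { toFun := fun v => ⟨t * v * t⁻¹, hXV t ht v v.2⟩
        map_one' := Subtype.ext (by simp)
        map_mul' := fun a b => Subtype.ext (by push_cast; group) }
    let π : V →* V ⧸ A.subgroupOf V := QuotientGroup.mk' (A.subgroupOf V)
    let φp : V →* V ⧸ A.subgroupOf V := (π.comp c) * π⁻¹
    let φm : V →* V ⧸ A.subgroupOf V := (π.comp c) * π
    have hp : ∀ v : V, v ∈ φp.ker ↔ t * v * t⁻¹ * (v : G)⁻¹ ∈ A := by
      intro v
      rw [MonoidHom.mem_ker]
      have : φp v = ((c v * v⁻¹ : V) : V ⧸ A.subgroupOf V) := rfl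
      rw [this, QuotientGroup.eq_one_iff, mem_subgroupOf]
      rfl
    have hm : ∀ v : V, v ∈ φm.ker ↔ t * v * t⁻¹ * (v : G) ∈ A := by
      intro v
      rw [MonoidHom.mem_ker]
      have : φm v = ((c v * v : V) : V ⧸ A.subgroupOf V) := rfl
      rw [this, QuotientGroup.eq_one_iff, mem_subgroupOf]
      rfl
    have hp' : ∀ v, v ∈ φp.ker.map V.subtype ↔ v ∈ V ∧ t * v * t⁻¹ * v⁻¹ ∈ A := by
      intro v
      constructor
      · rintro ⟨w, hw, rfl⟩
        exact ⟨w.2, (hp w).1 hw⟩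
      · rintro ⟨h1, h2⟩
        exact ⟨⟨v, h1⟩, (hp ⟨v, h1⟩).2 h2, rfl⟩
    have hm' : ∀ v, v ∈ φm.ker.map V.subtype ↔ v ∈ V ∧ t * v * t⁻¹ * v ∈ A := by
      intro v
      constructor
      · rintro ⟨w, hw, rfl⟩
        exact ⟨w.2, (hm w).1 hw⟩
      · rintro ⟨h1, h2⟩
        exact ⟨⟨v, h1⟩, (hm ⟨v, h1⟩).2 h2, rfl⟩
    have hXt : ∀ s ∈ X, ∀ v : G, t * (s * v * s⁻¹) * t⁻¹ = s * (t * v * t⁻¹) * s⁻¹ := by
      intro s hs v
      have h1 := hXc s hs t ht
      have h2 : s⁻¹ * t⁻¹ = t⁻¹ * s⁻¹ := by rw [← mul_inv_rev, ← mul_inv_rev, h1]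
      calc t * (s * v * s⁻¹) * t⁻¹ = (t * s) * v * (s⁻¹ * t⁻¹) := by group
        _ = (s * t) * v * (t⁻¹ * s⁻¹) := by rw [h1, h2]
        _ = _ := by group
    have hpX : ∀ s ∈ X, ∀ a ∈ φp.ker.map V.subtype, s * a * s⁻¹ ∈ φp.ker.map V.subtype := by
      intro s hs a ha
      rw [hp'] at ha ⊢
      refine ⟨hXV s hs a ha.1, ?_⟩
      rw [hXt s hs]
      have := hXA s hs _ ha.2
      have e : s * (t * a * t⁻¹) * s⁻¹ * (s * a * s⁻¹)⁻¹ = s * (t * a * t⁻¹ * a⁻¹) * s⁻¹ := by group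
      rw [e]; exact this
    have hmX : ∀ s ∈ X, ∀ a ∈ φm.ker.map V.subtype, s * a * s⁻¹ ∈ φm.ker.map V.subtype := by
      intro s hs a ha
      rw [hm'] at ha ⊢
      refine ⟨hXV s hs a ha.1, ?_⟩
      rw [hXt s hs]
      have := hXA s hs _ ha.2
      have e : s * (t * a * t⁻¹) * s⁻¹ * (s * a * s⁻¹) = s * (t * a * t⁻¹ * a) * s⁻¹ := by group
      rw [e]; exact this
    have hAp : A ≤ φp.ker.map V.subtype := by
      intro a ha
      rw [hp']
      exact ⟨hAleV ha, mul_mem (hXA t ht a ha) (inv_mem ha)⟩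
    have hAm : A ≤ φm.ker.map V.subtype := by
      intro a ha
      rw [hm']
      exact ⟨hAleV ha, mul_mem (hXA t ht a ha) ha⟩
    rcases hmin' _ hAp (map_subtype_le _) hpX with h1 | h1
    · rcases hmin' _ hAm (map_subtype_le _) hmX with h2 | h2
      · exfalso
        apply hAV.not_ge
        intro u hu
        -- v = u * t u t⁻¹ is in the plus part
        have hv : u * (t * u * t⁻¹) ∈ φp.ker.map V.subtype := by
          rw [hp']
          refine ⟨mul_mem hu (hXV t ht u hu), ?_⟩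
          have htt := hX t ht
          have hti : t⁻¹ = t := inv_eq_of_mul_eq_one_left htt
          have e : t * (u * (t * u * t⁻¹)) * t⁻¹ = (t * u * t⁻¹) * u := by
            calc t * (u * (t * u * t⁻¹)) * t⁻¹ = (t * u * t⁻¹) * (t * t) * u * (t * t)⁻¹ := by group
              _ = _ := by rw [htt]; group
          rw [e]
          have h3 := hcom _ (hXV t ht u hu) _ hu
          have e2 : t * u * t⁻¹ * u * (u * (t * u * t⁻¹))⁻¹ = (t * u * t⁻¹) * u * (t * u * t⁻¹)⁻¹ * u⁻¹ := by group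
          rw [e2]; exact h3
        rw [h1] at hv
        have hu2 : u ∈ φm.ker.map V.subtype := by
          rw [hm']
          refine ⟨hu, ?_⟩
          -- (t u t⁻¹) u  ≡ u (t u t⁻¹)
          have h3 := hcom _ (hXV t ht u hu) _ hu
          have e : t * u * t⁻¹ * u = ((t * u * t⁻¹) * u * (t * u * t⁻¹)⁻¹ * u⁻¹) * (u * (t * u * t⁻¹)) := by group
          rw [e]
          exact mul_mem h3 hv
        rwa [h2] at hu2
      · right
        intro u hu
        rw [← h2] at hu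
        exact ((hm' u).1 hu).2
    · left
      intro u hu
      rw [← h1] at hu
      exact ((hp' u).1 hu).2
  obtain ⟨u, hu, huA⟩ := SetLike.exists_of_lt hAV
  refine ⟨u, hVV₀ hu, huA, ?_⟩
  intro t ht
  rcases key t ht with h | h
  · exact Or.inl (h u hu)
  · exact Or.inr (h u hu)

open Cfsg in
/-- the maximal invariant abelian subgroup of the Fitting subgroup -/
theorem exists_abelian_faithful (hs : Group.IsSolvable G) (hF : Odd (Nat.card (fittingSubgroup G)))
    (X : Subgroup G) (hX : ∀ t ∈ X, t * t = 1) :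
    ∃ A : Subgroup G, A ≤ fittingSubgroup G ∧ (∀ a ∈ A, ∀ b ∈ A, a * b = b * a) ∧
      (∀ t ∈ X, ∀ a ∈ A, t * a * t⁻¹ ∈ A) ∧ ∀ x ∈ X, (∀ a ∈ A, x * a = a * x) → x = 1 := by
  classical
  set F := fittingSubgroup G with hFdef
  haveI hFn : F.Normal := H1.fitting_normal G
  have hFnil : Group.IsNilpotent F := H1.fitting_isNilpotent G
  have hodd : ∀ f ∈ F, f * f = 1 → f = 1 := by
    intro f hf h
    have h1 : orderOf (⟨f, hf⟩ : F) ∣ 2 := orderOf_dvd_of_pow_eq_one (by rw [sq]; exact Subtype.ext h)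
    have h2 : orderOf (⟨f, hf⟩ : F) ∣ Nat.card F := orderOf_dvd_natCard _
    have h3 := Nat.dvd_gcd h1 h2
    rw [Nat.Coprime.gcd_eq_one (Nat.coprime_two_left.2 hF)] at h3
    have := orderOf_eq_one_iff.1 (Nat.dvd_one.1 h3)
    exact congrArg Subtype.val this
  obtain ⟨A, ⟨hAF, hAc, hXA⟩, hmax⟩ := exists_maximalFor_of_wellFoundedGT
    (fun A : Subgroup G => A ≤ F ∧ (∀ a ∈ A, ∀ b ∈ A, a * b = b * a) ∧ (∀ t ∈ X, ∀ a ∈ A, t * a * t⁻¹ ∈ A)) (fun A => A)
    ⟨⊥, bot_le, by simp, by simp⟩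
  refine ⟨A, hAF, hAc, hXA, ?_⟩
  -- self-centralizing in F
  have hCA : ∀ f ∈ F, (∀ a ∈ A, f * a = a * f) → f ∈ A := by
    intro f hf hfa
    by_contra hfA
    -- B = C_F(A)
    let B : Subgroup G := F ⊓ centralizer (A : Set G)
    have hB : ∀ g, g ∈ B ↔ g ∈ F ∧ ∀ a ∈ A, g * a = a * g := by
      intro g
      rw [mem_inf, mem_centralizer_iff]
      exact ⟨fun h => ⟨h.1, fun a ha => (h.2 a ha).symm⟩, fun h => ⟨h.1, fun a ha => (h.2 a ha).symm⟩⟩
    have hAB : A ≤ B := fun a ha => (hB a).2 ⟨hAF ha, fun b hb => hAc a ha b hb⟩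
    have hfB : f ∈ B := (hB f).2 ⟨hf, hfa⟩
    have hXB : ∀ t ∈ X, ∀ b ∈ B, t * b * t⁻¹ ∈ B := by
      intro t ht b hb
      rw [hB] at hb ⊢
      refine ⟨hFn.conj_mem b hb.1 t, fun a ha => ?_⟩
      have h1 : t⁻¹ * a * t ∈ A := by
        have := hXA t⁻¹ (inv_mem ht) a ha
        rwa [inv_inv] at this
      have h2 := hb.2 _ h1
      calc t * b * t⁻¹ * a = t * (b * (t⁻¹ * a * t)) * t⁻¹ := by group
        _ = t * ((t⁻¹ * a * t) * b) * t⁻¹ := by rw [h2]
        _ = _ := by group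
    -- V = {u ∈ B | [u,B] ≤ A}
    haveI hABn : (A.subgroupOf B).Normal := by
      constructor
      intro a ha g
      rw [mem_subgroupOf] at ha ⊢
      have h1 := ((hB g).1 g.2).2 a ha
      have : ((g * a * g⁻¹ : B) : G) = a := by
        push_cast
        rw [h1, mul_inv_cancel_right]
      rw [this]; exact ha
    have hBnil : Group.IsNilpotent (B ⧸ A.subgroupOf B) := by
      have h1 : Group.IsNilpotent B := by
        have h2 : B ≤ F := inf_le_left
        haveI := hFnil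
        exact Group.nilpotent_of_mulEquiv (subgroupOfEquivOfLe h2)
      haveI := h1
      infer_instance
    haveI : Nontrivial (B ⧸ A.subgroupOf B) := by
      refine ⟨⟨((⟨f, hfB⟩ : B) : B ⧸ A.subgroupOf B), 1, ?_⟩⟩
      intro h
      rw [QuotientGroup.eq_one_iff, mem_subgroupOf] at h
      exact hfA h
    haveI := hBnil
    have hZ : Nontrivial (center (B ⧸ A.subgroupOf B)) := (Subgroup.nontrivial_iff_ne_bot _).2 (Group.IsNilpotent.center_ne_bot _)
    let V : Subgroup G := ((center (B ⧸ A.subgroupOf B)).comap (QuotientGroup.mk' (A.subgroupOf B))).map B.subtype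
    have hV : ∀ g, g ∈ V ↔ ∃ hg : g ∈ B, ∀ b ∈ B, b * g * b⁻¹ * g⁻¹ ∈ A := by
      intro g
      constructor
      · rintro ⟨v, hv, rfl⟩
        refine ⟨v.2, fun b hb => ?_⟩
        have h1 : (QuotientGroup.mk' (A.subgroupOf B)) v ∈ center (B ⧸ A.subgroupOf B) := hv
        have h2 := (mem_center_iff.1 h1) ((⟨b, hb⟩ : B) : B ⧸ A.subgroupOf B)
        have h3 : (((⟨b, hb⟩ : B) * v * (⟨b, hb⟩ : B)⁻¹ * v⁻¹ : B) : B ⧸ A.subgroupOf B) = 1 := by
          have h4 : (((⟨b, hb⟩ : B) * v * (⟨b, hb⟩ : B)⁻¹ * v⁻¹ : B) : B ⧸ A.subgroupOf B) =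
            ((⟨b, hb⟩ : B) : B ⧸ A.subgroupOf B) * (QuotientGroup.mk' (A.subgroupOf B)) v *
              (((⟨b, hb⟩ : B) : B ⧸ A.subgroupOf B))⁻¹ * ((QuotientGroup.mk' (A.subgroupOf B)) v)⁻¹ := rfl
          rw [h4, h2]; group
        rw [QuotientGroup.eq_one_iff, mem_subgroupOf] at h3
        exact h3
      · rintro ⟨hg, h⟩
        refine ⟨⟨g, hg⟩, ?_, rfl⟩
        show (QuotientGroup.mk' (A.subgroupOf B)) ⟨g, hg⟩ ∈ center (B ⧸ A.subgroupOf B)
        rw [mem_center_iff]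
        intro q
        obtain ⟨⟨b, hb⟩, rfl⟩ := QuotientGroup.mk_surjective q
        have h3 : (((⟨b, hb⟩ : B) * ⟨g, hg⟩ * (⟨b, hb⟩ : B)⁻¹ * (⟨g, hg⟩ : B)⁻¹ : B) : B ⧸ A.subgroupOf B) = 1 := by
          rw [QuotientGroup.eq_one_iff, mem_subgroupOf]
          exact h b hb
        have h4 : (((⟨b, hb⟩ : B) * ⟨g, hg⟩ * (⟨b, hb⟩ : B)⁻¹ * (⟨g, hg⟩ : B)⁻¹ : B) : B ⧸ A.subgroupOf B) =
            ((⟨b, hb⟩ : B) : B ⧸ A.subgroupOf B) * (QuotientGroup.mk' (A.subgroupOf B)) ⟨g, hg⟩ *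
              (((⟨b, hb⟩ : B) : B ⧸ A.subgroupOf B))⁻¹ * ((QuotientGroup.mk' (A.subgroupOf B)) ⟨g, hg⟩)⁻¹ := rfl
        rw [h4] at h3
        rw [mul_inv_eq_one, mul_inv_eq_iff_eq_mul] at h3
        exact h3
    have hAV : A < V := by
      refine lt_of_le_of_ne ?_ ?_
      · intro a ha
        rw [hV]
        refine ⟨hAB ha, fun b hb => ?_⟩
        rw [((hB b).1 hb).2 a ha]
        have : a * b * b⁻¹ * a⁻¹ = 1 := by group
        rw [this]; exact one_mem _
      · intro h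
        obtain ⟨⟨q, hq⟩, hq1⟩ := exists_ne (1 : center (B ⧸ A.subgroupOf B))
        obtain ⟨v, rfl⟩ := QuotientGroup.mk_surjective q
        have hvV : (v : G) ∈ V := ⟨v, hq, rfl⟩
        rw [← h] at hvV
        apply hq1
        apply Subtype.ext
        show ((v : B) : B ⧸ A.subgroupOf B) = 1
        rw [QuotientGroup.eq_one_iff, mem_subgroupOf]
        exact hvV
    have hXV : ∀ t ∈ X, ∀ a ∈ V, t * a * t⁻¹ ∈ V := by
      intro t ht a ha
      rw [hV] at ha ⊢
      obtain ⟨ha1, ha2⟩ := ha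
      refine ⟨hXB t ht a ha1, fun b hb => ?_⟩
      have h1 : t⁻¹ * b * t ∈ B := by
        have := hXB t⁻¹ (inv_mem ht) b hb
        rwa [inv_inv] at this
      have h2 := hXA t ht _ (ha2 _ h1)
      have e : t * (t⁻¹ * b * t * a * (t⁻¹ * b * t)⁻¹ * a⁻¹) * t⁻¹ = b * (t * a * t⁻¹) * b⁻¹ * (t * a * t⁻¹)⁻¹ := by group
      rwa [e] at h2
    obtain ⟨u, huV, huA, hu⟩ := exists_eigen X hX A V hAV hXA hXV (by
      intro u hu v hv
      rw [hV] at hu hv
      exact hv.2 u hu.1)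
    -- A ⊔ <u>
    have huB : u ∈ B := ((hV u).1 huV).1
    have hua : ∀ a ∈ A, u * a = a * u := ((hB u).1 huB).2
    let D : Subgroup G :=
      { carrier := {g | ∃ a ∈ A, ∃ i : ℤ, g = a * u ^ i}
        one_mem' := ⟨1, one_mem _, 0, by simp⟩
        mul_mem' := by
          rintro _ _ ⟨a, ha, i, rfl⟩ ⟨b, hb, j, rfl⟩
          refine ⟨a * b, mul_mem ha hb, i + j, ?_⟩
          have h1 : u ^ i * b = b * u ^ i := (show Commute u b from hua b hb).zpow_left i
          rw [zpow_add]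
          calc a * u ^ i * (b * u ^ j) = a * (u ^ i * b) * u ^ j := by group
            _ = a * (b * u ^ i) * u ^ j := by rw [h1]
            _ = _ := by group
        inv_mem' := by
          rintro _ ⟨a, ha, i, rfl⟩
          refine ⟨a⁻¹, inv_mem ha, -i, ?_⟩
          have h1 : u ^ (-i) * a⁻¹ = a⁻¹ * u ^ (-i) := (show Commute u a⁻¹ from hua _ (inv_mem ha)).zpow_left (-i)
          rw [mul_inv_rev, ← zpow_neg, h1] }
    have hAD : A ≤ D := fun a ha => ⟨a, ha, 0, by simp⟩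
    have huD : u ∈ D := ⟨1, one_mem _, 1, by simp⟩
    have hDF : D ≤ F := by
      rintro _ ⟨a, ha, i, rfl⟩
      exact mul_mem (hAF ha) (zpow_mem ((hB u).1 huB).1 i)
    have hDc : ∀ a ∈ D, ∀ b ∈ D, a * b = b * a := by
      rintro _ ⟨a, ha, i, rfl⟩ _ ⟨b, hb, j, rfl⟩
      have c1 : Commute a b := hAc a ha b hb
      have c2 : Commute a (u ^ j) := ((show Commute u a from hua a ha).zpow_left j).symm
      have c3 : Commute (u ^ i) b := (show Commute u b from hua b hb).zpow_left i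
      have c4 : Commute (u ^ i) (u ^ j) := (Commute.refl u).zpow_zpow i j
      exact Commute.mul_left (c1.mul_right c2) (c3.mul_right c4)
    have hXD : ∀ t ∈ X, ∀ a ∈ D, t * a * t⁻¹ ∈ D := by
      rintro t ht _ ⟨a, ha, i, rfl⟩
      have e : t * (a * u ^ i) * t⁻¹ = (t * a * t⁻¹) * (t * u * t⁻¹) ^ i := by rw [conj_zpow]; group
      rw [e]
      refine mul_mem (hAD (hXA t ht a ha)) (zpow_mem ?_ i)
      rcases hu t ht with h | h
      · have e : t * u * t⁻¹ = (t * u * t⁻¹ * u⁻¹) * u := by group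
        rw [e]; exact mul_mem (hAD h) huD
      · have e : t * u * t⁻¹ = (t * u * t⁻¹ * u) * u⁻¹ := by group
        rw [e]; exact mul_mem (hAD h) (inv_mem huD)
    exact huA (hmax ⟨hDF, hDc, hXD⟩ hAD huD)
  -- faithful
  intro x hx hxA
  by_contra hx1
  have hxx := hX x hx
  have hxi : x⁻¹ = x := inv_eq_of_mul_eq_one_left hxx
  -- D = C_F(x)
  have hDall : ∀ f ∈ F, x * f = f * x := by
    by_contra hcon
    push Not at hcon
    obtain ⟨f0, hf0, hf0x⟩ := hcon
    let D : Subgroup F := (centralizer ({x} : Set G)).subgroupOf F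
    have hD : ∀ f : F, f ∈ D ↔ (f : G) * x = x * f := by
      intro f
      rw [mem_subgroupOf, mem_centralizer_singleton_iff]
    have hDne : D < ⊤ := by
      rw [lt_top_iff_ne_top]
      intro h
      have : (⟨f0, hf0⟩ : F) ∈ D := by rw [h]; trivial
      exact hf0x ((hD _).1 this).symm
    haveI := hFnil
    obtain ⟨⟨y, hyF⟩, hyN, hyD⟩ := SetLike.exists_of_lt (Group.normalizerCondition_of_isNilpotent D hDne)
    apply hyD
    rw [hD]
    -- w = y⁻¹ x y x⁻¹
    set w : G := y⁻¹ * (x * y * x⁻¹) with hw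
    have hwF : w ∈ F := mul_mem (inv_mem hyF) (hFn.conj_mem y hyF x)
    have hwA : w ∈ A := by
      apply hCA w hwF
      intro a ha
      have haD : (⟨a, hAF ha⟩ : F) ∈ D := (hD _).2 (hxA a ha).symm
      have h1 := (mem_normalizer_iff.1 hyN _).1 haD
      rw [hD] at h1
      have h2 : (y * a * y⁻¹) * x = x * (y * a * y⁻¹) := h1
      have h3 : x * a * x⁻¹ = a := by rw [hxA a ha]; group
      have h4 : (x * y * x⁻¹) * a * (x * y * x⁻¹)⁻¹ = y * a * y⁻¹ := by
        calc (x * y * x⁻¹) * a * (x * y * x⁻¹)⁻¹ = x * y * (x⁻¹ * a * x) * y⁻¹ * x⁻¹ := by group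
          _ = x * y * a * y⁻¹ * x⁻¹ := by
            have : x⁻¹ * a * x = a := by rw [mul_assoc, ← hxA a ha]; group
            rw [this]
          _ = (x * (y * a * y⁻¹)) * x⁻¹ := by group
          _ = y * a * y⁻¹ := by rw [← h2]; group
      calc w * a = y⁻¹ * ((x * y * x⁻¹) * a * (x * y * x⁻¹)⁻¹) * (x * y * x⁻¹) := by rw [hw]; group
        _ = y⁻¹ * (y * a * y⁻¹) * (x * y * x⁻¹) := by rw [h4]
        _ = a * w := by rw [hw]; group
    have hxw : x * w * x⁻¹ = w := by rw [hxA w hwA]; group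
    have hxy : x * y * x⁻¹ = y * w := by rw [hw]; group
    have hww : w * w = 1 := by
      have h1 : x * (x * y * x⁻¹) * x⁻¹ = y := by
        calc x * (x * y * x⁻¹) * x⁻¹ = (x * x) * y * (x * x)⁻¹ := by group
          _ = y := by rw [hxx]; group
      rw [hxy] at h1
      have h2 : x * (y * w) * x⁻¹ = (x * y * x⁻¹) * (x * w * x⁻¹) := by group
      rw [h2, hxy, hxw, mul_assoc] at h1
      exact mul_eq_left.1 h1
    have hw1 := hodd w hwF hww
    rw [hw1, mul_one] at hxy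
    show y * x = x * y
    calc y * x = (x * y * x⁻¹) * x := by rw [hxy]
      _ = x * y := by group
  have hxC : x ∈ centralizer (F : Set G) := by
    rw [mem_centralizer_iff]
    intro f hf
    exact (hDall f hf).symm
  have hxF := H1.centralizer_fitting_le hs hxC
  exact hx1 (hodd x hxF hxx)

omit [Finite G] in
theorem card_sup_of_comm (A B : Subgroup G) (h : ∀ a ∈ A, ∀ b ∈ B, a * b = b * a) (hAB : A ⊓ B = ⊥) :
    Nat.card (A ⊔ B : Subgroup G) = Nat.card A * Nat.card B := by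
  rw [← Nat.card_prod]
  symm
  apply Nat.card_congr
  refine Equiv.ofBijective (fun x : A × B => (⟨(x.1 : G) * x.2, mul_mem (mem_sup_left x.1.2) (mem_sup_right x.2.2)⟩ : (A ⊔ B : Subgroup G))) ⟨?_, ?_⟩
  · rintro ⟨⟨a, ha⟩, ⟨b, hb⟩⟩ ⟨⟨c, hc⟩, ⟨d, hd⟩⟩ hh
    have h1 : a * b = c * d := congrArg Subtype.val hh
    have h2 : c⁻¹ * a = d * b⁻¹ := by
      rw [inv_mul_eq_iff_eq_mul, ← mul_assoc, ← h1]; group
    have h3 : c⁻¹ * a ∈ A ⊓ B := Subgroup.mem_inf.2 ⟨mul_mem (inv_mem hc) ha, by rw [h2]; exact mul_mem hd (inv_mem hb)⟩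
    rw [hAB, mem_bot] at h3
    have h4 : a = c := (inv_mul_eq_one.1 h3).symm
    subst h4
    have h5 : b = d := mul_left_cancel h1
    subst h5
    rfl
  · rintro ⟨x, hx⟩
    have h2 : ∃ a ∈ A, ∃ b ∈ B, x = a * b := by
      let R : Subgroup G :=
        { carrier := {x | ∃ a ∈ A, ∃ b ∈ B, x = a * b}
          one_mem' := ⟨1, one_mem _, 1, one_mem _, by simp⟩
          mul_mem' := by
            rintro _ _ ⟨a, ha, b, hb, rfl⟩ ⟨c, hc, d, hd, rfl⟩
            refine ⟨a * c, mul_mem ha hc, b * d, mul_mem hb hd, ?_⟩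
            calc a * b * (c * d) = a * (b * c) * d := by group
              _ = a * (c * b) * d := by rw [h c hc b hb]
              _ = _ := by group
          inv_mem' := by
            rintro _ ⟨a, ha, b, hb, rfl⟩
            refine ⟨a⁻¹, inv_mem ha, b⁻¹, inv_mem hb, ?_⟩
            rw [mul_inv_rev, h _ (inv_mem ha) _ (inv_mem hb)] }
      have : A ⊔ B ≤ R := sup_le (fun a ha => ⟨a, ha, 1, one_mem _, by simp⟩) (fun b hb => ⟨1, one_mem _, b, hb, by simp⟩)
      exact this hx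
    obtain ⟨a, ha, b, hb, rfl⟩ := h2
    exact ⟨⟨⟨a, ha⟩, ⟨b, hb⟩⟩, rfl⟩

/-- the inductive selection -/
theorem exists_family (A : Subgroup G) (hodd : ∀ f ∈ A, f * f = 1 → f = 1)
    (hAc : ∀ a ∈ A, ∀ b ∈ A, a * b = b * a) (X : Subgroup G) (hX : ∀ t ∈ X, t * t = 1)
    (hXA : ∀ t ∈ X, ∀ a ∈ A, t * a * t⁻¹ ∈ A) (hfaith : ∀ x ∈ X, (∀ a ∈ A, x * a = a * x) → x = 1)
    (n : ℕ) (hXn : Nat.card X = 2 ^ n) (k : ℕ) (hk : k ≤ n) :
    ∃ f : Fin k → Subgroup G, (∀ i, (Nat.card (f i)).Prime) ∧ (∀ i, f i ≤ A) ∧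
      (∀ i, ∀ t ∈ X, ∀ a ∈ f i, t * a * t⁻¹ ∈ f i) ∧
      Nat.card ↥(⨆ i, f i) = ∏ i, Nat.card ↥(f i) ∧
      Nat.card ↥(X ⊓ centralizer ((⨆ i, f i : Subgroup G) : Set G)) = 2 ^ (n - k) := by
  classical
  induction k with
  | zero =>
    refine ⟨fun i => i.elim0, fun i => i.elim0, fun i => i.elim0, fun i => i.elim0, ?_, ?_⟩
    · rw [iSup_of_empty, card_bot]; simp
    · rw [iSup_of_empty]
      have : X ⊓ centralizer (((⊥ : Subgroup G)) : Set G) = X := by
        apply inf_eq_left.2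
        intro x _
        rw [mem_centralizer_iff]
        intro y hy
        have : y = 1 := mem_bot.1 hy
        rw [this, one_mul, mul_one]
      rw [this, hXn, Nat.sub_zero]
  | succ k ih =>
    obtain ⟨f, hf1, hf2, hf3, hf4, hf5⟩ := ih (by omega)
    set B : Subgroup G := ⨆ i, f i with hB
    set C : Subgroup G := X ⊓ centralizer (B : Set G) with hC
    have hBA : B ≤ A := iSup_le hf2
    -- pick x
    have hCne : C ≠ ⊥ := by
      intro h
      rw [h, card_bot] at hf5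
      have : 1 < 2 ^ (n - k) := Nat.one_lt_pow (by omega) (by norm_num)
      omega
    obtain ⟨x, hxC, hx1⟩ : ∃ x : G, x ∈ C ∧ x ≠ 1 := by
      obtain ⟨a, ha⟩ := Subgroup.ne_bot_iff_exists_ne_one.1 hCne
      exact ⟨a, a.2, fun hh => ha (Subtype.ext hh)⟩
    have hxX : x ∈ X := hxC.1
    have hxx := hX x hxX
    have hxi : x⁻¹ = x := inv_eq_of_mul_eq_one_left hxx
    -- W
    let W : Subgroup G :=
      { carrier := {a | a ∈ A ∧ x * a * x⁻¹ = a⁻¹}
        one_mem' := ⟨one_mem _, by simp⟩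
        mul_mem' := by
          rintro a b ⟨ha, ha'⟩ ⟨hb, hb'⟩
          refine ⟨mul_mem ha hb, ?_⟩
          have : x * (a * b) * x⁻¹ = (x * a * x⁻¹) * (x * b * x⁻¹) := by group
          rw [this, ha', hb', mul_inv_rev, hAc _ (inv_mem ha) _ (inv_mem hb)]
        inv_mem' := by
          rintro a ⟨ha, ha'⟩
          refine ⟨inv_mem ha, ?_⟩
          have : x * a⁻¹ * x⁻¹ = (x * a * x⁻¹)⁻¹ := by group
          rw [this, ha'] }
    have hXc : ∀ s ∈ X, ∀ t ∈ X, s * t = t * s := by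
      intro s hs t ht
      have h1 := hX _ (mul_mem hs ht)
      have h2 : s⁻¹ = s := inv_eq_of_mul_eq_one_left (hX s hs)
      have h3 : t⁻¹ = t := inv_eq_of_mul_eq_one_left (hX t ht)
      have h4 : (s * t)⁻¹ = s * t := inv_eq_of_mul_eq_one_left h1
      rw [← h4, mul_inv_rev, h2, h3]
    have hXt : ∀ s ∈ X, ∀ t ∈ X, ∀ v : G, t * (s * v * s⁻¹) * t⁻¹ = s * (t * v * t⁻¹) * s⁻¹ := by
      intro s hs t ht v
      have h1 := hXc s hs t ht
      have h2 : s⁻¹ * t⁻¹ = t⁻¹ * s⁻¹ := by rw [← mul_inv_rev, ← mul_inv_rev, h1]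
      calc t * (s * v * s⁻¹) * t⁻¹ = (t * s) * v * (s⁻¹ * t⁻¹) := by group
        _ = (s * t) * v * (t⁻¹ * s⁻¹) := by rw [h1, h2]
        _ = _ := by group
    have hWX : ∀ t ∈ X, ∀ a ∈ W, t * a * t⁻¹ ∈ W := by
      rintro t ht a ⟨ha, ha'⟩
      refine ⟨hXA t ht a ha, ?_⟩
      rw [hXt t ht x hxX, ha']; group
    have hWne : (⊥ : Subgroup G) < W := by
      rw [bot_lt_iff_ne_bot]
      intro h
      apply hx1
      apply hfaith x hxX
      intro a ha
      have h1 : a⁻¹ * (x * a * x⁻¹) ∈ W := by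
        refine ⟨mul_mem (inv_mem ha) (hXA x hxX a ha), ?_⟩
        calc x * (a⁻¹ * (x * a * x⁻¹)) * x⁻¹ = (x * a⁻¹ * x⁻¹) * ((x * x) * a * (x * x)⁻¹) := by group
          _ = (x * a * x⁻¹)⁻¹ * a := by rw [hxx]; group
          _ = _ := by group
      rw [h, mem_bot, inv_mul_eq_one] at h1
      rw [eq_mul_inv_iff_mul_eq] at h1
      exact h1.symm
    obtain ⟨u, huW, hu1, hu⟩ := exists_eigen X hX ⊥ W hWne (by
        intro t ht a ha
        rw [mem_bot] at ha ⊢
        rw [ha]; group) hWX (by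
        intro a ha b hb
        rw [mem_bot, hAc a ha.1 b hb.1]; group)
    rw [mem_bot] at hu1
    -- prime order power
    have huo : orderOf u ≠ 1 := fun h => hu1 (orderOf_eq_one_iff.1 h)
    obtain ⟨p, hp, hpu⟩ := Nat.exists_prime_and_dvd huo
    set v : G := u ^ (orderOf u / p) with hv
    have hvo : orderOf v = p := by
      rw [hv]; exact orderOf_pow_orderOf_div (orderOf_pos u).ne' hpu
    have hvW : v ∈ W := pow_mem huW _
    have hv1 : v ≠ 1 := by
      intro h; rw [h, orderOf_one] at hvo; exact hp.one_lt.ne hvo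
    have hvt : ∀ t ∈ X, t * v * t⁻¹ = v ∨ t * v * t⁻¹ = v⁻¹ := by
      intro t ht
      have e : t * v * t⁻¹ = (t * u * t⁻¹) ^ (orderOf u / p) := by rw [hv, conj_pow]
      rcases hu t ht with h | h
      · left
        rw [mem_bot, mul_inv_eq_one] at h
        rw [e, h]
      · right
        rw [mem_bot] at h
        rw [e, eq_inv_of_mul_eq_one_left h, inv_pow]
    have hvA : v ∈ A := hvW.1
    have hxv : x * v * x⁻¹ = v⁻¹ := hvW.2
    set U : Subgroup G := zpowers v with hU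
    have hUA : U ≤ A := zpowers_le.2 hvA
    have hUX : ∀ t ∈ X, ∀ a ∈ U, t * a * t⁻¹ ∈ U := by
      rintro t ht _ ⟨i, rfl⟩
      show t * v ^ i * t⁻¹ ∈ U
      rw [← conj_zpow]
      rcases hvt t ht with h | h <;> rw [h]
      · exact zpow_mem (mem_zpowers v) i
      · exact zpow_mem (inv_mem (mem_zpowers v)) i
    have hBU : U ⊓ B = ⊥ := by
      rw [eq_bot_iff]
      rintro y ⟨hy1, hy2⟩
      have h1 : x * y * x⁻¹ = y⁻¹ := by
        obtain ⟨i, rfl⟩ := hy1
        show x * v ^ i * x⁻¹ = (v ^ i)⁻¹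
        rw [← conj_zpow, hxv, inv_zpow]
      have h2 : x * y * x⁻¹ = y := by
        have := (mem_centralizer_iff.1 hxC.2) y hy2
        rw [← this]; group
      rw [mem_bot]
      apply hodd y (hBA hy2)
      rw [h2] at h1
      nth_rewrite 1 [h1]
      exact inv_mul_cancel y
    refine ⟨Fin.cons U f, ?_, ?_, ?_, ?_, ?_⟩
    · intro i
      refine Fin.cases ?_ ?_ i
      · rw [Fin.cons_zero, hU, Nat.card_zpowers, hvo]; exact hp
      · intro j; rw [Fin.cons_succ]; exact hf1 j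
    · intro i
      refine Fin.cases ?_ ?_ i
      · rw [Fin.cons_zero]; exact hUA
      · intro j; rw [Fin.cons_succ]; exact hf2 j
    · intro i
      refine Fin.cases ?_ ?_ i
      · rw [Fin.cons_zero]; exact hUX
      · intro j; rw [Fin.cons_succ]; exact hf3 j
    all_goals
      have hsup : (⨆ i, (Fin.cons U f : Fin (k + 1) → Subgroup G) i) = U ⊔ B := by
        apply le_antisymm
        · apply iSup_le
          intro i
          refine Fin.cases ?_ ?_ i
          · rw [Fin.cons_zero]; exact le_sup_left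
          · intro j; rw [Fin.cons_succ]; exact (le_iSup f j).trans le_sup_right
        · apply sup_le
          · have := le_iSup (Fin.cons U f : Fin (k + 1) → Subgroup G) 0
            rwa [Fin.cons_zero] at this
          · apply iSup_le
            intro j
            have := le_iSup (Fin.cons U f : Fin (k + 1) → Subgroup G) j.succ
            rwa [Fin.cons_succ] at this
      rw [hsup]
    · rw [card_sup_of_comm U B (fun a ha b hb => hAc a (hUA ha) b (hBA hb)) hBU, Fin.prod_univ_succ, Fin.cons_zero, hf4]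
      congr 1
    · -- index two
      have h1 : X ⊓ centralizer ((U ⊔ B : Subgroup G) : Set G) = C ⊓ centralizer ({v} : Set G) := by
        ext t
        constructor
        · rintro ⟨ht1, ht2⟩
          have ht2' : t ∈ centralizer ((U ⊔ B : Subgroup G) : Set G) := ht2
          rw [mem_centralizer_iff] at ht2'
          refine Subgroup.mem_inf.2 ⟨Subgroup.mem_inf.2 ⟨ht1, ?_⟩, ?_⟩
          · rw [mem_centralizer_iff]
            intro b hb
            exact ht2' b (mem_sup_right hb)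
          · rw [mem_centralizer_singleton_iff]
            exact (ht2' v (mem_sup_left (mem_zpowers v))).symm
        · rintro ⟨⟨ht1, ht2⟩, ht3⟩
          have ht3' : t ∈ centralizer ({v} : Set G) := ht3
          rw [mem_centralizer_singleton_iff] at ht3'
          refine Subgroup.mem_inf.2 ⟨ht1, ?_⟩
          have hle : U ⊔ B ≤ centralizer ({t} : Set G) := by
            apply sup_le
            · rw [hU, zpowers_le, mem_centralizer_singleton_iff]; exact ht3'.symm
            · intro b hb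
              rw [mem_centralizer_singleton_iff]
              exact (mem_centralizer_iff.1 ht2) b hb
          rw [mem_centralizer_iff]
          intro b hb
          have := hle hb
          rw [mem_centralizer_singleton_iff] at this
          exact this
      rw [h1]
      have hvinv : v⁻¹ ≠ v := by
        intro h
        apply hv1
        apply hodd v hvA
        nth_rewrite 1 [← h]
        exact inv_mul_cancel v
      have h2 : (C ⊓ centralizer ({v} : Set G)).relIndex C = 2 := by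
        rw [inf_relIndex_left, relIndex, index_eq_two_iff]
        refine ⟨⟨x, hxC⟩, ?_⟩
        rintro ⟨b, hb⟩
        rw [mem_subgroupOf, mem_subgroupOf]
        show Xor (b * x ∈ centralizer ({v} : Set G)) (b ∈ centralizer ({v} : Set G))
        have hc : ∀ t : G, t ∈ centralizer ({v} : Set G) ↔ t * v * t⁻¹ = v := by
          intro t
          rw [mem_centralizer_singleton_iff, mul_inv_eq_iff_eq_mul]
        rw [hc, hc]
        have e : b * x * v * (b * x)⁻¹ = (b * v * b⁻¹)⁻¹ := by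
          calc b * x * v * (b * x)⁻¹ = b * (x * v * x⁻¹) * b⁻¹ := by group
            _ = b * v⁻¹ * b⁻¹ := by rw [hxv]
            _ = _ := by group
        rw [e]
        rcases hvt b hb.1 with h | h
        · right
          refine ⟨h, ?_⟩
          rw [h]; exact hvinv
        · left
          refine ⟨?_, ?_⟩
          · rw [h, inv_inv]
          · rw [h]; exact hvinv
      have h3 := card_mul_index ((C ⊓ centralizer ({v} : Set G)).subgroupOf C)
      have h4 : ((C ⊓ centralizer ({v} : Set G)).subgroupOf C).index = 2 := h2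
      rw [h4, Nat.card_congr (subgroupOfEquivOfLe (inf_le_left : C ⊓ centralizer ({v} : Set G) ≤ C)).toEquiv, hf5] at h3
      have h5 : n - k = (n - (k + 1)) + 1 := by omega
      rw [h5, pow_succ] at h3
      exact Nat.eq_of_mul_eq_mul_right (by norm_num) h3

end Cfsg.Agent.H25
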