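import Mathlib
import Cfsg.Agent.H23.Coprime4
import Cfsg.Agent.H2.Basic
import Cfsg.Agent.H2.Cyc

/-!
Hughes-Thompson: fixed point free actions outside of a subgroup.
-/

namespace Cfsg.Agent.H25

open Subgroup

/-- generation by centralizers for a noncyclic abelian group of automorphisms -/
theorem gen_mulAut {Q : Type*} [Group Q] [Finite Q] {A : Subgroup (MulAut Q)}
    (hA : IsMulCommutative A) (hnc : ¬ IsCyclic A) (hcop : (Nat.card A).Coprime (Nat.card Q))
    {K : Subgroup Q} (hK : ∀ a ∈ A, a ≠ 1 → ∀ y : Q, a y = y → y ∈ K) : K = ⊤ := by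
  classical
  set φ : MulAut Q →* MulAut Q := MonoidHom.id _ with hφ
  let X := Q ⋊[φ] (MulAut Q)
  haveI : Finite (MulAut Q) := inferInstance
  haveI : Finite X := Finite.of_equiv _ (SemidirectProduct.equivProd (φ := φ)).symm
  set A' : Subgroup X := A.map (SemidirectProduct.inr : MulAut Q →* X) with hA'
  set G' : Subgroup X := (SemidirectProduct.inl : Q →* X).range with hG'
  have hinr : Function.Injective (SemidirectProduct.inr : MulAut Q →* X) := SemidirectProduct.inr_injective
  have hinl : Function.Injective (SemidirectProduct.inl : Q →* X) := SemidirectProduct.inl_injective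
  have eA : A ≃* A' := A.equivMapOfInjective _ hinr
  have hcA : Nat.card A' = Nat.card A := (Nat.card_congr eA.toEquiv).symm
  have hcG : Nat.card G' = Nat.card Q := (Nat.card_congr (MonoidHom.ofInjective hinl).toEquiv).symm
  have h1 := H23.iSup_centralizer_of_not_isCyclic (A := A') (G := G')
    (by
      haveI := hA
      rw [hA']; infer_instance)
    (fun h => hnc (by
      haveI := h
      exact isCyclic_of_surjective eA.symm eA.symm.surjective))
    (by
      rintro _ ⟨a, _, rfl⟩
      haveI : G'.Normal := by
        rw [hG', SemidirectProduct.range_inl_eq_ker_rightHom]; infer_instance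
      rw [normalizer_eq_top]; exact mem_top _)
    (by rw [hcA, hcG]; exact hcop)
  rw [eq_top_iff]
  intro y _
  have h2 : G' ≤ K.map (SemidirectProduct.inl : Q →* X) := by
    conv_lhs => rw [← h1]
    refine iSup_le ?_
    rintro ⟨a, haA, ha1⟩ x ⟨hxG, hxC⟩
    obtain ⟨b, hb, rfl⟩ := haA
    obtain ⟨z, rfl⟩ := hxG
    refine ⟨z, hK b hb (fun h => ha1 (by simp [h])) z ?_, rfl⟩
    have h3 := mem_centralizer_singleton_iff.mp hxC
    have h4 : (SemidirectProduct.inl (b z) : X) = SemidirectProduct.inl z := by
      have h5 := SemidirectProduct.inl_aut (φ := φ) b z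
      have h6 : (φ b) z = b z := rfl
      rw [← h6, h5]
      have h7 : (SemidirectProduct.inr b : X) * SemidirectProduct.inl z =
        SemidirectProduct.inl z * SemidirectProduct.inr b := by
        first | exact h3 | exact h3.symm
      rw [h7, map_inv, mul_inv_cancel_right]
    exact hinl h4
  obtain ⟨z, hz, h⟩ := h2 (⟨y, rfl⟩ : SemidirectProduct.inl y ∈ G')
  rwa [← hinl h]

/-- a `p`-group of automorphisms in which all elements outside of a proper normal subgroup have
order `p` and act fixed point freely has order `p` -/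
theorem card_of_fpf_outside {Q : Type*} [Group Q] [Finite Q] [Nontrivial Q] {p : ℕ} [hp : Fact p.Prime]
    (hpQ : p.Coprime (Nat.card Q)) (P P0 : Subgroup (MulAut Q)) (hP : IsPGroup p P) (hP0 : P0 ≤ P)
    (hlt : P0 ≠ P) (hnorm : P ≤ normalizer (P0 : Set (MulAut Q)))
    (h : ∀ a ∈ P, a ∉ P0 → a ^ p = 1 ∧ ∀ y, a y = y → y = 1) : P0 = ⊥ ∧ Nat.card P = p := by
  classical
  haveI : Finite (MulAut Q) := inferInstance
  -- choose z central
  obtain ⟨z, hzP, hz1, hzp, hzc, hzP0⟩ : ∃ z ∈ P, z ≠ 1 ∧ z ^ p = 1 ∧ (∀ a ∈ P, a * z = z * a) ∧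
      (P0 ≠ ⊥ → z ∈ P0) := by
    set N : Subgroup P := if P0 = ⊥ then ⊤ else P0.subgroupOf P with hN
    have hNn : N.Normal := by
      by_cases h0 : P0 = ⊥
      · rw [hN, if_pos h0]; infer_instance
      · rw [hN, if_neg h0]; exact normal_subgroupOf_of_le_normalizer hnorm
    have hNb : N ≠ ⊥ := by
      by_cases h0 : P0 = ⊥
      · rw [hN, if_pos h0]
        intro h1
        apply hlt
        rw [h0, eq_comm, eq_bot_iff]
        intro x hx
        have h2 : (⟨x, hx⟩ : P) ∈ (⊤ : Subgroup P) := mem_top _
        rw [h1, mem_bot] at h2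
        exact congrArg Subtype.val h2
      · rw [hN, if_neg h0]
        intro h1
        rw [subgroupOf_eq_bot] at h1
        exact h0 (h1.eq_bot_of_le hP0)
    have h1 := H2.inf_center_ne_bot_of_normal hP N hNb
    obtain ⟨w, hw⟩ := exists_prime_orderOf_dvd_card' (G := ↥(N ⊓ center P)) p (by
      have h3 : IsPGroup p ↥(N ⊓ center P) := hP.to_subgroup _
      rcases h3.card_eq_or_dvd with h4 | h4
      · exact absurd (card_eq_one.mp h4) h1
      · exact h4)
    have hw1 : ((w : P) : MulAut Q) ≠ 1 := by
      intro h2
      have : w = 1 := Subtype.ext (Subtype.ext h2)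
      rw [this, orderOf_one] at hw
      exact hp.out.one_lt.ne hw
    refine ⟨((w : P) : MulAut Q), (w : P).2, hw1, ?_, ?_, ?_⟩
    · have h2 : w ^ p = 1 := by rw [← hw]; exact pow_orderOf_eq_one w
      have := congrArg (fun v : ↥(N ⊓ center P) => ((v : P) : MulAut Q)) h2
      simpa using this
    · intro a ha
      have h2 := mem_center_iff.mp w.2.2 ⟨a, ha⟩
      exact congrArg Subtype.val h2
    · intro h0
      have h2 : (w : P) ∈ N := w.2.1
      have h3 : N = P0.subgroupOf P := by rw [hN, if_neg h0]
      exact mem_subgroupOf.mp (h3 ▸ h2 : (w : P) ∈ P0.subgroupOf P)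
  have hzo : orderOf z = p := orderOf_eq_prime hzp hz1
  -- every element outside P0 is in <z>
  have hkey : ∀ a ∈ P, a ∉ P0 → a ∈ zpowers z := by
    intro a ha haP0
    by_contra haz
    obtain ⟨hap, hafix⟩ := h a ha haP0
    have haz' : Commute a z := hzc a ha
    set A : Subgroup (MulAut Q) := closure {a, z} with hA
    have hAP : A ≤ P := by
      rw [hA, closure_le]
      rintro x (rfl | rfl)
      · exact ha
      · exact hzP
    have hAc : IsMulCommutative A := by
      rw [hA]
      exact isMulCommutative_closure (by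
        rintro x (rfl | rfl) y (rfl | rfl)
        · rfl
        · exact haz'
        · exact haz'.symm
        · rfl)
    have haA : a ∈ A := subset_closure (by simp)
    have hzA : z ∈ A := subset_closure (by simp)
    have hAnc : ¬ IsCyclic A := by
      intro hc
      have h1 : ∀ x y : A, orderOf x = orderOf y → x ∈ zpowers y := by
        intro x y hxy
        haveI : IsCyclic A := hc
        have h2 : zpowers x = zpowers y := by
          apply H2.eq_of_card_eq_of_isCyclic
          rw [Nat.card_zpowers, Nat.card_zpowers, hxy]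
        rw [← h2]; exact mem_zpowers x
      have ha1 : a ≠ 1 := fun h2 => haP0 (h2 ▸ one_mem _)
      have h2 := h1 ⟨a, haA⟩ ⟨z, hzA⟩ (by
        rw [orderOf_mk, orderOf_mk, orderOf_eq_prime hap ha1, hzo])
      obtain ⟨k, hk⟩ := h2
      exact haz ⟨k, congrArg Subtype.val hk⟩
    have hApg : IsPGroup p A := hP.to_le hAP
    have hcop : (Nat.card A).Coprime (Nat.card Q) := by
      obtain ⟨n, hn⟩ := hApg.exists_card_eq
      rw [hn]; exact hpQ.pow_left n
    -- elements of A in P0 lie in <z> if P0 ≠ ⊥
    have hAel : ∀ b ∈ A, ∃ i j : ℤ, b = a ^ i * z ^ j := by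
      intro b hb
      rw [hA] at hb
      induction hb using closure_induction with
      | mem x hx =>
        rcases hx with rfl | rfl
        · exact ⟨1, 0, by simp⟩
        · exact ⟨0, 1, by simp⟩
      | one => exact ⟨0, 0, by simp⟩
      | mul x y _ _ hx hy =>
        obtain ⟨i, j, rfl⟩ := hx
        obtain ⟨k, l, rfl⟩ := hy
        refine ⟨i + k, j + l, ?_⟩
        rw [zpow_add, zpow_add, mul_assoc, mul_assoc]
        congr 1
        rw [← mul_assoc, ← mul_assoc]
        congr 1
        exact ((haz'.zpow_zpow k j).symm : _)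
      | inv x _ hx =>
        obtain ⟨i, j, rfl⟩ := hx
        refine ⟨-i, -j, ?_⟩
        rw [mul_inv_rev, zpow_neg, zpow_neg]
        exact ((haz'.zpow_zpow i j).inv_inv.eq).symm
    have hAz : ∀ b ∈ A, b ∈ P0 → z ∈ P0 → b ∈ zpowers z := by
      intro b hb hbP hzP0
      obtain ⟨i, j, rfl⟩ := hAel b hb
      have h1 : a ^ i ∈ P0 := by
        have := P0.mul_mem hbP (P0.inv_mem (P0.zpow_mem hzP0 j))
        rwa [mul_inv_cancel_right] at this
      have h2 : (p : ℤ) ∣ i := by
        by_contra h3
        apply haP0
        have h4 : IsCoprime (p : ℤ) i := (Nat.prime_iff_prime_int.mp hp.out).coprime_iff_not_dvd.mpr h3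
        obtain ⟨u, v, huv⟩ := h4
        have h5 : a = (a ^ i) ^ v := by
          calc a = a ^ (u * p + v * i) := by rw [huv, zpow_one]
            _ = (a ^ p) ^ u * (a ^ i) ^ v := by
              rw [zpow_add, mul_comm u, mul_comm v, zpow_mul, zpow_mul, zpow_natCast]
            _ = (a ^ i) ^ v := by rw [hap, one_zpow, one_mul]
        rw [h5]; exact P0.zpow_mem h1 v
      obtain ⟨k, rfl⟩ := h2
      rw [zpow_mul, zpow_natCast, hap, one_zpow, one_mul]
      exact zpow_mem (mem_zpowers z) j
    by_cases h0 : P0 = ⊥
    · have h1 := gen_mulAut hAc hAnc hcop (K := ⊥) (by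
        intro b hb hb1 y hy
        rw [mem_bot]
        exact (h b (hAP hb) (by rw [h0, mem_bot]; exact hb1)).2 y hy)
      exact bot_ne_top h1
    · have hzP0' := hzP0 h0
      -- K = fixed points of z
      let K : Subgroup Q :=
        { carrier := {y | z y = y}
          one_mem' := map_one z
          mul_mem' := fun {x y} hx hy => by
            show z (x * y) = x * y
            rw [map_mul, hx, hy]
          inv_mem' := fun {x} hx => by
            show z x⁻¹ = x⁻¹
            rw [map_inv, hx] }
      have h1 := gen_mulAut hAc hAnc hcop (K := K) (by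
        intro b hb hb1 y hy
        by_cases hbP : b ∈ P0
        · have h2 := hAz b hb hbP hzP0'
          -- b generates <z>
          have h3 : z ∈ zpowers b := by
            have hb0 : orderOf b = p := by
              obtain ⟨k, rfl⟩ := h2
              apply orderOf_eq_prime _ hb1
              simp only
              rw [← zpow_natCast, ← zpow_mul, mul_comm, zpow_mul, zpow_natCast, hzp, one_zpow]
            have h4 : zpowers b = zpowers z := by
              apply Subgroup.eq_of_le_of_card_ge (zpowers_le.mpr h2)
              rw [Nat.card_zpowers, Nat.card_zpowers, hb0, hzo]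
            rw [h4]; exact mem_zpowers z
          obtain ⟨k, rfl⟩ := h3
          show (b ^ k) y = y
          have h5 : b ∈ MulAction.stabilizer (MulAut Q) y := hy
          exact zpow_mem h5 k
        · rw [(h b (hAP hb) hbP).2 y hy]
          exact K.one_mem)
      apply hz1
      ext y
      have h2 : y ∈ K := by rw [h1]; exact mem_top y
      exact h2
  obtain ⟨a, ha, ha0⟩ : ∃ a ∈ P, a ∉ P0 := by
    by_contra h1
    push Not at h1
    exact hlt (le_antisymm hP0 h1)
  have haz := hkey a ha ha0
  have h0 : P0 = ⊥ := by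
    by_contra h0
    have h1 := hzP0 h0
    apply ha0
    exact (zpowers_le.mpr h1) haz
  refine ⟨h0, ?_⟩
  have h1 : P = zpowers z := by
    apply le_antisymm
    · intro b hb
      by_cases hb1 : b = 1
      · rw [hb1]; exact one_mem _
      · exact hkey b hb (by rw [h0, mem_bot]; exact hb1)
    · exact zpowers_le.mpr hzP
  rw [h1, Nat.card_zpowers, hzo]

end Cfsg.Agent.H25
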