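import Cfsg.Agent.H25.CSF
import Cfsg.Agent.H24.PBasic

set_option autoImplicit false
set_option linter.unusedSectionVars false
set_option linter.unusedVariables false

namespace Cfsg.Agent.H25.Ito

open Subgroup Cfsg.Agent.H25.CS3

variable {G : Type*} [Group G] [Finite G]

structure HI (G : Type*) [Group G] (n : ℕ) : Prop where
  hn : 1 < n
  or2 : ∀ x : G, (cz x).index = 1 ∨ (cz x).index = n
  ex : ∃ x : G, (cz x).index = n

namespace HI

variable {n : ℕ} (H : HI G n)

include H

theorem idx {x : G} (hx : x ∉ center G) : (cz x).index = n :=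
  (H.or2 x).resolve_left (fun h => hx (idx_one.1 h))

theorem nc {x : G} (hx : (cz x).index = n) : x ∉ center G := by
  intro h
  have := idx_one.2 h
  have := H.hn
  omega

theorem cz_eq {x y : G} (hy : y ∉ center G) (h : cz x ≤ cz y) : cz x = cz y := by
  have hx : x ∉ center G := by
    intro hx
    have h1 := idx_one.2 hx
    rw [Subgroup.index_eq_one] at h1
    rw [h1, top_le_iff] at h
    have h2 := H.idx hy
    rw [h, Subgroup.index_top] at h2
    have := H.hn
    omega
  exact eq_of_idx h (by rw [H.idx hx, H.idx hy])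

theorem npos : n ≠ 0 := by have := H.hn; omega

theorem vx {x : G} (hx : x ∉ center G) (r : ℕ) : v r (cz x) + n.factorization r = v r (⊤ : Subgroup G) := by
  rw [← v_index r (cz x), H.idx hx]

/-- (1) -/
theorem le_of_coprime {x y : G} (hx : x ∉ center G) (hy : y ∈ cz x) (hcop : (orderOf x).Coprime (orderOf y)) :
    cz x ≤ cz y := by
  have h1 : cz (x * y) = cz x ⊓ cz y := H24.centralizer_mul_of_coprime (mem_cz.1 hy).symm hcop
  have h2 : cz (x * y) ≤ cz x := by rw [h1]; exact inf_le_left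
  have h3 := H.cz_eq hx h2
  rw [← h3, h1]
  exact inf_le_right

theorem exists_primary {x : G} (hx : x ∉ center G) : ∃ p : ℕ, p.Prime ∧ ∃ k : ℕ,
    (∃ j, orderOf (x ^ k) = p ^ j) ∧ x ^ k ∉ center G ∧ cz x = cz (x ^ k) := by
  obtain ⟨p, hp, k, hk, hj⟩ := exists_primary_notMem (center G) hx
  exact ⟨p, hp, k, hj, hk, H.cz_eq hk (cz_le_cz_pow x k)⟩

theorem exists_nc {r : ℕ} [hr : Fact r.Prime] (h : r ∣ n) : ∃ g : G, (∃ k, orderOf g = r ^ k) ∧ g ∉ center G := by
  obtain ⟨y, hy⟩ := H.ex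
  have h1 := H.vx (H.nc hy) r
  have h2 : 0 < n.factorization r := hr.out.factorization_pos_of_dvd H.npos h
  have h3 := v_mono r (center_le_cz y)
  obtain ⟨g, -, hg, hg2⟩ := exists_relem (r := r) (A := center G) (H := ⊤) (by omega)
  exact ⟨g, hg, hg2⟩

/-- Case II gives the structure: everything is a prime power -/
theorem caseII {p : ℕ} [hp : Fact p.Prime] {x : G} (hx : x ∉ center G)
    (hall : ∀ y ∈ cz x, (orderOf y).Coprime p → y ∈ center G) (r : ℕ) (hr : r.Prime) (hrp : r ≠ p) :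
    v r (center G) = v r (⊤ : Subgroup G) ∧ n.factorization r = 0 := by
  haveI : Fact r.Prime := ⟨hr⟩
  have h1 : v r (cz x) ≤ v r (center G) := by
    by_contra hcon
    push Not at hcon
    obtain ⟨g, hg, hgr, hgZ⟩ := exists_relem hcon
    exact hgZ (hall g hg (coprime_of_relem3 hp.out hr hrp.symm hgr))
  have h2 : v r (⊤ : Subgroup G) ≤ v r (center G) := by
    by_contra hcon
    push Not at hcon
    obtain ⟨g, hg, hgr, hgZ⟩ := exists_relem hcon
    have h3 := v_lt_of_mem (center_le_cz g) (self_mem_cz g) hgr hgZ (center_conj _)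
    have h4 := H.vx hx r
    have h5 := H.vx hgZ r
    omega
  have h3 := v_mono r (le_top : center G ≤ ⊤)
  have h4 := v_mono r (center_le_cz x)
  have h5 := H.vx hx r
  omega

section caseI

variable (hI : ∀ (r : ℕ) (x : G), r.Prime → (∃ k, orderOf x = r ^ k) → x ∉ center G → ∃ y ∈ cz x, (orderOf y).Coprime r ∧ y ∉ center G)

include hI

theorem ex_other {r : ℕ} (hr : r.Prime) {x : G} (hxr : ∃ k, orderOf x = r ^ k) (hx : x ∉ center G) :
    ∃ s : ℕ, s.Prime ∧ s ≠ r ∧ ∃ y : G, (∃ k, orderOf y = s ^ k) ∧ y ∉ center G ∧ cz x = cz y := by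
  haveI : Fact r.Prime := ⟨hr⟩
  obtain ⟨y, hy, hyr, hyZ⟩ := hI r x hr hxr hx
  have h1 := H.cz_eq hyZ (H.le_of_coprime hx hy (coprime_of_relem hxr hyr))
  obtain ⟨s, hs, k, hk, hkZ, hke⟩ := H.exists_primary hyZ
  refine ⟨s, hs, ?_, y ^ k, hk, hkZ, h1.trans hke⟩
  rintro rfl
  have h2 : (orderOf (y ^ k)).Coprime s := Nat.Coprime.coprime_dvd_left (orderOf_pow_dvd k) hyr
  obtain ⟨j, hj⟩ := hk
  rw [hj] at h2
  have h3 : s ^ j = 1 := by
    rcases Nat.eq_zero_or_pos j with h | h
    · rw [h, pow_zero]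
    · exact absurd (Nat.Coprime.coprime_dvd_left (dvd_pow_self s h.ne') h2) (by
        rw [Nat.coprime_self]; exact hs.one_lt.ne')
  rw [h3, orderOf_eq_one_iff] at hj
  exact hkZ (hj ▸ one_mem _)

theorem abel {x : G} (hx : x ∉ center G) : ∀ a ∈ cz x, ∀ b ∈ cz x, a * b = b * a := by
  obtain ⟨r, hr, k, hk, hkZ, hke⟩ := H.exists_primary hx
  obtain ⟨s, hs, hsr, y, hys, hyZ, hxy⟩ := H.ex_other hI hr hk hkZ
  intro a ha b hb
  have hb' : cz x ≤ cz b := by
    by_contra hcon
    -- some primary power of `b` not in the centre of `cz x`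
    obtain ⟨q, hq, j, hj, hqj⟩ := exists_primary_notMem (centralizer ((cz x : Subgroup G) : Set G)) (x := b) (by
      intro h
      apply hcon
      intro c hc
      rw [mem_cz]
      exact mem_centralizer_iff.1 h c hc)
    apply hj
    rw [mem_centralizer_iff]
    intro c hc
    have hbj : b ^ j ∈ cz x := pow_mem hb j
    by_cases hqr : q = r
    · subst hqr
      have h1 := H.le_of_coprime hyZ (y := b ^ j) (by rw [← hxy, ← hke]; exact hbj)
        (coprime_of_relem2 hs hq hsr hys hqj)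
      rw [← hxy, ← hke] at h1
      exact mem_cz.1 (h1 hc)
    · have h1 := H.le_of_coprime hkZ (y := b ^ j) (by rw [← hke]; exact hbj)
        (coprime_of_relem2 hr hq (Ne.symm hqr) hk hqj)
      rw [← hke] at h1
      exact mem_cz.1 (h1 hc)
  exact mem_cz.1 (hb' ha)

theorem cz_eq_of_mem {x t : G} (hx : x ∉ center G) (ht : t ∈ cz x) (htZ : t ∉ center G) : cz x = cz t := by
  apply H.cz_eq htZ
  intro c hc
  rw [mem_cz]
  exact H.abel hI hx c hc t ht

theorem conj_cz {x u t : G} (hx : x ∉ center G) (ht : t ∈ cz x) (htZ : t ∉ center G) (h : u * t * u⁻¹ ∈ cz x) :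
    ∀ c ∈ cz x, u * c * u⁻¹ ∈ cz x := by
  intro c hc
  rw [H.cz_eq_of_mem hI hx h (by rwa [conj_center])]
  apply conj_mem_cz.2
  rwa [← H.cz_eq_of_mem hI hx ht htZ]

theorem fac_le_one {r : ℕ} [hr : Fact r.Prime] (h : r ∣ n) : n.factorization r = 1 := by
  obtain ⟨R⟩ : Nonempty (Sylow r G) := inferInstance
  have hRv : v r (R : Subgroup G) = v r (⊤ : Subgroup G) := by
    rw [← not_dvd_index_iff hr.out]
    exact R.not_dvd_index
  have hpos : 0 < n.factorization r := hr.out.factorization_pos_of_dvd H.npos h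
  have hRZ : ¬ (R : Subgroup G) ≤ center G := by
    intro hc
    have h1 := v_mono r hc
    obtain ⟨y, hy⟩ := H.ex
    have h2 := H.vx (H.nc hy) r
    have h3 := v_mono r (center_le_cz y)
    omega
  obtain ⟨g, hgR, hgZ, hgr, hgc⟩ := exists_next R.isPGroup' le_rfl
    (fun k hk x hx => mul_mem (mul_mem hk hx) (inv_mem hk)) hRZ
  have hgo := H24.exists_orderOf_eq_pow_of_mem R.isPGroup' hgR
  obtain ⟨s, hs, hsr, y, hys, hyZ, hgy⟩ := H.ex_other hI hr.out hgo hgZ
  have hRn : ∀ u ∈ (R : Subgroup G), ∀ c ∈ cz g, u * c * u⁻¹ ∈ cz g := by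
    intro u hu
    apply H.conj_cz hI hgZ (self_mem_cz g) hgZ
    obtain ⟨z, hz, h1⟩ := comm_of_conj (hgc u hu)
    have e : u * g * u⁻¹ = z * g := by rw [h1]; group
    rw [e]
    exact mul_mem (center_le_cz g hz) (self_mem_cz g)
  by_contra hcon
  have h2 : 2 ≤ n.factorization r := by omega
  haveI : Fact s.Prime := ⟨hs⟩
  -- `R ⊓ cz g` has index at least `r^2` in `R`
  have hvx := H.vx hgZ r
  obtain ⟨b, hbR, hbM⟩ := exists_relem_of (r := r) (A := (R : Subgroup G) ⊓ cz g) R.isPGroup' (by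
    have := v_mono r (inf_le_right : (R : Subgroup G) ⊓ cz g ≤ cz g)
    omega)
  have hpw : ∀ b ∈ (R : Subgroup G), b ^ r ∈ cz g := fun b hb => pow_mem_cz (hgc b hb) hgr
  obtain ⟨a, haR, ha⟩ := exists_outside (T := (R : Subgroup G) ⊓ cz g) (R := (R : Subgroup G)) (b := b) inf_le_left hbR
    (Subgroup.mem_inf.2 ⟨pow_mem hbR r, hpw b hbR⟩) (by
      rw [card_rgroup R.isPGroup', card_rgroup (R.isPGroup'.to_le inf_le_left), ← pow_succ]
      apply Nat.pow_lt_pow_right hr.out.one_lt
      have := v_mono r (inf_le_right : (R : Subgroup G) ⊓ cz g ≤ cz g)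
      omega)
  -- the s-part
  obtain ⟨S, hyS, hSM, hS, hSv⟩ := exists_rsub s (cz g) (zpowers y) (by
    rw [zpowers_le, hgy]; exact self_mem_cz y) (H24.isPGroup_zpowers_of_orderOf hys)
  have hSall : ∀ c ∈ cz g, (∃ k, orderOf c = s ^ k) → c ∈ S := by
    intro c hc hcs
    refine mem_of_normal hSM hSv.ge ?_ hc hcs
    intro k hk x hx
    rw [H.abel hI hgZ k hk x (hSM hx), mul_inv_cancel_right]
    exact hx
  have hSn : ∀ u ∈ (R : Subgroup G), ∀ c ∈ S, u * c * u⁻¹ ∈ S := by
    intro u hu c hc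
    exact hSall _ (hRn u hu c (hSM hc)) (conj_relem (H24.exists_orderOf_eq_pow_of_mem hS hc))
  have hout : ∀ u : G, u ∉ cz g → ∀ x ∈ S, u * x = x * u → x ∈ center G := by
    intro u hu x hx h
    by_contra hxZ
    apply hu
    rw [H.cz_eq_of_mem hI hgZ (hSM hx) hxZ]
    exact mem_cz.2 h
  refine noRank2 hr.out hs hsr.symm S (center G) (fun a ha b hb => H.abel hI hgZ a (hSM ha) b (hSM hb)) hS
    (fun h => hyZ (h (hyS (mem_zpowers y)))) a b (hSn a haR) (hSn b hbR) ?_ ?_ ?_ ?_ ?_
  · intro x hx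
    exact H.abel hI hgZ _ (hpw a haR) x (hSM hx)
  · intro x hx
    exact H.abel hI hgZ _ (hpw b hbR) x (hSM hx)
  · intro x hx
    have h1 := comm_mem_cz (hgc a haR) (hgc b hbR)
    have h3 := H.abel hI hgZ _ h1 x (hSM hx)
    calc a * b * x * (a * b)⁻¹ = (b * a) * ((b * a)⁻¹ * (a * b) * x) * (a * b)⁻¹ := by group
      _ = (b * a) * (x * ((b * a)⁻¹ * (a * b))) * (a * b)⁻¹ := by rw [h3]
      _ = _ := by group
  · intro i x hx h
    exact hout _ (fun h' => ha i (Subgroup.mem_inf.2 ⟨mul_mem haR (pow_mem hbR i), h'⟩)) x hx h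
  · intro x hx h
    exact hout _ (fun h' => hbM (Subgroup.mem_inf.2 ⟨hbR, h'⟩)) x hx h

theorem normal_cz {x : G} (hx : x ∉ center G) : ∀ g : G, ∀ c ∈ cz x, g * c * g⁻¹ ∈ cz x := by
  have h1 : normalizer ((cz x : Subgroup G) : Set G) = ⊤ := by
    apply eq_of_v le_top
    intro r hr
    haveI : Fact r.Prime := ⟨hr⟩
    have hvx := H.vx hx r
    by_cases hrn : r ∣ n
    · have hf := H.fac_le_one hI hrn
      -- there is a noncentral r-element in `cz x`
      have hvZ : v r (center G) < v r (cz x) := by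
        obtain ⟨g, hg, hgZ⟩ := H.exists_nc hrn
        have h3 := v_lt_of_mem (center_le_cz g) (self_mem_cz g) hg hgZ (center_conj _)
        have h4 := H.vx hgZ r
        omega
      obtain ⟨W, -, hWM, hW, hWv⟩ := exists_rsub r (cz x) ⊥ bot_le (IsPGroup.of_bot)
      obtain ⟨R, hR⟩ := hW.exists_le_sylow
      have hRv : v r (R : Subgroup G) = v r (⊤ : Subgroup G) := by
        rw [← not_dvd_index_iff hr]
        exact R.not_dvd_index
      obtain ⟨w, hw, hwZ⟩ := exists_relem_of (r := r) (A := center G) hW (by omega)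
      have h5 := conj_mem_of_index R.isPGroup' hR (by omega)
      rw [← hRv]
      apply v_mono
      intro u hu
      apply mem_norm
      exact H.conj_cz hI hx (hWM hw) hwZ (hWM (h5 u hu w hw))
    · rw [Nat.factorization_eq_zero_of_not_dvd hrn, add_zero] at hvx
      rw [← hvx]
      exact v_mono r le_normalizer
  intro g c hc
  have hg : g ∈ normalizer ((cz x : Subgroup G) : Set G) := by rw [h1]; exact mem_top g
  exact (mem_normalizer_iff.1 hg c).1 hc

theorem comm_of_coprime {x y : G} (hx : x ∉ center G) (hy : y ∉ center G) (hcop : (orderOf x).Coprime (orderOf y)) :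
    x ∈ cz y := by
  have h1 : x * y * x⁻¹ * y⁻¹ ∈ cz y := mul_mem (H.normal_cz hI hy x y (self_mem_cz y)) (inv_mem (self_mem_cz y))
  have h2 : y * x⁻¹ * y⁻¹ ∈ cz x := H.normal_cz hI hx y x⁻¹ (inv_mem (self_mem_cz x))
  have h3 : x * y * x⁻¹ * y⁻¹ ∈ cz x := by
    have := mul_mem (self_mem_cz x) h2
    have e : x * (y * x⁻¹ * y⁻¹) = x * y * x⁻¹ * y⁻¹ := by group
    rwa [e] at this
  by_cases hc : x * y * x⁻¹ * y⁻¹ ∈ center G
  · apply center_trick_mem hc (z := x * y * x⁻¹ * y⁻¹) _ hcop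
    have := mem_center_iff.1 hc y
    rw [this]; group
  · have h4 := H.cz_eq_of_mem hI hx h3 hc
    have h5 := H.cz_eq_of_mem hI hy h1 hc
    rw [h5, ← h4]
    exact self_mem_cz x

theorem caseI_false : False := by
  obtain ⟨x0, hx0⟩ := H.ex
  obtain ⟨r, hr, k, hk, hkZ, hke⟩ := H.exists_primary (H.nc hx0)
  obtain ⟨s, hs, hsr, y, hys, hyZ, hxy⟩ := H.ex_other hI hr hk hkZ
  apply hkZ
  rw [← idx_one, Subgroup.index_eq_one, eq_top_iff]
  apply le_of_primary
  intro b _ q j hq hqj
  by_cases hb : b ∈ center G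
  · exact center_le_cz _ hb
  by_cases hqr : q = r
  · subst hqr
    rw [hxy]
    exact H.comm_of_coprime hI hb hyZ (coprime_of_relem2 hq hs hsr.symm ⟨j, hqj⟩ hys)
  · exact H.comm_of_coprime hI hb hkZ (coprime_of_relem2 hq hr hqr ⟨j, hqj⟩ hk)

end caseI

theorem main : ∃ p : ℕ, ∃ _ : Fact p.Prime, ∀ r : ℕ, r.Prime → r ≠ p → v r (center G) = v r (⊤ : Subgroup G) ∧ n.factorization r = 0 := by
  by_contra hcon
  apply H.caseI_false
  intro r x hr hxr hx
  haveI : Fact r.Prime := ⟨hr⟩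
  by_contra hc
  push Not at hc
  apply hcon
  exact ⟨r, ⟨hr⟩, fun q hq hqr => H.caseII hx hc q hq hqr⟩

/-- the p-group part -/
theorem pow_mem_of_selfcentralizing {p : ℕ} [hp : Fact p.Prime] (P : Sylow p G) (A : Subgroup (P : Subgroup G))
    (hAn : A.Normal) (hAc : IsMulCommutative A) (hA : centralizer (A : Set (P : Subgroup G)) = A) (y : (P : Subgroup G)) : y ^ p ∈ A := by
  rw [H24.isMulCommutative_subgroup_iff] at hAc
  by_contra hcon
  have hex : ∃ a ∈ A, ¬ ((a : G) ∈ cz ((y : G) ^ p)) := by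
    by_contra hc
    push Not at hc
    apply hcon
    rw [← hA, mem_centralizer_iff]
    intro a ha
    have := mem_cz.1 (hc a ha)
    exact Subtype.ext this
  have hZ : (y : G) ^ p ∉ center G := by
    intro hz
    obtain ⟨a, ha, h⟩ := hex
    apply h
    rw [mem_cz]
    exact mem_center_iff.1 hz a
  have hcz : cz (y : G) = cz ((y : G) ^ p) := H.cz_eq hZ (cz_le_cz_pow _ p)
  haveI : Group.IsNilpotent (P : Subgroup G) := P.isPGroup'.isNilpotent
  have hex2 : ∃ k : ℕ, ∃ a ∈ A, a ∈ Subgroup.upperCentralSeries (P : Subgroup G) k ∧ ¬ ((a : G) ∈ cz (y : G)) := by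
    obtain ⟨a, ha, h⟩ := hex
    rw [← hcz] at h
    obtain ⟨k, hk⟩ := Group.IsNilpotent.nilpotent (P : Subgroup G)
    exact ⟨k, a, ha, by rw [hk]; exact mem_top _, h⟩
  classical
  obtain ⟨a, haA, haU, hay⟩ := Nat.find_spec hex2
  set k := Nat.find hex2 with hk
  have hmin : ∀ j < k, ∀ a ∈ A, a ∈ Subgroup.upperCentralSeries (P : Subgroup G) j → (a : G) ∈ cz (y : G) := by
    intro j hj a ha haj
    by_contra hc
    exact Nat.find_min hex2 hj ⟨a, ha, haj, hc⟩
  rcases Nat.eq_zero_or_pos k with h0 | hpos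
  · rw [h0, Subgroup.upperCentralSeries_zero, mem_bot] at haU
    apply hay
    rw [haU]
    exact one_mem _
  obtain ⟨j, hj⟩ : ∃ j, k = j + 1 := ⟨k - 1, by omega⟩
  rw [hj, Subgroup.mem_upperCentralSeries_succ_iff] at haU
  -- the commutator
  set c : (P : Subgroup G) := a * y * a⁻¹ * y⁻¹ with hc
  have hcU := haU y
  have hcA : c ∈ A := by
    have h1 : y * a⁻¹ * y⁻¹ ∈ A := hAn.conj_mem _ (inv_mem haA) y
    have := mul_mem haA h1
    have e : a * (y * a⁻¹ * y⁻¹) = c := by rw [hc]; group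
    rwa [e] at this
  have hcy : (c : G) ∈ cz (y : G) := hmin j (by omega) c hcA hcU
  have hcy' : c * y = y * c := Subtype.ext (mem_cz.1 hcy)
  have hca : c * a = a * c := hAc c hcA a haA
  -- a * y = c * y * a
  have hay2 : a * y = c * (y * a) := by rw [hc]; group
  have hbase : ∀ i : ℕ, a ^ i * y = c ^ i * (y * a ^ i) := by
    intro i
    induction i with
    | zero => simp
    | succ i ih =>
      have hcai : a ^ i * c = c * a ^ i := by
        have : Commute a c := hca.symm
        exact (this.pow_left i).eq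
      calc a ^ (i + 1) * y = a ^ i * (a * y) := by rw [pow_succ]; group
        _ = a ^ i * c * (y * a) := by rw [hay2]; group
        _ = c * (a ^ i * y) * a := by rw [hcai]; group
        _ = c * (c ^ i * (y * a ^ i)) * a := by rw [ih]
        _ = _ := by rw [pow_succ' c, pow_succ a]; group
  -- order of c
  have hc1 : c ≠ 1 := by
    intro h
    rw [h, one_mul] at hay2
    apply hay
    rw [mem_cz]
    exact congrArg Subtype.val hay2
  obtain ⟨e, he⟩ := IsPGroup.iff_orderOf.1 P.isPGroup' c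
  have he0 : e ≠ 0 := by
    rintro rfl
    rw [pow_zero, orderOf_eq_one_iff] at he
    exact hc1 he
  obtain ⟨f, rfl⟩ := Nat.exists_eq_succ_of_ne_zero he0
  set d := c ^ (p ^ f) with hd
  set b := a ^ (p ^ f) with hb
  have hd1 : d ≠ 1 := by
    intro h
    have := orderOf_dvd_of_pow_eq_one h
    rw [he, Nat.pow_dvd_pow_iff_le_right hp.out.one_lt] at this
    omega
  have hdp : d ^ p = 1 := by
    rw [hd, ← pow_mul, ← pow_succ]
    rw [← he]
    exact pow_orderOf_eq_one c
  have hby : b * y = d * (y * b) := hbase _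
  have hdy : d * y = y * d := ((show Commute c y from hcy').pow_left _).eq
  have hbyi : ∀ i : ℕ, b * y ^ i = d ^ i * (y ^ i * b) := by
    intro i
    induction i with
    | zero => simp
    | succ i ih =>
      have h1 : y ^ i * d = d * y ^ i := ((show Commute d y from hdy).pow_right i).eq.symm
      calc b * y ^ (i + 1) = (b * y ^ i) * y := by rw [pow_succ]; group
        _ = d ^ i * y ^ i * (b * y) := by rw [ih]; group
        _ = d ^ i * y ^ i * (d * (y * b)) := by rw [hby]
        _ = d ^ i * (y ^ i * d) * (y * b) := by group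
        _ = d ^ i * (d * y ^ i) * (y * b) := by rw [h1]
        _ = _ := by rw [pow_succ d, pow_succ y]; group
  have h1 := hbyi p
  rw [hdp, one_mul] at h1
  have h2 : (b : G) ∈ cz (y : G) := by
    rw [hcz, mem_cz]
    exact congrArg Subtype.val h1
  have h3 : b * y = y * b := Subtype.ext (mem_cz.1 h2)
  rw [h3] at hby
  exact hd1 (mul_eq_right.1 hby.symm)

end HI

end Cfsg.Agent.H25.Ito
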