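import Cfsg.Agent.H25.Kul4

set_option autoImplicit false
set_option linter.unusedSectionVars false
set_option linter.unusedVariables false

namespace Cfsg.Agent.H25.Kul

open Subgroup Finset
open scoped commutatorElement

variable {G : Type*} [Group G] [Finite G] {p : ℕ} [hp : Fact p.Prime]

/-- conjugate subgroup -/
abbrev cj (g : G) (A : Subgroup G) : Subgroup G := A.map (MulAut.conj g).toMonoidHom

theorem cj_inj (g : G) : Function.Injective (MulAut.conj g).toMonoidHom := (MulAut.conj g).injective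

theorem mem_cj {g x : G} {A : Subgroup G} : x ∈ cj g A ↔ g⁻¹ * x * g ∈ A := by
  constructor
  · rintro ⟨y, hy, rfl⟩
    have : g⁻¹ * ((MulAut.conj g).toMonoidHom y) * g = y := by
      show g⁻¹ * (g * y * g⁻¹) * g = y
      group
    rwa [this]
  · intro h
    refine ⟨_, h, ?_⟩
    show g * (g⁻¹ * x * g) * g⁻¹ = x
    group

theorem cj_one (A : Subgroup G) : cj 1 A = A := by
  ext x; rw [mem_cj]; simp

theorem cj_mul (g h : G) (A : Subgroup G) : cj (g * h) A = cj g (cj h A) := by
  ext x
  rw [mem_cj, mem_cj, mem_cj]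
  have : (g * h)⁻¹ * x * (g * h) = h⁻¹ * (g⁻¹ * x * g) * h := by group
  rw [this]

theorem cj_inv_cj (g : G) (A : Subgroup G) : cj g⁻¹ (cj g A) = A := by
  rw [← cj_mul, inv_mul_cancel, cj_one]

theorem cj_cj_inv (g : G) (A : Subgroup G) : cj g (cj g⁻¹ A) = A := by
  rw [← cj_mul, mul_inv_cancel, cj_one]

theorem card_cj (g : G) (A : Subgroup G) : Nat.card (cj g A) = Nat.card A := card_map_of_injective (cj_inj g)

theorem cj_le {g : G} {A B : Subgroup G} : cj g A ≤ cj g B ↔ A ≤ B := map_le_map_iff_of_injective (cj_inj g)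

theorem cj_inf (g : G) (A B : Subgroup G) : cj g (A ⊓ B) = cj g A ⊓ cj g B := map_inf _ _ _ (cj_inj g)

theorem cj_norm (g : G) (A : Subgroup G) : cj g (normalizer (A : Set G)) = normalizer ((cj g A : Subgroup G) : Set G) :=
  map_equiv_normalizer_eq A (MulAut.conj g)

theorem cj_relIndex (g : G) (A B : Subgroup G) : (cj g A).relIndex (cj g B) = A.relIndex B :=
  relIndex_map_map_of_injective A B (cj_inj g)

theorem cj_eq_iff {g : G} {A : Subgroup G} : cj g A = A ↔ g ∈ normalizer (A : Set G) := by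
  constructor
  · intro h
    apply CS3.mem_norm
    intro x hx
    rw [← h, mem_cj]
    have : g⁻¹ * (g * x * g⁻¹) * g = x := by group
    rwa [this]
  · intro h
    ext x
    rw [mem_cj]
    have h1 := mem_normalizer_iff.1 h (g⁻¹ * x * g)
    have : g * (g⁻¹ * x * g) * g⁻¹ = x := by group
    rwa [this] at h1

@[reducible] def cjAct (K : Subgroup G) (Z : Set (Subgroup G)) (h : ∀ g ∈ K, ∀ A ∈ Z, cj g A ∈ Z) : MulAction K Z where
  smul := fun g A => ⟨cj (g : G) A, h g g.2 A A.2⟩
  one_smul := fun A => Subtype.ext (cj_one _)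
  mul_smul := fun g h A => Subtype.ext (cj_mul _ _ _)

theorem dvd_count (K : Subgroup G) (Z : Set (Subgroup G)) (h : ∀ g ∈ K, ∀ A ∈ Z, cj g A ∈ Z) (ν : ℕ)
    (hν : ∀ A ∈ Z, ν ∣ (normalizer (A : Set G)).relIndex K) : ν ∣ Nat.card Z := by
  letI := cjAct K Z h
  apply CS3.dvd_card_of_orbit (A := K)
  intro A
  have h1 := MulAction.index_stabilizer K A
  have h2 : MulAction.stabilizer K A = (normalizer ((A : Subgroup G) : Set G)).subgroupOf K := by
    ext g
    rw [MulAction.mem_stabilizer_iff, mem_subgroupOf, ← cj_eq_iff]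
    exact ⟨fun h => congrArg Subtype.val h, fun h => Subtype.ext h⟩
  rw [h2] at h1
  show ν ∣ Nat.card (MulAction.orbit K A)
  rw [Nat.card_coe_set_eq, ← h1]
  exact hν A A.2

theorem relIndex_pow {K : Subgroup G} (hK : IsPGroup p K) (H : Subgroup G) : ∃ k, H.relIndex K = p ^ k := by
  obtain ⟨k, hk⟩ := hK.index (H.subgroupOf K)
  exact ⟨k, hk⟩

theorem dvd_relIndex {K H : Subgroup G} (hK : IsPGroup p K) (h : ¬ K ≤ H) : p ∣ H.relIndex K := by
  obtain ⟨k, hk⟩ := relIndex_pow hK H
  rw [hk]
  apply dvd_pow_self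
  rintro rfl
  rw [pow_zero, relIndex_eq_one] at hk
  exact h hk

theorem sq_dvd_relIndex {K H : Subgroup G} (hK : IsPGroup p K) (h : ¬ K ≤ H) (h2 : H.relIndex K ≠ p) :
    p ^ 2 ∣ H.relIndex K := by
  obtain ⟨k, hk⟩ := relIndex_pow hK H
  rw [hk]
  apply pow_dvd_pow
  rcases k with _ | _ | k
  · rw [pow_zero, relIndex_eq_one] at hk; exact absurd hk h
  · rw [zero_add, pow_one] at hk; exact absurd hk h2
  · omega

/-- fixed point count modulo `p` -/
theorem fixed_count (K : Subgroup G) (hK : IsPGroup p K) (Z : Set (Subgroup G)) (h : ∀ g ∈ K, ∀ A ∈ Z, cj g A ∈ Z) :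
    Nat.card {A : Subgroup G // A ∈ Z ∧ K ≤ normalizer (A : Set G)} ≡ Nat.card Z [MOD p] := by
  classical
  have h1 := dvd_count K {A | A ∈ Z ∧ ¬ K ≤ normalizer (A : Set G)} (by
    rintro g hg A ⟨hA, hA2⟩
    refine ⟨h g hg A hA, fun h2 => hA2 ?_⟩
    rw [← cj_norm] at h2
    have h3 : cj g K = K := cj_eq_iff.2 (le_normalizer hg)
    rw [← h3] at h2
    exact cj_le.1 h2) p (by
    rintro A ⟨hA, hA2⟩
    exact dvd_relIndex hK hA2)
  have h2 : Nat.card Z = Nat.card {A : Subgroup G // A ∈ Z ∧ K ≤ normalizer (A : Set G)} +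
      Nat.card {A : Subgroup G | A ∈ Z ∧ ¬ K ≤ normalizer (A : Set G)} := by
    haveI : Fintype (Subgroup G) := Fintype.ofFinite _
    have e1 : Nat.card Z = (univ.filter (fun A : Subgroup G => A ∈ Z)).card := natCard_subtype _
    have e2 : Nat.card {A : Subgroup G | A ∈ Z ∧ ¬ K ≤ normalizer (A : Set G)} =
      (univ.filter (fun A : Subgroup G => A ∈ Z ∧ ¬ K ≤ normalizer (A : Set G))).card := natCard_subtype _
    rw [e1, e2, natCard_subtype, ← filter_filter, ← filter_filter]
    exact (card_filter_add_card_filter_not _).symm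
  rw [h2]
  have h3 := (Nat.modEq_zero_iff_dvd.2 h1).add_left (Nat.card {A : Subgroup G // A ∈ Z ∧ K ≤ normalizer (A : Set G)})
  rw [add_zero] at h3
  exact h3.symm

section sylow

variable (P : Sylow p G) (a : ℕ)

def FQ (P : Sylow p G) (a : ℕ) (Q : Subgroup G) : Set (Subgroup G) :=
  {A | A ≤ Q ∧ Nat.card A = p ^ a ∧ ¬ A ≤ (P : Subgroup G) ∧ (P : Subgroup G) ⊓ Q ≤ normalizer (A : Set G) ∧
    ((P : Subgroup G) ⊓ Q).relIndex (P : Subgroup G) = p}

theorem le_of_norm {A : Subgroup G} (hA : IsPGroup p A) (h : (P : Subgroup G) ≤ normalizer (A : Set G)) :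
    A ≤ (P : Subgroup G) := by
  have h1 : IsPGroup p (((P : Subgroup G) ⊔ A : Subgroup G)) := P.isPGroup'.to_sup_of_normal_right' hA h
  have h2 := P.is_maximal' h1 le_sup_left
  rw [← h2]
  exact le_sup_right

theorem eq_of_card {Q : Subgroup G} (h : (P : Subgroup G) ≤ Q) (hQ : Nat.card Q = Nat.card (P : Subgroup G)) :
    (P : Subgroup G) = Q := Subgroup.eq_of_le_of_card_ge h hQ.le

theorem card_FQ_cj (g : G) (hg : g ∈ (P : Subgroup G)) (Q : Subgroup G) :
    Nat.card (FQ P a (cj g Q)) = Nat.card (FQ P a Q) := by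
  have hP : cj g (P : Subgroup G) = P := cj_eq_iff.2 (le_normalizer hg)
  have key : ∀ (g : G), g ∈ (P : Subgroup G) → ∀ Q A, A ∈ FQ P a Q → cj g A ∈ FQ P a (cj g Q) := by
    rintro g hg Q A ⟨h1, h2, h3, h4, h5⟩
    have hP : cj g (P : Subgroup G) = P := cj_eq_iff.2 (le_normalizer hg)
    refine ⟨cj_le.2 h1, by rw [card_cj]; exact h2, ?_, ?_, ?_⟩
    · intro h; rw [← hP] at h; exact h3 (cj_le.1 h)
    · rw [← cj_norm]
      nth_rewrite 1 [← hP]
      rw [← cj_inf]
      exact cj_le.2 h4
    · have h6 := cj_relIndex g ((P : Subgroup G) ⊓ Q) (P : Subgroup G)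
      rw [cj_inf, hP, h5] at h6
      exact h6
  refine Nat.card_congr
    { toFun := fun A => ⟨cj g⁻¹ A.1, by
        have := key g⁻¹ (inv_mem hg) _ _ A.2
        rwa [cj_inv_cj] at this⟩
      invFun := fun A => ⟨cj g A.1, key g hg _ _ A.2⟩
      left_inv := fun A => Subtype.ext (cj_cj_inv g A.1)
      right_inv := fun A => Subtype.ext (cj_inv_cj g A.1) }

theorem dvd_card_FQ (ha : p ^ (a + 1) ∣ Nat.card G) (Q : Subgroup G) (hQ : Nat.card Q = Nat.card (P : Subgroup G)) :
    p ∣ Nat.card (FQ P a Q) := by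
  classical
  by_cases hi : ((P : Subgroup G) ⊓ Q).relIndex (P : Subgroup G) = p
  · set M := (P : Subgroup G) ⊓ Q with hM
    have hMP : IsPGroup p M := P.isPGroup'.to_le inf_le_left
    have hcard : Nat.card M * p = Nat.card (P : Subgroup G) := by
      have := relIndex_mul_relIndex ⊥ M (P : Subgroup G) bot_le inf_le_left
      rwa [relIndex_bot_left, relIndex_bot_left, hi] at this
    have hPa : p ^ (a + 1) ∣ Nat.card (P : Subgroup G) := by
      rw [P.card_eq_multiplicity]
      exact pow_dvd_pow _ ((hp.out.pow_dvd_iff_le_factorization Nat.card_pos.ne').1 ha)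
    have hMa : p ^ a ∣ Nat.card M := by
      rw [← hcard, pow_succ] at hPa
      exact Nat.dvd_of_mul_dvd_mul_right hp.out.pos hPa
    have h1 := cnt_modEq (a := a) hp.out Q (by rw [hQ]; exact (pow_dvd_pow p (Nat.le_succ a)).trans hPa)
    have h2 := cnt_modEq (a := a) hp.out M hMa
    have h3 := fixed_count M hMP {A | A ≤ Q ∧ Nat.card A = p ^ a ∧ ¬ A ≤ (P : Subgroup G)} (by
      rintro g hg A ⟨h1, h2, h3⟩
      have hgP : cj g (P : Subgroup G) = P := cj_eq_iff.2 (le_normalizer hg.1)
      have hgQ : cj g Q = Q := cj_eq_iff.2 (le_normalizer hg.2)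
      refine ⟨by rw [← hgQ]; exact cj_le.2 h1, by rw [card_cj]; exact h2, fun h => h3 ?_⟩
      rw [← hgP] at h
      exact cj_le.1 h)
    have h4 : Nat.card (FQ P a Q) = Nat.card {A : Subgroup G // A ∈ {A | A ≤ Q ∧ Nat.card A = p ^ a ∧ ¬ A ≤ (P : Subgroup G)} ∧ M ≤ normalizer (A : Set G)} := by
      apply Nat.card_congr
      apply Equiv.subtypeEquivRight
      intro A
      show (A ≤ Q ∧ Nat.card A = p ^ a ∧ ¬ A ≤ (P : Subgroup G) ∧ M ≤ normalizer (A : Set G) ∧ _) ↔ _
      simp only [Set.mem_ofPred_eq]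
      tauto
    have h5 : cnt (p ^ a) Q = cnt (p ^ a) M + Nat.card {A : Subgroup G | A ≤ Q ∧ Nat.card A = p ^ a ∧ ¬ A ≤ (P : Subgroup G)} := by
      haveI : Fintype (Subgroup G) := Fintype.ofFinite _
      have e2 : Nat.card {A : Subgroup G | A ≤ Q ∧ Nat.card A = p ^ a ∧ ¬ A ≤ (P : Subgroup G)} =
        (univ.filter (fun A : Subgroup G => A ≤ Q ∧ Nat.card A = p ^ a ∧ ¬ A ≤ (P : Subgroup G))).card := natCard_subtype _
      rw [cnt, cnt, natCard_subtype, natCard_subtype, e2]
      rw [← card_filter_add_card_filter_not (s := univ.filter (fun A : Subgroup G => A ≤ Q ∧ Nat.card A = p ^ a)) (fun A => A ≤ (P : Subgroup G))]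
      rw [filter_filter, filter_filter]
      congr 2
      · ext A
        simp only [mem_filter, mem_univ, true_and, hM, le_inf_iff]
        tauto
      · ext A
        simp only [mem_filter, mem_univ, true_and]
        tauto
    rw [h4]
    rw [← Nat.modEq_zero_iff_dvd]
    refine h3.trans ?_
    rw [h5] at h1
    have h6 := h1.trans h2.symm
    exact Nat.ModEq.add_left_cancel' _ (h6.trans (by rw [add_zero]))
  · haveI : IsEmpty (FQ P a Q) := ⟨fun A => hi A.2.2.2.2.2⟩
    rw [Nat.card_of_isEmpty]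
    exact dvd_zero p

theorem card_sup_of {A : Subgroup G} (hA : Nat.card A = p ^ a) (hAP : ¬ A ≤ (P : Subgroup G))
    (hi : (normalizer (A : Set G)).relIndex (P : Subgroup G) = p) :
    Nat.card (A ⊔ (normalizer (A : Set G) ⊓ (P : Subgroup G)) : Subgroup G) = Nat.card (P : Subgroup G) := by
  have hAp : IsPGroup p A := IsPGroup.of_card hA
  set M := normalizer (A : Set G) ⊓ (P : Subgroup G) with hM
  have hMP : IsPGroup p M := P.isPGroup'.to_le inf_le_right
  have hAM : IsPGroup p (M ⊔ A : Subgroup G) := hMP.to_sup_of_normal_right' hAp inf_le_left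
  have hle : ∀ X : Subgroup G, IsPGroup p X → Nat.card X ≤ Nat.card (P : Subgroup G) := by
    intro X hX
    obtain ⟨k, hk⟩ := IsPGroup.iff_card.1 hX
    rw [hk, P.card_eq_multiplicity]
    apply Nat.pow_le_pow_right hp.out.pos
    rw [← hp.out.pow_dvd_iff_le_factorization Nat.card_pos.ne', ← hk]
    exact card_subgroup_dvd_card X
  rw [sup_comm]
  apply le_antisymm (hle _ hAM)
  have hcard : Nat.card M * p = Nat.card (P : Subgroup G) := by
    have := relIndex_mul_relIndex ⊥ M (P : Subgroup G) bot_le inf_le_right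
    rwa [relIndex_bot_left, relIndex_bot_left, hM, inf_relIndex_right, hi] at this
  rw [← hcard]
  have h1 : ¬ A ≤ M := fun h => hAP (h.trans inf_le_right)
  have h2 : M < M ⊔ A := left_lt_sup.2 h1
  obtain ⟨k, hk⟩ := IsPGroup.iff_card.1 hMP
  obtain ⟨l, hl⟩ := IsPGroup.iff_card.1 hAM
  have h3 : k < l := by
    by_contra hcon
    have h4 : Nat.card (M ⊔ A : Subgroup G) ≤ Nat.card M := by
      rw [hk, hl]; exact Nat.pow_le_pow_right hp.out.pos (by omega)
    exact h2.ne (Subgroup.eq_of_le_of_card_ge h2.le h4)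
  rw [hk, hl, ← pow_succ]
  exact Nat.pow_le_pow_right hp.out.pos h3

theorem relIndex_of_mem {A : Subgroup G} (hA : Nat.card A = p ^ a) (hAP : ¬ A ≤ (P : Subgroup G)) {Q : Subgroup G}
    (hQ : Nat.card Q = Nat.card (P : Subgroup G)) :
    A ∈ FQ P a Q ↔ (normalizer (A : Set G)).relIndex (P : Subgroup G) = p ∧ Q = A ⊔ (normalizer (A : Set G) ⊓ (P : Subgroup G)) := by
  have hAp : IsPGroup p A := IsPGroup.of_card hA
  set M := normalizer (A : Set G) ⊓ (P : Subgroup G) with hM
  have hMP : IsPGroup p M := P.isPGroup'.to_le inf_le_right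
  have hAM : IsPGroup p (M ⊔ A : Subgroup G) := hMP.to_sup_of_normal_right' hAp inf_le_left
  have hsup : (normalizer (A : Set G)).relIndex (P : Subgroup G) = p → Nat.card (A ⊔ M : Subgroup G) = Nat.card (P : Subgroup G) :=
    card_sup_of P a hA hAP
  constructor
  · rintro ⟨h1, h2, h3, h4, h5⟩
    have hPQM : (P : Subgroup G) ⊓ Q ≤ M := le_inf h4 inf_le_left
    have h6 : M.relIndex (P : Subgroup G) = p := by
      have h7 : M.relIndex (P : Subgroup G) ∣ ((P : Subgroup G) ⊓ Q).relIndex (P : Subgroup G) :=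
        relIndex_dvd_of_le_left _ hPQM
      rw [h5] at h7
      rcases (Nat.dvd_prime hp.out).1 h7 with h8 | h8
      · exfalso
        rw [relIndex_eq_one] at h8
        exact h3 (le_of_norm P hAp (h8.trans inf_le_left))
      · exact h8
    have h7 : (P : Subgroup G) ⊓ Q = M := by
      apply Subgroup.eq_of_le_of_card_ge hPQM
      have e1 := relIndex_mul_relIndex ⊥ M (P : Subgroup G) bot_le inf_le_right
      have e2 := relIndex_mul_relIndex ⊥ ((P : Subgroup G) ⊓ Q) (P : Subgroup G) bot_le inf_le_left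
      rw [relIndex_bot_left, relIndex_bot_left, h6] at e1
      rw [relIndex_bot_left, relIndex_bot_left, h5, ← e1] at e2
      exact (Nat.eq_of_mul_eq_mul_right hp.out.pos e2).ge
    have h8 : (normalizer (A : Set G)).relIndex (P : Subgroup G) = p := by
      rw [← inf_relIndex_right]; exact h6
    refine ⟨h8, ?_⟩
    symm
    apply Subgroup.eq_of_le_of_card_ge
    · apply sup_le h1
      rw [← h7]; exact inf_le_right
    · rw [hsup h8, hQ]
  · rintro ⟨h1, rfl⟩
    have hPQ : (P : Subgroup G) ⊓ (A ⊔ M) = M := by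
      symm
      apply Subgroup.eq_of_le_of_card_ge (le_inf inf_le_right le_sup_right)
      -- index argument
      have hMi : M.relIndex (P : Subgroup G) = p := by rw [hM, inf_relIndex_right]; exact h1
      have h2 : M.relIndex ((P : Subgroup G) ⊓ (A ⊔ M)) ∣ M.relIndex (P : Subgroup G) :=
        ⟨_, (relIndex_mul_relIndex M ((P : Subgroup G) ⊓ (A ⊔ M)) (P : Subgroup G) (le_inf inf_le_right le_sup_right) inf_le_left).symm⟩
      rw [hMi] at h2
      rcases (Nat.dvd_prime hp.out).1 h2 with h3 | h3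
      · rw [relIndex_eq_one] at h3
        exact Subgroup.card_le_of_le h3
      · exfalso
        have h4 := relIndex_mul_relIndex M ((P : Subgroup G) ⊓ (A ⊔ M)) (P : Subgroup G) (le_inf inf_le_right le_sup_right) inf_le_left
        rw [h3, hM, inf_relIndex_right, h1] at h4
        have h5 : ((P : Subgroup G) ⊓ (A ⊔ M)).relIndex (P : Subgroup G) = 1 := (Nat.mul_eq_left hp.out.pos.ne').1 h4
        rw [relIndex_eq_one] at h5
        have h6 : (P : Subgroup G) ≤ A ⊔ M := h5.trans inf_le_right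
        have h7 := eq_of_card P h6 hQ
        apply hAP
        rw [h7]
        exact le_sup_left
    refine ⟨le_sup_left, hA, hAP, ?_, ?_⟩
    · rw [hPQ]; exact inf_le_left
    · rw [hPQ, hM, inf_relIndex_right]; exact h1

/-- the reduction to the Sylow subgroup -/
theorem card_modEq_sylow (ha : p ^ (a + 1) ∣ Nat.card G) :
    Nat.card {A : Subgroup G // Nat.card A = p ^ a} ≡ cnt (p ^ a) (P : Subgroup G) [MOD p ^ 2] := by
  classical
  haveI : Fintype (Subgroup G) := Fintype.ofFinite _
  have hP := P.isPGroup'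
  -- split
  set S : Finset (Subgroup G) := univ.filter (fun A => Nat.card A = p ^ a) with hS
  have e0 : Nat.card {A : Subgroup G // Nat.card A = p ^ a} = S.card := natCard_subtype _
  have e1 : cnt (p ^ a) (P : Subgroup G) = (S.filter (fun A => A ≤ (P : Subgroup G))).card := by
    rw [cnt, natCard_subtype, hS, filter_filter]
    congr 1
    ext A
    simp only [mem_filter, mem_univ, true_and]
    tauto
  have e2 := card_filter_add_card_filter_not (s := S) (fun A => A ≤ (P : Subgroup G))
  set T := S.filter (fun A => ¬ A ≤ (P : Subgroup G)) with hT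
  have e3 := card_filter_add_card_filter_not (s := T) (fun A : Subgroup G => (normalizer (A : Set G)).relIndex (P : Subgroup G) = p)
  have hconj : ∀ g ∈ (P : Subgroup G), ∀ A : Subgroup G, (¬ A ≤ (P : Subgroup G)) → ¬ cj g A ≤ (P : Subgroup G) := by
    intro g hg A hA h
    have hP : cj g (P : Subgroup G) = P := cj_eq_iff.2 (le_normalizer hg)
    rw [← hP] at h
    exact hA (cj_le.1 h)
  have hrel : ∀ g ∈ (P : Subgroup G), ∀ A : Subgroup G,
      (normalizer ((cj g A : Subgroup G) : Set G)).relIndex (P : Subgroup G) = (normalizer (A : Set G)).relIndex (P : Subgroup G) := by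
    intro g hg A
    have hP : cj g (P : Subgroup G) = P := cj_eq_iff.2 (le_normalizer hg)
    rw [← cj_norm]
    nth_rewrite 1 [← hP]
    exact cj_relIndex g _ _
  -- the part with large orbits
  have h2 : p ^ 2 ∣ (T.filter (fun A : Subgroup G => ¬ (normalizer (A : Set G)).relIndex (P : Subgroup G) = p)).card := by
    have h := dvd_count (P : Subgroup G) {A | (Nat.card A = p ^ a ∧ ¬ A ≤ (P : Subgroup G)) ∧
      ¬ (normalizer (A : Set G)).relIndex (P : Subgroup G) = p} (by
        rintro g hg A ⟨⟨h1, h2⟩, h3⟩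
        exact ⟨⟨by rw [card_cj]; exact h1, hconj g hg A h2⟩, by rw [hrel g hg]; exact h3⟩) (p ^ 2) (by
        rintro A ⟨⟨h1, h2⟩, h3⟩
        exact sq_dvd_relIndex hP (fun h => h2 (le_of_norm P (IsPGroup.of_card h1) h)) h3)
    have e : Nat.card {A : Subgroup G | (Nat.card A = p ^ a ∧ ¬ A ≤ (P : Subgroup G)) ∧
      ¬ (normalizer (A : Set G)).relIndex (P : Subgroup G) = p} = (univ.filter (fun A : Subgroup G => (Nat.card A = p ^ a ∧ ¬ A ≤ (P : Subgroup G)) ∧
      ¬ (normalizer (A : Set G)).relIndex (P : Subgroup G) = p)).card := natCard_subtype _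
    rw [e] at h
    rw [hT, hS, filter_filter, filter_filter]
    simp only [and_assoc] at h
    exact h
  -- the part with orbits of size `p`
  have h1 : p ^ 2 ∣ (T.filter (fun A : Subgroup G => (normalizer (A : Set G)).relIndex (P : Subgroup G) = p)).card := by
    set B := T.filter (fun A : Subgroup G => (normalizer (A : Set G)).relIndex (P : Subgroup G) = p) with hB
    set SS : Finset (Subgroup G) := univ.filter (fun Q => Nat.card Q = Nat.card (P : Subgroup G)) with hSS
    have hmem : ∀ A : Subgroup G, A ∈ B ↔ (Nat.card A = p ^ a ∧ ¬ A ≤ (P : Subgroup G)) ∧ (normalizer (A : Set G)).relIndex (P : Subgroup G) = p := by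
      intro A
      rw [hB, hT, hS, mem_filter, mem_filter, mem_filter]
      simp
    -- `B.card = ∑ Q, |F_Q|`
    have hsum : B.card = ∑ Q ∈ SS, Nat.card (FQ P a Q) := by
      have e4 : ∀ Q ∈ SS, Nat.card (FQ P a Q) = (B.filter (fun A => A ∈ FQ P a Q)).card := by
        intro Q hQ
        have e5 : Nat.card (FQ P a Q) = (univ.filter (fun A => A ∈ FQ P a Q)).card := natCard_subtype _
        rw [e5]
        congr 1
        ext A
        simp only [mem_filter, mem_univ, true_and]
        constructor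
        · intro h
          exact ⟨(hmem A).2 ⟨⟨h.2.1, h.2.2.1⟩, ((relIndex_of_mem P a h.2.1 h.2.2.1 (mem_filter.1 hQ).2).1 h).1⟩, h⟩
        · exact fun h => h.2
      rw [sum_congr rfl e4]
      simp only [card_filter]
      rw [sum_comm, card_eq_sum_ones]
      apply sum_congr rfl
      intro A hA
      obtain ⟨⟨h1, h2⟩, h3⟩ := (hmem A).1 hA
      -- the unique Q
      have hQ0 : Nat.card (A ⊔ (normalizer (A : Set G) ⊓ (P : Subgroup G)) : Subgroup G) = Nat.card (P : Subgroup G) :=
        card_sup_of P a h1 h2 h3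
      rw [← card_filter]
      symm
      rw [Finset.card_eq_one]
      refine ⟨A ⊔ (normalizer (A : Set G) ⊓ (P : Subgroup G)), ?_⟩
      ext Q
      simp only [mem_filter, mem_singleton]
      constructor
      · rintro ⟨hQ, h⟩
        exact ((relIndex_of_mem P a h1 h2 (mem_filter.1 hQ).2).1 h).2
      · rintro rfl
        exact ⟨mem_filter.2 ⟨mem_univ _, hQ0⟩, (relIndex_of_mem P a h1 h2 hQ0).2 ⟨h3, rfl⟩⟩
    rw [hsum]
    -- group by the value
    rw [← sum_fiberwise_of_maps_to (s := SS) (t := SS.image (fun Q => Nat.card (FQ P a Q))) (g := fun Q => Nat.card (FQ P a Q))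
      (fun Q hQ => mem_image_of_mem _ hQ)]
    apply dvd_sum
    intro v hv
    have e6 : ∑ Q ∈ SS.filter (fun Q => Nat.card (FQ P a Q) = v), Nat.card (FQ P a Q) =
        (SS.filter (fun Q => Nat.card (FQ P a Q) = v)).card * v := by
      rw [sum_const_nat]
      intro Q hQ
      exact (mem_filter.1 hQ).2
    rw [e6]
    obtain ⟨Q0, hQ0, rfl⟩ := mem_image.1 hv
    rcases Nat.eq_zero_or_pos (Nat.card (FQ P a Q0)) with h0 | hpos
    · rw [h0, mul_zero]; exact dvd_zero _
    · rw [pow_two]
      apply mul_dvd_mul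
      · have h := dvd_count (P : Subgroup G) {Q | Nat.card Q = Nat.card (P : Subgroup G) ∧ Nat.card (FQ P a Q) = Nat.card (FQ P a Q0)} (by
          rintro g hg Q ⟨h1, h2⟩
          exact ⟨by rw [card_cj]; exact h1, by rw [card_FQ_cj P a g hg]; exact h2⟩) p (by
          rintro Q ⟨h1, h2⟩
          apply dvd_relIndex hP
          intro h
          have hQp : IsPGroup p Q := by
            obtain ⟨k, hk⟩ := IsPGroup.iff_card.1 hP
            exact IsPGroup.of_card (h1.trans hk)
          have h3 := le_of_norm P hQp h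
          have h4 : Q = P := Subgroup.eq_of_le_of_card_ge h3 h1.ge
          rw [← h2] at hpos
          obtain ⟨A, hA⟩ := (Nat.card_pos_iff.1 hpos).1
          exact hA.2.2.1 (h4 ▸ hA.1))
        have e : Nat.card {Q : Subgroup G | Nat.card Q = Nat.card (P : Subgroup G) ∧ Nat.card (FQ P a Q) = Nat.card (FQ P a Q0)} =
          (univ.filter (fun Q : Subgroup G => Nat.card Q = Nat.card (P : Subgroup G) ∧ Nat.card (FQ P a Q) = Nat.card (FQ P a Q0))).card := natCard_subtype _
        rw [e, ← filter_filter] at h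
        exact h
      · exact dvd_card_FQ P a ha Q0 (mem_filter.1 hQ0).2
  rw [e0, e1, ← e2]
  have h3 : p ^ 2 ∣ T.card := by rw [← e3]; exact dvd_add h1 h2
  have h4 := (Nat.modEq_zero_iff_dvd.2 h3).add_left (S.filter (fun A => A ≤ (P : Subgroup G))).card
  rw [add_zero] at h4
  exact h4

end sylow

end Cfsg.Agent.H25.Kul
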