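import Cfsg.Agent.H25.Kul4
import Cfsg.Agent.H23.MaxClass4
import Cfsg.Agent.H27.PGrp

set_option autoImplicit false
set_option linter.unusedSectionVars false
set_option linter.unusedVariables false

namespace Cfsg.Agent.H25.Kul

open Subgroup Finset
open scoped commutatorElement

universe u

variable {P : Type u} [Group P] [Finite P]

def Bad (M : Type*) [Group M] : Prop := IsCyclic M ∨ ∃ n, H23.DQS M n

theorem parity {c s : ℕ} (h : c + 1 = s) (hs : s ≡ 1 + 2 [MOD 2 ^ 2]) : Even c := by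
  have h1 : s % 4 = 3 := hs
  rw [Nat.even_iff]
  omega

theorem central_of_small (c : P) (hc : c ∈ _root_.commutator P) (hcard : Nat.card (_root_.commutator P) ≤ 2) :
    (∀ w : P, Commute c w) ∧ c ^ 2 = 1 := by
  by_cases h1 : c = 1
  · rw [h1]; exact ⟨fun w => Commute.one_left w, one_pow 2⟩
  have h2 : zpowers c = _root_.commutator P := by
    apply Subgroup.eq_of_le_of_card_ge
    · rwa [zpowers_le]
    · refine hcard.trans ?_
      rw [Nat.card_zpowers]
      have := orderOf_pos c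
      have h3 : orderOf c ≠ 1 := fun h => h1 (orderOf_eq_one_iff.1 h)
      omega
  have h3 : orderOf c = 2 := by
    rw [← Nat.card_zpowers, h2]
    have h4 : Nat.card (_root_.commutator P) ≠ 1 := by
      rw [← h2, Nat.card_zpowers]
      exact fun h => h1 (orderOf_eq_one_iff.1 h)
    have : 0 < Nat.card (_root_.commutator P) := Nat.card_pos
    omega
  have h4 : c ^ 2 = 1 := by rw [← h3]; exact pow_orderOf_eq_one c
  refine ⟨fun w => ?_, h4⟩
  have h5 : w * c * w⁻¹ ∈ zpowers c := by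
    rw [h2]
    exact (inferInstance : (_root_.commutator P).Normal).conj_mem c hc w
  obtain ⟨j, hj⟩ := exists_npow h5
  rcases Nat.even_or_odd' j with ⟨k, rfl | rfl⟩
  · exfalso
    rw [pow_mul, h4, one_pow] at hj
    apply h1
    calc c = w⁻¹ * (w * c * w⁻¹) * w := by group
      _ = 1 := by rw [← hj]; group
  · rw [pow_succ, pow_mul, h4, one_pow, one_mul] at hj
    show c * w = w * c
    calc c * w = (w * c * w⁻¹) * w := by rw [← hj]
      _ = w * c := by group

theorem cyc_even {m : ℕ} (hm : Nat.card P = 2 ^ (m + 1)) (hm2 : 2 ≤ m) (hb : ¬ Bad P) :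
    Even (Nat.card {M : Subgroup P // M.index = 2 ∧ IsCyclic M}) := by
  haveI : Fact (Nat.Prime 2) := ⟨Nat.prime_two⟩
  have hP : IsPGroup 2 P := IsPGroup.of_card hm
  have hnc : ¬ IsCyclic P := fun h => hb (Or.inl h)
  by_cases hex : ∃ C : Subgroup P, C.index = 2 ∧ IsCyclic C
  · obtain ⟨C, hCi, hC⟩ := hex
    obtain ⟨x, hx⟩ := (Subgroup.isCyclic_iff_exists_zpowers_eq_top _).1 hC
    subst hx
    have hxo : orderOf x = 2 ^ m := by rw [← Nat.card_zpowers]; exact card_eq_of_index hm hCi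
    have hhom : ∀ g h : P, ∃ z ∈ zpowers (x ^ (2 ^ 2)), (g * h) ^ 2 = g ^ 2 * h ^ 2 * z := by
      by_cases hab : IsMulCommutative P
      · intro g h
        refine ⟨1, one_mem _, ?_⟩
        rw [mul_one]
        exact (show Commute g h from hab.is_comm.comm g h).mul_pow 2
      · rcases H23.dqs_of_cyclic_index_two hP hab hCi with ⟨k, h⟩ | ⟨h16, hc2⟩
        · exact absurd (Or.inr ⟨k, h⟩) hb
        · intro g h
          have hmem : ⁅h, g⁆ ∈ _root_.commutator P := commutator_mem_commutator (mem_top _) (mem_top _)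
          obtain ⟨h1, h2⟩ := central_of_small _ hmem hc2
          refine ⟨⁅h, g⁆, ?_, ?_⟩
          · have h3 : ⁅h, g⁆ ∈ zpowers x := Phi_le hP hCi (comm_mem_Phi 2 h g)
            obtain ⟨j, hj⟩ := exists_npow h3
            rw [← hj, ← pow_mul] at h2
            have h4 := orderOf_dvd_of_pow_eq_one h2
            have hm3 : 3 ≤ m := by
              by_contra hcon
              have : m = 2 := by omega
              rw [hm, this] at h16
              norm_num at h16
            obtain ⟨m', rfl⟩ : ∃ m', m = m' + 3 := ⟨m - 3, by omega⟩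
            rw [hxo, pow_succ] at h4
            have h5 := Nat.dvd_of_mul_dvd_mul_right (by norm_num) h4
            obtain ⟨i, hi⟩ := h5
            rw [← hj, hi, pow_add, mul_comm (2 ^ m'), mul_assoc, pow_mul]
            exact pow_mem (mem_zpowers _) _
          · have := H23.mul_pow_of_class_two g h h1 2
            rwa [show 2 * (2 - 1) / 2 = 1 from rfl, pow_one] at this
    have h1 := cyc_count hP hnc hm hm2 hxo hhom
    obtain ⟨e, -, -, h2, -⟩ := Phi_index hP hnc
    exact parity h1 h2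
  · haveI : IsEmpty {M : Subgroup P // M.index = 2 ∧ IsCyclic M} := ⟨fun M => hex ⟨M.1, M.2⟩⟩
    rw [Nat.card_of_isEmpty]
    exact Even.zero

theorem exists_out {m : ℕ} (hm : Nat.card P = 2 ^ (m + 1)) {M C : Subgroup P} (hM : M.index = 2) (hC : C.index = 2) (hne : M ≠ C) :
    ∃ g ∈ M, g ∉ C := by
  haveI : Fact (Nat.Prime 2) := ⟨Nat.prime_two⟩
  by_contra hcon
  push Not at hcon
  apply hne
  apply Subgroup.eq_of_le_of_card_ge hcon
  rw [card_eq_of_index hm hM, card_eq_of_index hm hC]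

theorem not_cyclic_dqs {n : ℕ} (h : H23.DQS P n) : ¬ IsCyclic P := by
  intro hc
  have h1 := h.nilpotencyClass
  have h2 : IsMulCommutative P := IsCyclic.isMulCommutative
  letI : CommGroup P := { (inferInstance : Group P) with mul_comm := h2.is_comm.comm }
  have := CommGroup.nilpotencyClass_le_one (G := P)
  have := h.data.1
  omega

theorem cyc_odd_dqs {n : ℕ} (h : H23.DQS P n) : Odd (Nat.card {M : Subgroup P // M.index = 2 ∧ IsCyclic M}) := by
  haveI : Fact (Nat.Prime 2) := ⟨Nat.prime_two⟩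
  have hm : Nat.card P = 2 ^ (n + 1 + 1) := h.card
  have hP : IsPGroup 2 P := IsPGroup.of_card hm
  obtain ⟨hn, u, x, c, hu, hi, hx, hact, hxx⟩ := h.data
  have hnc := not_cyclic_dqs h
  have hcy : IsCyclic (zpowers u) := (Subgroup.isCyclic_iff_exists_zpowers_eq_top _).2 ⟨u, rfl⟩
  have hgen : ∀ M : Subgroup P, M.index = 2 → M ≠ zpowers u → IsCyclic M → ∃ w, w ∉ zpowers u ∧ orderOf w = 2 ^ (n + 1) ∧ n = 1 := by
    intro M hM hne hc
    obtain ⟨w, hw⟩ := (Subgroup.isCyclic_iff_exists_zpowers_eq_top _).1 hc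
    have hwo : orderOf w = 2 ^ (n + 1) := by
      rw [← Nat.card_zpowers, hw]; exact card_eq_of_index hm hM
    have hwu : w ∉ zpowers u := by
      intro h1
      apply hne
      rw [← hw]
      apply Subgroup.eq_of_le_of_card_ge
      · rwa [zpowers_le]
      · rw [Nat.card_zpowers, Nat.card_zpowers, hwo, hu]
    refine ⟨w, hwu, hwo, ?_⟩
    have h1 := H23.mem_omega_of_commute hu (hact w hwu) (sq_mem_of_index_two hi w) ((Commute.refl w).pow_right 2)
    have h2 : orderOf (u ^ 2 ^ n) = 2 := by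
      rw [orderOf_pow_of_dvd (pow_ne_zero _ two_ne_zero) (by rw [hu]; exact pow_dvd_pow _ (Nat.le_succ n)), hu, pow_succ,
        Nat.mul_div_cancel_left _ (by positivity)]
    have h3 : (w ^ 2) ^ 2 = 1 := by
      obtain ⟨j, hj⟩ := exists_npow h1
      rw [← hj, ← pow_mul, mul_comm, pow_mul]
      have : (u ^ 2 ^ n) ^ 2 = 1 := by
        have h := pow_orderOf_eq_one (u ^ 2 ^ n)
        rwa [h2] at h
      rw [this, one_pow]
    rw [← pow_mul] at h3
    have h4 := orderOf_dvd_of_pow_eq_one h3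
    have h5 : 2 ^ (n + 1) ∣ 2 ^ 2 := by rw [← hwo]; exact h4
    rw [Nat.pow_dvd_pow_iff_le_right (by norm_num)] at h5
    omega
  by_cases hall : ∀ M : Subgroup P, M.index = 2 → M ≠ zpowers u → ¬ IsCyclic M
  · have : Nat.card {M : Subgroup P // M.index = 2 ∧ IsCyclic M} = 1 := by
      rw [Nat.card_eq_one_iff_unique]
      refine ⟨⟨fun A B => Subtype.ext ?_⟩, ⟨⟨zpowers u, hi, hcy⟩⟩⟩
      have hA : A.1 = zpowers u := by
        by_contra hne; exact hall A.1 A.2.1 hne A.2.2
      have hB : B.1 = zpowers u := by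
        by_contra hne; exact hall B.1 B.2.1 hne B.2.2
      rw [hA, hB]
    rw [this]
    exact odd_one
  · push Not at hall
    obtain ⟨M0, hM0, hne0, hc0⟩ := hall
    obtain ⟨w, hwu, hwo, rfl⟩ := hgen M0 hM0 hne0 hc0
    -- all elements outside have the same square
    have hu4 : u ^ 4 = 1 := by
      have h1 := pow_orderOf_eq_one u
      rwa [hu] at h1
    have hinv : ∀ y, y ∉ zpowers u → y * u * y⁻¹ = u⁻¹ := by
      intro y hy
      rw [hact y hy]
      have e : (2 * (2 * c + 1) + 1 : ℤ) = 4 * (c + 1) + (-1) := by ring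
      rw [e, zpow_add, zpow_mul]
      have : u ^ (4 : ℤ) = 1 := by exact_mod_cast hu4
      rw [this, one_zpow, one_mul, zpow_neg_one]
    have hsq : ∀ y z, y ∉ zpowers u → z ∉ zpowers u → y * y = z * z := by
      intro y z hy hz
      have h1 : z⁻¹ * y ∈ zpowers u := by
        rw [mul_mem_iff_of_index_two hi, inv_mem_iff]
        exact ⟨fun h => absurd h hz, fun h => absurd h hy⟩
      obtain ⟨i, hii⟩ := mem_zpowers_iff.1 h1
      have h2 : y = z * u ^ i := by rw [hii]; group
      have h3 : z * u ^ i * z⁻¹ = u ^ (-i) := by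
        have := H23.conj_zpow_of (x := z) (u := u) (r := -1) (by rw [zpow_neg_one]; exact hinv z hz) i
        rwa [neg_one_mul] at this
      have h4 : z * u ^ i = u ^ (-i) * z := by rw [← h3]; group
      calc y * y = (z * u ^ i) * (z * u ^ i) := by rw [h2]
        _ = z * u ^ i * (u ^ (-i) * z) := by rw [← h4]
        _ = z * z := by rw [zpow_neg]; group
    have hsqw : ∀ y, y ∉ zpowers u → orderOf y = 4 := by
      intro y hy
      have h1 := hsq y w hy hwu
      have h2 : orderOf w = 2 ^ (1 + 1) := hwo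
      have h3 : orderOf (w ^ 2) = 2 ^ 1 := order_pp h2
      have h4 : y ^ 2 = w ^ 2 := by rw [pow_two, pow_two, h1]
      rw [← h4] at h3
      have := order_of_pow hP h3 le_rfl
      rw [this]
      norm_num
    have hallc : ∀ M : Subgroup P, M.index = 2 ∧ IsCyclic M ↔ M.index = 2 := by
      intro M
      refine ⟨fun h => h.1, fun hM => ⟨hM, ?_⟩⟩
      by_cases hne : M = zpowers u
      · rw [hne]; exact hcy
      · obtain ⟨g, hg, hgu⟩ := exists_out hm hM hi hne
        rw [Subgroup.isCyclic_iff_exists_zpowers_eq_top]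
        refine ⟨g, ?_⟩
        apply Subgroup.eq_of_le_of_card_ge
        · rwa [zpowers_le]
        · rw [Nat.card_zpowers, hsqw g hgu, card_eq_of_index hm hM]
          norm_num
    rw [Nat.card_congr (Equiv.subtypeEquivRight hallc)]
    obtain ⟨e, -, -, h2, -⟩ := Phi_index hP hnc
    have h3 : Nat.card {M : Subgroup P // M.index = 2} % 4 = 3 := h2
    rw [Nat.odd_iff]
    omega

theorem bad_all {n : ℕ} (h : H23.DQS P n) (hn2 : 2 ≤ n) (M : Subgroup P) (hM : M.index = 2) : Bad M := by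
  haveI : Fact (Nat.Prime 2) := ⟨Nat.prime_two⟩
  have hm : Nat.card P = 2 ^ (n + 1 + 1) := h.card
  have hP : IsPGroup 2 P := IsPGroup.of_card hm
  obtain ⟨hn, u, x, c, hu, hi, hx, hact, hxx⟩ := h.data
  by_cases hne : M = zpowers u
  · left
    rw [hne]
    exact (Subgroup.isCyclic_iff_exists_zpowers_eq_top _).2 ⟨u, rfl⟩
  right
  obtain ⟨y, hyM, hyu⟩ := exists_out hm hM hi hne
  have hu2 : u ^ 2 ∈ M := sq_mem_of_index_two hM u
  have hu2o : orderOf (u ^ 2) = 2 ^ n := order_pp hu
  set u' : M := ⟨u ^ 2, hu2⟩ with hu'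
  have hu'o : orderOf u' = 2 ^ n := by rw [← hu2o]; exact orderOf_mk _ _
  have hMc : Nat.card M = 2 ^ (n + 1) := card_eq_of_index hm hM
  have hi' : (zpowers u').index = 2 := index_of_card_eq hMc (by rw [Nat.card_zpowers, hu'o])
  -- the commutator
  have hcm : ⁅y, u ^ 2⁆ = (u ^ 4) ^ (2 * c + 1) := by
    have h1 := H23.conj_zpow_of (hact y hyu) 2
    rw [commutatorElement_def]
    have h2 : y * u ^ 2 * y⁻¹ = u ^ ((2 * (2 * c + 1) + 1) * 2) := by exact_mod_cast h1
    rw [h2]
    have e1 : (u ^ 2)⁻¹ = u ^ (-2 : ℤ) := by rw [zpow_neg]; norm_cast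
    have e2 : (u ^ 4) ^ (2 * c + 1) = u ^ (4 * (2 * c + 1)) := by rw [zpow_mul]; norm_cast
    rw [e1, ← zpow_add, e2]
    congr 1
    ring
  obtain ⟨n', rfl⟩ : ∃ n', n = n' + 2 := ⟨n - 2, by omega⟩
  have hu4o : orderOf (u ^ 4) = 2 ^ (n' + 1) := by
    have : u ^ 4 = (u ^ 2) ^ 2 := by rw [← pow_mul]
    rw [this]
    exact order_pp hu2o
  have hodd : ∀ k : ℕ, ((u ^ 4) ^ (2 * c + 1)) ^ k = 1 → 2 ^ (n' + 1) ∣ k := by
    intro k hk
    rw [← zpow_natCast, ← zpow_mul] at hk
    have h1 := orderOf_dvd_iff_zpow_eq_one.2 hk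
    rw [hu4o] at h1
    have h2 : IsCoprime ((2 ^ (n' + 1) : ℕ) : ℤ) (2 * c + 1) := by
      push_cast
      apply IsCoprime.pow_left
      exact ⟨-c, 1, by ring⟩
    exact Int.natCast_dvd_natCast.1 (h2.dvd_of_dvd_mul_left h1)
  have hne1 : ⁅y, u ^ 2⁆ ≠ 1 := by
    intro h1
    have := hodd 1 (by rw [← hcm, h1, one_pow])
    rw [Nat.dvd_one] at this
    exact absurd this (Nat.one_lt_pow (by omega) (by norm_num)).ne'
  have hna : ¬ IsMulCommutative M := by
    intro hc
    apply hne1
    rw [commutatorElement_eq_one_iff_mul_comm]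
    exact congrArg Subtype.val (hc.is_comm.comm ⟨y, hyM⟩ u')
  rcases H23.dqs_of_cyclic_index_two (hP.to_subgroup M) hna hi' with ⟨k, hk⟩ | ⟨h16, hc2⟩
  · exact ⟨k, hk⟩
  · exfalso
    have hmem : ⁅(⟨y, hyM⟩ : M), u'⁆ ∈ _root_.commutator M := commutator_mem_commutator (mem_top _) (mem_top _)
    have h1 := (central_of_small _ hmem hc2).2
    have h2 : ⁅y, u ^ 2⁆ ^ 2 = 1 := congrArg Subtype.val h1
    rw [hcm] at h2
    have h3 := hodd 2 h2
    have h4 : 2 ^ (n' + 1) ∣ 2 ^ 1 := h3
    rw [Nat.pow_dvd_pow_iff_le_right (by norm_num)] at h4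
    have h5 : n' = 0 := by omega
    rw [hMc, h5] at h16
    norm_num at h16

end Cfsg.Agent.H25.Kul
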