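import Cfsg.Agent.H25.Kul6

set_option autoImplicit false
set_option linter.unusedSectionVars false
set_option linter.unusedVariables false

namespace Cfsg.Agent.H25.Kul

open Subgroup Finset
open scoped commutatorElement

universe u

variable {P : Type u} [Group P] [Finite P]

theorem dqs_index {n : ℕ} (h : H23.DQS P n) : (_root_.commutator P).index = 4 := by
  haveI : Fact (Nat.Prime 2) := ⟨Nat.prime_two⟩
  have hm : Nat.card P = 2 ^ (n + 2) := h.card
  have hP : IsPGroup 2 P := IsPGroup.of_card hm
  haveI := hP.isNilpotent
  have hna : ¬ IsMulCommutative P := by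
    intro hc
    have h1 := h.nilpotencyClass
    letI : CommGroup P := { (inferInstance : Group P) with mul_comm := hc.is_comm.comm }
    have := CommGroup.nilpotencyClass_le_one (G := P)
    have := h.data.1
    omega
  apply H23.index_commutator_of_lcs (p := 2) hm hna
  intro hl
  have h1 := h.nilpotencyClass
  have h2 : Group.nilpotencyClass P ≤ n := by
    rw [Subgroup.lowerCentralSeries_eq_bot_iff_nilpotencyClass_le] at hl
    exact hl
  omega

theorem comm_card {M : Subgroup P} : Nat.card (_root_.commutator M) = Nat.card (⁅M, M⁆ : Subgroup P) := by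
  rw [← map_subtype_commutator]
  exact (card_map_of_injective M.subtype_injective).symm

theorem dqs_even {m : ℕ} (hm : Nat.card P = 2 ^ (m + 4)) (hb : ¬ Bad P) :
    Even (Nat.card {M : Subgroup P // M.index = 2 ∧ ∃ n, H23.DQS M n}) := by
  haveI : Fact (Nat.Prime 2) := ⟨Nat.prime_two⟩
  have hP : IsPGroup 2 P := IsPGroup.of_card hm
  have hnc : ¬ IsCyclic P := fun h => hb (Or.inl h)
  have hMc : ∀ M : Subgroup P, M.index = 2 → Nat.card M = 2 ^ (m + 3) := fun M hM => card_eq_of_index hm hM
  by_cases hex : ∃ M : Subgroup P, M.index = 2 ∧ ∃ n, H23.DQS M n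
  · obtain ⟨M0, hM0, n0, h0⟩ := hex
    have hn0 : n0 = m + 1 := by
      have h1 := h0.card
      rw [hMc M0 hM0] at h1
      have := Nat.pow_right_injective le_rfl h1
      omega
    -- D = M0'
    set D : Subgroup P := ⁅M0, M0⁆ with hD
    have hDc : Nat.card D = 2 ^ (m + 1) := by
      have h1 := card_mul_index (_root_.commutator M0)
      rw [dqs_index h0, hMc M0 hM0, comm_card] at h1
      have : 2 ^ (m + 3) = 2 ^ (m + 1) * 4 := by rw [pow_add, pow_add]; ring
      rw [this] at h1
      exact Nat.eq_of_mul_eq_mul_right (by norm_num) h1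
    have hDle : D ≤ _root_.commutator P := by
      rw [_root_.commutator_def]; exact commutator_mono le_top le_top
    have hDP : D = _root_.commutator P := by
      obtain ⟨k, hk⟩ := hP.index (_root_.commutator P)
      have h1 := card_mul_index (_root_.commutator P)
      have h2 := Subgroup.card_le_of_le hDle
      rw [hDc] at h2
      rw [hk, hm] at h1
      have hk3 : k ≤ 3 := by
        have h3 : 2 ^ (m + 1) * 2 ^ k ≤ 2 ^ (m + 4) := by rw [← h1]; exact Nat.mul_le_mul_right _ h2
        rw [← pow_add] at h3
        have := (Nat.pow_le_pow_iff_right (by norm_num : 1 < 2)).1 h3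
        omega
      have hk1 : ¬ k ≤ 1 := by
        intro hk1
        apply hnc
        apply H23.isCyclic_of_index_commutator_le hP
        rw [hk]
        calc 2 ^ k ≤ 2 ^ 1 := Nat.pow_le_pow_right (by norm_num) hk1
          _ = 2 := pow_one 2
      have hk2 : k ≠ 2 := by
        rintro rfl
        apply hb
        right
        exact H23.taussky _ P rfl hP (by
          rw [hm]
          calc 8 = 2 ^ 3 := by norm_num
            _ ≤ 2 ^ (m + 4) := Nat.pow_le_pow_right (by norm_num) (by omega)) hk
      have hk3' : k = 3 := by omega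
      subst hk3'
      apply Subgroup.eq_of_le_of_card_ge hDle
      rw [hDc]
      have : 2 ^ (m + 4) = 2 ^ (m + 1) * 2 ^ 3 := by rw [← pow_add]
      rw [this] at h1
      exact (Nat.eq_of_mul_eq_mul_right (by norm_num) h1).le
    haveI hDn : D.Normal := by rw [hDP]; infer_instance
    -- D is cyclic
    obtain ⟨hn, u, x, c, hu, hi, hx, hact, hxx⟩ := h0.data
    have hDu : D ≤ zpowers (u : P) := by
      have h1 : _root_.commutator M0 ≤ zpowers u := le_sup_left.trans (Phi_le (p := 2) (hP.to_subgroup M0) hi)
      rw [hD, ← map_subtype_commutator]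
      have h2 := Subgroup.map_mono (f := M0.subtype) h1
      rw [MonoidHom.map_zpowers] at h2
      exact h2
    have hDcyc : IsCyclic D := by
      haveI : IsCyclic (zpowers (u : P)) := (Subgroup.isCyclic_iff_exists_zpowers_eq_top _).2 ⟨_, rfl⟩
      exact isCyclic_of_injective (Subgroup.inclusion hDu) (Subgroup.inclusion_injective hDu)
    obtain ⟨d, hd⟩ := (Subgroup.isCyclic_iff_exists_zpowers_eq_top _).1 hDcyc
    have hdo : orderOf d = 2 ^ (m + 1) := by rw [← Nat.card_zpowers, hd, hDc]
    have hd2o : orderOf (d ^ 2) = 2 ^ m := order_pp hdo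
    set D2 : Subgroup P := zpowers (d ^ 2) with hD2
    have hD2D : D2 ≤ D := by rw [hD2, zpowers_le, ← hd]; exact pow_mem (mem_zpowers d) 2
    have hD2c : Nat.card D2 = 2 ^ m := by rw [Nat.card_zpowers, hd2o]
    haveI hD2n : D2.Normal := by
      constructor
      intro n hn g
      obtain ⟨j, rfl⟩ := exists_npow hn
      have h1 : g * d * g⁻¹ ∈ zpowers d := by rw [hd]; exact hDn.conj_mem d (hd ▸ mem_zpowers d) g
      obtain ⟨i, hi⟩ := exists_npow h1
      have h2 : ((d ^ i) ^ 2) ^ j = ((d ^ 2) ^ i) ^ j := by rw [pow_right_comm d i 2]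
      rw [← conj_pow, ← conj_pow, ← hi, h2]
      exact pow_mem (pow_mem (mem_zpowers _) _) _
    have hDD2 : ¬ D ≤ D2 := by
      intro h
      have := Subgroup.card_le_of_le h
      rw [hDc, hD2c] at this
      exact absurd this (not_le_of_gt (Nat.pow_lt_pow_right (by norm_num) (Nat.lt_succ_self m)))
    have hmax : ∀ X : Subgroup P, X ≤ D → ¬ X ≤ D2 → X = D := by
      intro X hX hX2
      obtain ⟨y, hyX, hy⟩ := SetLike.not_le_iff_exists.1 hX2
      obtain ⟨j, hj⟩ := exists_npow (x := d) (by rw [hd]; exact hX hyX)
      have hj2 : ¬ 2 ∣ j := by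
        rintro ⟨i, rfl⟩
        apply hy
        rw [← hj, pow_mul]
        exact pow_mem (mem_zpowers _) i
      have h1 : orderOf y = 2 ^ (m + 1) := by rw [← hj]; exact horder hdo hj2
      apply Subgroup.eq_of_le_of_card_ge hX
      rw [hDc, ← h1, ← Nat.card_zpowers]
      exact Subgroup.card_le_of_le (by rwa [zpowers_le])
    -- quotient
    set Q := P ⧸ D2 with hQ
    have hQc : Nat.card Q = 2 ^ 4 := by
      have h1 := card_mul_index D2
      rw [hD2c, hm, pow_add] at h1
      exact Nat.eq_of_mul_eq_mul_left (by positivity) h1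
    have hQP : IsPGroup 2 Q := IsPGroup.of_card hQc
    have hQcomm : Nat.card (_root_.commutator Q) = 2 := by
      have h1 : _root_.commutator Q = D.map (QuotientGroup.mk' D2) := by
        rw [hDP, _root_.commutator_def, _root_.commutator_def, map_commutator,
          map_top_of_surjective _ (QuotientGroup.mk'_surjective D2)]
      have h2 : (D.map (QuotientGroup.mk' D2)).index = D.index :=
        index_map_eq _ (QuotientGroup.mk'_surjective D2) (by rw [QuotientGroup.ker_mk']; exact hD2D)
      have h3 := card_mul_index (_root_.commutator Q)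
      have h4 := card_mul_index D
      rw [h1, h2, hQc] at h3
      rw [hDc, hm] at h4
      have h5 : D.index = 8 := by
        have : 2 ^ (m + 4) = 2 ^ (m + 1) * 8 := by rw [pow_add, pow_add]; ring
        rw [this] at h4
        exact Nat.eq_of_mul_eq_mul_left (by positivity) h4
      rw [h5] at h3
      rw [h1]
      omega
    have hZi : (center Q).index = 2 ^ 2 := H27.index_center_of_card_commutator 2 hQc hQcomm
    set Zr : Subgroup P := (center Q).comap (QuotientGroup.mk' D2) with hZr
    have hZri : Zr.index = 4 := by
      rw [hZr, index_comap_of_surjective _ (QuotientGroup.mk'_surjective D2), hZi]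
      norm_num
    have hZrt : Zr ≠ ⊤ := by
      intro h
      rw [h, index_top] at hZri
      norm_num at hZri
    have hZr2 : ∀ g, g ∈ Zr ↔ ∀ h : P, ⁅g, h⁆ ∈ D2 := by
      intro g
      rw [hZr, mem_comap, mem_center_iff]
      constructor
      · intro h k
        rw [← QuotientGroup.eq_one_iff]
        have h1 := h (QuotientGroup.mk' D2 k)
        show (QuotientGroup.mk g : P ⧸ D2) * QuotientGroup.mk k * (QuotientGroup.mk g)⁻¹ * (QuotientGroup.mk k)⁻¹ = 1
        have h2 : (QuotientGroup.mk k : P ⧸ D2) * QuotientGroup.mk g = QuotientGroup.mk g * QuotientGroup.mk k := h1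
        rw [← h2]; group
      · intro h k
        obtain ⟨k, rfl⟩ := QuotientGroup.mk_surjective k
        have h1 := (QuotientGroup.eq_one_iff (N := D2) _).2 (h k)
        have h2 : (QuotientGroup.mk g : P ⧸ D2) * QuotientGroup.mk k * (QuotientGroup.mk g)⁻¹ * (QuotientGroup.mk k)⁻¹ = 1 := h1
        show (QuotientGroup.mk k : P ⧸ D2) * QuotientGroup.mk g = QuotientGroup.mk g * QuotientGroup.mk k
        calc (QuotientGroup.mk k : P ⧸ D2) * QuotientGroup.mk g
            = ((QuotientGroup.mk g : P ⧸ D2) * QuotientGroup.mk k * (QuotientGroup.mk g)⁻¹ * (QuotientGroup.mk k)⁻¹)⁻¹ * (QuotientGroup.mk g * QuotientGroup.mk k) := by group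
          _ = _ := by rw [h2]; group
    -- the equivalence
    have hkey : ∀ M : Subgroup P, M.index = 2 → ((∃ n, H23.DQS M n) ↔ ¬ Zr ≤ M) := by
      intro M hM
      have hMD : ⁅M, M⁆ ≤ D := by
        rw [hDP, _root_.commutator_def]; exact commutator_mono le_top le_top
      have e1 : (∃ n, H23.DQS M n) ↔ ¬ ⁅M, M⁆ ≤ D2 := by
        constructor
        · rintro ⟨n, h⟩ hle
          have h1 := card_mul_index (_root_.commutator M)
          rw [dqs_index h, hMc M hM, comm_card] at h1
          have h2 : Nat.card (⁅M, M⁆ : Subgroup P) = 2 ^ (m + 1) := by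
            have : 2 ^ (m + 3) = 2 ^ (m + 1) * 4 := by rw [pow_add, pow_add]; ring
            rw [this] at h1
            exact Nat.eq_of_mul_eq_mul_right (by norm_num) h1
          have h3 := Subgroup.card_le_of_le hle
          rw [h2, hD2c] at h3
          exact absurd h3 (not_le_of_gt (Nat.pow_lt_pow_right (by norm_num) (Nat.lt_succ_self m)))
        · intro hle
          have h1 := hmax _ hMD hle
          have h2 := card_mul_index (_root_.commutator M)
          rw [comm_card, h1, hDc, hMc M hM] at h2
          have h3 : (_root_.commutator M).index = 4 := by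
            have : 2 ^ (m + 3) = 2 ^ (m + 1) * 4 := by rw [pow_add, pow_add]; ring
            rw [this] at h2
            exact Nat.eq_of_mul_eq_mul_left (by positivity) h2
          exact H23.taussky _ M rfl (hP.to_subgroup M) (by
            rw [hMc M hM]
            calc 8 = 2 ^ 3 := by norm_num
              _ ≤ 2 ^ (m + 3) := Nat.pow_le_pow_right (by norm_num) (by omega)) h3
      rw [e1, not_iff_not]
      constructor
      · intro hle
        by_contra hZM
        -- `M ⊔ Zr = ⊤`
        have h1 : M ⊔ Zr = ⊤ := by
          have h2 : M < M ⊔ Zr := left_lt_sup.2 hZM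
          exact (H2.isCoatom_of_index_prime (p := 2) hM).2 _ h2
        have h2 : M ≤ Zr := by
          intro g hg
          rw [hZr2]
          intro h
          have h3 : (⊤ : Subgroup P) ≤ (centralizer ({(QuotientGroup.mk g : P ⧸ D2)} : Set (P ⧸ D2))).comap (QuotientGroup.mk' D2) := by
            rw [← h1]
            apply sup_le
            · intro k hk
              rw [mem_comap, mem_centralizer_singleton_iff]
              have h4 := (QuotientGroup.eq_one_iff (N := D2) _).2 (hle (commutator_mem_commutator hk hg))
              have h5 : (QuotientGroup.mk k : P ⧸ D2) * QuotientGroup.mk g * (QuotientGroup.mk k)⁻¹ * (QuotientGroup.mk g)⁻¹ = 1 := h4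
              show (QuotientGroup.mk k : P ⧸ D2) * QuotientGroup.mk g = QuotientGroup.mk g * QuotientGroup.mk k
              calc (QuotientGroup.mk k : P ⧸ D2) * QuotientGroup.mk g
                  = ((QuotientGroup.mk k : P ⧸ D2) * QuotientGroup.mk g * (QuotientGroup.mk k)⁻¹ * (QuotientGroup.mk g)⁻¹) * (QuotientGroup.mk g * QuotientGroup.mk k) := by group
                _ = _ := by rw [h5, one_mul]
            · intro k hk
              rw [mem_comap, mem_centralizer_singleton_iff]
              exact (mem_center_iff.1 hk (QuotientGroup.mk g)).symm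
          have h4 := h3 (mem_top h)
          rw [mem_comap, mem_centralizer_singleton_iff] at h4
          have h5 : (QuotientGroup.mk h : P ⧸ D2) * QuotientGroup.mk g = QuotientGroup.mk g * QuotientGroup.mk h := h4
          rw [← QuotientGroup.eq_one_iff]
          show (QuotientGroup.mk g : P ⧸ D2) * QuotientGroup.mk h * (QuotientGroup.mk g)⁻¹ * (QuotientGroup.mk h)⁻¹ = 1
          rw [← h5]; group
        rw [sup_eq_right.2 h2] at h1
        exact hZrt h1
      · intro hZM
        -- `M / D2` is abelian
        set Mb := M.map (QuotientGroup.mk' D2) with hMb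
        have hD2M : D2 ≤ M := (hD2D.trans (hDP.le.trans (le_sup_left.trans (Phi_le (p := 2) hP hM))))
        have hZMb : center Q ≤ Mb := by
          have h1 := Subgroup.map_mono (f := QuotientGroup.mk' D2) hZM
          rwa [hZr, map_comap_eq_self_of_surjective (QuotientGroup.mk'_surjective D2)] at h1
        have hMbi : Mb.index = 2 := by
          rw [hMb, index_map_eq _ (QuotientGroup.mk'_surjective D2) (by rw [QuotientGroup.ker_mk']; exact hD2M), hM]
        have h1 : ((center Q).subgroupOf Mb).index ≤ 2 := by
          have h2 := relIndex_mul_index hZMb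
          rw [hMbi, hZi] at h2
          show (center Q).relIndex Mb ≤ 2
          omega
        have h2 : (center Q).subgroupOf Mb ≤ center Mb := by
          intro z hz
          rw [mem_center_iff]
          intro g
          exact Subtype.ext (mem_center_iff.1 (mem_subgroupOf.1 hz) g)
        have h3 := H23.isMulCommutative_of_central_index (hQP.to_subgroup Mb) h2 h1
        rw [commutator_le]
        intro a ha b hb
        rw [← QuotientGroup.eq_one_iff]
        have h4 : (QuotientGroup.mk a : P ⧸ D2) * QuotientGroup.mk b = QuotientGroup.mk b * QuotientGroup.mk a :=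
          congrArg Subtype.val (h3.is_comm.comm ⟨QuotientGroup.mk a, ⟨a, ha, rfl⟩⟩ ⟨QuotientGroup.mk b, ⟨b, hb, rfl⟩⟩)
        show (QuotientGroup.mk a : P ⧸ D2) * QuotientGroup.mk b * (QuotientGroup.mk a)⁻¹ * (QuotientGroup.mk b)⁻¹ = 1
        rw [h4]; group
    -- counting
    have hodd := A1' (p := 2) hP hZrt
    obtain ⟨e, -, -, h2, -⟩ := Phi_index hP hnc
    have h3 : Nat.card {M : Subgroup P // M.index = 2} % 4 = 3 := h2
    have h4 : Nat.card {M : Subgroup P // M.index = 2} = Nat.card {M : Subgroup P // Zr ≤ M ∧ M.index = 2} +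
        Nat.card {M : Subgroup P // M.index = 2 ∧ ∃ n, H23.DQS M n} := by
      classical
      haveI : Fintype (Subgroup P) := Fintype.ofFinite _
      rw [natCard_subtype, natCard_subtype, natCard_subtype,
        ← card_filter_add_card_filter_not (s := univ.filter (fun M : Subgroup P => M.index = 2)) (fun M => Zr ≤ M)]
      rw [filter_filter, filter_filter]
      congr 2
      · ext M
        simp only [mem_filter, mem_univ, true_and]
        tauto
      · ext M
        simp only [mem_filter, mem_univ, true_and]
        constructor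
        · rintro ⟨h1, h2⟩; exact ⟨h1, (hkey M h1).2 h2⟩
        · rintro ⟨h1, h2⟩; exact ⟨h1, (hkey M h1).1 h2⟩
    have h5 : Nat.card {M : Subgroup P // Zr ≤ M ∧ M.index = 2} % 2 = 1 := hodd
    rw [Nat.even_iff]
    omega
  · haveI : IsEmpty {M : Subgroup P // M.index = 2 ∧ ∃ n, H23.DQS M n} := ⟨fun M => hex ⟨M.1, M.2⟩⟩
    rw [Nat.card_of_isEmpty]
    exact Even.zero

end Cfsg.Agent.H25.Kul
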