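import Cfsg.Agent.H25.Kul7

set_option autoImplicit false
set_option linter.unusedSectionVars false
set_option linter.unusedVariables false

namespace Cfsg.Agent.H25.Kul

open Subgroup Finset
open scoped commutatorElement

universe u

theorem main_two (m : ℕ) : ∀ (P : Type u) [Group P] [Finite P], Nat.card P = 2 ^ m → ∀ a : ℕ, 1 ≤ a → a + 2 ≤ m →
    (Bad P → Nat.card {A : Subgroup P // Nat.card A = 2 ^ a} ≡ 1 [MOD 2 ^ 2]) ∧
    (¬ Bad P → Nat.card {A : Subgroup P // Nat.card A = 2 ^ a} ≡ 1 + 2 [MOD 2 ^ 2]) := by
  classical
  haveI : Fact (Nat.Prime 2) := ⟨Nat.prime_two⟩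
  induction m with
  | zero => intro P _ _ _ a _ h; omega
  | succ m ih =>
    intro P _ _ hm a ha1 ham
    have hP : IsPGroup 2 P := IsPGroup.of_card hm
    by_cases hc : IsCyclic P
    · refine ⟨fun _ => ?_, fun h => absurd (Or.inl hc) h⟩
      rw [card_cyclic hm (by omega)]
    have h3 := A3 hP hc hm ham
    have hS1 := card_S1 hP hc
    -- the predicate
    obtain ⟨B, hB1, hB2⟩ : ∃ B : Subgroup P → Prop, (a + 1 = m → ∀ M, B M ↔ IsCyclic M) ∧ (a + 1 ≠ m → ∀ M, B M ↔ Bad M) :=
      ⟨fun M => if a + 1 = m then IsCyclic M else Bad M, fun h M => by simp only [h, if_true], fun h M => by simp only [h, if_false]⟩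
    have hM : ∀ M ∈ S1 2 P, (cnt (2 ^ a) M + if B M then 2 else 0) ≡ 3 [MOD 2 ^ 2] := by
      intro M hM
      have hMc := card_eq_of_index hm (mem_S1.1 hM)
      rw [cnt_eq]
      by_cases ham' : a + 1 = m
      · have hBM := hB1 ham' M
        by_cases hcy : IsCyclic M
        · rw [if_pos (hBM.2 hcy), card_cyclic hMc (by omega)]
        · rw [if_neg (fun h => hcy (hBM.1 h)), add_zero]
          subst ham'
          exact cnt_max (hP.to_subgroup M) hcy hMc
      · have hBM := hB2 ham' M
        obtain ⟨h1, h2⟩ := ih M hMc a ha1 (by omega)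
        by_cases hcy : Bad M
        · rw [if_pos (hBM.2 hcy)]
          exact (h1 hcy).add_right 2
        · rw [if_neg (fun h => hcy (hBM.1 h)), add_zero]
          exact h2 hcy
    have h4 := modEq_sum _ _ (fun _ => 3) _ hM
    rw [sum_add_distrib, sum_const, smul_eq_mul, ← sum_filter, sum_const, smul_eq_mul] at h4
    set b := ((S1 2 P).filter (fun M : Subgroup P => B M)).card with hb
    have h5 : (cnt (2 ^ a) (⊤ : Subgroup P) + 2 + b * 2) % 4 = ((S1 2 P).card * 3) % 4 := (h3.add_right (b * 2)).symm.trans h4
    have h6 : (S1 2 P).card % 4 = 3 := hS1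
    rw [← cnt_top]
    have hnat : ∀ (Pr : Subgroup P → Prop), Nat.card {M : Subgroup P // M.index = 2 ∧ Pr M} = ((S1 2 P).filter (fun M => Pr M)).card := by
      intro Pr
      rw [card_fin]
      congr 1
      ext M
      simp only [Set.Finite.mem_toFinset, Set.mem_ofPred_eq, mem_filter, mem_S1]
    -- parity of b
    have hodd : Bad P → b % 2 = 1 := by
      rintro (h | ⟨n, h⟩)
      · exact absurd h hc
      · have hn : n + 2 = m + 1 := by
          have h1 := h.card
          rw [hm] at h1
          exact (Nat.pow_right_injective le_rfl h1).symm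
        by_cases ham' : a + 1 = m
        · have h7 := cyc_odd_dqs h
          rw [hnat, Nat.odd_iff] at h7
          rw [hb, ← h7]
          congr 2
          apply filter_congr
          intro M _
          exact hB1 ham' M
        · have h7 : (S1 2 P).filter (fun M : Subgroup P => B M) = S1 2 P := by
            apply filter_true_of_mem
            intro M hM
            exact (hB2 ham' M).2 (bad_all h (by omega) M (mem_S1.1 hM))
          rw [hb, h7]
          omega
    have heven : ¬ Bad P → b % 2 = 0 := by
      intro hbad
      by_cases ham' : a + 1 = m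
      · have h7 := cyc_even hm (by omega) hbad
        rw [hnat, Nat.even_iff] at h7
        rw [hb, ← h7]
        congr 2
        apply filter_congr
        intro M _
        exact hB1 ham' M
      · obtain ⟨m', hm'⟩ : ∃ m', m + 1 = m' + 4 := ⟨m - 3, by omega⟩
        have h7 := cyc_even hm (by omega) hbad
        have h8 := dqs_even (by rw [hm, hm']) hbad
        rw [hnat, Nat.even_iff] at h7 h8
        have h9 : b = ((S1 2 P).filter (fun M : Subgroup P => IsCyclic M)).card +
            ((S1 2 P).filter (fun M : Subgroup P => ∃ n, H23.DQS M n)).card := by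
          rw [hb, ← card_union_of_disjoint]
          · congr 1
            ext M
            rw [mem_union, mem_filter, mem_filter, mem_filter, hB2 ham' M, Bad]
            tauto
          · rw [disjoint_filter]
            rintro M _ h1 ⟨n, h2⟩
            exact not_cyclic_dqs h2 h1
        rw [h9]
        omega
    constructor
    · intro h
      have := hodd h
      show _ % 4 = 1 % 4
      omega
    · intro h
      have := heven h
      show _ % 4 = 3 % 4
      omega

end Cfsg.Agent.H25.Kul
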