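import Cfsg.Agent.H13.ActSemi
import Cfsg.Agent.H1.Coprime
import Cfsg.Agent.H7.KGV6
import Cfsg.Agent.H2.Frat
import Cfsg.Agent.H2.Maschke

/-!
# Maximal invariant subgroups under coprime action
-/

set_option autoImplicit false
set_option linter.style.haveILetI false
set_option linter.unusedVariables false

namespace Cfsg.Agent.H25.MaxInvC

open Cfsg Subgroup Cfsg.Agent.H13
open scoped commutatorElement

variable {A G : Type*} [Group A] [Finite A] [Group G] [Finite G] [MulDistribMulAction A G]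

theorem exists_inv_sylow (hcop : (Nat.card A).Coprime (Nat.card G))
    (hsol : Group.IsSolvable A ∨ Group.IsSolvable G) (p : ℕ) [Fact p.Prime] :
    ∃ P : Sylow p G, ∀ a : A, ∀ x ∈ (P : Subgroup G), a • x ∈ (P : Subgroup G) := by
  haveI : (gS A G).Normal := gS_normal A G
  have hc : (Nat.card (aS A G)).Coprime (Nat.card (gS A G)) := by rw [card_gS, card_aS]; exact hcop
  have hs : Group.IsSolvable (aS A G) ∨ Group.IsSolvable (gS A G) := by
    rcases hsol with h | h
    · left
      exact H1.isSolvable_of_equiv (MonoidHom.ofInjective (iA_injective A G)) h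
    · right
      exact H1.isSolvable_of_equiv (MonoidHom.ofInjective (iG_injective A G)) h
  obtain ⟨P, hP⟩ := H1.exists_invariant_sylow (aS A G) (gS A G) (aS_le A G) hc hs p
  set Q : Subgroup G := ((P : Subgroup (gS A G)).map (gS A G).subtype).comap (iG A G) with hQ
  have h1 : Q.map (iG A G) = (P : Subgroup (gS A G)).map (gS A G).subtype :=
    map_comap_iG (Subgroup.map_subtype_le _)
  have h2 : Nat.card Q = p ^ (Nat.card G).factorization p := by
    have h3 : Nat.card (Q.map (iG A G)) = Nat.card Q := Subgroup.card_map_of_injective (iG_injective A G)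
    rw [← h3, h1, Subgroup.card_map_of_injective (gS A G).subtype_injective, P.card_eq_multiplicity, card_gS]
  refine ⟨Sylow.ofCard Q h2, ?_⟩
  have h3 := (invariant_iff (A := A) Q).2 (by rw [h1]; exact hP)
  exact h3

theorem exists_maximal (H : Subgroup G) (h : H ≠ ⊤) (hi : ∀ a : A, ∀ x ∈ H, a • x ∈ H) :
    ∃ M : Subgroup G, H ≤ M ∧ M ≠ ⊤ ∧ (∀ a : A, ∀ x ∈ M, a • x ∈ M) ∧
      ∀ L : Subgroup G, M < L → (∀ a : A, ∀ x ∈ L, a • x ∈ L) → L = ⊤ := by
  have hfin : ({M : Subgroup G | M ≠ ⊤ ∧ ∀ a : A, ∀ x ∈ M, a • x ∈ M}).Finite := Set.toFinite _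
  obtain ⟨M, hHM, hM⟩ := hfin.exists_le_maximal (show H ∈ _ from ⟨h, hi⟩)
  refine ⟨M, hHM, hM.1.1, hM.1.2, ?_⟩
  intro L hL hLi
  by_contra hne
  exact (lt_irrefl _ (lt_of_lt_of_le hL (hM.2 ⟨hne, hLi⟩ hL.le)))

theorem conj_mem_of_comm_le {G : Type*} [Group G] {M : Subgroup G} (h : commutator G ≤ M) {x : G} (hx : x ∈ M) (g : G) :
    g * x * g⁻¹ ∈ M := by
  have h2 : g * x * g⁻¹ = ⁅g, x⁆ * x := by rw [commutatorElement_def]; group
  rw [h2]
  exact mul_mem (h (Subgroup.commutator_mem_commutator (Subgroup.mem_top _) (Subgroup.mem_top _))) hx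

theorem frattini_inv (a : A) {x : G} (hx : x ∈ frattini G) : a • x ∈ frattini G := by
  have h1 : (frattini G).Characteristic := inferInstance
  have h2 := Subgroup.characteristic_iff_map_le.1 h1 (MulDistribMulAction.toMulEquiv G a)
  exact h2 ⟨x, hx, rfl⟩

theorem sup_inv {H K : Subgroup G} (hH : ∀ a : A, ∀ x ∈ H, a • x ∈ H) (hK : ∀ a : A, ∀ x ∈ K, a • x ∈ K) :
    ∀ a : A, ∀ x ∈ H ⊔ K, a • x ∈ H ⊔ K := by
  intro a
  have h1 : H ⊔ K ≤ (H ⊔ K).comap (MulDistribMulAction.toMonoidHom G a) := by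
    apply sup_le
    · intro x hx
      exact Subgroup.mem_sup_left (hH a x hx)
    · intro x hx
      exact Subgroup.mem_sup_right (hK a x hx)
  intro x hx
  exact h1 hx

theorem frattini_le_of_maximal {M : Subgroup G} (hM : M ≠ ⊤) (hi : ∀ a : A, ∀ x ∈ M, a • x ∈ M)
    (hmax : ∀ L : Subgroup G, M < L → (∀ a : A, ∀ x ∈ L, a • x ∈ L) → L = ⊤) : frattini G ≤ M := by
  by_contra h
  have h1 : M < M ⊔ frattini G := lt_of_le_of_ne le_sup_left (fun e => h (by rw [e]; exact le_sup_right))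
  have h2 := hmax _ h1 (sup_inv hi (fun a x hx => frattini_inv a hx))
  exact hM (H2.eq_top_of_sup_frattini h2)

theorem exists_compl (hcop : (Nat.card A).Coprime (Nat.card G)) {p : ℕ} [hp : Fact p.Prime] (hG : IsPGroup p G)
    {L : Subgroup G} (hL : frattini G < L) (hi : ∀ a : A, ∀ x ∈ L, a • x ∈ L) :
    ∃ K : Subgroup G, K ≠ ⊤ ∧ (∀ a : A, ∀ x ∈ K, a • x ∈ K) ∧ L ⊔ K = ⊤ := by
  have hFn : ((frattini G).map (iG A G)).Normal := by
    rw [← Subgroup.normalizer_eq_top_iff, eq_top_iff, ← gS_sup_aS]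
    apply sup_le
    · rintro _ ⟨g, rfl⟩
      rw [Subgroup.mem_normalizer_iff]
      have hn : (frattini G).Normal := inferInstance
      intro x
      constructor
      · rintro ⟨y, hy, rfl⟩
        exact ⟨g * y * g⁻¹, hn.conj_mem y hy g, by simp⟩
      · rintro ⟨y, hy, hyx⟩
        refine ⟨g⁻¹ * y * g, by simpa using hn.conj_mem y hy g⁻¹, ?_⟩
        rw [map_mul, map_mul, hyx, map_inv]; group
    · exact (invariant_iff (A := A) (frattini G)).1 (fun a x hx => frattini_inv a hx)
  haveI := hFn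
  let q := QuotientGroup.mk' ((frattini G).map (iG A G))
  let f : G →* (SP A G ⧸ (frattini G).map (iG A G)) := q.comp (iG A G)
  have hker : f.ker = frattini G := by
    ext x
    rw [MonoidHom.mem_ker]
    show q (iG A G x) = 1 ↔ _
    rw [← MonoidHom.mem_ker, QuotientGroup.ker_mk', Subgroup.mem_map_iff_mem (iG_injective A G)]
  have hconj : ∀ (a : A) (x : G), q (iA A G a) * f x * (q (iA A G a))⁻¹ = f (a • x) := by
    intro a x
    show q (iA A G a) * q (iG A G x) * (q (iA A G a))⁻¹ = q (iG A G (a • x))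
    rw [← iA_mul_iG, map_mul, map_mul, map_inv]
  set V := f.range with hV
  set K := (aS A G).map q with hK
  set U := L.map f with hU
  have hVc : IsMulCommutative V := by
    constructor; constructor
    rintro ⟨_, x, rfl⟩ ⟨_, y, rfl⟩
    apply Subtype.ext
    show f x * f y = f y * f x
    have h1 : ⁅x, y⁆ ∈ frattini G := H2.commutator_le_frattini hG
      (Subgroup.commutator_mem_commutator (Subgroup.mem_top _) (Subgroup.mem_top _))
    rw [← hker, MonoidHom.mem_ker, map_commutatorElement, commutatorElement_eq_one_iff_mul_comm] at h1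
    exact h1
  have hVp : ∀ v ∈ V, v ^ p = 1 := by
    rintro _ ⟨x, rfl⟩
    have h1 := H2.pow_mem_frattini hG x
    rw [← hker, MonoidHom.mem_ker, map_pow] at h1
    exact h1
  have hUV : U ≤ V := by rintro _ ⟨x, _, rfl⟩; exact ⟨x, rfl⟩
  have hnorm : ∀ W : Subgroup G, (∀ a : A, ∀ x ∈ W, a • x ∈ W) → K ≤ normalizer ((W.map f : Subgroup _) : Set (SP A G ⧸ (frattini G).map (iG A G))) := by
    intro W hW
    refine H23.le_normalizer_of_conj_mem ?_
    rintro _ ⟨_, ⟨a, rfl⟩, rfl⟩ _ ⟨x, hx, rfl⟩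
    refine ⟨a • x, hW a x hx, (hconj a x).symm⟩
  have hKV : K ≤ normalizer (V : Set _) := by
    have := hnorm ⊤ (fun a x _ => Subgroup.mem_top _)
    rwa [← MonoidHom.range_eq_map] at this
  have hc : (Nat.card K).Coprime (Nat.card V) := by
    have h1 : Nat.card K ∣ Nat.card A := by
      rw [← card_aS A G]; exact Subgroup.card_map_dvd _ _
    have h2 : Nat.card V ∣ Nat.card G := Subgroup.card_range_dvd f
    exact Nat.Coprime.of_dvd h1 h2 hcop
  obtain ⟨T, hTV, hUT, hUT'⟩ := Cfsg.Agent.KGV.exists_compl_ea V U hVc p hVp hUV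
  obtain ⟨W, hWV, hKW, hUW, hUW'⟩ := H2.exists_invariant_complement V K U T hVc hKV hc hUV (hnorm L hi) hTV hUT hUT'
  have hWm : (W.comap f).map f = W := by
    rw [Subgroup.map_comap_eq]; exact inf_eq_right.2 hWV
  have hkW : f.ker ≤ W.comap f := by
    intro x hx
    rw [Subgroup.mem_comap, (MonoidHom.mem_ker).1 hx]; exact one_mem _
  refine ⟨W.comap f, ?_, ?_, ?_⟩
  · intro h
    rw [h, ← MonoidHom.range_eq_map] at hWm
    have h1 : U = ⊥ := by
      rw [← hUW, ← hWm]; exact (inf_eq_left.2 hUV).symm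
    have h2 : L ≤ f.ker := (Subgroup.map_eq_bot_iff _).1 h1
    rw [hker] at h2
    exact absurd hL (not_lt_of_ge h2)
  · intro a x hx
    rw [Subgroup.mem_comap] at hx ⊢
    rw [← hconj]
    exact H23.mem_normalizer_conj hKW ⟨_, ⟨a, rfl⟩, rfl⟩ hx
  · apply Subgroup.map_injective_of_ker_le f
    · exact hkW.trans le_sup_right
    · exact le_top
    · rw [Subgroup.map_sup, hWm, ← MonoidHom.range_eq_map]
      exact hUW'

end Cfsg.Agent.H25.MaxInvC
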