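import Mathlib

set_option autoImplicit false

namespace Cfsg.Agent.H25

variable {G : Type*} [Group G] [Finite G] {p : ℕ} [Fact p.Prime]

/-- The index of a subgroup containing the normalizer of a Sylow `p`-subgroup is `1` mod `p`. -/
theorem index_modEq_one_of_normalizer_le (P : Sylow p G) (M : Subgroup G)
    (hM : Subgroup.normalizer ((P : Subgroup G) : Set G) ≤ M) : M.index ≡ 1 [MOD p] := by
  have hPM : (P : Subgroup G) ≤ M := Subgroup.le_normalizer.trans hM
  let Q : Sylow p M := P.subtype hPM
  have h1 : Nat.card (Sylow p G) = (Subgroup.normalizer ((P : Subgroup G) : Set G)).index :=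
    P.card_eq_index_normalizer
  have h2 : Nat.card (Sylow p M) =
      (Subgroup.normalizer ((P : Subgroup G) : Set G)).relIndex M := by
    rw [Q.card_eq_index_normalizer, Subgroup.relIndex, Subgroup.subgroupOf_normalizer_eq hPM]
    rfl
  have h3 := Subgroup.relIndex_mul_index hM
  rw [← h1, ← h2] at h3
  have h4 := card_sylow_modEq_one p G
  have h5 := card_sylow_modEq_one p M
  rw [← h3] at h4
  calc M.index = 1 * M.index := (one_mul _).symm
    _ ≡ Nat.card (Sylow p M) * M.index [MOD p] := Nat.ModEq.mul_right _ h5.symm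
    _ ≡ 1 [MOD p] := h4

end Cfsg.Agent.H25
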