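import Cfsg.Agent.H25.MaxNorm
import Cfsg.Agent.H23.PSolvable
import Mathlib

/-!
# Groups all of whose maximal subgroups are `p`-nilpotent or of prime index (helper25)
-/

set_option autoImplicit false

open Subgroup Cfsg

namespace Cfsg.Agent.H25

theorem exists_tower (n : ℕ) : ∀ {G : Type*} [Group G] [Finite G], Nat.card G = n →
    (∀ M : Subgroup G, IsCoatom M → M.index.Prime) → ∀ m : ℕ,
    ∃ N : Subgroup G, N.Normal ∧ (∀ q : ℕ, q.Prime → q ∣ Nat.card N → m ≤ q) ∧
      (∀ q : ℕ, q.Prime → q ∣ N.index → q < m) := by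
  induction n using Nat.strong_induction_on with
  | _ n ih =>
    intro G _ _ hG hmax m
    by_cases hall : ∀ q : ℕ, q.Prime → q ∣ Nat.card G → q < m
    · refine ⟨⊥, inferInstance, ?_, ?_⟩
      · intro q hq h
        rw [Subgroup.card_bot] at h
        exact absurd (Nat.dvd_one.1 h) hq.one_lt.ne'
      · intro q hq h
        rw [Subgroup.index_bot] at h
        exact hall q hq h
    push Not at hall
    obtain ⟨q₀, hq₀, hq₀G, hmq₀⟩ := hall
    -- the largest prime divisor
    have hne : (Nat.card G).primeFactors.Nonempty :=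
      ⟨q₀, Nat.mem_primeFactors.2 ⟨hq₀, hq₀G, Nat.card_pos.ne'⟩⟩
    set q := (Nat.card G).primeFactors.max' hne with hq
    have hqmem := Finset.max'_mem _ hne
    rw [← hq, Nat.mem_primeFactors] at hqmem
    obtain ⟨hqp, hqG, -⟩ := hqmem
    have hqmax : ∀ r : ℕ, r.Prime → r ∣ Nat.card G → r ≤ q := fun r hr hrG =>
      Finset.le_max' _ _ (Nat.mem_primeFactors.2 ⟨hr, hrG, Nat.card_pos.ne'⟩)
    have hmq : m ≤ q := hmq₀.trans (hqmax q₀ hq₀ hq₀G)
    haveI : Fact q.Prime := ⟨hqp⟩
    obtain ⟨Q⟩ : Nonempty (Sylow q G) := inferInstance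
    haveI hQn : (Q : Subgroup G).Normal := by
      by_contra hcon
      have hne' : normalizer ((Q : Subgroup G) : Set G) ≠ ⊤ := fun h =>
        hcon (normalizer_eq_top_iff.1 h)
      obtain ⟨M, hM, hNM⟩ := (eq_top_or_exists_le_coatom _).resolve_left hne'
      have h1 := index_modEq_one_of_normalizer_le Q M hNM
      have h2 := hmax M hM
      have h3 := hqmax _ h2 (Subgroup.index_dvd_card M)
      have h4 : q ∣ M.index - 1 := (Nat.modEq_iff_dvd' h2.one_lt.le).1 h1.symm
      have h5 := Nat.le_of_dvd (by have := h2.two_le; omega) h4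
      have := h2.two_le
      omega
    have hQc : Nat.card (Q : Subgroup G) ≠ 1 := by
      intro h
      have h1 := Q.dvd_card_of_dvd_card hqG
      rw [h] at h1
      exact hqp.one_lt.ne' (Nat.dvd_one.1 h1)
    have hlt : Nat.card (G ⧸ (Q : Subgroup G)) < n := by
      rw [← hG, Subgroup.card_eq_card_quotient_mul_card_subgroup (Q : Subgroup G)]
      have h1 : 0 < Nat.card (G ⧸ (Q : Subgroup G)) := Nat.card_pos
      have h2 : 0 < Nat.card (Q : Subgroup G) := Nat.card_pos
      have h3 : 1 < Nat.card (Q : Subgroup G) := by omega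
      nlinarith
    have hmax' : ∀ M : Subgroup (G ⧸ (Q : Subgroup G)), IsCoatom M → M.index.Prime := by
      intro M hM
      have h1 : IsCoatom (M.comap (QuotientGroup.mk' (Q : Subgroup G))) :=
        Subgroup.isCoatom_comap_of_surjective (QuotientGroup.mk'_surjective _) hM
      have h2 := hmax _ h1
      rwa [Subgroup.index_comap_of_surjective _ (QuotientGroup.mk'_surjective _)] at h2
    obtain ⟨N, hN, h1, h2⟩ := ih _ hlt rfl hmax' m
    refine ⟨N.comap (QuotientGroup.mk' (Q : Subgroup G)), hN.comap _, ?_, ?_⟩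
    · intro r hr h
      rw [H23.card_comap_mk'] at h
      rcases hr.dvd_mul.1 h with h | h
      · obtain ⟨k, hk⟩ := IsPGroup.iff_card.1 Q.isPGroup'
        rw [hk] at h
        rw [(Nat.prime_dvd_prime_iff_eq hr hqp).1 (hr.dvd_of_dvd_pow h)]
        exact hmq
      · exact h1 r hr h
    · intro r hr h
      rw [Subgroup.index_comap_of_surjective _ (QuotientGroup.mk'_surjective _)] at h
      exact h2 r hr h

/-- The chain attached to a `p`-nilpotent maximal subgroup. -/
theorem chain_of_coatom {G : Type*} [Group G] [Finite G] (p : ℕ) [hp : Fact p.Prime]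
    (hG : IsPSolvable p G) (M : Subgroup G) (hM : IsCoatom M)
    (hK : ∃ K : Subgroup ↥M, K.Normal ∧ ¬ p ∣ Nat.card K ∧ ∃ k : ℕ, K.index = p ^ k) :
    ∃ A B C : Subgroup G, A.Normal ∧ B.Normal ∧ C.Normal ∧ A ≤ B ∧ B ≤ C ∧
      ¬ p ∣ Nat.card A ∧ (∃ k : ℕ, A.relIndex B = p ^ k) ∧ ¬ p ∣ B.relIndex C ∧
      ∃ k : ℕ, C.index = p ^ k := by
  obtain ⟨K, hKn, hKp, k, hKi⟩ := hK
  set K' : Subgroup G := K.map M.subtype with hK'
  have hK'M : K' ≤ M := Subgroup.map_subtype_le K
  have hKK' : K'.subgroupOf M = K := Subgroup.comap_map_eq_self_of_injective M.subtype_injective K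
  have hcard : Nat.card K' = Nat.card K := Subgroup.card_map_of_injective M.subtype_injective
  have hK'p : ¬ p ∣ Nat.card K' := by rw [hcard]; exact hKp
  have hrel : K'.relIndex M = p ^ k := by rw [Subgroup.relIndex, hKK', hKi]
  -- `p'`-elements of `M` lie in `K'`
  have hmem : ∀ x ∈ M, ¬ p ∣ orderOf x → x ∈ K' := by
    intro x hx hox
    haveI := hKn
    have h1 : orderOf ((⟨x, hx⟩ : M) : M ⧸ K) ∣ p ^ k := by
      rw [← hKi, Subgroup.index_eq_card]; exact orderOf_dvd_natCard _
    have h2 : orderOf ((⟨x, hx⟩ : M) : M ⧸ K) ∣ orderOf (⟨x, hx⟩ : M) :=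
      orderOf_map_dvd (QuotientGroup.mk' K) _
    rw [Subgroup.orderOf_mk] at h2
    obtain ⟨j, _, hj⟩ := (Nat.dvd_prime_pow hp.out).1 h1
    have hj0 : j = 0 := by
      by_contra hne
      apply hox
      rw [hj] at h2
      exact (dvd_pow_self p hne).trans h2
    rw [hj0, pow_zero, orderOf_eq_one_iff, QuotientGroup.eq_one_iff] at hj
    exact ⟨⟨x, hx⟩, hj, rfl⟩
  have hordK : ∀ x ∈ K', ¬ p ∣ orderOf x := by
    intro x hx h
    have h1 : orderOf (⟨x, hx⟩ : K') ∣ Nat.card K' := orderOf_dvd_natCard _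
    rw [Subgroup.orderOf_mk] at h1
    exact hK'p (h.trans h1)
  have hord_conj : ∀ g x : G, orderOf (g * x * g⁻¹) = orderOf x := fun g x =>
    orderOf_injective (MulAut.conj g).toMonoidHom (MulAut.conj g).injective x
  set N := M.normalCore with hN
  have hNM : N ≤ M := Subgroup.normalCore_le M
  haveI hNn : N.Normal := Subgroup.normalCore_normal M
  have hNtop : N < ⊤ := lt_of_le_of_ne le_top fun h => hM.1 (top_le_iff.1 (h ▸ hNM))
  obtain ⟨H, hH, hNH, -, hfac⟩ := H23.exists_normal_factor hG N ⊤ hNtop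
  -- `G = M H`
  have hHM : ¬ H ≤ M := fun h => hNH.not_ge (Subgroup.normal_le_normalCore.2 h)
  have hsup : M ⊔ H = ⊤ := by
    rcases eq_or_ne (M ⊔ H) ⊤ with h | h
    · exact h
    · exfalso
      have : M ⊔ H = M := by
        by_contra hne
        exact h (hM.2 _ (lt_of_le_of_ne le_sup_left (Ne.symm hne)))
      exact hHM (this ▸ le_sup_right)
  set A := K' ⊓ N with hA
  have hAn : A.Normal := by
    constructor
    intro a ha g
    have h1 : g * a * g⁻¹ ∈ N := hNn.conj_mem a ha.2 g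
    exact ⟨hmem _ (hNM h1) (by rw [hord_conj]; exact hordK a ha.1), h1⟩
  set C := K' ⊔ H with hC
  have hCn : C.Normal := by
    constructor
    intro c hc g
    have hg : g ∈ M ⊔ H := by rw [hsup]; trivial
    obtain ⟨m, hm, h, hh, rfl⟩ := Subgroup.mem_sup_of_normal_right.1 hg
    have hhC : h ∈ C := (le_sup_right : H ≤ C) hh
    have h1 : h * c * h⁻¹ ∈ C := mul_mem (mul_mem hhC hc) (inv_mem hhC)
    obtain ⟨x, hx, y, hy, hxy⟩ := Subgroup.mem_sup_of_normal_right.1 h1
    have h2 : m * h * c * (m * h)⁻¹ = (m * x * m⁻¹) * (m * y * m⁻¹) := by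
      calc m * h * c * (m * h)⁻¹ = m * (h * c * h⁻¹) * m⁻¹ := by group
        _ = m * (x * y) * m⁻¹ := by rw [hxy]
        _ = _ := by group
    rw [h2]
    refine mul_mem ((le_sup_left : K' ≤ C) ?_) ((le_sup_right : H ≤ C) (hH.conj_mem y hy m))
    exact hmem _ (mul_mem (mul_mem hm (hK'M hx)) (inv_mem hm)) (by
      rw [hord_conj]; exact hordK x hx)
  -- the indices
  have hAp : ¬ p ∣ Nat.card A := fun h => hK'p (h.trans (Subgroup.card_dvd_of_le inf_le_left))
  have hAN : ∃ j : ℕ, A.relIndex N = p ^ j := by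
    have h1 : A.relIndex N = K'.relIndex N := Subgroup.inf_relIndex_right K' N
    have h2 : K.relIndex (N.subgroupOf M) = K'.relIndex N := by
      rw [← hKK']; exact Subgroup.relIndex_subgroupOf hNM
    have h3 : K.relIndex (N.subgroupOf M) ∣ K.index := by
      haveI := hKn
      exact Subgroup.relIndex_dvd_index_of_normal K _
    rw [h2, hKi, ← h1] at h3
    obtain ⟨j, -, hj⟩ := (Nat.dvd_prime_pow hp.out).1 h3
    exact ⟨j, hj⟩
  have hCi : ∃ j : ℕ, C.index = p ^ j := by
    have h1 : C ⊔ M = ⊤ := by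
      rw [eq_top_iff, ← hsup]
      exact sup_le le_sup_right ((le_sup_right : H ≤ C).trans le_sup_left)
    have h2 : C.index = C.relIndex M := by
      rw [← Subgroup.relIndex_top_right, ← h1, sup_comm, Subgroup.relIndex_sup_right]
    have h3 : C.relIndex M ∣ K'.relIndex M := Subgroup.relIndex_dvd_of_le_left M le_sup_left
    rw [hrel, ← h2] at h3
    obtain ⟨j, -, hj⟩ := (Nat.dvd_prime_pow hp.out).1 h3
    exact ⟨j, hj⟩
  have hHC : ¬ p ∣ H.relIndex C := by
    have h1 : H.relIndex C = H.relIndex K' := by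
      rw [hC, Subgroup.relIndex_sup_right]
    rw [h1]
    exact fun h => hK'p (h.trans (Subgroup.relIndex_dvd_card _ _))
  rcases hfac with ⟨m, hm⟩ | hcop
  · refine ⟨A, H, C, hAn, hH, hCn, inf_le_right.trans hNH.le, le_sup_right, hAp, ?_, hHC, hCi⟩
    obtain ⟨j, hj⟩ := hAN
    refine ⟨j + m, ?_⟩
    rw [← Subgroup.relIndex_mul_relIndex A N H inf_le_right hNH.le, hj, hm, pow_add]
  · refine ⟨A, N, C, hAn, hNn, hCn, inf_le_right, hNH.le.trans le_sup_right, hAp, hAN, ?_, hCi⟩
    rw [← Subgroup.relIndex_mul_relIndex N H C hNH.le le_sup_right]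
    intro h
    rcases hp.out.dvd_mul.1 h with h | h
    · have h1 := Nat.dvd_gcd h (dvd_refl p)
      rw [Nat.Coprime.gcd_eq_one hcop] at h1
      exact hp.out.one_lt.ne' (Nat.dvd_one.1 h1)
    · exact hHC h

end Cfsg.Agent.H25
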