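import Mathlib

/-!
# Counting solutions of `x ^ d = 1`: the order type of a finite group (helper25)
-/

set_option autoImplicit false

namespace Cfsg.Agent.H25.OT

/-- The number of solutions of `x ^ d = 1`. -/
noncomputable def Nd (X : Type) [Group X] (d : ℕ) : ℕ := Nat.card {x : X // x ^ d = 1}

theorem Nd_prod (X Y : Type) [Group X] [Group Y] (d : ℕ) : Nd (X × Y) d = Nd X d * Nd Y d := by
  unfold Nd
  rw [← Nat.card_prod]
  refine Nat.card_congr (Equiv.trans (Equiv.subtypeEquivRight ?_)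
    (Equiv.subtypeProdEquivProd (p := fun x : X => x ^ d = 1) (q := fun y : Y => y ^ d = 1)))
  intro x
  rw [Prod.ext_iff]; rfl

theorem Nd_pi (X : Type) [Group X] [Finite X] (k d : ℕ) : Nd (Fin k → X) d = Nd X d ^ k := by
  unfold Nd
  have h : Nat.card {x : Fin k → X // x ^ d = 1} = Nat.card (Fin k → {x : X // x ^ d = 1}) := by
    refine Nat.card_congr (Equiv.trans (Equiv.subtypeEquivRight ?_)
      (Equiv.subtypePiEquivPi (p := fun _ (x : X) => x ^ d = 1)))
    intro x
    rw [funext_iff]; rfl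
  rw [h, Nat.card_fun]
  simp

theorem Nd_gcd {X : Type} [Group X] {e : ℕ} (he : ∀ x : X, x ^ e = 1) (d : ℕ) :
    Nd X d = Nd X (Nat.gcd d e) := by
  unfold Nd
  refine Nat.card_congr (Equiv.subtypeEquivRight ?_)
  intro x
  constructor
  · intro h
    have h1 : orderOf x ∣ Nat.gcd d e :=
      Nat.dvd_gcd (orderOf_dvd_of_pow_eq_one h) (orderOf_dvd_of_pow_eq_one (he x))
    exact orderOf_dvd_iff_pow_eq_one.1 h1
  · intro h
    exact orderOf_dvd_iff_pow_eq_one.1
      ((orderOf_dvd_of_pow_eq_one h).trans (Nat.gcd_dvd_left d e))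

theorem Nd_eq_sum (X : Type) [Group X] [Finite X] {n : ℕ} (hn : n ≠ 0) :
    Nd X n = ∑ m ∈ n.divisors, Nat.card {x : X // orderOf x = m} := by
  classical
  haveI := Fintype.ofFinite X
  have h := sum_card_orderOf_eq_card_pow_eq_one (G := X) hn
  unfold Nd
  rw [Nat.card_eq_fintype_card, Fintype.card_subtype, ← h]
  refine Finset.sum_congr rfl fun m _ => ?_
  rw [Nat.card_eq_fintype_card, Fintype.card_subtype]

theorem card_order_eq {G H : Type} [Group G] [Finite G] [Group H] [Finite H]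
    (h : ∀ d : ℕ, Nd G d = Nd H d) (n : ℕ) :
    Nat.card {g : G // orderOf g = n} = Nat.card {h : H // orderOf h = n} := by
  induction n using Nat.strong_induction_on with
  | _ n ih =>
    rcases Nat.eq_zero_or_pos n with h0 | hpos
    · subst h0
      have e1 : IsEmpty {g : G // orderOf g = 0} := ⟨fun g => (orderOf_pos g.1).ne' g.2⟩
      have e2 : IsEmpty {g : H // orderOf g = 0} := ⟨fun g => (orderOf_pos g.1).ne' g.2⟩
      rw [Nat.card_of_isEmpty, Nat.card_of_isEmpty]
    · have h1 := h n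
      rw [Nd_eq_sum G hpos.ne', Nd_eq_sum H hpos.ne', ← Nat.cons_self_properDivisors hpos.ne',
        Finset.sum_cons, Finset.sum_cons] at h1
      have h2 : ∑ m ∈ n.properDivisors, Nat.card {g : G // orderOf g = m} =
          ∑ m ∈ n.properDivisors, Nat.card {h : H // orderOf h = m} :=
        Finset.sum_congr rfl fun m hm => ih m (Nat.mem_properDivisors.1 hm).2
      omega

/-- A group has table `t` (values of `Nd` at the divisors of `84`). -/
def Tab (X : Type) [Group X] (t : ℕ → ℕ) : Prop :=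
  (∀ x : X, x ^ 84 = 1) ∧ ∀ d ∈ Nat.divisors 84, Nd X d = t d

theorem Tab.prod {X Y : Type} [Group X] [Group Y] {s t : ℕ → ℕ} (hX : Tab X s) (hY : Tab Y t) :
    Tab (X × Y) (fun d => s d * t d) :=
  ⟨fun x => Prod.ext (hX.1 x.1) (hY.1 x.2), fun d hd => by
    rw [Nd_prod, hX.2 d hd, hY.2 d hd]⟩

theorem Tab.pi {X : Type} [Group X] [Finite X] {t : ℕ → ℕ} (hX : Tab X t) (k : ℕ) :
    Tab (Fin k → X) (fun d => t d ^ k) :=
  ⟨fun x => funext fun i => hX.1 (x i), fun d hd => by
    rw [Nd_pi, hX.2 d hd]⟩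

theorem card_order_eq_of_tab {G H : Type} [Group G] [Finite G] [Group H] [Finite H]
    {s t : ℕ → ℕ} (hG : Tab G s) (hH : Tab H t) (hst : ∀ d ∈ Nat.divisors 84, s d = t d) (n : ℕ) :
    Nat.card {g : G // orderOf g = n} = Nat.card {h : H // orderOf h = n} := by
  refine card_order_eq (fun d => ?_) n
  have hd : Nat.gcd d 84 ∈ Nat.divisors 84 :=
    Nat.mem_divisors.2 ⟨Nat.gcd_dvd_right _ _, by norm_num⟩
  rw [Nd_gcd hG.1, Nd_gcd hH.1, hG.2 _ hd, hH.2 _ hd, hst _ hd]

/-! ### Semidirect products -/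

/-- The semidirect product of an additive group `V` by `H` acting through `φ`. -/
@[ext]
structure Sv (V : Type) [AddCommGroup V] (H : Type) [Group H] (φ : H →* AddMonoid.End V) where
  a : V
  h : H

namespace Sv

variable {V : Type} [AddCommGroup V] {H : Type} [Group H] {φ : H →* AddMonoid.End V}

theorem φ_mul (x y : H) (v : V) : φ (x * y) v = φ x (φ y v) := by rw [map_mul]; rfl

theorem φ_one (v : V) : φ 1 v = v := by rw [map_one]; rfl

instance : Mul (Sv V H φ) := ⟨fun x y => ⟨x.a + φ x.h y.a, x.h * y.h⟩⟩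
instance : One (Sv V H φ) := ⟨⟨0, 1⟩⟩
instance : Inv (Sv V H φ) := ⟨fun x => ⟨-(φ x.h⁻¹ x.a), x.h⁻¹⟩⟩

@[simp] theorem mul_a (x y : Sv V H φ) : (x * y).a = x.a + φ x.h y.a := rfl
@[simp] theorem mul_h (x y : Sv V H φ) : (x * y).h = x.h * y.h := rfl
@[simp] theorem one_a : (1 : Sv V H φ).a = 0 := rfl
@[simp] theorem one_h : (1 : Sv V H φ).h = 1 := rfl
@[simp] theorem inv_a (x : Sv V H φ) : (x⁻¹).a = -(φ x.h⁻¹ x.a) := rfl
@[simp] theorem inv_h (x : Sv V H φ) : (x⁻¹).h = x.h⁻¹ := rfl

instance : Group (Sv V H φ) := Group.ofLeftAxioms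
  (fun x y z => by
    ext
    · simp only [mul_a, mul_h, map_add, φ_mul]; abel
    · simp only [mul_h, mul_assoc])
  (fun x => by
    ext
    · simp only [mul_a, one_a, one_h, φ_one, zero_add]
    · simp only [mul_h, one_h, one_mul])
  (fun x => by
    ext
    · simp only [mul_a, inv_a, inv_h, one_a]; abel
    · simp only [mul_h, inv_h, one_h, inv_mul_cancel])

/-- As a set it is the product. -/
def equivProd : Sv V H φ ≃ V × H where
  toFun x := (x.a, x.h)
  invFun x := ⟨x.1, x.2⟩
  left_inv _ := rfl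
  right_inv _ := rfl

instance [Finite V] [Finite H] : Finite (Sv V H φ) := Finite.of_equiv _ equivProd.symm
instance [Fintype V] [Fintype H] : Fintype (Sv V H φ) := Fintype.ofEquiv _ equivProd.symm
instance [DecidableEq V] [DecidableEq H] : DecidableEq (Sv V H φ) := fun x y =>
  decidable_of_iff (x.a = y.a ∧ x.h = y.h) (Sv.ext_iff).symm

/-- The projection. -/
def proj : Sv V H φ →* H where
  toFun x := x.h
  map_one' := rfl
  map_mul' _ _ := rfl

theorem pow_h (x : Sv V H φ) (n : ℕ) : (x ^ n).h = x.h ^ n := map_pow proj x n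

theorem pow_a (x : Sv V H φ) (n : ℕ) : (x ^ n).a = ∑ i ∈ Finset.range n, φ (x.h ^ i) x.a := by
  induction n with
  | zero => simp
  | succ n ih => rw [pow_succ, mul_a, ih, pow_h, Finset.sum_range_succ]

theorem isSolvable (hH : Group.IsSolvable H) : Group.IsSolvable (Sv V H φ) := by
  let f : Multiplicative V →* Sv V H φ :=
    { toFun := fun v => ⟨v.toAdd, 1⟩
      map_one' := rfl
      map_mul' := fun v w => by
        ext
        · simp [φ_one]
        · simp }
  refine Group.isSolvable_of_ker_le_range f (proj (φ := φ)) ?_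
  intro x hx
  have h1 : x.h = 1 := hx
  exact ⟨Multiplicative.ofAdd x.a, by ext <;> simp [f, h1]⟩

end Sv

end Cfsg.Agent.H25.OT
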