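import Cfsg.Agent.H25.OrdType

/-!
# Semidirect products `ZMod r ⋊ H` for a prime `r` (helper25)
-/

set_option autoImplicit false

namespace Cfsg.Agent.H25.OT

open Finset

/-- Multiplication by a character. -/
def mulChar (r : ℕ) {H : Type} [Group H] (χ : H →* ZMod r) : H →* AddMonoid.End (ZMod r) :=
  (Module.toAddMonoidEnd (ZMod r) (ZMod r)).toMonoidHom.comp χ

theorem mulChar_apply (r : ℕ) {H : Type} [Group H] (χ : H →* ZMod r) (h : H) (a : ZMod r) :
    mulChar r χ h a = χ h * a := rfl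

/-- `ZMod r ⋊ H`. -/
abbrev Sd (r : ℕ) (H : Type) [Group H] (χ : H →* ZMod r) : Type := Sv (ZMod r) H (mulChar r χ)

theorem Sd_pow_eq_one (r : ℕ) {H : Type} [Group H] (χ : H →* ZMod r) (x : Sd r H χ) (d : ℕ) :
    x ^ d = 1 ↔ x.h ^ d = 1 ∧ (∑ i ∈ range d, χ x.h ^ i) * x.a = 0 := by
  rw [Sv.ext_iff, Sv.pow_h, Sv.pow_a, and_comm]
  have : ∑ i ∈ range d, mulChar r χ (x.h ^ i) x.a = (∑ i ∈ range d, χ x.h ^ i) * x.a := by
    rw [Finset.sum_mul]
    refine Finset.sum_congr rfl fun i _ => ?_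
    rw [mulChar_apply, map_pow]
  rw [this]; rfl

theorem Nd_Sd (r : ℕ) [hr : Fact r.Prime] {H : Type} [Group H] [Fintype H] [DecidableEq H]
    (χ : H →* ZMod r) (d : ℕ) :
    Nd (Sd r H χ) d = (univ.filter (fun h : H => h ^ d = 1 ∧ χ h = 1)).card *
        (if r ∣ d then r else 1) +
      (univ.filter (fun h : H => h ^ d = 1 ∧ χ h ≠ 1)).card * r := by
  classical
  have h0 : Nd (Sd r H χ) d = (univ.filter (fun p : ZMod r × H =>
      p.2 ^ d = 1 ∧ (∑ i ∈ range d, χ p.2 ^ i) * p.1 = 0)).card := by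
    unfold Nd
    rw [← Fintype.card_subtype, ← Nat.card_eq_fintype_card]
    refine Nat.card_congr (Equiv.subtypeEquiv Sv.equivProd ?_)
    intro x
    rw [Sd_pow_eq_one]; rfl
  rw [h0, Finset.card_filter, Fintype.sum_prod_type_right]
  have h1 : ∀ h : H, (∑ a : ZMod r, if h ^ d = 1 ∧ (∑ i ∈ range d, χ h ^ i) * a = 0 then 1 else 0) =
      (if h ^ d = 1 ∧ χ h = 1 then (if r ∣ d then r else 1) else 0) +
      (if h ^ d = 1 ∧ χ h ≠ 1 then r else 0) := by
    intro h
    by_cases hd : h ^ d = 1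
    · by_cases hχ : χ h = 1
      · simp only [hd, hχ, true_and, one_pow, sum_const, card_range, nsmul_eq_mul, mul_one,
          if_true, ne_eq, not_true, and_false, if_false, add_zero]
        by_cases hrd : r ∣ d
        · have : (d : ZMod r) = 0 := (ZMod.natCast_eq_zero_iff d r).2 hrd
          simp [this, hrd, ZMod.card]
        · have : (d : ZMod r) ≠ 0 := fun h => hrd ((ZMod.natCast_eq_zero_iff d r).1 h)
          simp [this, hrd]
      · have hs : (∑ i ∈ range d, χ h ^ i) = 0 := by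
          have h2 := geom_sum_mul (χ h) d
          rw [← map_pow, hd, map_one, sub_self] at h2
          exact (mul_eq_zero.1 h2).resolve_right (sub_ne_zero.2 hχ)
        simp [hd, hχ, hs, ZMod.card]
    · simp [hd]
  simp only [h1, sum_add_distrib]
  rw [← Finset.sum_filter, ← Finset.sum_filter, sum_const, sum_const, smul_eq_mul, smul_eq_mul]

end Cfsg.Agent.H25.OT
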