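import Cfsg.Agent.H25.OrdType2

/-!
# The factors used for the order type example (helper25)
-/

set_option autoImplicit false
set_option maxRecDepth 100000

namespace Cfsg.Agent.H25.OT

open Finset

/-- Table lookup. -/
def tb (l : List ℕ) (d : ℕ) : ℕ :=
  (([1, 2, 3, 4, 6, 7, 12, 14, 21, 28, 42, 84].zip l).lookup d).getD 0

theorem all_of_Nd {X : Type} [Group X] [Finite X] {e : ℕ} (h : Nd X e = Nat.card X) (x : X) :
    x ^ e = 1 := by
  by_contra hx
  have h1 : Nat.card {x : X // x ^ e = 1} < Nat.card X := Finite.card_subtype_lt hx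
  unfold Nd at h
  omega

theorem Tab.mk' {X : Type} [Group X] [Finite X] {t : ℕ → ℕ} (h : ∀ d ∈ Nat.divisors 84, Nd X d = t d)
    (hc : Nat.card X = t 84) : Tab X t :=
  ⟨all_of_Nd (by rw [h 84 (by decide), hc]), h⟩

theorem Nd_eq_filter (X : Type) [Group X] [Fintype X] [DecidableEq X] (d : ℕ) :
    Nd X d = (univ.filter (fun x : X => x ^ d = 1)).card := by
  unfold Nd
  rw [Nat.card_eq_fintype_card, Fintype.card_subtype]

theorem Tab.ofFilter {X : Type} [Group X] [Fintype X] [DecidableEq X] {t : ℕ → ℕ}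
    (h : ∀ d ∈ Nat.divisors 84, (univ.filter (fun x : X => x ^ d = 1)).card = t d)
    (hc : Fintype.card X = t 84) : Tab X t :=
  Tab.mk' (fun d hd => by rw [Nd_eq_filter, h d hd]) (by rw [Nat.card_eq_fintype_card, hc])

theorem Tab.ofSd {r : ℕ} [Fact r.Prime] {H : Type} [Group H] [Fintype H] [DecidableEq H]
    {χ : H →* ZMod r} {t : ℕ → ℕ}
    (h : ∀ d ∈ Nat.divisors 84, (univ.filter (fun h : H => h ^ d = 1 ∧ χ h = 1)).card *
        (if r ∣ d then r else 1) +
      (univ.filter (fun h : H => h ^ d = 1 ∧ χ h ≠ 1)).card * r = t d)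
    (hc : r * Fintype.card H = t 84) : Tab (Sd r H χ) t :=
  Tab.mk' (fun d hd => by rw [Nd_Sd, h d hd]) (by
    rw [Nat.card_congr Sv.equivProd, Nat.card_prod, Nat.card_zmod, Nat.card_eq_fintype_card, hc])

instance fact7 : Fact (Nat.Prime 7) := ⟨by norm_num⟩

/-- cyclic groups -/
abbrev Cy (n : ℕ) : Type := Multiplicative (ZMod n)

theorem tab_C2 : Tab (Cy 2) (tb [1, 2, 1, 2, 2, 1, 2, 2, 1, 2, 2, 2]) :=
  Tab.ofFilter (by decide +kernel) (by decide +kernel)

theorem tab_C3 : Tab (Cy 3) (tb [1, 1, 3, 1, 3, 1, 3, 1, 3, 1, 3, 3]) :=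
  Tab.ofFilter (by decide +kernel) (by decide +kernel)

theorem tab_C7 : Tab (Cy 7) (tb [1, 1, 1, 1, 1, 7, 1, 7, 7, 7, 7, 7]) :=
  Tab.ofFilter (by decide +kernel) (by decide +kernel)

/-- the sign character of `C₂`. -/
def chi2 : Cy 2 →* ZMod 7 where
  toFun g := if g = 1 then 1 else -1
  map_one' := by decide +kernel
  map_mul' := by decide +kernel

/-- the faithful character of `C₃` mod 7. -/
def chi3 : Cy 3 →* ZMod 7 where
  toFun g := 2 ^ (Multiplicative.toAdd g).val
  map_one' := by decide +kernel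
  map_mul' := by decide +kernel

/-- `7 : 3`. -/
abbrev F21 : Type := Sd 7 (Cy 3) chi3

theorem tab_F21 : Tab F21 (tb [1, 1, 15, 1, 15, 7, 15, 7, 21, 7, 21, 21]) :=
  Tab.ofSd (by decide +kernel) (by decide +kernel)

/-- The dihedral group of order 8 with the character whose kernel is cyclic. -/
def epsC : DihedralGroup 4 →* ZMod 7 where
  toFun g := match g with
    | DihedralGroup.r _ => 1
    | DihedralGroup.sr _ => -1
  map_one' := by decide +kernel
  map_mul' := by decide +kernel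

/-- The dihedral group of order 56. -/
abbrev D56 : Type := Sd 7 (DihedralGroup 4) epsC

theorem tab_D56 : Tab D56 (tb [1, 30, 1, 32, 30, 7, 32, 42, 7, 56, 42, 56]) :=
  Tab.ofSd (by decide +kernel) (by decide +kernel)

/-- product of two characters. -/
def prodChar {H K : Type} [Group H] [Group K] {r : ℕ} (χ : H →* ZMod r) (ψ : K →* ZMod r) :
    H × K →* ZMod r where
  toFun x := χ x.1 * ψ x.2
  map_one' := by simp
  map_mul' x y := by simp only [Prod.fst_mul, Prod.snd_mul, map_mul]; ring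

/-- a group of order 168 -/
abbrev G168b : Type := Sd 7 (Cy 3 × DihedralGroup 4) (prodChar chi3 epsC)

theorem tab_G168b : Tab G168b (tb [1, 30, 15, 32, 114, 7, 144, 42, 21, 56, 126, 168]) :=
  Tab.ofSd (by decide +kernel) (by decide +kernel)

/-- dihedral of order 14 -/
abbrev D14 : Type := Sd 7 (Cy 2) chi2

/-- `7² : 2` -/
abbrev G98 : Type := Sd 7 D14 (chi2.comp Sv.proj)

theorem tab_G98 : Tab G98 (tb [1, 50, 1, 50, 50, 49, 50, 98, 49, 98, 98, 98]) :=
  Tab.ofSd (by decide +kernel) (by decide +kernel)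

/-- `7 : 6` -/
abbrev F42 : Type := Sd 7 (Cy 3 × Cy 2) (prodChar chi3 chi2)

/-- a group of order 294 -/
abbrev G294 : Type := Sd 7 F42 ((chi2.comp (MonoidHom.snd (Cy 3) (Cy 2))).comp Sv.proj)

theorem tab_G294 : Tab G294 (tb [1, 50, 15, 50, 162, 49, 162, 98, 147, 98, 294, 294]) :=
  Tab.ofSd (by decide +kernel) (by decide +kernel)

end Cfsg.Agent.H25.OT
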