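import Cfsg.Agent.H25.OrdType3
import Cfsg.Agent.H21.PSLCusp
import Cfsg.Agent.H5.PSLSimple
import Cfsg.Agent.H5.Small

/-!
# The table of `PSL(2,7)` (helper25)
-/

set_option autoImplicit false
set_option maxRecDepth 100000

namespace Cfsg.Agent.H25.OT

open Finset

/-- 2 by 2 matrices over the field with 7 elements, as tuples. -/
abbrev M4 : Type := ZMod 7 × ZMod 7 × ZMod 7 × ZMod 7

/-- multiplication -/
def mulT (x y : M4) : M4 :=
  (x.1 * y.1 + x.2.1 * y.2.2.1, x.1 * y.2.1 + x.2.1 * y.2.2.2,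
    x.2.2.1 * y.1 + x.2.2.2 * y.2.2.1, x.2.2.1 * y.2.1 + x.2.2.2 * y.2.2.2)

/-- powers -/
def powT (x : M4) : ℕ → M4
  | 0 => (1, 0, 0, 1)
  | n + 1 => mulT (powT x n) x

/-- scalar matrices -/
def ScalT (x : M4) : Prop := x.2.1 = 0 ∧ x.2.2.1 = 0 ∧ x.1 = x.2.2.2

instance : DecidablePred ScalT := fun x => by unfold ScalT; infer_instance

/-- determinant one -/
def DetT (x : M4) : Prop := x.1 * x.2.2.2 - x.2.1 * x.2.2.1 = 1

instance : DecidablePred DetT := fun x => by unfold DetT; infer_instance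

theorem count_T : ∀ d ∈ Nat.divisors 84,
    (univ.filter (fun x : M4 => DetT x ∧ ScalT (powT x d))).card =
      2 * tb [1, 22, 57, 64, 78, 49, 120, 70, 105, 112, 126, 168] d := by
  decide +kernel

abbrev SL7 : Type := Matrix.SpecialLinearGroup (Fin 2) (ZMod 7)

/-- `PSL(2,7)` -/
abbrev P7 : Type := H21.PL2 (ZMod 7)

/-- the tuple of a matrix -/
def toT (X : SL7) : M4 := (X.1 0 0, X.1 0 1, X.1 1 0, X.1 1 1)

theorem toT_mul (X Y : SL7) : toT (X * Y) = mulT (toT X) (toT Y) := by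
  simp [toT, mulT, Matrix.mul_apply, Fin.sum_univ_two]

theorem toT_one : toT 1 = (1, 0, 0, 1) := by
  simp [toT]

theorem toT_pow (X : SL7) (n : ℕ) : toT (X ^ n) = powT (toT X) n := by
  induction n with
  | zero => rw [pow_zero, toT_one]; rfl
  | succ n ih => rw [pow_succ, toT_mul, ih]; rfl

theorem scal_iff (X : SL7) :
    (∃ c : ZMod 7, (X : Matrix (Fin 2) (Fin 2) (ZMod 7)) =
      c • (1 : Matrix (Fin 2) (Fin 2) (ZMod 7))) ↔ ScalT (toT X) := by
  constructor
  · rintro ⟨c, hc⟩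
    refine ⟨?_, ?_, ?_⟩
    · show X.1 0 1 = 0
      rw [hc]; simp
    · show X.1 1 0 = 0
      rw [hc]; simp
    · show X.1 0 0 = X.1 1 1
      rw [hc]; simp
  · rintro ⟨h1, h2, h3⟩
    refine ⟨X.1 0 0, ?_⟩
    have h1' : X.1 0 1 = 0 := h1
    have h2' : X.1 1 0 = 0 := h2
    have h3' : X.1 0 0 = X.1 1 1 := h3
    ext i j
    fin_cases i <;> fin_cases j
    · simp
    · simpa using h1'
    · simpa using h2'
    · simpa using h3'.symm

/-- matrices of determinant one as tuples -/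
def equivT : SL7 ≃ {x : M4 // DetT x} where
  toFun X := ⟨toT X, by
    have := X.2
    rw [Matrix.det_fin_two] at this
    exact this⟩
  invFun x := ⟨!![x.1.1, x.1.2.1; x.1.2.2.1, x.1.2.2.2], by
    rw [Matrix.det_fin_two]
    exact x.2⟩
  left_inv X := by
    apply Subtype.ext
    ext i j
    fin_cases i <;> fin_cases j <;> rfl
  right_inv x := by
    apply Subtype.ext
    rfl

theorem card_pre (d : ℕ) (hd : d ∈ Nat.divisors 84) :
    Nat.card {X : SL7 // (X : P7) ^ d = 1} =
      2 * tb [1, 22, 57, 64, 78, 49, 120, 70, 105, 112, 126, 168] d := by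
  rw [← count_T d hd, ← Fintype.card_subtype, ← Nat.card_eq_fintype_card]
  have e : {X : SL7 // (X : P7) ^ d = 1} ≃ {x : {x : M4 // DetT x} // ScalT (powT x.1 d)} := by
    refine Equiv.subtypeEquiv equivT ?_
    intro X
    rw [H21.mk_pow_eq_one_iff]
    show _ ↔ ScalT (powT (toT X) d)
    rw [← toT_pow, ← scal_iff]
    rfl
  exact Nat.card_congr (e.trans (Equiv.subtypeSubtypeEquivSubtypeInter DetT (fun x => ScalT (powT x d))))

theorem card_center : Nat.card (Subgroup.center SL7) = 2 := by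
  have h := card_pre 1 (by decide)
  have e : {X : SL7 // (X : P7) ^ 1 = 1} ≃ Subgroup.center SL7 := by
    refine Equiv.subtypeEquivRight ?_
    intro X
    rw [pow_one, QuotientGroup.eq_one_iff]
  rw [← Nat.card_congr e, h]
  decide

theorem Nd_P7 (d : ℕ) (hd : d ∈ Nat.divisors 84) :
    Nd P7 d = tb [1, 22, 57, 64, 78, 49, 120, 70, 105, 112, 126, 168] d := by
  have h := card_pre d hd
  have e : {X : SL7 // (X : P7) ^ d = 1} ≃
      Subgroup.center SL7 × {q : P7 // q ^ d = 1} :=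
    QuotientGroup.preimageMkEquivSubgroupProdSet (Subgroup.center SL7) {q : P7 | q ^ d = 1}
  rw [Nat.card_congr e, Nat.card_prod, card_center] at h
  exact Nat.eq_of_mul_eq_mul_left (by norm_num) h

instance : Finite P7 := Quotient.finite _

theorem card_P7 : Nat.card P7 = 168 := by
  have h := H5.card_PSL2 (F := ZMod 7) (q := 7) (ZMod.card 7)
  have hg : Nat.gcd 2 (7 - 1) = 2 := by norm_num
  rw [hg] at h
  have h' : 2 * Nat.card P7 = 7 * (7 ^ 2 - 1) := h
  omega

theorem tab_P7 : Tab P7 (tb [1, 22, 57, 64, 78, 49, 120, 70, 105, 112, 126, 168]) :=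
  Tab.mk' Nd_P7 (by rw [card_P7]; decide)

theorem not_isSolvable_P7 : ¬ Group.IsSolvable P7 := by
  intro hs
  haveI : IsSimpleGroup P7 :=
    H5.PSL2_isSimple (F := ZMod 7) (by rw [Nat.card_eq_fintype_card, ZMod.card]; norm_num)
  have h1 : ∀ a b : P7, a * b = b * a := IsSimpleGroup.comm_iff_isSolvable.2 hs
  letI : CommGroup P7 := { (inferInstance : Group P7) with mul_comm := h1 }
  have h2 : (Nat.card P7).Prime := IsSimpleGroup.prime_card
  rw [card_P7] at h2
  norm_num at h2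

end Cfsg.Agent.H25.OT
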