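import Cfsg.Agent.H23.HHApp2
import Cfsg.Agent.H3.BurnsidePQ

/-!
# p-length one from abelian Sylow subgroups; groups of exponent 6
-/

set_option autoImplicit false
set_option linter.style.haveILetI false
set_option linter.unusedVariables false

namespace Cfsg.Agent.H25.PLenAb

open Cfsg Subgroup Cfsg.Agent.H23

universe u

theorem sylow_map_comm {p : ℕ} [hp : Fact p.Prime] {G G' : Type*} [Group G] [Finite G] [Group G'] (f : G →* G')
    (hf : Function.Surjective f) (Q : Sylow p G) (hQ : IsMulCommutative (Q : Subgroup G)) :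
    IsMulCommutative ((Q.mapSurjective hf : Sylow p G') : Subgroup G') := by
  rw [Sylow.coe_mapSurjective]
  constructor
  constructor
  rintro ⟨_, a, ha, rfl⟩ ⟨_, b, hb, rfl⟩
  apply Subtype.ext
  have := congrArg (fun z : (Q : Subgroup G) => f (z : G)) (hQ.is_comm.comm ⟨a, ha⟩ ⟨b, hb⟩)
  simpa using this

theorem plengthLE_one_of_abelian {p : ℕ} [hp : Fact p.Prime] {G : Type u} [Group G] [Finite G]
    (hG : Cfsg.IsPSolvable p G) (Q : Sylow p G) (hQ : IsMulCommutative (Q : Subgroup G)) :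
    Cfsg.PLengthLE p 1 G := by
  set N := Cfsg.pPrimeCore p G with hN
  have hO : Cfsg.pPrimeCore p (G ⧸ N) = ⊥ := H1.pPrimeCore_quotient_eq_bot p
  have hG1 := isPSolvable_quotient N hG
  set Q1 : Sylow p (G ⧸ N) := Q.mapSurjective (QuotientGroup.mk'_surjective N) with hQ1
  have hQ1c : IsMulCommutative (Q1 : Subgroup (G ⧸ N)) := sylow_map_comm _ (QuotientGroup.mk'_surjective N) Q hQ
  set P := Cfsg.pCore p (G ⧸ N) with hP
  have hPQ : P ≤ (Q1 : Subgroup (G ⧸ N)) := H1.pCore_le_sylow Q1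
  have hQP : (Q1 : Subgroup (G ⧸ N)) ≤ P := by
    refine le_trans ?_ (centralizer_pCore_le hG1 hO)
    intro x hx
    rw [Subgroup.mem_centralizer_iff]
    intro y hy
    exact congrArg Subtype.val (hQ1c.is_comm.comm ⟨y, hPQ hy⟩ ⟨x, hx⟩)
  have hc : (Nat.card ((G ⧸ N) ⧸ P)).Coprime p := by
    rw [Nat.coprime_comm, Nat.Prime.coprime_iff_not_dvd hp.out]
    intro hd
    have h1 : P.index ∣ (Q1 : Subgroup (G ⧸ N)).index * 1 := by
      rw [mul_one]
      exact (le_antisymm hPQ hQP) ▸ dvd_rfl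
    rw [mul_one] at h1
    exact Q1.not_dvd_index (dvd_trans hd h1)
  have h3 : PLengthLE p 0 ((G ⧸ N) ⧸ P) := plengthLE_zero_of_coprime hc
  have h4 : Cfsg.PLengthLE p 1 P := plengthLE_of_isPGroup (H1.pCore_isPGroup p (G ⧸ N))
  have h5 := plengthLE_extension P h4 h3
  have h6 : Cfsg.PLengthLE p 0 N := plengthLE_zero_of_coprime (H1.pPrimeCore_coprime p G)
  have h7 := plengthLE_extension N h6 h5
  have h8 : 0 + (1 + 0) = 1 := by omega
  rwa [h8] at h7

section six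
variable {G : Type u} [Group G] [Finite G]

theorem prime_of_dvd (h : ∀ x : G, x ^ 6 = 1) {r : ℕ} (hr : r.Prime) (hd : r ∣ Nat.card G) : r = 2 ∨ r = 3 := by
  haveI : Fact r.Prime := ⟨hr⟩
  obtain ⟨x, hx⟩ := exists_prime_orderOf_dvd_card' r hd
  have h1 : r ∣ 6 := by rw [← hx]; exact orderOf_dvd_of_pow_eq_one (h x)
  have h2 : r ≤ 6 := Nat.le_of_dvd (by norm_num) h1
  interval_cases r <;> first | (left; rfl) | (right; rfl) | (exfalso; revert hr; decide) | (exfalso; omega)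

theorem expLE (h : ∀ x : G, x ^ 6 = 1) {p : ℕ} (hp : p = 2 ∨ p = 3) : ExpLE p 1 G := by
  rintro x ⟨k, hk⟩
  have h1 := orderOf_dvd_of_pow_eq_one hk
  have h2 := orderOf_dvd_of_pow_eq_one (h x)
  have hpp : p.Prime := by rcases hp with rfl | rfl <;> norm_num
  obtain ⟨j, -, hj⟩ := (Nat.dvd_prime_pow hpp).1 h1
  rw [pow_one]
  apply orderOf_dvd_iff_pow_eq_one.1
  rw [hj] at h2 ⊢
  have hj2 : j < 2 := by
    by_contra hcon
    have h3 : p ^ 2 ∣ p ^ j := pow_dvd_pow p (by omega)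
    have h4 := h3.trans h2
    rcases hp with rfl | rfl <;> revert h4 <;> decide
  interval_cases j
  · simp
  · simp

theorem sylow2_comm (h : ∀ x : G, x ^ 6 = 1) (Q : Sylow 2 G) : IsMulCommutative (Q : Subgroup G) := by
  haveI : Fact (Nat.Prime 2) := ⟨Nat.prime_two⟩
  have h2 : ∀ x ∈ (Q : Subgroup G), x * x = 1 := by
    intro x hx
    obtain ⟨k, hk⟩ := Q.isPGroup' ⟨x, hx⟩
    have h3 := expLE h (Or.inl rfl) x ⟨k, by simpa using congrArg Subtype.val hk⟩
    rwa [pow_one, pow_two] at h3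
  constructor
  constructor
  rintro ⟨a, ha⟩ ⟨b, hb⟩
  apply Subtype.ext
  show a * b = b * a
  have h3 := h2 _ (mul_mem ha hb)
  have h4 := h2 a ha
  have h5 := h2 b hb
  have h6 : a⁻¹ = a := inv_eq_of_mul_eq_one_left h4
  have h7 : b⁻¹ = b := inv_eq_of_mul_eq_one_left h5
  have h8 : (a * b)⁻¹ = a * b := inv_eq_of_mul_eq_one_left h3
  rw [mul_inv_rev, h6, h7] at h8
  exact h8.symm

theorem main (h : ∀ x : G, x ^ 6 = 1) : PLengthLE 2 1 G ∧ PLengthLE 3 1 G := by
  haveI : Fact (Nat.Prime 2) := ⟨Nat.prime_two⟩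
  haveI : Fact (Nat.Prime 3) := ⟨Nat.prime_three⟩
  have hs : Group.IsSolvable G := H3.burnside_paqb 2 3 Nat.prime_two Nat.prime_three _ G rfl
    (fun r hr hd => prime_of_dvd h hr hd)
  obtain ⟨Q⟩ : Nonempty (Sylow 2 G) := inferInstance
  refine ⟨plengthLE_one_of_abelian (isPSolvable_of_isSolvable hs) Q (sylow2_comm h Q), ?_⟩
  refine plengthLE_of_expLE 1 G (isPSolvable_of_isSolvable hs) ?_ (expLE h (Or.inr rfl))
  intro k m q hk hm hq he
  have hq2 : q = 2 := by
    have h1 : 2 ∣ 3 ^ k - 1 := by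
      have : (3 - 1) ∣ 3 ^ k - 1 ^ k := Nat.sub_dvd_pow_sub_pow 3 1 k
      simpa using this
    rw [he] at h1
    have h2 := Nat.prime_two.dvd_of_dvd_pow h1
    exact ((Nat.prime_dvd_prime_iff_eq Nat.prime_two hq).1 h2).symm
  subst hq2
  exact ⟨Q, sylow2_comm h Q⟩

end six

end Cfsg.Agent.H25.PLenAb
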