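import Cfsg.Prelude
import Mathlib

set_option autoImplicit false
open Cfsg

/-!
# Centralizers in generalized quaternion groups
-/

namespace Cfsg.Agent.H25

open Subgroup QuaternionGroup

theorem zmod_two_mul_eq_zero {n : ℕ} [NeZero n] {j : ZMod (2 * n)} (h : 2 * j = 0) :
    j = 0 ∨ j = (n : ZMod (2 * n)) := by
  haveI : NeZero (2 * n) := ⟨by have := NeZero.ne n; omega⟩
  have hn : 0 < n := Nat.pos_of_ne_zero (NeZero.ne n)
  have h1 : ((2 * j.val : ℕ) : ZMod (2 * n)) = 0 := by
    push_cast
    rw [ZMod.natCast_zmod_val]
    exact h
  rw [ZMod.natCast_eq_zero_iff] at h1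
  have h2 : n ∣ j.val := Nat.dvd_of_mul_dvd_mul_left two_pos h1
  have h3 := ZMod.val_lt j
  obtain ⟨k, hk⟩ := h2
  have hk2 : k < 2 := by
    by_contra hk2
    have : n * 2 ≤ n * k := Nat.mul_le_mul_left n (not_lt.1 hk2)
    omega
  interval_cases k
  · left
    rw [← ZMod.natCast_zmod_val j, hk, mul_zero, Nat.cast_zero]
  · right
    rw [← ZMod.natCast_zmod_val j, hk, mul_one]

/-- noncentral elements of generalized quaternion groups have cyclic centralizers -/
theorem quat_centralizer_cyclic {n : ℕ} [NeZero n] (q : QuaternionGroup n)
    (hq : q ∉ center (QuaternionGroup n)) : IsCyclic (centralizer ({q} : Set (QuaternionGroup n))) := by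
  have key : ∃ c : QuaternionGroup n, centralizer ({q} : Set (QuaternionGroup n)) ≤ zpowers c := by
    cases q with
    | a i =>
      refine ⟨a 1, ?_⟩
      intro y hy
      rw [mem_centralizer_singleton_iff] at hy
      cases y with
      | a j =>
        refine ⟨(j.val : ℤ), ?_⟩
        haveI : NeZero (2 * n) := ⟨by have := NeZero.ne n; omega⟩
        show (a 1 : QuaternionGroup n) ^ (j.val : ℤ) = a j
        rw [zpow_natCast, a_one_pow, ZMod.natCast_zmod_val]
      | xa j =>
        exfalso
        apply hq
        rw [xa_mul_a, a_mul_xa, xa.injEq] at hy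
        rw [mem_center_iff]
        intro g
        cases g with
        | a k => rw [a_mul_a, a_mul_a, add_comm]
        | xa k =>
          rw [xa_mul_a, a_mul_xa, xa.injEq]
          linear_combination hy
    | xa i =>
      refine ⟨xa i, ?_⟩
      intro y hy
      rw [mem_centralizer_singleton_iff] at hy
      have hsq : (a (n : ZMod (2 * n)) : QuaternionGroup n) ∈ zpowers (xa i) := by
        rw [← xa_sq i]
        exact pow_mem (mem_zpowers _) 2
      cases y with
      | a j =>
        rw [a_mul_xa, xa_mul_a, xa.injEq] at hy
        have h2 : 2 * j = 0 := by linear_combination -hy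
        rcases zmod_two_mul_eq_zero h2 with rfl | rfl
        · rw [a_zero]; exact one_mem _
        · exact hsq
      | xa j =>
        rw [xa_mul_xa, xa_mul_xa, a.injEq] at hy
        have h2 : 2 * (j - i) = 0 := by linear_combination -hy
        rcases zmod_two_mul_eq_zero h2 with h | h
        · rw [sub_eq_zero] at h
          rw [h]
          exact mem_zpowers _
        · have h3 : (xa j : QuaternionGroup n) = xa i * a (n : ZMod (2 * n)) := by
            rw [xa_mul_a, ← h]
            congr 1
            ring
          rw [h3]
          exact mul_mem (mem_zpowers _) hsq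
  obtain ⟨c, hc⟩ := key
  haveI : IsCyclic ((centralizer ({q} : Set (QuaternionGroup n))).subgroupOf (zpowers c)) := inferInstance
  exact isCyclic_of_surjective _ (subgroupOfEquivOfLe hc).surjective

end Cfsg.Agent.H25
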