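import Cfsg.Agent.H2.Basic
import Cfsg.Agent.H2.Frat
import Cfsg.Agent.H1.BasisThm
import Cfsg.Prelude.Def_CaseTheorems
import Cfsg.Prelude.Def_OddOrderLocal
import Mathlib

/-!
# `2`-groups of sectional rank two are metacyclic
-/

set_option autoImplicit false
set_option linter.style.haveILetI false

namespace Cfsg.Agent.H25

open Subgroup

universe u

theorem pRankLE_of_section {p k : ℕ} {S : Type*} [Group S] (hr : Cfsg.SectionalPRankLE p k S)
    {T : Type*} [Group T] (H : Subgroup S) (f : H →* T) (hf : Function.Surjective f) : Cfsg.PRankLE p k T := by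
  intro A hA hA2
  let e := QuotientGroup.quotientKerEquivOfSurjective f hf
  have h1 := hr H f.ker (A.map e.symm.toMonoidHom) ?_ ?_
  · rwa [Nat.card_congr (equivMapOfInjective A e.symm.toMonoidHom e.symm.injective).symm.toEquiv] at h1
  · refine ⟨⟨?_⟩⟩
    rintro ⟨_, a, ha, rfl⟩ ⟨_, b, hb, rfl⟩
    apply Subtype.ext
    have := hA.is_comm.comm ⟨a, ha⟩ ⟨b, hb⟩
    have h2 : a * b = b * a := congrArg Subtype.val this
    show e.symm a * e.symm b = e.symm b * e.symm a
    rw [← map_mul, ← map_mul, h2]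
  · rintro _ ⟨a, ha, rfl⟩
    show (e.symm a) ^ p = 1
    rw [← map_pow, hA2 a ha, map_one]

theorem sectional_quotient {p k : ℕ} {S : Type*} [Group S] (hr : Cfsg.SectionalPRankLE p k S)
    (N : Subgroup S) [N.Normal] : Cfsg.SectionalPRankLE p k (S ⧸ N) := by
  intro H M hM
  let f : (H.comap (QuotientGroup.mk' N)) →* H := (QuotientGroup.mk' N).subgroupComap H
  refine pRankLE_of_section hr (H.comap (QuotientGroup.mk' N)) ((QuotientGroup.mk' M).comp f) ?_
  refine (QuotientGroup.mk'_surjective M).comp ?_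
  rintro ⟨q, hq⟩
  obtain ⟨g, rfl⟩ := QuotientGroup.mk_surjective q
  exact ⟨⟨g, hq⟩, rfl⟩

theorem pRankLE_of_sectional {p k : ℕ} {S : Type*} [Group S] (hr : Cfsg.SectionalPRankLE p k S) :
    Cfsg.PRankLE p k S :=
  pRankLE_of_section hr ⊤ (⊤ : Subgroup S).subtype (fun x => ⟨⟨x, mem_top x⟩, rfl⟩)

/-- If `S = <x, y>` and `S' ≤ <x>` then `S` is metacyclic. -/
theorem metacyclic_of_commutator_le {S : Type*} [Group S] {x y : S} (hg : closure ({x, y} : Set S) = ⊤)
    (hc : commutator S ≤ zpowers x) : Cfsg.IsMetacyclic S := by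
  have hN : (zpowers x).Normal := by
    constructor
    intro n hn g
    have h1 : g * n * g⁻¹ = (g * n * g⁻¹ * n⁻¹) * n := by group
    rw [h1]
    exact mul_mem (hc (commutator_mem_commutator (mem_top g) (mem_top n))) hn
  refine ⟨zpowers x, hN, inferInstance, ?_⟩
  refine ⟨⟨(y : S ⧸ zpowers x), ?_⟩⟩
  intro q
  obtain ⟨g, rfl⟩ := QuotientGroup.mk_surjective q
  have h1 : closure ({x, y} : Set S) ≤ (zpowers (y : S ⧸ zpowers x)).comap (QuotientGroup.mk' (zpowers x)) := by
    rw [closure_le]
    rintro w (rfl | rfl)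
    · rw [SetLike.mem_coe, mem_comap]
      have : (QuotientGroup.mk' (zpowers w)) w = 1 := (QuotientGroup.eq_one_iff w).2 (mem_zpowers w)
      rw [this]; exact one_mem _
    · exact mem_zpowers _
  rw [hg] at h1
  exact h1 (mem_top g)

/-- lifting the metacyclic property through a central subgroup of prime order below the commutator subgroup -/
theorem metacyclic_lift {p : ℕ} [hp : Fact p.Prime] {S : Type*} [Group S] [Finite S] (hS : IsPGroup p S)
    (N : Subgroup S) [N.Normal] (hNc : Nat.card N = p) (hNZ : N ≤ center S) (hNS : N ≤ commutator S)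
    (hne : N ≠ commutator S) (hq : Cfsg.IsMetacyclic (S ⧸ N)) : Cfsg.IsMetacyclic S := by
  obtain ⟨M', hM', hc1, hc2⟩ := hq
  haveI := hM'
  let M : Subgroup S := M'.comap (QuotientGroup.mk' N)
  haveI hMn : M.Normal := hM'.comap _
  have hSM : IsCyclic (S ⧸ M) := by
    refine isCyclic_of_injective (QuotientGroup.map M M' (QuotientGroup.mk' N) le_rfl) ?_
    rw [injective_iff_map_eq_one]
    intro q hq
    obtain ⟨g, rfl⟩ := QuotientGroup.mk_surjective q
    rw [QuotientGroup.eq_one_iff]
    have h1 : (((g : S ⧸ N) : (S ⧸ N) ⧸ M')) = 1 := hq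
    exact (QuotientGroup.eq_one_iff (N := M') (g : S ⧸ N)).1 h1
  by_contra hcon
  obtain ⟨⟨u', hu'⟩, hu⟩ := hc1.exists_generator
  obtain ⟨u, rfl⟩ := QuotientGroup.mk_surjective u'
  have huM : u ∈ M := hu'
  have hMgen : ∀ m ∈ M, ∃ i : ℤ, ∃ z ∈ N, m = u ^ i * z := by
    intro m hm
    obtain ⟨i, hi⟩ := hu ⟨_, hm⟩
    have hi : ((u : S ⧸ N)) ^ i = (m : S ⧸ N) := congrArg Subtype.val hi
    rw [← QuotientGroup.mk_zpow, QuotientGroup.eq] at hi
    exact ⟨i, _, hi, by group⟩
  have hNcen : ∀ z ∈ N, ∀ g : S, z * g = g * z := fun z hz g => ((mem_center_iff.1 (hNZ hz)) g).symm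
  have hMab : ∀ a ∈ M, ∀ b ∈ M, a * b = b * a := by
    intro a ha b hb
    obtain ⟨i, z, hz, rfl⟩ := hMgen a ha
    obtain ⟨j, w, hw, rfl⟩ := hMgen b hb
    calc u ^ i * z * (u ^ j * w) = u ^ i * (z * (u ^ j * w)) := by group
      _ = u ^ i * ((u ^ j * w) * z) := by rw [hNcen z hz]
      _ = u ^ j * (u ^ i * w) * z := by group
      _ = u ^ j * (w * u ^ i) * z := by rw [hNcen w hw]
      _ = u ^ j * w * (u ^ i * z) := by group
  have hNM : N ≤ M := by
    intro z hz
    show (z : S ⧸ N) ∈ M'
    rw [(QuotientGroup.eq_one_iff z).2 hz]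
    exact one_mem _
  -- N not in <u>
  have hNu : ¬ N ≤ zpowers u := by
    intro h
    apply hcon
    have h1 : M = zpowers u := by
      apply le_antisymm
      · intro m hm
        obtain ⟨i, z, hz, rfl⟩ := hMgen m hm
        exact mul_mem (zpow_mem (mem_zpowers u) i) (h hz)
      · rw [zpowers_le]; exact huM
    refine ⟨M, hMn, ?_, hSM⟩
    rw [h1]; infer_instance
  obtain ⟨b', hb'⟩ := hSM.exists_generator
  obtain ⟨b, rfl⟩ := QuotientGroup.mk_surjective b'
  -- the commutator map
  let w : S := u * b * u⁻¹ * b⁻¹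
  have hwM : w ∈ M := by
    have h1 : b * u⁻¹ * b⁻¹ ∈ M := hMn.conj_mem _ (inv_mem huM) b
    have : w = u * (b * u⁻¹ * b⁻¹) := by simp only [w]; group
    rw [this]; exact mul_mem huM h1
  let φ : M →* S :=
    MonoidHom.mk' (fun m => (m : S) * b * (m : S)⁻¹ * b⁻¹) (by
      rintro ⟨a, ha⟩ ⟨c, hc⟩
      show (a * c) * b * (a * c)⁻¹ * b⁻¹ = a * b * a⁻¹ * b⁻¹ * (c * b * c⁻¹ * b⁻¹)
      have h1 : b * a⁻¹ * b⁻¹ ∈ M := hMn.conj_mem _ (inv_mem ha) b
      have h2 : b * c⁻¹ * b⁻¹ ∈ M := hMn.conj_mem _ (inv_mem hc) b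
      have e1 : (a * c) * b * (a * c)⁻¹ * b⁻¹ = a * (c * ((b * c⁻¹ * b⁻¹) * (b * a⁻¹ * b⁻¹))) := by group
      have e2 : a * b * a⁻¹ * b⁻¹ * (c * b * c⁻¹ * b⁻¹) = a * ((b * a⁻¹ * b⁻¹) * (c * (b * c⁻¹ * b⁻¹))) := by group
      rw [e1, e2, hMab _ h1 _ (mul_mem hc h2)]
      group)
  have hφM : ∀ m : M, φ m ∈ M := by
    rintro ⟨m, hm⟩
    have h1 : b * m⁻¹ * b⁻¹ ∈ M := hMn.conj_mem _ (inv_mem hm) b
    show m * b * m⁻¹ * b⁻¹ ∈ M
    have : m * b * m⁻¹ * b⁻¹ = m * (b * m⁻¹ * b⁻¹) := by group
    rw [this]; exact mul_mem hm h1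
  have hφw : ∀ m : M, φ m ∈ zpowers w := by
    rintro ⟨m, hm⟩
    obtain ⟨i, z, hz, rfl⟩ := hMgen m hm
    have h1 : (⟨u ^ i * z, hm⟩ : M) = (⟨u, huM⟩ : M) ^ i * ⟨z, hNM hz⟩ := by
      apply Subtype.ext
      push_cast
      rfl
    rw [h1, map_mul, map_zpow]
    have h2 : φ ⟨z, hNM hz⟩ = 1 := by
      show z * b * z⁻¹ * b⁻¹ = 1
      rw [hNcen z hz b]; group
    have h3 : φ ⟨u, huM⟩ = w := rfl
    rw [h2, h3, mul_one]
    exact zpow_mem (mem_zpowers w) i
  have hbconj : ∀ m : M, b * φ m * b⁻¹ ∈ φ.range := by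
    rintro ⟨m, hm⟩
    refine ⟨⟨b * m * b⁻¹, hMn.conj_mem _ hm b⟩, ?_⟩
    show (b * m * b⁻¹) * b * (b * m * b⁻¹)⁻¹ * b⁻¹ = b * (m * b * m⁻¹ * b⁻¹) * b⁻¹
    group
  have hbconj' : ∀ m : M, b⁻¹ * φ m * b ∈ φ.range := by
    rintro ⟨m, hm⟩
    have h1 : b⁻¹ * m * b ∈ M := by
      have := hMn.conj_mem _ hm b⁻¹
      rwa [inv_inv] at this
    refine ⟨⟨b⁻¹ * m * b, h1⟩, ?_⟩
    show (b⁻¹ * m * b) * b * (b⁻¹ * m * b)⁻¹ * b⁻¹ = b⁻¹ * (m * b * m⁻¹ * b⁻¹) * b
    group
  -- range of φ is normal
  have hdecomp : ∀ g : S, ∃ (i : ℤ), ∃ m ∈ M, g = b ^ i * m := by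
    intro g
    obtain ⟨i, hi⟩ := hb' (g : S ⧸ M)
    have hi : ((b : S ⧸ M)) ^ i = (g : S ⧸ M) := hi
    rw [← QuotientGroup.mk_zpow, QuotientGroup.eq] at hi
    exact ⟨i, _, hi, by group⟩
  have hRn : φ.range.Normal := by
    have hnb : b ∈ normalizer (φ.range : Set S) := by
      rw [mem_normalizer_iff]
      intro x
      constructor
      · rintro ⟨m, rfl⟩; exact hbconj m
      · rintro ⟨m, hm⟩
        have := hbconj' m
        rw [hm] at this
        have e : b⁻¹ * (b * x * b⁻¹) * b = x := by group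
        rwa [e] at this
    have hnm : ∀ m ∈ M, m ∈ normalizer (φ.range : Set S) := by
      intro m hm
      rw [mem_normalizer_iff]
      have key : ∀ m ∈ M, ∀ x, x ∈ φ.range → m * x * m⁻¹ ∈ φ.range := by
        rintro m hm _ ⟨m', rfl⟩
        rw [hMab m hm _ (hφM m'), mul_inv_cancel_right]
        exact ⟨m', rfl⟩
      intro x
      refine ⟨key m hm x, fun h => ?_⟩
      have := key m⁻¹ (inv_mem hm) _ h
      have e : m⁻¹ * (m * x * m⁻¹) * m⁻¹⁻¹ = x := by group
      rwa [e] at this
    rw [← normalizer_eq_top_iff, eq_top_iff]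
    intro g _
    obtain ⟨i, m, hm, rfl⟩ := hdecomp g
    exact mul_mem (zpow_mem hnb i) (hnm m hm)
  have hcomm : commutator S ≤ φ.range := by
    rw [← Subgroup.Normal.quotient_commutative_iff_commutator_le]
    refine ⟨⟨?_⟩⟩
    intro q r
    obtain ⟨g, rfl⟩ := QuotientGroup.mk_surjective q
    obtain ⟨h, rfl⟩ := QuotientGroup.mk_surjective r
    obtain ⟨i, m, hm, rfl⟩ := hdecomp g
    obtain ⟨j, n, hn, rfl⟩ := hdecomp h
    have hbm : ∀ m ∈ M, Commute (b : S ⧸ φ.range) (m : S ⧸ φ.range) := by
      intro m hm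
      have h1 : ((m * b * m⁻¹ * b⁻¹ : S) : S ⧸ φ.range) = 1 := (QuotientGroup.eq_one_iff _).2 ⟨⟨m, hm⟩, rfl⟩
      have h2 : (m : S ⧸ φ.range) * b * (m : S ⧸ φ.range)⁻¹ * (b : S ⧸ φ.range)⁻¹ = 1 := h1
      show (b : S ⧸ φ.range) * (m : S ⧸ φ.range) = (m : S ⧸ φ.range) * (b : S ⧸ φ.range)
      have h3 : (m : S ⧸ φ.range) * b * (m : S ⧸ φ.range)⁻¹ * (b : S ⧸ φ.range)⁻¹ * ((b : S ⧸ φ.range) * (m : S ⧸ φ.range)) =
        (m : S ⧸ φ.range) * (b : S ⧸ φ.range) := by group
      rw [← h3, h2, one_mul]
    have hmm : ∀ m ∈ M, ∀ n ∈ M, Commute (m : S ⧸ φ.range) (n : S ⧸ φ.range) := by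
      intro m hm n hn
      show (m : S ⧸ φ.range) * (n : S ⧸ φ.range) = (n : S ⧸ φ.range) * (m : S ⧸ φ.range)
      rw [← QuotientGroup.mk_mul, ← QuotientGroup.mk_mul, hMab m hm n hn]
    have e1 : ((b ^ i * m : S) : S ⧸ φ.range) = (b : S ⧸ φ.range) ^ i * m := rfl
    have e2 : ((b ^ j * n : S) : S ⧸ φ.range) = (b : S ⧸ φ.range) ^ j * n := rfl
    rw [e1, e2]
    have c1 : Commute ((b : S ⧸ φ.range) ^ i) ((b : S ⧸ φ.range) ^ j * n) :=
      Commute.mul_right ((Commute.refl _).zpow_zpow i j) ((hbm n hn).zpow_left i)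
    have c2 : Commute (m : S ⧸ φ.range) ((b : S ⧸ φ.range) ^ j * n) :=
      Commute.mul_right ((hbm m hm).symm.zpow_right j) (hmm m hm n hn)
    exact Commute.mul_left c1 c2
  -- final contradiction
  have hSw : commutator S ≤ zpowers w := hcomm.trans (by rintro _ ⟨m, rfl⟩; exact hφw m)
  apply hNu
  intro n hn
  have hnw := hSw (hNS hn)
  rw [← mem_powers_iff_mem_zpowers] at hnw
  obtain ⟨j, hj⟩ := hnw
  have hj : w ^ j = n := hj
  by_cases hpj : p ∣ j
  · obtain ⟨t, rfl⟩ := hpj
    obtain ⟨i, z, hz, hwz⟩ := hMgen w hwM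
    rw [pow_mul] at hj
    have h1 : w ^ p = (u ^ i) ^ p := by
      rw [hwz]
      have hc : Commute (u ^ i) z := (hNcen z hz _).symm
      rw [hc.mul_pow]
      have : z ^ p = 1 := by
        have := pow_card_eq_one' (x := (⟨z, hz⟩ : N))
        rw [hNc] at this
        exact congrArg Subtype.val this
      rw [this, mul_one]
    rw [← hj, h1]
    exact pow_mem (pow_mem (zpow_mem (mem_zpowers u) i) p) t
  · exfalso
    apply hne
    apply le_antisymm hNS
    refine hSw.trans ?_
    rw [zpowers_le]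
    have h1 : w ∈ zpowers (w ^ j) := by
      rw [mem_zpowers_pow_iff]
      obtain ⟨k, hk⟩ := (IsPGroup.iff_orderOf.1 hS) w
      rw [hk]
      exact Nat.Coprime.pow_right k ((Nat.Prime.coprime_iff_not_dvd hp.out).2 hpj).symm
    rw [hj] at h1
    exact (zpowers_le.2 hn) h1

theorem elem_four {S : Type*} [Group S] [Finite S] (hr : Cfsg.PRankLE 2 2 S) {y a b : S} (hy : y * y = 1)
    (ha : a ∈ center S) (ha2 : a * a = 1) (ha1 : a ≠ 1) (hb : b ∈ center S) (hb2 : b * b = 1) (hb1 : b ≠ 1)
    (hab : a ≠ b) {z : S} (hz : z = y ∨ (z ∈ center S ∧ z * z = 1)) : z = 1 ∨ z = a ∨ z = b ∨ z = a * b := by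
  classical
  have hcen : ∀ w ∈ center S, ∀ g : S, w * g = g * w := fun w hw g => ((mem_center_iff.1 hw) g).symm
  let E : Subgroup S :=
    { carrier := {z | ∃ w ∈ center S, w * w = 1 ∧ (z = w ∨ z = w * y)}
      one_mem' := ⟨1, one_mem _, by simp, Or.inl rfl⟩
      mul_mem' := by
        rintro _ _ ⟨w, hw, hw2, h⟩ ⟨v, hv, hv2, h'⟩
        refine ⟨w * v, mul_mem hw hv, ?_, ?_⟩
        · calc w * v * (w * v) = w * (v * w) * v := by group
            _ = (w * w) * (v * v) := by rw [← hcen w hw v]; group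
            _ = 1 := by rw [hw2, hv2, one_mul]
        · rcases h with rfl | rfl <;> rcases h' with rfl | rfl
          · left; rfl
          · right; group
          · right; rw [mul_assoc, ← hcen _ hv, mul_assoc]
          · left
            calc w * y * (v * y) = w * (y * v) * y := by group
              _ = w * v * (y * y) := by rw [← hcen v hv y]; group
              _ = w * v := by rw [hy, mul_one]
      inv_mem' := by
        rintro _ ⟨w, hw, hw2, h⟩
        have hw' : w⁻¹ = w := inv_eq_of_mul_eq_one_left hw2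
        have hy' : y⁻¹ = y := inv_eq_of_mul_eq_one_left hy
        refine ⟨w, hw, hw2, ?_⟩
        rcases h with rfl | rfl
        · left; exact hw'
        · right; rw [mul_inv_rev, hw', hy', hcen w hw] }
  have hEcomm : ∀ a ∈ E, ∀ b ∈ E, a * b = b * a := by
    rintro _ ⟨w, hw, hw2, h⟩ _ ⟨v, hv, hv2, h'⟩
    rcases h with rfl | rfl
    · exact hcen _ hw _
    · rcases h' with rfl | rfl
      · exact (hcen _ hv _).symm
      · calc w * y * (v * y) = w * (y * v) * y := by group
          _ = w * (v * y) * y := by rw [← hcen v hv y]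
          _ = (w * v) * (y * y) := by group
          _ = v * w * (y * y) := by rw [hcen w hw v]
          _ = v * (w * y) * y := by group
          _ = v * (y * w) * y := by rw [← hcen w hw y]
          _ = v * y * (w * y) := by group
  have hEsq : ∀ a ∈ E, a ^ 2 = 1 := by
    rintro _ ⟨w, hw, hw2, rfl | rfl⟩
    · rw [sq]; exact hw2
    · rw [sq]
      calc w * y * (w * y) = w * (y * w) * y := by group
        _ = (w * w) * (y * y) := by rw [← hcen w hw y]; group
        _ = 1 := by rw [hw2, hy, one_mul]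
  have hE := hr E ⟨⟨fun a b => Subtype.ext (hEcomm a a.2 b b.2)⟩⟩ hEsq
  by_contra hcon
  push Not at hcon
  obtain ⟨h1, h2, h3, h4⟩ := hcon
  have haE : a ∈ E := ⟨a, ha, ha2, Or.inl rfl⟩
  have hbE : b ∈ E := ⟨b, hb, hb2, Or.inl rfl⟩
  have hzE : z ∈ E := by
    rcases hz with rfl | ⟨hz1, hz2⟩
    · exact ⟨1, one_mem _, by simp, Or.inr (by simp)⟩
    · exact ⟨z, hz1, hz2, Or.inl rfl⟩
  let f : Fin 5 → E := ![1, ⟨a, haE⟩, ⟨b, hbE⟩, ⟨a * b, mul_mem haE hbE⟩, ⟨z, hzE⟩]
  have hab1 : a * b ≠ 1 := by
    intro h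
    apply hab
    have := eq_inv_of_mul_eq_one_left h
    rw [this]; exact inv_eq_of_mul_eq_one_left hb2
  have haab : a ≠ a * b := by
    intro h
    exact hb1 (left_eq_mul.1 h)
  have hbab : b ≠ a * b := by
    intro h
    exact ha1 (right_eq_mul.1 h)
  have hf : Function.Injective f := by
    intro i j hij
    have hij' : ((f i : E) : S) = (f j : E) := congrArg Subtype.val hij
    fin_cases i <;> fin_cases j <;> simp only [f] at hij' ⊢ <;> simp at hij' <;>
      first
        | exact absurd hij' ha1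
        | exact absurd hij'.symm ha1
        | exact absurd hij' hb1
        | exact absurd hij'.symm hb1
        | exact absurd hij' hab
        | exact absurd hij'.symm hab
        | exact absurd hij' hab1
        | exact absurd hij'.symm hab1
        | exact absurd hij' haab
        | exact absurd hij'.symm haab
        | exact absurd hij' hbab
        | exact absurd hij'.symm hbab
        | exact absurd hij' h1
        | exact absurd hij'.symm h1
        | exact absurd hij' h2
        | exact absurd hij'.symm h2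
        | exact absurd hij' h3
        | exact absurd hij'.symm h3
        | exact absurd hij' h4
        | exact absurd hij'.symm h4
  have h5 := Nat.card_le_card_of_injective f hf
  rw [Nat.card_eq_fintype_card, Fintype.card_fin] at h5
  omega

theorem exists_pair_of_rank {S : Type*} [Group S] [Finite S] (h2 : IsPGroup 2 S)
    (hr : Cfsg.SectionalPRankLE 2 2 S) : ∃ x y : S, closure ({x, y} : Set S) = ⊤ := by
  classical
  haveI : Fact (Nat.Prime 2) := ⟨Nat.prime_two⟩
  obtain ⟨n, hn⟩ := IsPGroup.iff_card.1 (h2.to_quotient (frattini S))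
  have hexp : ∀ q : S ⧸ frattini S, q ^ 2 = 1 := by
    intro q
    obtain ⟨g, rfl⟩ := QuotientGroup.mk_surjective q
    rw [← QuotientGroup.mk_pow, QuotientGroup.eq_one_iff]
    exact H2.pow_mem_frattini h2 g
  have hcomm : ∀ a b : S ⧸ frattini S, a * b = b * a := by
    intro a b
    have h1 : ∀ q : S ⧸ frattini S, q⁻¹ = q := fun q => inv_eq_of_mul_eq_one_left (by rw [← sq]; exact hexp q)
    calc a * b = (a * b)⁻¹ := (h1 _).symm
      _ = b⁻¹ * a⁻¹ := mul_inv_rev a b
      _ = b * a := by rw [h1, h1]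
  have h1 := pRankLE_of_section hr ⊤ ((QuotientGroup.mk' (frattini S)).comp (⊤ : Subgroup S).subtype)
    (by
      intro q
      obtain ⟨g, rfl⟩ := QuotientGroup.mk_surjective q
      exact ⟨⟨g, mem_top g⟩, rfl⟩)
  have h3 := h1 ⊤ ⟨⟨fun a b => Subtype.ext (hcomm _ _)⟩⟩ (fun a _ => hexp a)
  rw [card_top, hn] at h3
  have h4 : n ≤ 2 := (Nat.pow_le_pow_iff_right (by norm_num)).1 h3
  haveI := Fintype.ofFinite S
  obtain ⟨T, -, hT1, hT2⟩ := (H1.burnside_basis h2 (show (frattini S).index = 2 ^ n from hn)).1 Finset.univ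
    (by rw [Finset.coe_univ, Subgroup.closure_univ])
  rcases Nat.lt_or_ge T.card 2 with h5 | h5
  · rcases Nat.lt_or_ge T.card 1 with h6 | h6
    · have : T = ∅ := Finset.card_eq_zero.1 (by omega)
      subst this
      refine ⟨1, 1, ?_⟩
      rw [eq_top_iff, ← hT2]
      exact closure_mono (by simp)
    · obtain ⟨a, rfl⟩ := Finset.card_eq_one.1 (show T.card = 1 by omega)
      refine ⟨a, 1, ?_⟩
      rw [eq_top_iff, ← hT2]
      exact closure_mono (by simp)
  · obtain ⟨a, b, -, rfl⟩ := Finset.card_eq_two.1 (show T.card = 2 by omega)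
    refine ⟨a, b, ?_⟩
    rw [← hT2]; simp

theorem closure_pair_symm {S : Type*} [Group S] {x y : S} (h : closure ({x, y} : Set S) = ⊤) :
    closure ({y, x} : Set S) = ⊤ := by rwa [Set.pair_comm]

theorem closure_pair_mul {S : Type*} [Group S] {x y z : S} (h : closure ({x, y} : Set S) = ⊤)
    (hz : z ∈ zpowers x) : closure ({x, y * z} : Set S) = ⊤ := by
  rw [eq_top_iff, ← h, closure_le]
  have hx : x ∈ closure ({x, y * z} : Set S) := subset_closure (by simp)
  rintro w (rfl | rfl)
  · exact hx
  · have h1 : w * z ∈ closure ({x, w * z} : Set S) := subset_closure (by simp)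
    have h2 : z ∈ closure ({x, w * z} : Set S) := (zpowers_le.2 hx) hz
    have := mul_mem h1 (inv_mem h2)
    rwa [mul_inv_cancel_right] at this

/-- the minimal case: `|S'| = 2` -/
theorem metacyclic_of_commutator_two {S : Type*} [Group S] [Finite S] (h2 : IsPGroup 2 S)
    (hr : Cfsg.SectionalPRankLE 2 2 S) {c : S} (hc1 : c ≠ 1) (hcZ : c ∈ center S) (hcc : c * c = 1)
    (hS' : ∀ g ∈ commutator S, g = 1 ∨ g = c) (hcS : c ∈ commutator S) : Cfsg.IsMetacyclic S := by
  classical
  haveI : Fact (Nat.Prime 2) := ⟨Nat.prime_two⟩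
  have hrk := pRankLE_of_sectional hr
  by_contra hcon
  have hle : ∀ x : S, c ∈ zpowers x → commutator S ≤ zpowers x := by
    intro x hx g hg
    rcases hS' g hg with rfl | rfl
    · exact one_mem _
    · exact hx
  have hnot : ∀ x y : S, closure ({x, y} : Set S) = ⊤ → c ∉ zpowers x := fun x y hg hx =>
    hcon (metacyclic_of_commutator_le hg (hle x hx))
  have hcen : ∀ g : S, c * g = g * c := fun g => ((mem_center_iff.1 hcZ) g).symm
  have hcomm : ∀ a b : S, a * b = b * a ∨ a * b = c * (b * a) := by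
    intro a b
    have h1 : a * b * a⁻¹ * b⁻¹ ∈ commutator S := commutator_mem_commutator (mem_top a) (mem_top b)
    have e : a * b = a * b * a⁻¹ * b⁻¹ * (b * a) := by group
    rcases hS' _ h1 with h | h
    · left; rw [e, h, one_mul]
    · right; rw [e, h]
  have hsqZ : ∀ a : S, a ^ 2 ∈ center S := by
    intro a
    rw [mem_center_iff]
    intro b
    rcases hcomm b a with h | h
    · exact (Commute.pow_right (show Commute b a from h) 2)
    · rw [sq]
      calc b * (a * a) = (b * a) * a := by group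
        _ = c * (a * b) * a := by rw [h]
        _ = c * a * (b * a) := by group
        _ = c * a * (c * (a * b)) := by rw [h]
        _ = c * (a * c) * (a * b) := by group
        _ = c * (c * a) * (a * b) := by rw [hcen a]
        _ = (c * c) * (a * a * b) := by group
        _ = a * a * b := by rw [hcc, one_mul]
  -- minimal pair
  obtain ⟨⟨x, y⟩, hxy, hmin⟩ := exists_minimalFor_of_wellFoundedLT (fun z : S × S => closure ({z.1, z.2} : Set S) = ⊤)
    (fun z => orderOf z.1 + orderOf z.2) (by obtain ⟨x, y, h⟩ := exists_pair_of_rank h2 hr; exact ⟨(x, y), h⟩)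
  -- WLOG
  have key : ∀ x y : S, closure ({x, y} : Set S) = ⊤ →
      (∀ x' y' : S, closure ({x', y'} : Set S) = ⊤ → orderOf x + orderOf y ≤ orderOf x' + orderOf y') →
      orderOf y ≤ orderOf x → False := by
    clear hmin hxy x y
    intro x y hxy hmin hyx
    obtain ⟨k, hk⟩ := (IsPGroup.iff_orderOf.1 h2) x
    obtain ⟨l, hl⟩ := (IsPGroup.iff_orderOf.1 h2) y
    have hlk : l ≤ k := by
      rw [hk, hl] at hyx
      exact (Nat.pow_le_pow_iff_right (by norm_num)).1 hyx
    have hl0 : l ≠ 0 := by
      rintro rfl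
      rw [pow_zero, orderOf_eq_one_iff] at hl
      subst hl
      apply hnot x 1 hxy
      have h1 : closure ({x, 1} : Set S) ≤ zpowers x := by
        rw [closure_le]
        rintro w (rfl | rfl)
        · exact mem_zpowers w
        · exact one_mem _
      rw [hxy] at h1
      exact h1 (mem_top c)
    have hk0 : k ≠ 0 := by omega
    have hpow : ∀ (z : S) (m : ℕ), orderOf z = 2 ^ m → m ≠ 0 → z ^ 2 ^ (m - 1) ≠ 1 ∧ z ^ 2 ^ (m - 1) * z ^ 2 ^ (m - 1) = 1 := by
      intro z m hm hm0
      constructor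
      · intro h
        have h3 := orderOf_dvd_of_pow_eq_one h
        rw [hm] at h3
        have := (Nat.pow_dvd_pow_iff_le_right (by norm_num)).1 h3
        omega
      · rw [← pow_add, ← two_mul, ← pow_succ']
        have : m - 1 + 1 = m := by omega
        rw [this, ← hm, pow_orderOf_eq_one]
    have hpowZ : ∀ (z : S) (m : ℕ), 2 ≤ m → z ^ 2 ^ (m - 1) ∈ center S := by
      intro z m hm
      have : 2 ^ (m - 1) = 2 ^ (m - 2) * 2 := by rw [← pow_succ]; congr 1; omega
      rw [this, pow_mul]
      exact hsqZ _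
    obtain ⟨hx1, hx2⟩ := hpow x k hk hk0
    obtain ⟨hy1, hy2⟩ := hpow y l hl hl0
    rcases Nat.lt_or_ge k 2 with hk2 | hk2
    · -- both involutions
      have hk1 : k = 1 := by omega
      have hl1 : l = 1 := by omega
      subst hk1; subst hl1
      simp only [Nat.sub_self, pow_zero, pow_one] at hx1 hx2 hy1 hy2
      have hxi : x⁻¹ = x := inv_eq_of_mul_eq_one_left hx2
      have hyi : y⁻¹ = y := inv_eq_of_mul_eq_one_left hy2
      have hsq : (x * y) ^ 2 ∈ commutator S := by
        have : (x * y) ^ 2 = x * y * x⁻¹ * y⁻¹ := by rw [hxi, hyi, sq]; group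
        rw [this]
        exact commutator_mem_commutator (mem_top x) (mem_top y)
      have hgen : closure ({x * y, y} : Set S) = ⊤ := by
        rw [eq_top_iff, ← hxy, closure_le]
        have h3 : y ∈ closure ({x * y, y} : Set S) := subset_closure (by simp)
        rintro w (rfl | rfl)
        · have h4 : w * y ∈ closure ({w * y, y} : Set S) := subset_closure (by simp)
          have := mul_mem h4 (inv_mem h3)
          rwa [mul_inv_cancel_right] at this
        · exact h3
      rcases hS' _ hsq with h | h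
      · -- commute
        have hcm : x * y = y * x := by
          have h5 : x * y * (x * y) = 1 := by rw [← sq]; exact h
          calc x * y = x * y * (x * y) * (y⁻¹ * x⁻¹) := by group
            _ = y * x := by rw [h5, one_mul, hxi, hyi]
        have : commutator S = ⊥ := by
          have hxc : ∀ z ∈ ({x, y} : Set S), ∀ w ∈ ({x, y} : Set S), z * w = w * z := by
            rintro z (rfl | rfl) w (rfl | rfl)
            · rfl
            · exact hcm
            · exact hcm.symm
            · rfl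
          have hcomS : ∀ a b : S, a * b = b * a := by
            letI := closureCommGroupOfComm hxc
            intro a b
            have ha : a ∈ closure ({x, y} : Set S) := by rw [hxy]; trivial
            have hb : b ∈ closure ({x, y} : Set S) := by rw [hxy]; trivial
            have := mul_comm (⟨a, ha⟩ : closure ({x, y} : Set S)) ⟨b, hb⟩
            exact congrArg Subtype.val this
          rw [_root_.commutator_def, commutator_eq_bot_iff_le_centralizer]
          intro a _
          rw [mem_centralizer_iff]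
          intro b _
          exact hcomS b a
        rw [this, mem_bot] at hcS
        exact hc1 hcS
      · exact hnot _ _ hgen (h ▸ pow_mem (mem_zpowers _) 2)
    · -- k ≥ 2
      have hx0Z := hpowZ x k hk2
      have hx0c : x ^ 2 ^ (k - 1) ≠ c := fun h => hnot x y hxy (h ▸ pow_mem (mem_zpowers _) _)
      have hlist : ∀ {y' z : S}, y' * y' = 1 → (z = y' ∨ (z ∈ center S ∧ z * z = 1)) →
          z = 1 ∨ z = x ^ 2 ^ (k - 1) ∨ z = c ∨ z = x ^ 2 ^ (k - 1) * c := fun h3 h4 =>
        elem_four hrk h3 hx0Z hx2 hx1 hcZ hcc hc1 hx0c h4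
      rcases Nat.lt_or_ge l 2 with hl2 | hl2
      · -- y involution: central, contradiction
        have hl1 : l = 1 := by omega
        subst hl1
        simp only [Nat.sub_self, pow_zero, pow_one] at hy1 hy2
        have h3 := hlist (y' := y) (z := y) hy2 (Or.inl rfl)
        have hyZ : y ∈ center S := by
          rcases h3 with h | h | h | h
          · rw [h]; exact one_mem _
          · rw [h]; exact hx0Z
          · rw [h]; exact hcZ
          · rw [h]; exact mul_mem hx0Z hcZ
        have hcm : x * y = y * x := (mem_center_iff.1 hyZ) x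
        have : commutator S = ⊥ := by
          have hxc : ∀ z ∈ ({x, y} : Set S), ∀ w ∈ ({x, y} : Set S), z * w = w * z := by
            rintro z (rfl | rfl) w (rfl | rfl)
            · rfl
            · exact hcm
            · exact hcm.symm
            · rfl
          have hcomS : ∀ a b : S, a * b = b * a := by
            letI := closureCommGroupOfComm hxc
            intro a b
            have ha : a ∈ closure ({x, y} : Set S) := by rw [hxy]; trivial
            have hb : b ∈ closure ({x, y} : Set S) := by rw [hxy]; trivial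
            have := mul_comm (⟨a, ha⟩ : closure ({x, y} : Set S)) ⟨b, hb⟩
            exact congrArg Subtype.val this
          rw [_root_.commutator_def, commutator_eq_bot_iff_le_centralizer]
          intro a _
          rw [mem_centralizer_iff]
          intro b _
          exact hcomS b a
        rw [this, mem_bot] at hcS
        exact hc1 hcS
      · -- both of order at least four
        have hy0Z := hpowZ y l hl2
        have h3 := hlist (y' := 1) (z := y ^ 2 ^ (l - 1)) (by simp) (Or.inr ⟨hy0Z, hy2⟩)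
        have hy0c : y ^ 2 ^ (l - 1) ≠ c := fun h => hnot y x (closure_pair_symm hxy) (h ▸ pow_mem (mem_zpowers _) _)
        have h4 : y ^ 2 ^ (l - 1) * (x ^ 2 ^ (k - 1))⁻¹ = 1 ∨ y ^ 2 ^ (l - 1) * (x ^ 2 ^ (k - 1))⁻¹ = c := by
          rcases h3 with h | h | h | h
          · exact absurd h hy1
          · left; rw [h, mul_inv_cancel]
          · exact absurd h hy0c
          · right; rw [h, ← hcen, mul_inv_cancel_right]
        set b : S := (x ^ 2 ^ (k - l))⁻¹ with hb
        have hbx : b ∈ zpowers x := inv_mem (pow_mem (mem_zpowers x) _)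
        have hgen := closure_pair_mul hxy hbx
        -- (y b)^2
        have hyb : ∃ ε : S, (ε = 1 ∨ ε = c) ∧ (y * b) ^ 2 = y ^ 2 * b ^ 2 * ε := by
          rcases hcomm b y with h | h
          · refine ⟨1, Or.inl rfl, ?_⟩
            rw [mul_one, (show Commute y b from h.symm).mul_pow]
          · refine ⟨c, Or.inr rfl, ?_⟩
            calc (y * b) ^ 2 = y * (b * y) * b := by rw [sq]; group
              _ = y * (c * (y * b)) * b := by rw [h]
              _ = (y * c) * (y * b * b) := by group
              _ = c * y * (y * b * b) := by rw [hcen y]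
              _ = c * (y ^ 2 * b ^ 2) := by rw [sq, sq]; group
              _ = y ^ 2 * b ^ 2 * c := hcen _
        obtain ⟨ε, hε, hyb⟩ := hyb
        have hεZ : ε ∈ center S := by
          rcases hε with rfl | rfl
          · exact one_mem _
          · exact hcZ
        have hεpow : ∀ m : ℕ, ε ^ m = 1 ∨ ε ^ m = c := by
          intro m
          rcases hε with rfl | rfl
          · left; exact one_pow m
          · rcases Nat.even_or_odd' m with ⟨t, rfl | rfl⟩
            · left; rw [pow_mul, sq, hcc, one_pow]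
            · right; rw [pow_succ, pow_mul, sq, hcc, one_pow, one_mul]
        have hl1 : 2 ^ (l - 1) = 2 * 2 ^ (l - 2) := by rw [← pow_succ']; congr 1; omega
        have e1 : (y * b) ^ 2 ^ (l - 1) = y ^ 2 ^ (l - 1) * (x ^ 2 ^ (k - 1))⁻¹ * ε ^ 2 ^ (l - 2) := by
          rw [hl1, pow_mul, hyb]
          have c1 : Commute (y ^ 2 * b ^ 2) ε := (mem_center_iff.1 hεZ) _
          have c2 : Commute (y ^ 2) (b ^ 2) := (mem_center_iff.1 (hsqZ b)) _
          rw [c1.mul_pow, c2.mul_pow, ← pow_mul, ← pow_mul, ← hl1]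
          congr 2
          rw [hb, inv_pow, ← pow_mul, ← pow_add]
          congr 3
          omega
        have h5 : (y * b) ^ 2 ^ (l - 1) = 1 ∨ (y * b) ^ 2 ^ (l - 1) = c := by
          rw [e1]
          rcases h4 with h | h <;> rcases hεpow (2 ^ (l - 2)) with h' | h' <;> rw [h, h']
          · left; simp
          · right; simp
          · right; simp
          · left; exact hcc
        rcases h5 with h | h
        · have h6 := orderOf_dvd_of_pow_eq_one h
          have h7 := Nat.le_of_dvd (by positivity) h6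
          have h8 := hmin x (y * b) hgen
          rw [hl] at h8
          have h9 : 2 ^ l = 2 * 2 ^ (l - 1) := by rw [← pow_succ']; congr 1; omega
          have h10 : 0 < 2 ^ (l - 1) := by positivity
          omega
        · exact hnot _ _ (closure_pair_symm hgen) (h ▸ pow_mem (mem_zpowers _) _)
  have hmin' : ∀ x' y' : S, closure ({x', y'} : Set S) = ⊤ → orderOf x + orderOf y ≤ orderOf x' + orderOf y' := by
    intro x' y' h'
    by_contra hlt
    push Not at hlt
    have := hmin (j := (x', y')) h' hlt.le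
    have h3 : orderOf x + orderOf y ≤ orderOf x' + orderOf y' := this
    omega
  rcases le_total (orderOf y) (orderOf x) with h | h
  · exact key x y hxy hmin' h
  · exact key y x (closure_pair_symm hxy) (fun x' y' h' => by rw [add_comm]; exact hmin' x' y' h') h

theorem metacyclic_of_sectional (n : ℕ) : ∀ (S : Type u) [Group S] [Finite S], Nat.card S = n → IsPGroup 2 S →
    Cfsg.SectionalPRankLE 2 2 S → Cfsg.IsMetacyclic S := by
  induction n using Nat.strong_induction_on with
  | _ n ih =>
  intro S _ _ hn h2 hr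
  haveI : Fact (Nat.Prime 2) := ⟨Nat.prime_two⟩
  by_cases hS' : commutator S = ⊥
  · obtain ⟨x, y, hxy⟩ := exists_pair_of_rank h2 hr
    exact metacyclic_of_commutator_le hxy (by rw [hS']; exact bot_le)
  · have h1 := H2.inf_center_ne_bot_of_normal h2 (commutator S) hS'
    -- an element of order two
    have h3 : 2 ∣ Nat.card ((commutator S ⊓ center S : Subgroup S)) := by
      rcases (h2.to_subgroup (commutator S ⊓ center S)).card_eq_or_dvd with h | h
      · exact absurd (card_eq_one.1 h) h1
      · exact h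
    obtain ⟨⟨c, hc⟩, hco⟩ := exists_prime_orderOf_dvd_card' 2 h3
    rw [Subgroup.orderOf_mk] at hco
    have hcZ : c ∈ center S := hc.2
    have hNZ : zpowers c ≤ center S := zpowers_le.2 hcZ
    haveI hN : (zpowers c).Normal := by
      constructor
      intro z hz g
      rw [(mem_center_iff.1 (hNZ hz)) g, mul_inv_cancel_right]
      exact hz
    have hNc : Nat.card (zpowers c) = 2 := by rw [Nat.card_zpowers, hco]
    have hNS : zpowers c ≤ commutator S := zpowers_le.2 hc.1
    by_cases hne : zpowers c = commutator S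
    · have hcc : c * c = 1 := by rw [← sq, ← hco, pow_orderOf_eq_one]
      have hc1 : c ≠ 1 := by
        rintro rfl
        rw [orderOf_one] at hco
        omega
      refine metacyclic_of_commutator_two h2 hr hc1 hcZ hcc ?_ hc.1
      intro g hg
      rw [← hne, mem_zpowers_iff] at hg
      obtain ⟨i, rfl⟩ := hg
      rcases Int.even_or_odd' i with ⟨t, rfl | rfl⟩
      · left
        rw [zpow_mul]
        have : c ^ (2 : ℤ) = 1 := by
          have : c ^ (2 : ℤ) = c * c := zpow_two c
          rw [this, hcc]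
        rw [this, one_zpow]
      · right
        rw [zpow_add, zpow_mul, zpow_one]
        have : c ^ (2 : ℤ) = 1 := by
          have : c ^ (2 : ℤ) = c * c := zpow_two c
          rw [this, hcc]
        rw [this, one_zpow, one_mul]
    · refine metacyclic_lift h2 (zpowers c) hNc hNZ hNS hne ?_
      refine ih (Nat.card (S ⧸ zpowers c)) ?_ (S ⧸ zpowers c) rfl (h2.to_quotient _) (sectional_quotient hr _)
      rw [← hn, card_eq_card_quotient_mul_card_subgroup (zpowers c), hNc]
      have : 0 < Nat.card (S ⧸ zpowers c) := Nat.card_pos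
      omega

end Cfsg.Agent.H25
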