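import Cfsg.Agent.H25.Rank2b
import Cfsg.Agent.H1.Cores
import Mathlib

/-!
# `2`-groups of sectional rank at most four: commuting normal subgroups
-/

set_option autoImplicit false
set_option linter.style.haveILetI false

namespace Cfsg.Agent.H25

open Subgroup

/-- `|P / Φ(P)| ≥ 4` for noncyclic 2-groups; more precisely for nonabelian ones -/
theorem four_le_index_frattini {P : Type*} [Group P] [Finite P] (h2 : IsPGroup 2 P) (hP : ¬ IsMulCommutative P) :
    4 ≤ (frattini P).index := by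
  haveI : Fact (Nat.Prime 2) := ⟨Nat.prime_two⟩
  by_contra hlt
  push Not at hlt
  obtain ⟨n, hn⟩ := IsPGroup.iff_card.1 (h2.to_quotient (frattini P))
  have hn' : (frattini P).index = 2 ^ n := hn
  have hn1 : n ≤ 1 := by
    by_contra h
    have : 2 ≤ n := by omega
    have := Nat.pow_le_pow_right (n := 2) (by norm_num) this
    omega
  haveI := Fintype.ofFinite P
  obtain ⟨T, -, hT1, hT2⟩ := (H1.burnside_basis h2 hn').1 Finset.univ
    (by rw [Finset.coe_univ, Subgroup.closure_univ])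
  apply hP
  have hcyc : IsCyclic P := by
    rcases Nat.lt_or_ge T.card 1 with h6 | h6
    · have : T = ∅ := Finset.card_eq_zero.1 (by omega)
      subst this
      rw [Finset.coe_empty, Subgroup.closure_empty] at hT2
      haveI : Subsingleton P := ⟨fun a b => by
        have ha : a ∈ (⊥ : Subgroup P) := by rw [hT2]; trivial
        have hb : b ∈ (⊥ : Subgroup P) := by rw [hT2]; trivial
        rw [mem_bot.1 ha, mem_bot.1 hb]⟩
      exact isCyclic_of_subsingleton
    · obtain ⟨a, rfl⟩ := Finset.card_eq_one.1 (show T.card = 1 by omega)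
      rw [Finset.coe_singleton, ← zpowers_eq_closure] at hT2
      refine ⟨a, fun x => ?_⟩
      have : x ∈ zpowers a := by rw [hT2]; trivial
      exact this
  exact ⟨⟨fun a b => (IsCyclic.commGroup (α := P)).mul_comm a b⟩⟩

theorem quotient_map_center {S : Type*} [Group S] (P : Subgroup S) [hPn : P.Normal] :
    ((center P).map P.subtype).Normal := by
  constructor
  rintro _ ⟨z, hz, rfl⟩ g
  refine ⟨⟨g * z * g⁻¹, hPn.conj_mem _ z.2 g⟩, ?_, rfl⟩
  rw [SetLike.mem_coe, mem_center_iff]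
  intro x
  apply Subtype.ext
  show (x : S) * (g * z * g⁻¹) = g * z * g⁻¹ * x
  have hx : g⁻¹ * x * g ∈ P := by
    have := hPn.conj_mem _ x.2 g⁻¹
    rwa [inv_inv] at this
  have h1 : (g⁻¹ * x * g) * z = z * (g⁻¹ * x * g) := congrArg Subtype.val ((mem_center_iff.1 hz) ⟨_, hx⟩)
  calc (x : S) * (g * z * g⁻¹) = g * ((g⁻¹ * x * g) * z) * g⁻¹ := by group
    _ = g * (z * (g⁻¹ * x * g)) * g⁻¹ := by rw [h1]
    _ = _ := by group

theorem central_of_normal_card_two {S : Type*} [Group S] (Z : Subgroup S) [hZ : Z.Normal] (h : Nat.card Z = 2) :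
    Z ≤ center S := by
  intro z hz
  rw [mem_center_iff]
  intro g
  obtain ⟨w, hw1, hw2⟩ := (Nat.card_eq_two_iff' (1 : Z)).1 h
  by_cases hz1 : z = 1
  · rw [hz1, mul_one, one_mul]
  · have e1 := hw2 ⟨z, hz⟩ (by intro h; exact hz1 (congrArg Subtype.val h))
    have e2 := hw2 ⟨g * z * g⁻¹, hZ.conj_mem z hz g⟩ (by
      intro h
      have h' : g * z * g⁻¹ = 1 := congrArg Subtype.val h
      apply hz1
      have : z = g⁻¹ * (g * z * g⁻¹) * g := by group
      rw [this, h']; group)
    have e3 : g * z * g⁻¹ = z := congrArg Subtype.val (e2.trans e1.symm)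
    calc g * z = g * z * g⁻¹ * g := by group
      _ = z * g := by rw [e3]

/-- the main lemma, S4400 -/
theorem commuting_pair {S : Type*} [Group S] [Finite S] (h2 : IsPGroup 2 S) (hr : Cfsg.SectionalPRankLE 2 4 S)
    (P Q : Subgroup S) [hPn : P.Normal] [hQn : Q.Normal] (hP : ¬ IsMulCommutative ↥P) (hQ : ¬ IsMulCommutative ↥Q)
    (hZP : Nat.card ↥(Subgroup.center ↥P) = 2) (hZQ : Nat.card ↥(Subgroup.center ↥Q) = 2)
    (hne : (Subgroup.center ↥P).map P.subtype ≠ (Subgroup.center ↥Q).map Q.subtype) :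
    ⁅P, Q⁆ = ⊥ ∧ P ⊓ Q = ⊥ ∧ Subgroup.centralizer ((P ⊔ Q : Subgroup S) : Set S) ≤ P ⊔ Q := by
  classical
  haveI : Fact (Nat.Prime 2) := ⟨Nat.prime_two⟩
  have hP2 : IsPGroup 2 P := h2.to_subgroup P
  have hQ2 : IsPGroup 2 Q := h2.to_subgroup Q
  have hcardP : Nat.card ((center P).map P.subtype) = 2 := by
    rw [Nat.card_congr (equivMapOfInjective (center P) P.subtype P.subtype_injective).symm.toEquiv]
    exact hZP
  have hcardQ : Nat.card ((center Q).map Q.subtype) = 2 := by
    rw [Nat.card_congr (equivMapOfInjective (center Q) Q.subtype Q.subtype_injective).symm.toEquiv]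
    exact hZQ
  have hPQ : P ⊓ Q = ⊥ := by
    by_contra hb
    have h1 := H2.inf_center_ne_bot_of_normal h2 (P ⊓ Q) hb
    have h3 : ∀ z ∈ P ⊓ Q ⊓ center S, z ∈ (center P).map P.subtype ∧ z ∈ (center Q).map Q.subtype := by
      rintro z ⟨⟨hz1, hz2⟩, hz3⟩
      refine ⟨⟨⟨z, hz1⟩, ?_, rfl⟩, ⟨⟨z, hz2⟩, ?_, rfl⟩⟩
      · rw [SetLike.mem_coe, mem_center_iff]
        intro x; apply Subtype.ext; exact (mem_center_iff.1 hz3) x
      · rw [SetLike.mem_coe, mem_center_iff]
        intro x; apply Subtype.ext; exact (mem_center_iff.1 hz3) x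
    have hge : 2 ≤ Nat.card (P ⊓ Q ⊓ center S : Subgroup S) := by
      have : Nat.card (P ⊓ Q ⊓ center S : Subgroup S) ≠ 1 := fun h => h1 (card_eq_one.1 h)
      have := Nat.card_pos (α := (P ⊓ Q ⊓ center S : Subgroup S))
      omega
    apply hne
    have e1 : P ⊓ Q ⊓ center S = (center P).map P.subtype :=
      eq_of_le_of_card_ge (fun z hz => (h3 z hz).1) (by rw [hcardP]; exact hge)
    have e2 : P ⊓ Q ⊓ center S = (center Q).map Q.subtype :=
      eq_of_le_of_card_ge (fun z hz => (h3 z hz).2) (by rw [hcardQ]; exact hge)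
    rw [← e1, ← e2]
  have hcomm : ⁅P, Q⁆ = ⊥ := by
    rw [eq_bot_iff, ← hPQ]
    exact commutator_le_inf P Q
  refine ⟨hcomm, hPQ, ?_⟩
  have hPQc : ∀ a ∈ P, ∀ b ∈ Q, a * b = b * a := by
    intro a ha b hb
    have h1 : a * b * a⁻¹ * b⁻¹ ∈ ⁅P, Q⁆ := commutator_mem_commutator ha hb
    rw [hcomm, mem_bot] at h1
    have : a * b * a⁻¹ * b⁻¹ * (b * a) = b * a := by rw [h1, one_mul]
    rw [← this]; group
  by_contra hcon
  -- choose c
  obtain ⟨c, ⟨hc1, hc2⟩, hmin⟩ := exists_minimalFor_of_wellFoundedLT (fun c : S => c ∈ centralizer ((P ⊔ Q : Subgroup S) : Set S) ∧ c ∉ P ⊔ Q)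
    (fun c => orderOf c) (by
      rw [SetLike.not_le_iff_exists] at hcon
      obtain ⟨c, h1, h3⟩ := hcon; exact ⟨c, h1, h3⟩)
  have hcsq : c ^ 2 ∈ P ⊔ Q := by
    by_contra h
    have h3 := hmin (j := c ^ 2) ⟨pow_mem hc1 2, h⟩ (by
      apply Nat.le_of_dvd (orderOf_pos c) (orderOf_pow_dvd 2))
    have h3 : orderOf c ≤ orderOf (c ^ 2) := h3
    have hc0 : orderOf c ≠ 1 := by
      intro h
      rw [orderOf_eq_one_iff] at h
      rw [h] at hc2
      exact hc2 (one_mem _)
    obtain ⟨k, hk⟩ := (IsPGroup.iff_orderOf.1 h2) c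
    have hk0 : k ≠ 0 := by rintro rfl; rw [pow_zero] at hk; exact hc0 hk
    have h4 : orderOf (c ^ 2) = orderOf c / 2 := by
      rw [orderOf_pow' c (by norm_num), hk, Nat.gcd_eq_right]
      exact dvd_pow_self 2 hk0
    rw [h4] at h3
    have := orderOf_pos c
    omega
  have hcP : ∀ a ∈ P, c * a = a * c := fun a ha => ((mem_centralizer_iff.1 hc1) a (mem_sup_left ha)).symm
  have hcQ : ∀ a ∈ Q, c * a = a * c := fun a ha => ((mem_centralizer_iff.1 hc1) a (mem_sup_right ha)).symm
  -- the homomorphism P × Q × <c> → S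
  let Φ : Subgroup S := (frattini P).map P.subtype ⊔ (frattini Q).map Q.subtype
  -- c² in Φ
  have hfr : ∀ (P : Subgroup S), IsPGroup 2 P → ¬ IsMulCommutative P → Nat.card (center P) = 2 → center P ≤ frattini P := by
    intro P hP2 hP hZP
    have hne : frattini P ≠ ⊥ := by
      intro h
      have h3 := H2.commutator_le_frattini hP2
      rw [h, le_bot_iff, _root_.commutator_def, commutator_eq_bot_iff_le_centralizer] at h3
      apply hP
      refine ⟨⟨fun a b => ?_⟩⟩
      exact ((mem_centralizer_iff.1 (h3 (mem_top a))) b (mem_top b)).symm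
    have h1 := H2.inf_center_ne_bot_of_normal hP2 (frattini P) hne
    have hge : 2 ≤ Nat.card (frattini P ⊓ center P : Subgroup P) := by
      have : Nat.card (frattini P ⊓ center P : Subgroup P) ≠ 1 := fun h => h1 (card_eq_one.1 h)
      have := Nat.card_pos (α := (frattini P ⊓ center P : Subgroup P))
      omega
    have e1 : frattini P ⊓ center P = center P := eq_of_le_of_card_ge inf_le_right (by rw [hZP]; exact hge)
    rw [← e1]; exact inf_le_left
  have hmemsup : ∀ x ∈ P ⊔ Q, ∃ a ∈ P, ∃ b ∈ Q, x = a * b := by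
    intro x hx
    rw [mem_sup_of_normal_right] at hx
    obtain ⟨a, ha, b, hb, rfl⟩ := hx
    exact ⟨a, ha, b, hb, rfl⟩
  have hc2Φ : c ^ 2 ∈ Φ := by
    obtain ⟨a, ha, b, hb, hab⟩ := hmemsup _ hcsq
    have haZ : (⟨a, ha⟩ : P) ∈ center P := by
      rw [mem_center_iff]
      rintro ⟨x, hx⟩
      apply Subtype.ext
      show x * a = a * x
      have h1 : c ^ 2 * x = x * c ^ 2 := (show Commute c x from hcP x hx).pow_left 2
      rw [hab, mul_assoc, ← hPQc x hx b hb, ← mul_assoc, ← mul_assoc] at h1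
      exact (mul_right_cancel h1).symm
    have hbZ : (⟨b, hb⟩ : Q) ∈ center Q := by
      rw [mem_center_iff]
      rintro ⟨x, hx⟩
      apply Subtype.ext
      show x * b = b * x
      have h1 : c ^ 2 * x = x * c ^ 2 := (show Commute c x from hcQ x hx).pow_left 2
      rw [hab, ← mul_assoc, ← hPQc a ha x hx, mul_assoc, mul_assoc] at h1
      exact (mul_left_cancel h1).symm
    rw [hab]
    exact mul_mem (mem_sup_left ⟨_, hfr P hP2 hP hZP haZ, rfl⟩) (mem_sup_right ⟨_, hfr Q hQ2 hQ hZQ hbZ, rfl⟩)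
  let K : Subgroup S :=
    { carrier := {k | ∃ a ∈ P, ∃ b ∈ Q, ∃ i : ℤ, k = a * b * c ^ i}
      one_mem' := ⟨1, one_mem _, 1, one_mem _, 0, by simp⟩
      mul_mem' := by
        rintro _ _ ⟨a, ha, b, hb, i, rfl⟩ ⟨a', ha', b', hb', j, rfl⟩
        refine ⟨a * a', mul_mem ha ha', b * b', mul_mem hb hb', i + j, ?_⟩
        rw [zpow_add]
        have c1 : c ^ i * (a' * b') = a' * b' * c ^ i :=
          (Commute.mul_right (show Commute c a' from hcP a' ha') (show Commute c b' from hcQ b' hb')).zpow_left i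
        calc a * b * c ^ i * (a' * b' * c ^ j) = a * b * (c ^ i * (a' * b')) * c ^ j := by group
          _ = a * (b * a') * b' * c ^ i * c ^ j := by rw [c1]; group
          _ = a * (a' * b) * b' * c ^ i * c ^ j := by rw [hPQc a' ha' b hb]
          _ = _ := by group
      inv_mem' := by
        rintro _ ⟨a, ha, b, hb, i, rfl⟩
        refine ⟨a⁻¹, inv_mem ha, b⁻¹, inv_mem hb, -i, ?_⟩
        have c1 : c ^ (-i) * (a⁻¹ * b⁻¹) = a⁻¹ * b⁻¹ * c ^ (-i) :=
          (Commute.mul_right (show Commute c a⁻¹ from hcP _ (inv_mem ha)) (show Commute c b⁻¹ from hcQ _ (inv_mem hb))).zpow_left (-i)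
        rw [mul_inv_rev, mul_inv_rev, ← zpow_neg, ← hPQc _ (inv_mem ha) _ (inv_mem hb), c1] }
  have hPK : P ≤ K := fun a ha => ⟨a, ha, 1, one_mem _, 0, by simp⟩
  have hQK : Q ≤ K := fun a ha => ⟨1, one_mem _, a, ha, 0, by simp⟩
  have hcK : c ∈ K := ⟨1, one_mem _, 1, one_mem _, 1, by simp⟩
  have hΦPQ : Φ ≤ P ⊔ Q := sup_le_sup (map_subtype_le _) (map_subtype_le _)
  have hΦK : Φ ≤ K := hΦPQ.trans (sup_le hPK hQK)
  have hΦn : Φ.Normal := by
    haveI h1 : ((frattini P).map P.subtype).Normal := ConjAct.normal_of_characteristic_of_normal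
    haveI h1' : ((frattini Q).map Q.subtype).Normal := ConjAct.normal_of_characteristic_of_normal
    exact sup_normal _ _
  haveI h1 : ((frattini P).map P.subtype).Normal := ConjAct.normal_of_characteristic_of_normal
  haveI h1' : ((frattini Q).map Q.subtype).Normal := ConjAct.normal_of_characteristic_of_normal
  haveI hN : (Φ.subgroupOf K).Normal := hΦn.subgroupOf K
  have hsq : ∀ k ∈ K, k ^ 2 ∈ Φ := by
    rintro _ ⟨a, ha, b, hb, i, rfl⟩
    have c1 : Commute (a * b) (c ^ i) :=
      (Commute.mul_left (show Commute a c from (hcP a ha).symm) (show Commute b c from (hcQ b hb).symm)).zpow_right i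
    have c2 : Commute a b := hPQc a ha b hb
    rw [c1.mul_pow, c2.mul_pow]
    refine mul_mem (mul_mem ?_ ?_) ?_
    · exact mem_sup_left ⟨(⟨a, ha⟩ : P) ^ 2, H2.pow_mem_frattini hP2 _, rfl⟩
    · exact mem_sup_right ⟨(⟨b, hb⟩ : Q) ^ 2, H2.pow_mem_frattini hQ2 _, rfl⟩
    · have : (c ^ i) ^ 2 = (c ^ 2) ^ i := by group
      rw [this]
      exact zpow_mem hc2Φ i
  have hexp : ∀ q : K ⧸ Φ.subgroupOf K, q ^ 2 = 1 := by
    intro q
    obtain ⟨k, rfl⟩ := QuotientGroup.mk_surjective q
    rw [← QuotientGroup.mk_pow, QuotientGroup.eq_one_iff, mem_subgroupOf]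
    exact hsq k k.2
  have hcommQ : ∀ a b : K ⧸ Φ.subgroupOf K, a * b = b * a := by
    intro a b
    have h1 : ∀ q : K ⧸ Φ.subgroupOf K, q⁻¹ = q := fun q => inv_eq_of_mul_eq_one_left (by rw [← sq]; exact hexp q)
    calc a * b = (a * b)⁻¹ := (h1 _).symm
      _ = b⁻¹ * a⁻¹ := mul_inv_rev a b
      _ = b * a := by rw [h1, h1]
  have hle := hr K (Φ.subgroupOf K) ⊤ ⟨⟨fun a b => Subtype.ext (hcommQ _ _)⟩⟩ (fun a _ => hexp a)
  rw [card_top] at hle
  have e1 := card_eq_card_quotient_mul_card_subgroup (Φ.subgroupOf K)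
  rw [Nat.card_congr (subgroupOfEquivOfLe hΦK).toEquiv] at e1
  -- card of the join
  have e2 : Nat.card (P ⊔ Q : Subgroup S) = Nat.card P * Nat.card Q := by
    have h5 : Q.relIndex (P ⊔ Q) = Q.relIndex P := relIndex_sup_right P Q
    have h6 : Q.relIndex P = Nat.card P := by
      rw [← inf_relIndex_left, hPQ, relIndex_bot_left]
    have h7 : Nat.card Q * Q.relIndex (P ⊔ Q) = Nat.card (P ⊔ Q : Subgroup S) := by
      have := card_mul_index (Q.subgroupOf (P ⊔ Q))
      rwa [Nat.card_congr (subgroupOfEquivOfLe (le_sup_right : Q ≤ P ⊔ Q)).toEquiv] at this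
    rw [h5, h6] at h7
    rw [← h7, mul_comm]
  have e3 : Nat.card Φ ∣ Nat.card (frattini P) * Nat.card (frattini Q) := by
    have := H1.card_sup_dvd_of_normal_right ((frattini P).map P.subtype) ((frattini Q).map Q.subtype)
    rwa [Nat.card_congr (equivMapOfInjective (frattini P) P.subtype P.subtype_injective).symm.toEquiv,
      Nat.card_congr (equivMapOfInjective (frattini Q) Q.subtype Q.subtype_injective).symm.toEquiv] at this
  have e4 := Nat.le_of_dvd (Nat.mul_pos Nat.card_pos Nat.card_pos) e3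
  have e5 := card_mul_index (frattini P)
  have e6 := card_mul_index (frattini Q)
  have e7 := four_le_index_frattini hP2 hP
  have e8 := four_le_index_frattini hQ2 hQ
  have hPQK : P ⊔ Q ≤ K := sup_le hPK hQK
  have e9 : 2 * Nat.card (P ⊔ Q : Subgroup S) ≤ Nat.card K := by
    obtain ⟨m, hm⟩ := card_dvd_of_le hPQK
    have hm1 : m ≠ 1 := by
      rintro rfl
      rw [mul_one] at hm
      have := eq_of_le_of_card_ge hPQK hm.le
      rw [← this] at hcK
      exact hc2 hcK
    have hm0 : m ≠ 0 := by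
      rintro rfl
      rw [mul_zero] at hm
      exact absurd hm Nat.card_pos.ne'
    rw [hm, mul_comm]
    exact Nat.mul_le_mul_left _ (by omega)
  have e10 : 16 * (Nat.card (frattini P) * Nat.card (frattini Q)) ≤ Nat.card P * Nat.card Q := by
    rw [← e5, ← e6]
    calc 16 * (Nat.card (frattini P) * Nat.card (frattini Q)) =
        (Nat.card (frattini P) * 4) * (Nat.card (frattini Q) * 4) := by ring
      _ ≤ _ := Nat.mul_le_mul (Nat.mul_le_mul_left _ e7) (Nat.mul_le_mul_left _ e8)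
  have hpos : 0 < Nat.card Φ := Nat.card_pos
  have e11 : Nat.card K ≤ 16 * Nat.card Φ := by
    rw [e1]; exact Nat.mul_le_mul_right _ hle
  omega

end Cfsg.Agent.H25
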