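import Cfsg.Agent.H25.Rank4
import Mathlib

set_option autoImplicit false
set_option linter.style.haveILetI false

namespace Cfsg.Agent.H25

open Subgroup
open scoped commutatorElement

theorem sectional_subgroup {p k : ℕ} {S : Type*} [Group S] (hr : Cfsg.SectionalPRankLE p k S)
    (T : Subgroup S) : Cfsg.SectionalPRankLE p k T := by
  intro H M hM
  let e : (H.map T.subtype) ≃* H := (H.equivMapOfInjective T.subtype T.subtype_injective).symm
  exact pRankLE_of_section hr (H.map T.subtype) ((QuotientGroup.mk' M).comp e.toMonoidHom)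
    ((QuotientGroup.mk'_surjective M).comp e.surjective)

theorem mem_zc {S : Type*} [Group S] {P : Subgroup S} {x : S} :
    x ∈ (center P).map P.subtype ↔ x ∈ P ∧ ∀ y ∈ P, y * x = x * y := by
  constructor
  · rintro ⟨x, hx, rfl⟩
    refine ⟨x.2, fun y hy => ?_⟩
    exact congrArg Subtype.val ((mem_center_iff.1 hx) ⟨y, hy⟩)
  · rintro ⟨hx, h⟩
    refine ⟨⟨x, hx⟩, ?_, rfl⟩
    rw [SetLike.mem_coe, mem_center_iff]
    rintro ⟨y, hy⟩
    exact Subtype.ext (h y hy)

theorem commuting_pair' {S : Type*} [Group S] [Finite S] (h2 : IsPGroup 2 S) (hr : Cfsg.SectionalPRankLE 2 4 S)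
    (T P Q : Subgroup S) (hPT : P ≤ T) (hQT : Q ≤ T) (hPn : ∀ t ∈ T, ∀ x ∈ P, t * x * t⁻¹ ∈ P)
    (hQn : ∀ t ∈ T, ∀ x ∈ Q, t * x * t⁻¹ ∈ Q) (hP : ¬ IsMulCommutative ↥P) (hQ : ¬ IsMulCommutative ↥Q)
    (hZP : Nat.card ↥(Subgroup.center ↥P) = 2) (hZQ : Nat.card ↥(Subgroup.center ↥Q) = 2)
    (hne : (Subgroup.center ↥P).map P.subtype ≠ (Subgroup.center ↥Q).map Q.subtype) :
    (∀ a ∈ P, ∀ b ∈ Q, a * b = b * a) ∧ P ⊓ Q = ⊥ ∧
      ∀ c ∈ T, (∀ a ∈ P, a * c = c * a) → (∀ a ∈ Q, a * c = c * a) → c ∈ P ⊔ Q := by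
  have hn : ∀ P : Subgroup S, (∀ t ∈ T, ∀ x ∈ P, t * x * t⁻¹ ∈ P) → (P.subgroupOf T).Normal := by
    intro P hPn
    constructor
    intro x hx t
    rw [mem_subgroupOf] at hx ⊢
    exact hPn t t.2 x hx
  have hna : ∀ P : Subgroup S, P ≤ T → ¬ IsMulCommutative P → ¬ IsMulCommutative (P.subgroupOf T) := by
    intro P hPT hP h
    apply hP
    refine ⟨⟨fun a b => ?_⟩⟩
    have := h.is_comm.comm (⟨⟨a, hPT a.2⟩, a.2⟩ : P.subgroupOf T) ⟨⟨b, hPT b.2⟩, b.2⟩
    apply Subtype.ext
    exact congrArg (fun x : P.subgroupOf T => ((x : T) : S)) this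
  have hc : ∀ P : Subgroup S, P ≤ T → Nat.card (center P) = 2 → Nat.card (center (P.subgroupOf T)) = 2 := by
    intro P hPT h
    rw [Nat.card_congr (Subgroup.centerCongr (subgroupOfEquivOfLe hPT)).toEquiv, h]
  have hz : ∀ P Q : Subgroup S, P ≤ T → Q ≤ T →
      (center (P.subgroupOf T)).map (P.subgroupOf T).subtype = (center (Q.subgroupOf T)).map (Q.subgroupOf T).subtype →
      (center P).map P.subtype ≤ (center Q).map Q.subtype := by
    intro P Q hPT hQT h x hx
    rw [mem_zc] at hx ⊢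
    have h1 : (⟨x, hPT hx.1⟩ : T) ∈ (center (P.subgroupOf T)).map (P.subgroupOf T).subtype := by
      rw [mem_zc]
      refine ⟨hx.1, ?_⟩
      rintro ⟨y, hy⟩ hy'
      exact Subtype.ext (hx.2 y hy')
    rw [h, mem_zc] at h1
    refine ⟨h1.1, fun y hy => ?_⟩
    exact congrArg Subtype.val (h1.2 ⟨y, hQT hy⟩ hy)
  haveI := hn P hPn
  haveI := hn Q hQn
  have h := commuting_pair (h2.to_subgroup T) (sectional_subgroup hr T) (P.subgroupOf T) (Q.subgroupOf T)
    (hna P hPT hP) (hna Q hQT hQ) (hc P hPT hZP) (hc Q hQT hZQ)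
    (fun h => hne (le_antisymm (hz P Q hPT hQT h) (hz Q P hQT hPT h.symm)))
  obtain ⟨h1, h3, h4⟩ := h
  refine ⟨?_, ?_, ?_⟩
  · intro a ha b hb
    have h5 : ⁅(⟨a, hPT ha⟩ : T), (⟨b, hQT hb⟩ : T)⁆ ∈ ⁅P.subgroupOf T, Q.subgroupOf T⁆ :=
      commutator_mem_commutator ha hb
    rw [h1, mem_bot, commutatorElement_eq_one_iff_commute] at h5
    exact congrArg Subtype.val h5
  · rw [eq_bot_iff]
    rintro x ⟨hx1, hx2⟩
    have : (⟨x, hPT hx1⟩ : T) ∈ P.subgroupOf T ⊓ Q.subgroupOf T := ⟨hx1, hx2⟩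
    rw [h3, mem_bot] at this
    exact congrArg Subtype.val this
  · intro c hc hcP hcQ
    have h5 : (⟨c, hc⟩ : T) ∈ centralizer ((P.subgroupOf T ⊔ Q.subgroupOf T : Subgroup T) : Set T) := by
      have h6 : P.subgroupOf T ⊔ Q.subgroupOf T ≤ centralizer ({(⟨c, hc⟩ : T)} : Set T) := by
        apply sup_le
        · intro a ha
          rw [mem_centralizer_singleton_iff]
          exact Subtype.ext (hcP a ha)
        · intro a ha
          rw [mem_centralizer_singleton_iff]
          exact Subtype.ext (hcQ a ha)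
      rw [mem_centralizer_iff]
      intro a ha
      have := h6 ha
      rw [mem_centralizer_singleton_iff] at this
      exact this
    have h6 := h4 h5
    have h7 : P.subgroupOf T ⊔ Q.subgroupOf T = (P ⊔ Q).subgroupOf T := by
      rw [subgroupOf_sup hPT hQT]
    rw [h7] at h6
    exact h6

theorem sectional_of_prod {k : ℕ} {S : Type*} [Group S] [Finite S] (hr : Cfsg.SectionalPRankLE 2 (2 * k) S)
    (P : Type*) [Group P] [Finite P] (ι : P × P →* S) (hι : Function.Injective ι) : Cfsg.SectionalPRankLE 2 k P := by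
  intro H M hM A hA hA2
  let e : H × H →* P × P := MonoidHom.prodMap H.subtype H.subtype
  have he : Function.Injective (ι.comp e) := hι.comp (by
    rintro ⟨a, b⟩ ⟨c, d⟩ h
    have h1 : ((a : P), (b : P)) = ((c : P), (d : P)) := h
    rw [Prod.mk.injEq] at h1
    exact Prod.ext (Subtype.ext h1.1) (Subtype.ext h1.2))
  let f : H × H →* (H ⧸ M) × (H ⧸ M) := MonoidHom.prodMap (QuotientGroup.mk' M) (QuotientGroup.mk' M)
  have hf : Function.Surjective f := by
    rintro ⟨a, b⟩
    obtain ⟨a, rfl⟩ := QuotientGroup.mk_surjective a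
    obtain ⟨b, rfl⟩ := QuotientGroup.mk_surjective b
    exact ⟨(a, b), rfl⟩
  let E : H × H ≃* (ι.comp e).range := MonoidHom.ofInjective he
  have h1 := pRankLE_of_section hr (ι.comp e).range (f.comp E.symm.toMonoidHom) (hf.comp E.symm.surjective)
  have h3 := h1 (A.prod A) ?_ ?_
  · have h4 : Nat.card (A.prod A) = Nat.card A * Nat.card A := by
      rw [Nat.card_congr (A.prodEquiv A).toEquiv, Nat.card_prod]
    rw [h4, pow_mul', ← sq] at h3
    exact (Nat.pow_le_pow_iff_left (by norm_num)).1 h3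
  · refine ⟨⟨?_⟩⟩
    rintro ⟨⟨a, b⟩, hab⟩ ⟨⟨c, d⟩, hcd⟩
    rw [mem_prod] at hab hcd
    apply Subtype.ext
    have e1 := hA.is_comm.comm (⟨a, hab.1⟩ : A) ⟨c, hcd.1⟩
    have e2 := hA.is_comm.comm (⟨b, hab.2⟩ : A) ⟨d, hcd.2⟩
    exact Prod.ext (congrArg Subtype.val e1) (congrArg Subtype.val e2)
  · rintro ⟨a, b⟩ hab
    rw [mem_prod] at hab
    exact Prod.ext (hA2 a hab.1) (hA2 b hab.2)

theorem sup_mem_of_comm {S : Type*} [Group S] (A B : Subgroup S) (h : ∀ a ∈ A, ∀ b ∈ B, a * b = b * a) :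
    ∀ x ∈ A ⊔ B, ∃ a ∈ A, ∃ b ∈ B, x = a * b := by
  let R : Subgroup S :=
    { carrier := {x | ∃ a ∈ A, ∃ b ∈ B, x = a * b}
      one_mem' := ⟨1, one_mem _, 1, one_mem _, by simp⟩
      mul_mem' := by
        rintro _ _ ⟨a, ha, b, hb, rfl⟩ ⟨c, hc, d, hd, rfl⟩
        refine ⟨a * c, mul_mem ha hc, b * d, mul_mem hb hd, ?_⟩
        calc a * b * (c * d) = a * (b * c) * d := by group
          _ = a * (c * b) * d := by rw [h c hc b hb]
          _ = _ := by group
      inv_mem' := by
        rintro _ ⟨a, ha, b, hb, rfl⟩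
        refine ⟨a⁻¹, inv_mem ha, b⁻¹, inv_mem hb, ?_⟩
        rw [mul_inv_rev, h _ (inv_mem ha) _ (inv_mem hb)] }
  have : A ⊔ B ≤ R := sup_le (fun a ha => ⟨a, ha, 1, one_mem _, by simp⟩) (fun b hb => ⟨1, one_mem _, b, hb, by simp⟩)
  exact fun x hx => this hx

theorem rank_four_index {S : Type*} [Group S] [Finite S] (h2 : IsPGroup 2 S) (hr : Cfsg.SectionalPRankLE 2 4 S)
    (P : Subgroup S) (hP : ¬ IsMulCommutative ↥P) (hZP : Nat.card ↥(Subgroup.center ↥P) = 2)
    (S₀ : Subgroup S) (hS₀ : S₀ = Subgroup.centralizer (((Subgroup.center ↥P).map P.subtype : Subgroup S) : Set S))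
    (hPn : ∀ s ∈ S₀, ∀ x ∈ P, s * x * s⁻¹ ∈ P) (hS : S₀ ≠ ⊤) :
    (Cfsg.SectionalPRankLE 2 2 ↥P ∧ S₀.index = 2) := by
  classical
  haveI : Fact (Nat.Prime 2) := ⟨Nat.prime_two⟩
  -- the central involution of P
  obtain ⟨z', hz'1, hz'2⟩ := (Nat.card_eq_two_iff' (1 : center P)).1 hZP
  set z : S := ((z' : P) : S) with hz
  have hzc : ∀ x, x ∈ (center P).map P.subtype ↔ x = 1 ∨ x = z := by
    intro x
    constructor
    · rintro ⟨y, hy, rfl⟩
      by_cases h1 : (⟨y, hy⟩ : center P) = 1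
      · left
        have := congrArg (fun w : center P => ((w : P) : S)) h1
        exact this
      · right
        have := congrArg (fun w : center P => ((w : P) : S)) (hz'2 _ h1)
        exact this
    · rintro (rfl | rfl)
      · exact one_mem _
      · exact ⟨z', z'.2, rfl⟩
  have hz1 : z ≠ 1 := by
    intro h
    apply hz'1
    apply Subtype.ext
    apply Subtype.ext
    exact h
  have hzP : z ∈ P := (z' : P).2
  have hzz : z * z = 1 := by
    have h1 : z * z ∈ (center P).map P.subtype := mul_mem ((hzc z).2 (Or.inr rfl)) ((hzc z).2 (Or.inr rfl))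
    rcases (hzc _).1 h1 with h | h
    · exact h
    · exact absurd (mul_eq_left.1 h) hz1
  have hmem : ∀ g : S, g ∈ S₀ ↔ g * z = z * g := by
    intro g
    rw [hS₀, mem_centralizer_iff]
    constructor
    · intro h
      exact (h z ((hzc z).2 (Or.inr rfl))).symm
    · intro h x hx
      rcases (hzc x).1 hx with rfl | rfl
      · rw [one_mul, mul_one]
      · exact h.symm
  have hmem' : ∀ g : S, g ∈ S₀ ↔ g * z * g⁻¹ = z := by
    intro g
    rw [hmem, mul_inv_eq_iff_eq_mul]
  have hPS : P ≤ S₀ := by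
    intro x hx
    rw [hmem]
    exact (mem_zc.1 ((hzc z).2 (Or.inr rfl))).2 x hx
  -- conjugates
  let Pc : S → Subgroup S := fun g => P.map (MulAut.conj g).toMonoidHom
  have hPc : ∀ g x, x ∈ Pc g ↔ g⁻¹ * x * g ∈ P := by
    intro g x
    constructor
    · rintro ⟨y, hy, rfl⟩
      show g⁻¹ * (g * y * g⁻¹) * g ∈ P
      have : g⁻¹ * (g * y * g⁻¹) * g = y := by group
      rw [this]; exact hy
    · intro h
      refine ⟨_, h, ?_⟩
      show g * (g⁻¹ * x * g) * g⁻¹ = x
      group
  let ePc : ∀ g, P ≃* Pc g := fun g => P.equivMapOfInjective (MulAut.conj g).toMonoidHom (MulAut.conj g).injective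
  have hPcna : ∀ g, ¬ IsMulCommutative (Pc g) := by
    intro g h
    apply hP
    refine ⟨⟨fun a b => ?_⟩⟩
    apply (ePc g).injective
    rw [map_mul, map_mul]
    exact h.is_comm.comm _ _
  have hPcZ : ∀ g, Nat.card (center (Pc g)) = 2 := by
    intro g
    rw [← hZP]
    exact Nat.card_congr (Subgroup.centerCongr (ePc g)).symm.toEquiv
  have hzcP : ∀ g x, x ∈ (center (Pc g)).map (Pc g).subtype ↔ x = 1 ∨ x = g * z * g⁻¹ := by
    intro g x
    rw [mem_zc]
    have h1 : (x ∈ Pc g ∧ ∀ y ∈ Pc g, y * x = x * y) ↔ (g⁻¹ * x * g ∈ P ∧ ∀ y ∈ P, y * (g⁻¹ * x * g) = (g⁻¹ * x * g) * y) := by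
      rw [hPc]
      constructor
      · rintro ⟨h1, h3⟩
        refine ⟨h1, fun y hy => ?_⟩
        have h4 := h3 (g * y * g⁻¹) ((hPc g _).2 (by
          have : g⁻¹ * (g * y * g⁻¹) * g = y := by group
          rw [this]; exact hy))
        calc y * (g⁻¹ * x * g) = g⁻¹ * ((g * y * g⁻¹) * x) * g := by group
          _ = g⁻¹ * (x * (g * y * g⁻¹)) * g := by rw [h4]
          _ = _ := by group
      · rintro ⟨h1, h3⟩
        refine ⟨h1, fun y hy => ?_⟩
        have h4 := h3 (g⁻¹ * y * g) ((hPc g y).1 hy)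
        calc y * x = g * ((g⁻¹ * y * g) * (g⁻¹ * x * g)) * g⁻¹ := by group
          _ = g * ((g⁻¹ * x * g) * (g⁻¹ * y * g)) * g⁻¹ := by rw [h4]
          _ = _ := by group
    rw [h1, ← mem_zc, hzc]
    constructor
    · rintro (h | h)
      · left
        have : x = g * (g⁻¹ * x * g) * g⁻¹ := by group
        rw [this, h]; group
      · right
        rw [← h]; group
    · rintro (rfl | rfl)
      · left; group
      · right; group
  -- the normalizer of S₀
  set N : Subgroup S := normalizer (S₀ : Set S) with hN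
  have hS₀N : S₀ < N := by
    haveI := h2.isNilpotent
    exact normalizerCondition_of_isNilpotent S₀ (lt_top_iff_ne_top.2 hS)
  have hNconj : ∀ n ∈ N, ∀ x ∈ S₀, n * x * n⁻¹ ∈ S₀ := fun n hn x hx => (mem_normalizer_iff.1 hn x).1 hx
  have hNconj' : ∀ n ∈ N, ∀ x ∈ S₀, n⁻¹ * x * n ∈ S₀ := fun n hn x hx => by
    have := hNconj n⁻¹ (inv_mem hn) x hx
    rwa [inv_inv] at this
  have hPcS : ∀ n ∈ N, Pc n ≤ S₀ := by
    intro n hn x hx
    rw [hPc] at hx
    have := hNconj n hn _ (hPS hx)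
    have e : n * (n⁻¹ * x * n) * n⁻¹ = x := by group
    rwa [e] at this
  have hPcn : ∀ n ∈ N, ∀ t ∈ S₀, ∀ x ∈ Pc n, t * x * t⁻¹ ∈ Pc n := by
    intro n hn t ht x hx
    rw [hPc] at hx ⊢
    have h1 := hPn _ (hNconj' n hn t ht) _ hx
    have e : n⁻¹ * t * n * (n⁻¹ * x * n) * (n⁻¹ * t * n)⁻¹ = n⁻¹ * (t * x * t⁻¹) * n := by group
    rwa [e] at h1
  have hpair : ∀ m ∈ N, ∀ n ∈ N, m⁻¹ * n ∉ S₀ → (∀ a ∈ Pc m, ∀ b ∈ Pc n, a * b = b * a) ∧ Pc m ⊓ Pc n = ⊥ ∧
      ∀ c ∈ S₀, (∀ a ∈ Pc m, a * c = c * a) → (∀ a ∈ Pc n, a * c = c * a) → c ∈ Pc m ⊔ Pc n := by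
    intro m hm n hn hmn
    refine commuting_pair' h2 hr S₀ (Pc m) (Pc n) (hPcS m hm) (hPcS n hn) (hPcn m hm) (hPcn n hn) (hPcna m) (hPcna n)
      (hPcZ m) (hPcZ n) ?_
    intro h
    have h1 : m * z * m⁻¹ ∈ (center (Pc m)).map (Pc m).subtype := (hzcP m _).2 (Or.inr rfl)
    rw [h, hzcP] at h1
    rcases h1 with h1 | h1
    · apply hz1
      have : z = m⁻¹ * (m * z * m⁻¹) * m := by group
      rw [this, h1]; group
    · apply hmn
      rw [hmem']
      have : m⁻¹ * n * z * (m⁻¹ * n)⁻¹ = m⁻¹ * (n * z * n⁻¹) * m := by group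
      rw [this, ← h1]; group
  obtain ⟨s, hsN, hsS⟩ := SetLike.exists_of_lt hS₀N
  have hP1 : Pc 1 = P := by
    ext x
    rw [hPc]
    simp
  have hps := hpair 1 (one_mem _) s hsN (by rwa [inv_one, one_mul])
  rw [hP1] at hps
  obtain ⟨hcomm, hinf, hself⟩ := hps
  constructor
  · -- sectional rank
    let ι : P × P →* S := MonoidHom.mk' (fun x => (x.1 : S) * (s * (x.2 : S) * s⁻¹)) (by
      rintro ⟨a, b⟩ ⟨c, d⟩
      show ((a * c : P) : S) * (s * ((b * d : P) : S) * s⁻¹) = a * (s * b * s⁻¹) * (c * (s * d * s⁻¹))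
      have h1 : (c : S) * (s * b * s⁻¹) = s * b * s⁻¹ * c := hcomm c c.2 _ ((hPc s _).2 (by
        have : s⁻¹ * (s * (b : S) * s⁻¹) * s = b := by group
        rw [this]; exact b.2))
      push_cast
      calc (a : S) * c * (s * (b * d) * s⁻¹) = a * (c * (s * b * s⁻¹)) * (s * d * s⁻¹) := by group
        _ = a * (s * b * s⁻¹ * c) * (s * d * s⁻¹) := by rw [h1]
        _ = _ := by group)
    refine sectional_of_prod (k := 2) hr P ι ?_
    rw [injective_iff_map_eq_one]
    rintro ⟨a, b⟩ hab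
    have h1 : (a : S) * (s * (b : S) * s⁻¹) = 1 := hab
    have hbs : s * (b : S) * s⁻¹ ∈ Pc s := (hPc s _).2 (by
        have : s⁻¹ * (s * (b : S) * s⁻¹) * s = b := by group
        rw [this]; exact b.2)
    have h3 : (a : S) ∈ P ⊓ Pc s := by
      refine ⟨a.2, ?_⟩
      show (a : S) ∈ Pc s
      rw [eq_inv_of_mul_eq_one_left h1]
      exact inv_mem hbs
    rw [hinf, mem_bot] at h3
    rw [h3, one_mul] at h1
    have h4 : (b : S) = 1 := by
      have : (b : S) = s⁻¹ * (s * b * s⁻¹) * s := by group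
      rw [this, h1]; group
    exact Prod.ext (Subtype.ext h3) (Subtype.ext h4)
  · by_contra hidx
    -- index of S₀ in N is two
    have hN2 : ∀ m ∈ N, m ∉ S₀ → s⁻¹ * m ∈ S₀ := by
      intro m hm hmS
      by_contra hsm
      have h1 := hpair 1 (one_mem _) m hm (by rwa [inv_one, one_mul])
      rw [hP1] at h1
      have h3 := hpair s hsN m hm hsm
      apply hPcna m
      have h4 : ∀ a ∈ Pc m, ∀ c ∈ P ⊔ Pc s, a * c = c * a := by
        intro a ha c hc
        have h5 : P ⊔ Pc s ≤ centralizer ({a} : Set S) := by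
          apply sup_le
          · intro x hx
            rw [mem_centralizer_singleton_iff]
            exact h1.1 x hx a ha
          · intro x hx
            rw [mem_centralizer_singleton_iff]
            exact h3.1 x hx a ha
        have := h5 hc
        rw [mem_centralizer_singleton_iff] at this
        exact this.symm
      refine ⟨⟨fun a b => ?_⟩⟩
      apply Subtype.ext
      refine h4 a a.2 b ?_
      refine hself b (hPcS m hm b.2) ?_ ?_
      · intro x hx
        exact h1.1 x hx b b.2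
      · intro x hx
        exact h3.1 x hx b b.2
    have hrel : S₀.relIndex N = 2 := by
      rw [relIndex, index_eq_two_iff]
      refine ⟨⟨s⁻¹, inv_mem hsN⟩, ?_⟩
      rintro ⟨b, hb⟩
      rw [mem_subgroupOf, mem_subgroupOf]
      show Xor (b * s⁻¹ ∈ S₀) (b ∈ S₀)
      by_cases hbS : b ∈ S₀
      · right
        refine ⟨hbS, fun h => hsS ?_⟩
        have := mul_mem (inv_mem h) hbS
        have e : (b * s⁻¹)⁻¹ * b = s := by group
        rwa [e] at this
      · left
        refine ⟨?_, hbS⟩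
        have hbi : b⁻¹ ∉ S₀ := fun h => hbS (by have := inv_mem h; rwa [inv_inv] at this)
        have h1 := hN2 b⁻¹ (inv_mem hb) hbi
        have h3 := hN2 s⁻¹ (inv_mem hsN) (fun h => hsS (by have := inv_mem h; rwa [inv_inv] at this))
        -- s⁻¹ b⁻¹ ∈ S₀, s⁻¹ s⁻¹ ∈ S₀
        have h4 := mul_mem (inv_mem h1) h3
        have e : (s⁻¹ * b⁻¹)⁻¹ * (s⁻¹ * s⁻¹) = b * s⁻¹ := by group
        rwa [e] at h4
    have hNtop : N ≠ ⊤ := by
      intro h
      rw [h, relIndex_top_right] at hrel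
      exact hidx hrel
    obtain ⟨t, htN', htN⟩ : ∃ t ∈ normalizer (N : Set S), t ∉ N := by
      haveI := h2.isNilpotent
      exact SetLike.exists_of_lt (Group.normalizerCondition_of_isNilpotent N (lt_top_iff_ne_top.2 hNtop))
    have hSN : S₀ ≤ N := hS₀N.le
    have ht1 : ∀ n ∈ N, t * n * t⁻¹ ∈ N := fun n hn => (mem_normalizer_iff.1 htN' n).1 hn
    have ht2 : ∀ n ∈ N, t⁻¹ * n * t ∈ N := fun n hn => by
      have := (mem_normalizer_iff.1 (inv_mem htN') n).1 hn
      rwa [inv_inv] at this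
    have hss : s * s ∈ S₀ := by
      have h3 := hN2 s⁻¹ (inv_mem hsN) (fun h => hsS (by have := inv_mem h; rwa [inv_inv] at this))
      have := inv_mem h3
      rwa [mul_inv_rev, inv_inv] at this
    set zs : S := s * z * s⁻¹ with hzs
    have hzsPc : zs ∈ Pc s := (hPc s _).2 (by
      have : s⁻¹ * zs * s = z := by rw [hzs]; group
      rw [this]; exact hzP)
    have hzsS : zs ∈ S₀ := hPcS s hsN hzsPc
    have hzszs : zs * zs = 1 := by
      rw [hzs]
      calc s * z * s⁻¹ * (s * z * s⁻¹) = s * (z * z) * s⁻¹ := by group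
        _ = 1 := by rw [hzz]; group
    have hzzs : z * zs = zs * z := ((hmem zs).1 hzsS).symm
    set w : S := z * zs with hw
    have hzs1 : zs ≠ 1 := by
      intro h
      apply hz1
      have : z = s⁻¹ * zs * s := by rw [hzs]; group
      rw [this, h]; group
    have hzne : zs ≠ z := by
      intro h
      exact hsS ((hmem' s).2 h)
    have hw1 : w ≠ 1 := by
      intro h
      apply hzne
      have h1 : z = zs⁻¹ := eq_inv_of_mul_eq_one_left h
      have h3 : zs⁻¹ = zs := inv_eq_of_mul_eq_one_left hzszs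
      rw [h1, h3]
    have hzN : z ∈ N := hSN (hPS hzP)
    have hzsN : zs ∈ N := hSN hzsS
    have hwN : w ∈ N := mul_mem hzN hzsN
    have f0 : ∀ x ∈ S₀, x * zs * x⁻¹ = zs := by
      intro x hx
      have h1 := (hmem' _).1 (hNconj' s hsN x hx)
      calc x * zs * x⁻¹ = s * (s⁻¹ * x * s * z * (s⁻¹ * x * s)⁻¹) * s⁻¹ := by rw [hzs]; group
        _ = zs := by rw [h1]
    have f1 : s * zs * s⁻¹ = z := by
      have h1 := (hmem' _).1 hss
      rw [hzs]
      calc s * (s * z * s⁻¹) * s⁻¹ = s * s * z * (s * s)⁻¹ := by group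
        _ = z := h1
    have hNcase : ∀ x ∈ N, x ∈ S₀ ∨ ∃ y ∈ S₀, x = s * y := by
      intro x hx
      by_cases h : x ∈ S₀
      · exact Or.inl h
      · exact Or.inr ⟨s⁻¹ * x, hN2 x hx h, by group⟩
    have hNz : ∀ x ∈ N, x * z * x⁻¹ = z ∨ x * z * x⁻¹ = zs := by
      intro x hx
      rcases hNcase x hx with h | ⟨y, hy, rfl⟩
      · left; exact (hmem' x).1 h
      · right
        have h1 := (hmem' y).1 hy
        calc s * y * z * (s * y)⁻¹ = s * (y * z * y⁻¹) * s⁻¹ := by group
          _ = zs := by rw [h1]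
    have hNw : ∀ x ∈ N, x * w * x⁻¹ = w := by
      have e1 : ∀ x ∈ S₀, x * w * x⁻¹ = w := by
        intro x hx
        have h1 := (hmem' x).1 hx
        have h3 := f0 x hx
        calc x * w * x⁻¹ = (x * z * x⁻¹) * (x * zs * x⁻¹) := by rw [hw]; group
          _ = w := by rw [h1, h3]
      have e2 : s * w * s⁻¹ = w := by
        calc s * w * s⁻¹ = (s * z * s⁻¹) * (s * zs * s⁻¹) := by rw [hw]; group
          _ = zs * z := by rw [f1]
          _ = w := hzzs.symm
      intro x hx
      rcases hNcase x hx with h | ⟨y, hy, rfl⟩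
      · exact e1 x h
      · have h1 := e1 y hy
        calc s * y * w * (s * y)⁻¹ = s * (y * w * y⁻¹) * s⁻¹ := by group
          _ = w := by rw [h1, e2]
    have hzw : zs = z * w := by
      rw [hw, ← mul_assoc, hzz, one_mul]
    -- lemma G
    have lemG : ∀ x ∈ S₀, (∀ y ∈ P, y * x = x * y) → (∀ y ∈ Pc s, y * x = x * y) → x = 1 ∨ x = z ∨ x = zs ∨ x = w := by
      intro x hxS hx1 hx2
      obtain ⟨p, hp, q, hq, rfl⟩ := sup_mem_of_comm P (Pc s) hcomm x (hself x hxS hx1 hx2)
      have hpz : p ∈ (center P).map P.subtype := by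
        rw [mem_zc]
        refine ⟨hp, fun y hy => ?_⟩
        have h1 := hx1 y hy
        rw [← mul_assoc, mul_assoc p q y, ← hcomm y hy q hq, ← mul_assoc] at h1
        exact mul_right_cancel h1
      have hqz : q ∈ (center (Pc s)).map (Pc s).subtype := by
        rw [mem_zc]
        refine ⟨hq, fun y hy => ?_⟩
        have h1 := hx2 y hy
        rw [← mul_assoc, ← hcomm p hp y hy, mul_assoc, mul_assoc] at h1
        exact mul_left_cancel h1
      rw [hzc] at hpz
      rw [hzcP] at hqz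
      rcases hpz with rfl | rfl <;> rcases hqz with rfl | h
      · left; simp
      · right; right; left
        rw [one_mul]; exact h
      · right; left; simp
      · right; right; right
        rw [h]
    -- t fixes w
    have htw : t * w * t⁻¹ = w := by
      have h1 : ∀ n ∈ N, n * (t * w * t⁻¹) = (t * w * t⁻¹) * n := by
        intro n hn
        have h3 := hNw _ (ht2 n hn)
        have h4 : (t⁻¹ * n * t) * w = w * (t⁻¹ * n * t) := mul_inv_eq_iff_eq_mul.1 h3
        calc n * (t * w * t⁻¹) = t * ((t⁻¹ * n * t) * w) * t⁻¹ := by group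
          _ = t * (w * (t⁻¹ * n * t)) * t⁻¹ := by rw [h4]
          _ = _ := by group
      have h3 : t * w * t⁻¹ ∈ S₀ := (hmem _).2 (h1 z hzN).symm
      have h4 := lemG _ h3 (fun y hy => h1 y (hSN (hPS hy))) (fun y hy => h1 y (hSN (hPcS s hsN hy)))
      have h5 := h1 s hsN
      rcases h4 with h | h | h | h
      · exfalso; apply hw1
        have : w = t⁻¹ * (t * w * t⁻¹) * t := by group
        rw [this, h]; group
      · exfalso; rw [h] at h5
        exact hsS ((hmem s).2 h5)
      · exfalso; rw [h] at h5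
        have : s * zs * s⁻¹ = zs := by rw [h5]; group
        rw [f1] at this
        exact hzne this.symm
      · exact h
    set a : S := t * z * t⁻¹ with ha
    have haN : a ∈ N := ht1 z hzN
    have hNa : ∀ x ∈ N, x * a * x⁻¹ = a ∨ x * a * x⁻¹ = a * w := by
      intro x hx
      have e : x * a * x⁻¹ = t * ((t⁻¹ * x * t) * z * (t⁻¹ * x * t)⁻¹) * t⁻¹ := by rw [ha]; group
      rcases hNz _ (ht2 x hx) with h | h
      · left; rw [e, h]
      · right; rw [e, h, hzw]
        have : t * (z * w) * t⁻¹ = (t * z * t⁻¹) * (t * w * t⁻¹) := by group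
        rw [this, htw]
    have haw : a * w = w * a := mul_inv_eq_iff_eq_mul.1 (hNw a haN)
    have ha1 : a ≠ 1 := by
      intro h
      apply hz1
      have : z = t⁻¹ * a * t := by rw [ha]; group
      rw [this, h]; group
    have hwP : w ∉ P := by
      intro h
      have h1 : zs ∈ P ⊓ Pc s := by
        refine ⟨?_, hzsPc⟩
        rw [hzw]; exact mul_mem hzP h
      rw [hinf, mem_bot] at h1
      exact hzs1 h1
    have hwPs : w ∉ Pc s := by
      intro h
      have h1 : z ∈ P ⊓ Pc s := by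
        refine ⟨hzP, ?_⟩
        have : z = w * zs := by rw [hw, mul_assoc, hzszs, mul_one]
        rw [this]
        exact mul_mem h hzsPc
      rw [hinf, mem_bot] at h1
      exact hz1 h1
    by_cases haS : a ∈ S₀
    · have hA : ∀ x ∈ N, x * a * x⁻¹ * a⁻¹ ≠ w → x * a = a * x := by
        intro x hx hne
        rcases hNa x hx with h | h
        · exact mul_inv_eq_iff_eq_mul.1 h
        · exfalso; apply hne
          rw [h, haw]; group
      have h1 : ∀ x ∈ P, x * a = a * x := by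
        intro x hx
        refine hA x (hSN (hPS hx)) ?_
        intro h
        apply hwP
        rw [← h]
        have : x * a * x⁻¹ * a⁻¹ = x * (a * x⁻¹ * a⁻¹) := by group
        rw [this]
        exact mul_mem hx (hPn a haS _ (inv_mem hx))
      have h3 : ∀ x ∈ Pc s, x * a = a * x := by
        intro x hx
        refine hA x (hSN (hPcS s hsN hx)) ?_
        intro h
        apply hwPs
        rw [← h]
        have : x * a * x⁻¹ * a⁻¹ = x * (a * x⁻¹ * a⁻¹) := by group
        rw [this]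
        exact mul_mem hx (hPcn s hsN a haS _ (inv_mem hx))
      rcases lemG a haS h1 h3 with h | h | h | h
      · exact ha1 h
      · exact htN (hSN ((hmem' t).2 h))
      · apply htN
        have h4 : s⁻¹ * t ∈ S₀ := by
          rw [hmem']
          have e : s⁻¹ * t * z * (s⁻¹ * t)⁻¹ = s⁻¹ * a * s := by rw [ha]; group
          rw [e, h, hzs]; group
        have := mul_mem hsN (hSN h4)
        rwa [mul_inv_cancel_left] at this
      · apply hzs1
        have h4 : z = w := by
          have e1 : z = t⁻¹ * a * t := by rw [ha]; group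
          have e2 : w = t⁻¹ * (t * w * t⁻¹) * t := by group
          rw [e1, e2, htw, h]
        exact (mul_eq_left.1 h4.symm)
    · have h1 : ∀ x ∈ P, x = 1 ∨ x = z := by
        intro x hx
        have hb : a * x⁻¹ * a⁻¹ ∈ Pc s := by
          have h3 := hN2 a haN haS
          rw [hPc]
          have := hPn _ h3 _ (inv_mem hx)
          have e : s⁻¹ * a * x⁻¹ * (s⁻¹ * a)⁻¹ = s⁻¹ * (a * x⁻¹ * a⁻¹) * s := by group
          rwa [e] at this
        have e0 : x * (a * x⁻¹ * a⁻¹) = x * a * x⁻¹ * a⁻¹ := by group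
        rcases hNa x (hSN (hPS hx)) with h | h
        · left
          have h3 : x * (a * x⁻¹ * a⁻¹) = 1 := by rw [e0, h]; group
          have h4 : x ∈ P ⊓ Pc s := by
            refine ⟨hx, ?_⟩
            show x ∈ Pc s
            rw [eq_inv_of_mul_eq_one_left h3]
            exact inv_mem hb
          rw [hinf, mem_bot] at h4
          exact h4
        · right
          have h3 : x * (a * x⁻¹ * a⁻¹) = z * zs := by
            rw [e0, h, haw, ← hw]; group
          have h4 : z⁻¹ * x = zs * (a * x⁻¹ * a⁻¹)⁻¹ := by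
            rw [eq_mul_inv_iff_mul_eq, mul_assoc, h3]; group
          have h5 : z⁻¹ * x ∈ P ⊓ Pc s := by
            refine Subgroup.mem_inf.2 ⟨mul_mem (inv_mem hzP) hx, ?_⟩
            rw [h4]
            exact mul_mem hzsPc (inv_mem hb)
          rw [hinf, mem_bot] at h5
          exact (inv_mul_eq_one.1 h5).symm
      apply hP
      refine ⟨⟨fun x y => ?_⟩⟩
      apply Subtype.ext
      show (x : S) * y = y * x
      rcases h1 x x.2 with h | h <;> rcases h1 y y.2 with h' | h' <;> rw [h, h'] <;> simp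

end Cfsg.Agent.H25
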