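import Mathlib
import Cfsg.Agent.H25.SylowNum
import Cfsg.Agent.H25.Primary

set_option autoImplicit false

namespace Cfsg.Agent.H25

universe u

open scoped Pointwise

variable {G : Type u} [Group G] [Finite G] {p : ℕ} [Fact p.Prime]

theorem card_sylow_eq_prime (hp3 : 3 ≤ p) (hn : Nat.card (Sylow p G) = 2 * p + 1)
    (hf : ∀ g : G, (∀ P : Sylow p G, g • P = P) → g = 1) (P : Sylow p G) :
    Nat.card (P : Subgroup G) = p := by
  classical
  haveI : Fintype (Sylow p G) := Fintype.ofFinite _
  by_contra hne
  have hpp := (Fact.out : p.Prime)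
  have hle : Nat.card (Sylow p G) ≤ p ^ 2 := by rw [hn]; nlinarith
  have hcard : ∀ Q : Sylow p G, Nat.card (Q : Subgroup G) = Nat.card (P : Subgroup G) := by
    intro Q
    rw [Q.card_eq_multiplicity, P.card_eq_multiplicity]
  -- intersections
  have hint : ∀ Q R : Sylow p G, Q ≠ R →
      Nat.card ((Q : Subgroup G) ⊓ R : Subgroup G) * p = Nat.card (P : Subgroup G) := by
    intro Q R hQR
    have h1 := relIndex_inf_eq hQR hle
    have h2 := Subgroup.relIndex_mul_relIndex ⊥ _ _ bot_le (inf_le_left : (Q : Subgroup G) ⊓ R ≤ Q)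
    rw [h1, Subgroup.relIndex_bot_left, Subgroup.relIndex_bot_left, hcard Q] at h2
    exact h2
  have hcont : ∀ Q R : Sylow p G, Q ≠ R →
      Nat.card {S : Sylow p G // (Q : Subgroup G) ⊓ R ≤ S} = p + 1 := by
    intro Q R hQR
    have hmod := card_containing_modEq (p := p) (Q := (Q : Subgroup G) ⊓ R)
      (Q.isPGroup'.to_le inf_le_left)
    rw [hn] at hmod
    have hlt : Nat.card {S : Sylow p G // (Q : Subgroup G) ⊓ R ≤ S} < 2 * p + 1 := by
      rw [← hn]
      by_contra hge
      push Not at hge
      have hall : ∀ S : Sylow p G, (Q : Subgroup G) ⊓ R ≤ S := by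
        by_contra hcon
        push Not at hcon
        obtain ⟨S, hS⟩ := hcon
        have h1 : Nat.card {S : Sylow p G // (Q : Subgroup G) ⊓ R ≤ S} < Nat.card (Sylow p G) := by
          rw [Nat.card_eq_fintype_card, Nat.card_eq_fintype_card]
          exact Fintype.card_subtype_lt hS
        omega
      have hbot : (Q : Subgroup G) ⊓ R = ⊥ := by
        rw [eq_bot_iff]
        intro x hx
        rw [Subgroup.mem_bot]
        apply hf
        intro S
        exact Sylow.smul_eq_iff_mem_normalizer.2 (Subgroup.le_normalizer (hall S hx))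
      have h2 := hint Q R hQR
      rw [hbot, Subgroup.card_bot, one_mul] at h2
      exact hne h2.symm
    have hge2 : 1 < Nat.card {S : Sylow p G // (Q : Subgroup G) ⊓ R ≤ S} := by
      rw [Finite.one_lt_card_iff_nontrivial]
      exact ⟨⟨⟨Q, inf_le_left⟩, ⟨R, inf_le_right⟩, fun h => hQR (congrArg Subtype.val h)⟩⟩
    have h3 : (2 * p + 1) % p = 1 := by
      rw [Nat.mul_comm, Nat.mul_add_mod]
      exact Nat.mod_eq_of_lt (by omega)
    unfold Nat.ModEq at hmod
    rw [h3] at hmod
    set c := Nat.card {S : Sylow p G // (Q : Subgroup G) ⊓ R ≤ S}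
    have h4 := Nat.div_add_mod c p
    rw [hmod] at h4
    have h5 : c / p = 1 := by
      have h7 : c / p < 2 := by
        by_contra h6
        push Not at h6
        have : p * 2 ≤ p * (c / p) := Nat.mul_le_mul_left p h6
        omega
      have h8 : c / p ≠ 0 := by
        intro h6
        rw [h6] at h4
        omega
      exact Nat.le_antisymm (Nat.lt_succ_iff.1 h7) (Nat.pos_of_ne_zero h8)
    rw [h5] at h4
    omega
  let S : Finset (Sylow p G × Sylow p G) := Finset.univ.offDiag
  let f : Sylow p G × Sylow p G → Subgroup G := fun x => (x.1 : Subgroup G) ⊓ x.2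
  have hS : S.card = (2 * p + 1) * (2 * p) := by
    rw [Finset.offDiag_card, Finset.card_univ, ← Nat.card_eq_fintype_card, hn]
    have : (2 * p + 1) * (2 * p + 1) = (2 * p + 1) * (2 * p) + (2 * p + 1) := by ring
    omega
  have hfib : ∀ b ∈ S.image f, (S.filter (fun x => f x = b)).card = (p + 1) * p := by
    intro b hb
    rw [Finset.mem_image] at hb
    obtain ⟨⟨Q, R⟩, hQR, rfl⟩ := hb
    rw [Finset.mem_offDiag] at hQR
    have hQR' : Q ≠ R := hQR.2.2
    have h1 : S.filter (fun x => f x = f (Q, R)) =
        (Finset.univ.filter (fun T : Sylow p G => (Q : Subgroup G) ⊓ R ≤ T)).offDiag := by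
      ext ⟨A, B⟩
      simp only [S, f, Finset.mem_filter, Finset.mem_offDiag, Finset.mem_univ, true_and]
      constructor
      · rintro ⟨hAB, h⟩
        exact ⟨h ▸ inf_le_left, h ▸ inf_le_right, hAB⟩
      · rintro ⟨hA, hB, hAB⟩
        refine ⟨hAB, ?_⟩
        symm
        apply Subgroup.eq_of_le_of_card_ge (le_inf hA hB)
        have h2 := hint Q R hQR'
        have h3 := hint A B hAB
        have h4 : 0 < p := hpp.pos
        nlinarith
    rw [h1, Finset.offDiag_card]
    have h2 : (Finset.univ.filter (fun T : Sylow p G => (Q : Subgroup G) ⊓ R ≤ T)).card = p + 1 := by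
      rw [← Fintype.card_subtype, ← Nat.card_eq_fintype_card]
      exact hcont Q R hQR'
    rw [h2]
    have : (p + 1) * (p + 1) = (p + 1) * p + (p + 1) := by ring
    omega
  have hsum := Finset.card_eq_sum_card_image f S
  rw [Finset.sum_congr rfl hfib, Finset.sum_const, smul_eq_mul, hS] at hsum
  have h1 : (2 * p + 1) * 2 = (S.image f).card * (p + 1) := by
    have h4 : 0 < p := hpp.pos
    apply Nat.eq_of_mul_eq_mul_right h4
    calc (2 * p + 1) * 2 * p = (2 * p + 1) * (2 * p) := by ring
      _ = _ := hsum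
      _ = _ := by ring
  have h2 : p + 1 ∣ 2 := by
    have h3 : p + 1 ∣ (2 * p + 1) * 2 := ⟨_, by rw [h1]; ring⟩
    have h4 : p + 1 ∣ 4 * (p + 1) := dvd_mul_left _ _
    have h5 : 4 * (p + 1) = (2 * p + 1) * 2 + 2 := by ring
    rw [h5] at h4
    exact (Nat.dvd_add_right h3).1 h4
  have := Nat.le_of_dvd (by norm_num) h2
  omega

theorem moves_of_centralizing (hp3 : 3 ≤ p) (hn : Nat.card (Sylow p G) = 2 * p + 1)
    (hf : ∀ g : G, (∀ P : Sylow p G, g • P = P) → g = 1) (P : Sylow p G) {t : G} {q : ℕ}
    (hq : q.Prime) (hqp : q ≠ p) (ht : orderOf t = q)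
    (htC : t ∈ Subgroup.centralizer ((P : Subgroup G) : Set G)) (Q : Sylow p G) (hQ : t • Q = Q) :
    Q = P := by
  classical
  have hpp := (Fact.out : p.Prime)
  have hle : Nat.card (Sylow p G) ≤ p ^ 2 := by rw [hn]; nlinarith
  have hcP := card_sylow_eq_prime hp3 hn hf P
  have hcomm : ∀ g ∈ (P : Subgroup G), g * t = t * g := Subgroup.mem_centralizer_iff.1 htC
  have htP : t • P = P := Sylow.smul_eq_iff_mem_normalizer.2 (Subgroup.centralizer_le_normalizer _ htC)
  have hgP : ∀ g ∈ (P : Subgroup G), g • P = P := fun g hg =>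
    Sylow.smul_eq_iff_mem_normalizer.2 (Subgroup.le_normalizer hg)
  obtain ⟨ω, hω⟩ : ∃ ω : Sylow p G, t • ω ≠ ω := by
    by_contra hcon
    push Not at hcon
    have := hf t hcon
    rw [this, orderOf_one] at ht
    exact hq.one_lt.ne ht
  have hωP : ω ≠ P := by
    rintro rfl
    exact hω htP
  have hfree : ∀ R : Sylow p G, R ≠ P → ∀ g ∈ (P : Subgroup G), g • R = R → g = 1 := by
    intro R hR g hg hgR
    have h1 := relIndex_inf_eq (Ne.symm hR) hle
    have h2 := Subgroup.relIndex_mul_relIndex ⊥ _ _ bot_le (inf_le_left : (P : Subgroup G) ⊓ R ≤ P)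
    rw [h1, Subgroup.relIndex_bot_left, Subgroup.relIndex_bot_left, hcP] at h2
    have h3 : Nat.card ((P : Subgroup G) ⊓ R : Subgroup G) = 1 := by
      have : 0 < p := hpp.pos
      nlinarith
    rw [Subgroup.card_eq_one] at h3
    have h4 : g ∈ (P : Subgroup G) ⊓ Subgroup.normalizer (R : Set G) :=
      ⟨hg, Sylow.smul_eq_iff_mem_normalizer.1 hgR⟩
    rw [P.isPGroup'.inf_normalizer_sylow R, h3, Subgroup.mem_bot] at h4
    exact h4
  have htp : ∀ R : Sylow p G, ∀ g ∈ (P : Subgroup G), t • R = g • R → t • R = R := by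
    intro R g hg hR
    have hpow : ∀ n : ℕ, t ^ n • R = g ^ n • R := by
      intro n
      induction n with
      | zero => simp
      | succ n ih =>
        have hc1 : t * g ^ n = g ^ n * t := by
          have : Commute g t := hcomm g hg
          exact (this.pow_left n).symm
        calc t ^ (n + 1) • R = t • (t ^ n • R) := by rw [← mul_smul, ← pow_succ']
          _ = t • (g ^ n • R) := by rw [ih]
          _ = g ^ n • (t • R) := by rw [← mul_smul, ← mul_smul, hc1]
          _ = g ^ n • (g • R) := by rw [hR]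
          _ = g ^ (n + 1) • R := by rw [← mul_smul, ← pow_succ]
    have h1 : g ^ p = 1 := by
      have := pow_card_eq_one' (x := (⟨g, hg⟩ : (P : Subgroup G)))
      rw [hcP] at this
      exact congrArg Subtype.val this
    have h2 := hpow p
    rw [h1, one_smul] at h2
    have h3 : t ^ p ∈ MulAction.stabilizer G R := h2
    have h4 : p.Coprime (orderOf t) := by
      rw [ht]
      exact (Nat.coprime_primes hpp hq).2 (Ne.symm hqp)
    exact mem_of_pow_mem h4 h3
  let F : ↥(P : Subgroup G) × Bool → {R : Sylow p G // R ≠ P} := fun x =>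
    if x.2 then ⟨(x.1 : G) • ω, fun h => hωP (by
        have h1 : ω = (x.1 : G)⁻¹ • P := eq_inv_smul_iff.2 h
        rw [h1]
        exact hgP _ ((P : Subgroup G).inv_mem x.1.2))⟩
    else ⟨(x.1 : G) • t • ω, fun h => hωP (by
        have h1 : t • ω = (x.1 : G)⁻¹ • P := eq_inv_smul_iff.2 h
        have h2 : t • ω = P := by
          rw [h1]
          exact hgP _ ((P : Subgroup G).inv_mem x.1.2)
        have h3 : ω = t⁻¹ • P := eq_inv_smul_iff.2 h2
        rw [h3]
        exact (eq_inv_smul_iff.2 htP).symm)⟩
  have hcardeq : Nat.card {R : Sylow p G // R ≠ P} = Nat.card (↥(P : Subgroup G) × Bool) := by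
    haveI : Fintype (Sylow p G) := Fintype.ofFinite _
    rw [Nat.card_prod, hcP, Nat.card_eq_fintype_card, Nat.card_eq_fintype_card, Fintype.card_bool,
      Fintype.card_subtype_compl, Fintype.card_subtype_eq, ← Nat.card_eq_fintype_card, hn]
    omega
  have hFinj : Function.Injective F := by
    have key : ∀ g h : (P : Subgroup G), (g : G) • ω ≠ (h : G) • t • ω := by
      intro g h hgh
      have h1 : t • ω = ((h : G)⁻¹ * g) • ω := by
        rw [mul_smul, hgh, inv_smul_smul]
      exact hω (htp ω _ ((P : Subgroup G).mul_mem ((P : Subgroup G).inv_mem h.2) g.2) h1)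
    have key2 : ∀ R : Sylow p G, R ≠ P → ∀ g h : (P : Subgroup G), (g : G) • R = (h : G) • R → g = h := by
      intro R hR g h hgh
      have h1 : ((h : G)⁻¹ * g) • R = R := by rw [mul_smul, hgh, inv_smul_smul]
      have h2 := hfree R hR _ ((P : Subgroup G).mul_mem ((P : Subgroup G).inv_mem h.2) g.2) h1
      exact Subtype.ext (inv_mul_eq_one.1 h2).symm
    have htωP : t • ω ≠ P := by
      intro h2
      apply hωP
      have h3 : ω = t⁻¹ • P := eq_inv_smul_iff.2 h2
      rw [h3]
      exact (eq_inv_smul_iff.2 htP).symm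
    rintro ⟨g, a⟩ ⟨h, b⟩ hgh
    have hgh' := congrArg Subtype.val hgh
    cases a <;> cases b <;> simp only [F, if_true, if_false, Bool.false_eq_true] at hgh'
    · rw [key2 _ htωP g h hgh']
    · exact absurd hgh'.symm (key h g)
    · exact absurd hgh' (key g h)
    · rw [key2 _ hωP g h hgh']
  have hFbij := hFinj.bijective_of_nat_card_le hcardeq.le
  by_contra hQP
  obtain ⟨⟨g, a⟩, hga⟩ := hFbij.2 ⟨Q, hQP⟩
  have hga' := congrArg Subtype.val hga
  have hc2 : t * (g : G) = g * t := (hcomm g g.2).symm
  cases a <;> simp only [F, if_true, if_false, Bool.false_eq_true] at hga'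
  · rw [← hga', ← mul_smul, hc2, mul_smul, smul_left_cancel_iff, smul_left_cancel_iff] at hQ
    exact hω hQ
  · rw [← hga', ← mul_smul, hc2, mul_smul, smul_left_cancel_iff] at hQ
    exact hω hQ

/-- In the minimal situation, the centralizer of `P` is `P`. -/
theorem card_centralizer_eq (hp3 : 3 ≤ p) (hn : Nat.card (Sylow p G) = 2 * p + 1)
    (hf : ∀ g : G, (∀ P : Sylow p G, g • P = P) → g = 1)
    (hmin : ∀ N : Subgroup G, N.Normal → (∀ P : Sylow p G, (P : Subgroup G) ≤ N) → N = ⊤)
    (P : Sylow p G) : Subgroup.centralizer ((P : Subgroup G) : Set G) = P := by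
  classical
  haveI : Fintype (Sylow p G) := Fintype.ofFinite _
  have hpp := (Fact.out : p.Prime)
  have hcP := card_sylow_eq_prime hp3 hn hf P
  have hPC : (P : Subgroup G) ≤ Subgroup.centralizer ((P : Subgroup G) : Set G) := by
    haveI : IsCyclic (P : Subgroup G) := isCyclic_of_prime_card hcP
    letI := IsCyclic.commGroup (α := (P : Subgroup G))
    intro a ha
    rw [Subgroup.mem_centralizer_iff]
    intro b hb
    exact congrArg Subtype.val (mul_comm (⟨b, hb⟩ : (P : Subgroup G)) ⟨a, ha⟩)
  -- every prime divisor of the order of the centralizer is `p`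
  have hprime : ∀ q : ℕ, q.Prime → q ∣ Nat.card (Subgroup.centralizer ((P : Subgroup G) : Set G)) →
      q = p := by
    intro q hq hqd
    by_contra hqp
    haveI : Fact q.Prime := ⟨hq⟩
    obtain ⟨t', ht'⟩ := exists_prime_orderOf_dvd_card' q hqd
    set t : G := (t' : G) with htdef
    have ht : orderOf t = q := by rw [htdef, Subgroup.orderOf_coe, ht']
    have htC := t'.2
    have hmv := moves_of_centralizing hp3 hn hf P hq hqp ht htC
    have htP : t • P = P := Sylow.smul_eq_iff_mem_normalizer.2 (Subgroup.centralizer_le_normalizer _ htC)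
    -- `q = 2`
    have hq2 : q = 2 := by
      have h1 : IsPGroup q (Subgroup.zpowers t) := by
        rw [IsPGroup.iff_card]
        exact ⟨1, by rw [Nat.card_zpowers, ht, pow_one]⟩
      have h2 := h1.card_modEq_card_fixedPoints (Sylow p G)
      have h3 : Nat.card (MulAction.fixedPoints (Subgroup.zpowers t) (Sylow p G)) = 1 := by
        rw [Nat.card_eq_one_iff_unique]
        refine ⟨⟨?_⟩, ⟨⟨P, ?_⟩⟩⟩
        · rintro ⟨A, hA⟩ ⟨B, hB⟩
          have h4 : A = P := hmv A (hA ⟨t, Subgroup.mem_zpowers t⟩)
          have h5 : B = P := hmv B (hB ⟨t, Subgroup.mem_zpowers t⟩)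
          subst h4 h5
          rfl
        · rw [Subgroup.sylow_mem_fixedPoints_iff, Subgroup.zpowers_le]
          exact Sylow.smul_eq_iff_mem_normalizer.1 htP
      rw [h3, hn] at h2
      have h4 : q ∣ 2 * p := by
        have := (Nat.modEq_iff_dvd' (by omega)).1 h2.symm
        simpa using this
      rcases (hq.dvd_mul).1 h4 with h5 | h5
      · exact (Nat.prime_dvd_prime_iff_eq hq Nat.prime_two).1 h5
      · exact absurd ((Nat.prime_dvd_prime_iff_eq hq hpp).1 h5) hqp
    subst hq2
    -- the sign of `t`
    set τ : Equiv.Perm (Sylow p G) := MulAction.toPermHom G (Sylow p G) t with hτ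
    have hτapp : ∀ A, τ A = t • A := fun A => rfl
    have hsupp : τ.support = Finset.univ.erase P := by
      ext A
      rw [Equiv.Perm.mem_support, Finset.mem_erase, hτapp]
      constructor
      · intro h
        exact ⟨fun hAP => h (by rw [hAP]; exact htP), Finset.mem_univ _⟩
      · rintro ⟨h, -⟩ hA
        exact h (hmv A hA)
    have hsc : τ.support.card = 2 * p := by
      rw [hsupp, Finset.card_erase_of_mem (Finset.mem_univ _), Finset.card_univ,
        ← Nat.card_eq_fintype_card, hn]
      omega
    have hτ2 : τ ^ 2 = 1 := by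
      rw [hτ, ← map_pow, ← ht, pow_orderOf_eq_one, map_one]
    have hτ1 : τ ≠ 1 := by
      intro h
      rw [h, Equiv.Perm.support_one, Finset.card_empty] at hsc
      omega
    have hord : orderOf τ = 2 := orderOf_eq_prime hτ2 hτ1
    obtain ⟨m, hm⟩ := Equiv.Perm.cycleType_prime_order (σ := τ) (by rw [hord]; exact Nat.prime_two)
    have hsum := Equiv.Perm.sum_cycleType τ
    rw [hm, hord, hsc, Multiset.sum_replicate, smul_eq_mul] at hsum
    have hm1 : m + 1 = p := by omega
    have hpodd : Odd p := hpp.odd_of_ne_two (by omega)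
    have hsign : Equiv.Perm.sign τ = -1 := by
      rw [Equiv.Perm.sign_of_cycleType, hm, hord, Multiset.sum_replicate, Multiset.card_replicate,
        hm1, smul_eq_mul]
      have : Odd (p * 2 + p) := by
        obtain ⟨k, hk⟩ := hpodd
        exact ⟨p + k, by omega⟩
      exact this.neg_one_pow
    let φ : G →* ℤˣ := Equiv.Perm.sign.comp (MulAction.toPermHom G (Sylow p G))
    have hker : φ.ker = ⊤ := by
      apply hmin _ inferInstance
      intro R
      apply sylow_le_of_coprime_index
      intro hd
      have h1 : φ.ker.index ∣ 2 := by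
        rw [Subgroup.index_ker]
        have := Subgroup.card_subgroup_dvd_card φ.range
        have h2 : Nat.card ℤˣ = 2 := by
          rw [Nat.card_eq_fintype_card]; rfl
        rwa [h2] at this
      have h2 := Nat.le_of_dvd (by norm_num) (hd.trans h1)
      omega
    have h1 : t ∈ φ.ker := by rw [hker]; trivial
    rw [MonoidHom.mem_ker] at h1
    have h2 : φ t = Equiv.Perm.sign τ := rfl
    rw [h2, hsign] at h1
    exact absurd h1 (by decide)
  have hCp : IsPGroup p (Subgroup.centralizer ((P : Subgroup G) : Set G)) := by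
    rw [IsPGroup.iff_card]
    exact ⟨_, Nat.eq_prime_pow_of_unique_prime_dvd Nat.card_pos.ne' (fun {d} hd hdd => hprime d hd hdd)⟩
  exact P.is_maximal' hCp hPC

/-- The order of `G` is odd and equal to `(2p+1) * p * e` with `e ∣ p - 1`. -/
theorem card_eq (hp3 : 3 ≤ p) (hn : Nat.card (Sylow p G) = 2 * p + 1)
    (hf : ∀ g : G, (∀ P : Sylow p G, g • P = P) → g = 1)
    (hmin : ∀ N : Subgroup G, N.Normal → (∀ P : Sylow p G, (P : Subgroup G) ≤ N) → N = ⊤) :
    ∃ e : ℕ, e ∣ p - 1 ∧ Odd (Nat.card G) ∧ Nat.card G = (2 * p + 1) * (p * e) := by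
  classical
  have hpp := (Fact.out : p.Prime)
  let P : Sylow p G := default
  have hcP := card_sylow_eq_prime hp3 hn hf P
  have hC := card_centralizer_eq hp3 hn hf hmin P
  haveI hPc : IsCyclic (P : Subgroup G) := isCyclic_of_prime_card hcP
  set N := Subgroup.normalizer ((P : Subgroup G) : Set G) with hN
  have hker := Subgroup.normalizerMonoidHom_ker (P : Subgroup G)
  rw [hC] at hker
  have hinj := QuotientGroup.kerLift_injective (P : Subgroup G).normalizerMonoidHom
  have hAut : Nat.card (MulAut (P : Subgroup G)) = p - 1 := by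
    rw [IsCyclic.card_mulAut, hcP, Nat.totient_prime hpp]
  have h1 : ((P : Subgroup G).subgroupOf N).index ∣ p - 1 := by
    rw [← hAut, ← hker, Subgroup.index_eq_card]
    exact Subgroup.card_dvd_of_injective _ hinj
  have hPN : (P : Subgroup G) ≤ N := Subgroup.le_normalizer
  have hidx : N.index = 2 * p + 1 := by
    rw [← hn]
    exact P.card_eq_index_normalizer.symm
  have hcN : Nat.card N = p * ((P : Subgroup G).subgroupOf N).index := by
    rw [← ((P : Subgroup G).subgroupOf N).card_mul_index]
    congr 1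
    exact (Nat.card_congr (Subgroup.subgroupOfEquivOfLe hPN).toEquiv).trans hcP
  refine ⟨_, h1, ?_, ?_⟩
  · -- oddness
    by_contra hodd
    rw [Nat.not_odd_iff_even] at hodd
    haveI : Fact (Nat.Prime 2) := ⟨Nat.prime_two⟩
    let S0 : Sylow 2 N := default
    have hScyc : IsCyclic (S0 : Subgroup N) := by
      let f : (S0 : Subgroup N) →* MulAut (P : Subgroup G) :=
        (P : Subgroup G).normalizerMonoidHom.comp (S0 : Subgroup N).subtype
      have hfi : Function.Injective f := by
        rw [← MonoidHom.ker_eq_bot_iff, eq_bot_iff]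
        intro x hx
        rw [MonoidHom.mem_ker] at hx
        have h2 : (x : N) ∈ (P : Subgroup G).normalizerMonoidHom.ker := hx
        rw [hker] at h2
        have h3 : orderOf x ∣ Nat.card (S0 : Subgroup N) := orderOf_dvd_natCard x
        have h4 : orderOf (((x : N) : G)) ∣ Nat.card (P : Subgroup G) := Subgroup.orderOf_dvd_natCard _ h2
        obtain ⟨k, hk⟩ := IsPGroup.iff_card.1 S0.isPGroup'
        rw [Subgroup.orderOf_coe, Subgroup.orderOf_coe, hcP] at h4
        rw [hk] at h3
        rw [Subgroup.mem_bot, ← orderOf_eq_one_iff]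
        apply Nat.eq_one_of_dvd_coprimes _ h4 h3
        apply Nat.Coprime.pow_right
        exact (Nat.coprime_primes hpp Nat.prime_two).2 (by omega)
      haveI : IsCyclic (MulAut (P : Subgroup G)) := by
        haveI : IsCyclic (ZMod (Nat.card (P : Subgroup G)))ˣ := by
          rw [hcP]
          infer_instance
        exact isCyclic_of_surjective (IsCyclic.mulAutMulEquiv (P : Subgroup G)).symm
          (IsCyclic.mulAutMulEquiv (P : Subgroup G)).symm.surjective
      exact isCyclic_of_injective f hfi
    set S1 : Subgroup G := (S0 : Subgroup N).map N.subtype with hS1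
    have hS1cyc : IsCyclic S1 :=
      isCyclic_of_surjective (N.subtype.subgroupMap (S0 : Subgroup N))
        (MonoidHom.subgroupMap_surjective _ _)
    have hS1card : Nat.card S1 = Nat.card (S0 : Subgroup N) :=
      Nat.card_congr (Subgroup.equivMapOfInjective _ _ N.subtype_injective).symm.toEquiv
    have hNodd : ¬ 2 ∣ N.index := by
      rw [hidx]; omega
    have hS1syl : Nat.card S1 = 2 ^ (Nat.card G).factorization 2 := by
      rw [hS1card, S0.card_eq_multiplicity, ← N.card_mul_index,
        Nat.factorization_mul Nat.card_pos.ne' Subgroup.FiniteIndex.index_ne_zero]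
      congr 1
      rw [Finsupp.add_apply, Nat.factorization_eq_zero_of_not_dvd hNodd, add_zero]
    let S : Sylow 2 G := Sylow.ofCard S1 hS1syl
    have hSc : IsCyclic S := hS1cyc
    have h2G : 2 ∣ Nat.card G := hodd.two_dvd
    have hmin2 : (Nat.card G).minFac = 2 := (Nat.minFac_eq_two_iff _).2 h2G
    have hcomp := IsCyclic.isComplement' hmin2 hSc
    set K := (MonoidHom.transferSylow S (hSc.normalizer_le_centralizer hmin2)).ker with hK
    have hKtop : K = ⊤ := by
      apply hmin K inferInstance
      intro R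
      apply sylow_le_of_coprime_index
      rw [hcomp.symm.index_eq_card]
      intro hd
      have h3 : p ∣ 2 ^ (Nat.card G).factorization 2 := by
        rw [← hS1syl]; exact hd
      have h4 := (Nat.prime_dvd_prime_iff_eq hpp Nat.prime_two).1 (hpp.dvd_of_dvd_pow h3)
      omega
    have h3 := hcomp.card_mul_card
    rw [hKtop, Subgroup.card_top] at h3
    have h4 : Nat.card (S : Subgroup G) = 1 := by
      have hpos : 0 < Nat.card G := Nat.card_pos
      nlinarith
    have h5 : Nat.card S1 = 1 := h4
    rw [hS1syl] at h5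
    have h6 : (Nat.card G).factorization 2 ≠ 0 := by
      intro h7
      have := (Nat.prime_two.dvd_iff_one_le_factorization Nat.card_pos.ne').1 h2G
      omega
    have h8 := Nat.one_lt_two_pow h6
    omega
  · rw [← N.card_mul_index, hidx, hcN]
    ring

/-- A group of odd order with a Sylow 5-subgroup of order 5 has a normal subgroup of index 5. -/
theorem exists_normal_index_five (hodd : Odd (Nat.card G)) (h5 : (Nat.card G).factorization 5 = 1) :
    ∃ K : Subgroup G, K.Normal ∧ K.index = 5 := by
  haveI : Fact (Nat.Prime 5) := ⟨by norm_num⟩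
  let R : Sylow 5 G := default
  have hcR : Nat.card (R : Subgroup G) = 5 := by
    rw [R.card_eq_multiplicity, h5, pow_one]
  haveI hRc : IsCyclic (R : Subgroup G) := isCyclic_of_prime_card hcR
  have hker := Subgroup.normalizerMonoidHom_ker (R : Subgroup G)
  have hinj := QuotientGroup.kerLift_injective (R : Subgroup G).normalizerMonoidHom
  have hAut : Nat.card (MulAut (R : Subgroup G)) = 4 := by
    rw [IsCyclic.card_mulAut, hcR]; rfl
  have h1 : (R : Subgroup G).normalizerMonoidHom.ker.index ∣ 4 := by
    rw [← hAut, Subgroup.index_eq_card]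
    exact Subgroup.card_dvd_of_injective _ hinj
  have h2 : (R : Subgroup G).normalizerMonoidHom.ker.index ∣ Nat.card G :=
    (Subgroup.index_dvd_card _).trans (Subgroup.card_subgroup_dvd_card _)
  have h3 : (R : Subgroup G).normalizerMonoidHom.ker.index = 1 := by
    apply Nat.eq_one_of_dvd_coprimes _ h1 h2
    have : Nat.Coprime 2 (Nat.card G) := (Nat.coprime_two_left).2 hodd
    exact Nat.Coprime.pow_left 2 this
  rw [Subgroup.index_eq_one, hker, Subgroup.subgroupOf_eq_top] at h3
  have hcomp := MonoidHom.ker_transferSylow_isComplement' R h3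
  refine ⟨(MonoidHom.transferSylow R h3).ker, inferInstance, ?_⟩
  rw [hcomp.symm.index_eq_card]
  exact hcR

end Cfsg.Agent.H25
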