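import Mathlib
import Cfsg.Agent.H25.SylowNum

set_option autoImplicit false

namespace Cfsg.Agent.H25

universe u

open scoped Pointwise

variable {G : Type u} [Group G] [Finite G] {p : ℕ} [Fact p.Prime]

/-- a `p`-subgroup contained in at least two Sylow `p`-subgroups is contained in at least `p+1`. -/
theorem prime_lt_card_containing {P Q : Sylow p G} (hPQ : P ≠ Q) {R : Subgroup G}
    (hP : R ≤ P) (hQ : R ≤ Q) : p < Nat.card {S : Sylow p G // R ≤ S} := by
  have hmod := card_containing_modEq (p := p) (Q := R) (P.isPGroup'.to_le hP)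
  have hmod2 := card_sylow_modEq_one p G
  have hmod3 := hmod.trans hmod2
  have hge2 : 1 < Nat.card {S : Sylow p G // R ≤ S} := by
    rw [Finite.one_lt_card_iff_nontrivial]
    exact ⟨⟨⟨P, hP⟩, ⟨Q, hQ⟩, fun h => hPQ (congrArg Subtype.val h)⟩⟩
  have h1 : p ∣ Nat.card {S : Sylow p G // R ≤ S} - 1 :=
    (Nat.modEq_iff_dvd' (by omega)).1 hmod3.symm
  have h2 := Nat.le_of_dvd (by omega) h1
  omega

/-- If `G` acts faithfully on its Sylow `p`-subgroups and `1 < n_p ≤ p²` then the Sylow `p`-subgroups have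
order `p`. -/
theorem card_sylow_eq_prime_of_le (h1 : 1 < Nat.card (Sylow p G)) (hle : Nat.card (Sylow p G) ≤ p ^ 2)
    (hf : ∀ g : G, (∀ P : Sylow p G, g • P = P) → g = 1) (P : Sylow p G) :
    Nat.card (P : Subgroup G) = p := by
  classical
  haveI : Fintype (Sylow p G) := Fintype.ofFinite _
  by_contra hne
  have hpp := (Fact.out : p.Prime)
  have hcard : ∀ Q : Sylow p G, Nat.card (Q : Subgroup G) = Nat.card (P : Subgroup G) := by
    intro Q
    rw [Q.card_eq_multiplicity, P.card_eq_multiplicity]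
  have hint : ∀ Q R : Sylow p G, Q ≠ R →
      Nat.card ((Q : Subgroup G) ⊓ R : Subgroup G) * p = Nat.card (P : Subgroup G) := by
    intro Q R hQR
    have h1 := relIndex_inf_eq hQR hle
    have h2 := Subgroup.relIndex_mul_relIndex ⊥ _ _ bot_le (inf_le_left : (Q : Subgroup G) ⊓ R ≤ Q)
    rw [h1, Subgroup.relIndex_bot_left, Subgroup.relIndex_bot_left, hcard Q] at h2
    exact h2
  have hinteq : ∀ Q R S T : Sylow p G, Q ≠ R → S ≠ T → (Q : Subgroup G) ⊓ R ≤ (S : Subgroup G) ⊓ T →
      (Q : Subgroup G) ⊓ R = (S : Subgroup G) ⊓ T := by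
    intro Q R S T hQR hST h
    apply Subgroup.eq_of_le_of_card_ge h
    have h2 := hint Q R hQR
    have h3 := hint S T hST
    have h4 : 0 < p := hpp.pos
    exact Nat.le_of_mul_le_mul_right (by rw [h2, h3]) h4
  obtain ⟨⟨P0, P1, h01⟩⟩ := Finite.one_lt_card_iff_nontrivial.1 h1
  obtain ⟨x, hx⟩ : ∃ x : Sylow p G, ¬ (P0 : Subgroup G) ⊓ P1 ≤ x := by
    by_contra hcon
    push Not at hcon
    have hbot : (P0 : Subgroup G) ⊓ P1 = ⊥ := by
      rw [eq_bot_iff]
      intro g hg
      rw [Subgroup.mem_bot]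
      apply hf
      intro S
      exact Sylow.smul_eq_iff_mem_normalizer.2 (Subgroup.le_normalizer (hcon S hg))
    have h2 := hint P0 P1 h01
    rw [hbot, Subgroup.card_bot, one_mul] at h2
    exact hne h2.symm
  let B : Finset (Sylow p G) := Finset.univ.filter (fun S => (P0 : Subgroup G) ⊓ P1 ≤ S)
  have hBx : ∀ y ∈ B, x ≠ y := by
    rintro y hy rfl
    exact hx (Finset.mem_filter.1 hy).2
  have hB : p < B.card := by
    have := prime_lt_card_containing h01 (R := (P0 : Subgroup G) ⊓ P1) inf_le_left inf_le_right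
    rwa [Nat.card_eq_fintype_card, Fintype.card_subtype] at this
  let bl : Sylow p G → Finset (Sylow p G) := fun y =>
    (Finset.univ.filter (fun S : Sylow p G => (x : Subgroup G) ⊓ y ≤ S)).erase x
  have hbl : ∀ y ∈ B, p ≤ (bl y).card := by
    intro y hy
    have := prime_lt_card_containing (hBx y hy) (R := (x : Subgroup G) ⊓ y) inf_le_left inf_le_right
    rw [Nat.card_eq_fintype_card, Fintype.card_subtype] at this
    have h2 : x ∈ Finset.univ.filter (fun S : Sylow p G => (x : Subgroup G) ⊓ y ≤ S) := by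
      simp
    rw [Finset.card_erase_of_mem h2]
    omega
  have hdisj : ∀ y ∈ B, ∀ y' ∈ B, y ≠ y' → Disjoint (bl y) (bl y') := by
    intro y hy y' hy' hyy'
    rw [Finset.disjoint_left]
    intro z hz hz'
    simp only [bl, Finset.mem_erase, Finset.mem_filter, Finset.mem_univ, true_and] at hz hz'
    have e1 := hinteq x y x z (hBx y hy) (Ne.symm hz.1) (le_inf inf_le_left hz.2)
    have e2 := hinteq x y' x z (hBx y' hy') (Ne.symm hz.1) (le_inf inf_le_left hz'.2)
    have e3 : (x : Subgroup G) ⊓ y ≤ (y : Subgroup G) ⊓ y' := by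
      apply le_inf inf_le_right
      rw [e1, ← e2]
      exact inf_le_right
    have e4 := hinteq _ _ _ _ (hBx y hy) hyy' e3
    have e5 := hinteq _ _ _ _ h01 hyy' (le_inf (Finset.mem_filter.1 hy).2 (Finset.mem_filter.1 hy').2)
    apply hx
    rw [e5, ← e4]
    exact inf_le_left
  have hsum : ∑ y ∈ B, (bl y).card ≤ Nat.card (Sylow p G) := by
    rw [← Finset.card_biUnion (fun y hy y' hy' h => hdisj y hy y' hy' h), Nat.card_eq_fintype_card]
    exact Finset.card_le_univ _
  have hsum2 : B.card * p ≤ ∑ y ∈ B, (bl y).card := by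
    rw [← smul_eq_mul, ← Finset.sum_const]
    exact Finset.sum_le_sum hbl
  have : (p + 1) * p ≤ B.card * p := Nat.mul_le_mul_right p hB
  nlinarith [hpp.pos]

end Cfsg.Agent.H25
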