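import Cfsg.Agent.H1.Chief
import Mathlib

set_option autoImplicit false
set_option linter.style.haveILetI false

namespace Cfsg.Agent.H25

open Subgroup
open scoped commutatorElement

variable {V : Type*} [AddCommGroup V] [Module (ZMod 2) V] [Finite V]

theorem card_units_end (U : Submodule (ZMod 2) V) :
    Nat.card (Module.End (ZMod 2) U)ˣ =
      ∏ i : Fin (Module.finrank (ZMod 2) U), (2 ^ (Module.finrank (ZMod 2) U) - 2 ^ (i : ℕ)) := by
  haveI : Module.Finite (ZMod 2) V := Module.Finite.of_finite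
  let b := Module.finBasis (ZMod 2) U
  let e := Units.mapEquiv (LinearMap.toMatrixAlgEquiv b).toRingEquiv.toMulEquiv
  rw [Nat.card_congr e.toEquiv]
  have := Matrix.card_GL_field (𝔽 := ZMod 2) (Module.finrank (ZMod 2) U)
  rw [ZMod.card] at this
  exact this

theorem card_dvd_of_unipotent (D : Subgroup (V ≃ₗ[ZMod 2] V)) (hodd : Odd (Nat.card D))
    (U : Submodule (ZMod 2) V) (h : ∀ g ∈ D, ∀ v : V, g v - v ∈ U) :
    Nat.card D ∣ Nat.card (Module.End (ZMod 2) U)ˣ := by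
  have hU : ∀ g ∈ D, ∀ u ∈ U, g u ∈ U := by
    intro g hg u hu
    have := U.add_mem (h g hg u) hu
    rwa [sub_add_cancel] at this
  let φ : D →* Module.End (ZMod 2) U :=
    { toFun := fun g => ((g : V ≃ₗ[ZMod 2] V) : V →ₗ[ZMod 2] V).restrict (hU g g.2)
      map_one' := by ext u; rfl
      map_mul' := fun a b => by ext u; rfl }
  let ψ : D →* (Module.End (ZMod 2) U)ˣ := φ.toHomUnits
  refine card_dvd_of_injective ψ ?_
  rw [injective_iff_map_eq_one]
  intro g hg
  have h1 : ∀ u ∈ U, (g : V ≃ₗ[ZMod 2] V) u = u := by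
    intro u hu
    have h2 := congrArg (fun f : (Module.End (ZMod 2) U)ˣ => (((f : Module.End (ZMod 2) U) ⟨u, hu⟩ : U) : V)) hg
    exact h2
  have h2 : g * g = 1 := by
    apply Subtype.ext
    apply LinearEquiv.ext
    intro v
    show (g : V ≃ₗ[ZMod 2] V) ((g : V ≃ₗ[ZMod 2] V) v) = v
    have h3 := h1 _ (h g g.2 v)
    rw [map_sub] at h3
    have h4 : ∀ x : V, x + x = 0 := fun x => by
      have : (2 : ZMod 2) • x = 0 := by
        have : (2 : ZMod 2) = 0 := by decide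
        rw [this, zero_smul]
      rwa [two_smul] at this
    have h5 : (g : V ≃ₗ[ZMod 2] V) ((g : V ≃ₗ[ZMod 2] V) v) = (g : V ≃ₗ[ZMod 2] V) v - v + (g : V ≃ₗ[ZMod 2] V) v := by
      rw [← h3]; abel
    rw [h5]
    have h6 := h4 ((g : V ≃ₗ[ZMod 2] V) v)
    have h7 := h4 v
    calc (g : V ≃ₗ[ZMod 2] V) v - v + (g : V ≃ₗ[ZMod 2] V) v = ((g : V ≃ₗ[ZMod 2] V) v + (g : V ≃ₗ[ZMod 2] V) v) - (v + v) + v := by abel
      _ = v := by rw [h6, h7]; simp
  have h3 : orderOf g ∣ 2 := orderOf_dvd_of_pow_eq_one (by rw [sq]; exact h2)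
  have h4 : orderOf g ∣ Nat.card D := orderOf_dvd_natCard _
  have h5 := Nat.dvd_gcd h3 h4
  rw [Nat.Coprime.gcd_eq_one (Nat.coprime_two_left.2 hodd)] at h5
  exact orderOf_eq_one_iff.1 (Nat.dvd_one.1 h5)

end Cfsg.Agent.H25
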